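import Mathlib
import Cfsg.Agent.H3.DegZass
import Cfsg.Agent.H4.Small

/-!
# `PSL₂(p²)` is determined by its character degrees
-/

set_option autoImplicit false

namespace Cfsg.Agent.H3

open MulAction

variable {G : Type*} [Group G] [Finite G]

/-- The Zassenhaus action on Sylow `p`-subgroups. -/
theorem exists_zs_of_sq {p a : ℕ} (h : Par p (p ^ 2) a (a + 1) 2) (ha : Even a)
    (hG : Nat.card G = p ^ 2 * (a * (a + 1) * 2))
    (hA : ∀ x y : G, x * y = y * x → x ^ p = 1 → (orderOf y).Coprime p → x = 1 ∨ y = 1) :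
    ∃ (Z : Zs G (Sylow p G)) (P Q : Sylow p G) (w : G), P ≠ Q ∧ Nat.card (Z.root P) = p ^ 2 ∧
      Nat.card (stabilizer G P ⊓ stabilizer G Q : Subgroup G) = a ∧
      (∀ x ∈ Z.root P, ∀ y ∈ Z.root P, x * y = y * x) ∧ w * w = 1 ∧ w • P = Q ∧ w • Q = P ∧
      ∀ h ∈ stabilizer G P ⊓ stabilizer G Q, w * h * w⁻¹ = h⁻¹ := by
  have : Fact p.Prime := ⟨h.prime⟩
  obtain ⟨h1, h2⟩ := count_p_elements h hG hA
  have hq := h.two_lt
  have hs0 : 0 < a * (a + 1) * 2 := Nat.pos_of_ne_zero (fun h0 => by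
    have := Nat.card_pos (α := G)
    rw [hG, h0] at this
    omega)
  have hcard : ∀ P : Sylow p G, Nat.card P = p ^ 2 := by
    intro P
    obtain ⟨n, hn⟩ := IsPGroup.iff_card.mp P.2
    refine Nat.dvd_antisymm (h.dvd_q_of_coprime (hG ▸ Subgroup.card_subgroup_dvd_card _) n hn) ?_
    refine Nat.Coprime.dvd_of_dvd_mul_right (h.coprime_q P.not_dvd_index) ?_
    rw [Subgroup.card_mul_index, hG]
    exact Dvd.intro _ rfl
  have hP : ∀ (P : Sylow p G), ∀ x ∈ (P : Subgroup G), x ≠ 1 → Subgroup.centralizer {x} = P := by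
    intro P x hx hx1
    have h3 := Subgroup.card_mul_index (Subgroup.centralizer {x})
    rw [h2 x hx1 (exists_pow_of_mem_pgroup P.2 hx), hG] at h3
    refine (Subgroup.eq_of_le_of_card_ge (fun y hy => ?_)
      (by rw [Nat.eq_of_mul_eq_mul_right hs0 h3, hcard P])).symm
    have := IsPGroup.isMulCommutative_of_card_eq_prime_sq (hcard P)
    exact Subgroup.mem_centralizer_singleton_iff.mpr
      (congrArg Subtype.val (this.is_comm.comm ⟨y, hy⟩ ⟨x, hx⟩))
  have hn : ∀ P : Sylow p G, Nat.card (Sylow p G) = Nat.card P + 1 := by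
    intro P
    have e1 := H2.card_conjSet_of_cent (hP P)
    have e2 : H2.conjSet (P : Subgroup G) = {x : G | x ≠ 1 ∧ ∃ k, x ^ p ^ k = 1} := by
      ext x
      refine and_congr_right (fun _ => ⟨fun ⟨g, hg⟩ => ?_, fun ⟨k, hk⟩ => ?_⟩)
      · obtain ⟨k, hk⟩ := exists_pow_of_mem_pgroup P.2 hg
        exact ⟨k, by simpa [conj_pow] using hk⟩
      · obtain ⟨Q, hQ⟩ := (show IsPGroup p (Subgroup.zpowers x) from IsPGroup.of_card_dvd_pow
          (n := k) (by rw [Nat.card_zpowers]; exact orderOf_dvd_of_pow_eq_one hk)).exists_le_sylow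
        obtain ⟨g, rfl⟩ := exists_smul_eq G Q P
        exact ⟨g, x, hQ (Subgroup.mem_zpowers x), rfl⟩
    rw [e2, h1, ← Subgroup.index_mul_card (Subgroup.normalizer (P : Set G)), hcard P,
      mul_right_comm (Subgroup.index _)] at e1
    have e3 := Nat.eq_of_mul_eq_mul_right Nat.card_pos e1
    rw [← P.card_eq_index_normalizer] at e3
    have e4 := h.s_mul
    rw [hcard P]
    apply Nat.eq_of_mul_eq_mul_right (show 0 < p ^ 2 - 1 by omega)
    rw [← e3]
    obtain ⟨r, hr⟩ : ∃ r, p ^ 2 = r + 1 := ⟨p ^ 2 - 1, by omega⟩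
    rw [hr] at e4 ⊢
    rw [Nat.add_sub_cancel]
    nlinarith
  obtain ⟨P⟩ : Nonempty (Sylow p G) := inferInstance
  have : Nontrivial (Sylow p G) := Finite.one_lt_card_iff_nontrivial.mp (by
    rw [hn P, hcard P]; omega)
  obtain ⟨Q, hQ⟩ := exists_ne P
  set Z := zs_sylow hP hn
  have hr : Z.root P = P := root_zs_sylow hP hn hQ
  have hK : Z.root P ≠ ⊥ := by
    rw [← Subgroup.one_lt_card_iff_ne_bot, hr, hcard P]; omega
  have hH : Nat.card (stabilizer G P ⊓ stabilizer G Q : Subgroup G) = a := by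
    have e := Z.card_eq hQ.symm
    rw [hr, hcard P, hG, ← h.hb] at e
    have hb0 : 0 < 2 * (a + 1) * p ^ 2 := by positivity
    apply Nat.eq_of_mul_eq_mul_left hb0
    rw [← e]; ring
  obtain ⟨w, hw, h3, h4⟩ := Z.exists_involution_swap hQ.symm hK
  obtain ⟨t, ht, ho⟩ := exists_orderOf_eq_mem Nat.prime_two (hH ▸ ha.two_dvd)
  refine ⟨Z, P, Q, w, hQ.symm, by rw [hr, hcard P], hH, fun x hx y hy => ?_, hw, h3, h4,
    Z.inverts_of_card hQ.symm ht.1 ht.2 (ne_one_of_orderOf_prime (ho ▸ Nat.prime_two))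
      (by rw [← sq, ← ho, pow_orderOf_eq_one]) hw h3 h4
      (by rw [hH, hr, hcard P, h.ha, Nat.add_sub_cancel])⟩
  rw [hr] at hx hy
  by_cases hy1 : y = 1
  · simp [hy1]
  · rw [← hP P y hy hy1] at hx
    exact Subgroup.mem_centralizer_singleton_iff.mp hx

theorem false_of_degrees {p s q u v : ℕ} (hp : p.Prime) (hs : s.Prime) (hG : Nat.card G = q * (u * v))
    (hpu : ¬ p ∣ u * v) (hsv : ¬ s ∣ q * v) (hv : 1 < v)
    (h : ∀ χ, IsIrrCharacter G χ → χ ≠ 1 → ∀ n : ℕ, χ 1 = n → n = q ∨ u ∣ n ∨ v ∣ n) {g : G}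
    (h1 : p ∣ orderOf g) (h2 : s ∣ orderOf g) : False := by
  classical
  have hg : g ≠ 1 := by
    rintro rfl
    exact hp.one_lt.ne' (by simpa using h1)
  have h0 := Nat.card_pos (α := G)
  have hv0 : (v : ℂ) ≠ 0 := Nat.cast_ne_zero.mpr (by omega)
  have h3 := sum_irr_one_mul g
  rw [if_neg hg, ← Finset.add_sum_erase _ _ (Finset.mem_univ ⟨1, isIrrCharacter_one'⟩)] at h3
  have h4 : IsIntegral ℤ (∑ χ ∈ Finset.univ.erase (⟨1, isIrrCharacter_one'⟩ : IrrCharacter G),
      (χ : G → ℂ) 1 * (χ : G → ℂ) g / v) := by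
    refine IsIntegral.sum _ (fun χ hχ => ?_)
    obtain ⟨n, hn0, hn⟩ := irr_one_pos χ.2
    rcases h χ χ.2 (fun e => Finset.ne_of_mem_erase hχ (Subtype.ext e)) n hn with
      rfl | ⟨c, rfl⟩ | ⟨c, rfl⟩
    · rw [irr_eq_zero_of_defect_zero hp χ.2 hn (fun k hk => by
        rwa [← Nat.eq_of_mul_eq_mul_left hn0 (hG.symm.trans hk)]) h1]
      simpa using isIntegral_zero
    · rw [irr_eq_zero_of_defect_zero hs χ.2 hn (fun k hk hd => hsv (hd.trans ⟨c, ?_⟩)) h2]
      · simpa using isIntegral_zero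
      · apply Nat.eq_of_mul_eq_mul_left (Nat.pos_of_mul_pos_right hn0)
        rw [hG] at hk
        linear_combination hk
    · have : (χ : G → ℂ) 1 * (χ : G → ℂ) g / v = c * (χ : G → ℂ) g := by
        rw [hn]
        push_cast
        field_simp
      rw [this]
      exact (isIntegral_natCast c).mul (char_isIntegral (irr_isCharacter χ.2) g)
  rw [← Finset.sum_div, eq_neg_of_add_eq_zero_right h3] at h4
  have h5 := int_dvd_of_isIntegral_div (a := -1) (b := v) (by omega) (by simpa using h4)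
  have := Int.le_of_dvd one_pos (dvd_neg.mp h5)
  omega

theorem irr_eq_one_of_perfect (hG : commutator G = ⊤) {χ : G → ℂ} (hχ : IsIrrCharacter G χ)
    (h : χ 1 = 1) : χ = 1 := by
  have hc := irr_isCharacter hχ
  have h1 : commutator G ≤ charKer hc := by
    rw [commutator_def, Subgroup.commutator_le]
    intro x _ y _
    rw [mem_charKer, commutatorElement_def, mul_assoc, ← mul_inv_rev, char_mul_of_one hc h,
      char_mul_comm hc x y, ← char_mul_of_one hc h, mul_inv_cancel]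
  exact irr_eq_one_of_ker_top hχ (fun g => (mem_charKer hc).mp (h1 (hG ▸ Subgroup.mem_top g)))

theorem perfect_of_irr (h : ∀ χ, IsIrrCharacter G χ → χ 1 = 1 → χ = 1) : commutator G = ⊤ := by
  rw [eq_top_iff]
  intro g _
  rw [← QuotientGroup.eq_one_iff]
  have : IsMulCommutative (G ⧸ commutator G) := ⟨⟨fun x y => mul_comm (G := Abelianization G) x y⟩⟩
  refine eq_one_of_irr_eq (fun ψ hψ => ?_)
  have := h _ (isIrrCharacter_comp (QuotientGroup.mk' _) (QuotientGroup.mk'_surjective _) hψ)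
    (irr_one_eq_one_of_comm hψ)
  exact (congrFun this g).trans (congrFun this 1).symm

theorem exists_equiv_irr {L : Type*} [Group L] [Finite L]
    (h : ∀ d : ℕ, Nat.card {χ : IrrCharacter G // (χ : G → ℂ) 1 = (d : ℂ)} =
      Nat.card {χ : IrrCharacter L // (χ : L → ℂ) 1 = (d : ℂ)}) :
    ∃ e : IrrCharacter G ≃ IrrCharacter L, ∀ χ, (e χ : L → ℂ) 1 = (χ : G → ℂ) 1 := by
  have h1 : ∀ c : ℂ, Nonempty ({χ : IrrCharacter G // (χ : G → ℂ) 1 = c} ≃
      {χ : IrrCharacter L // (χ : L → ℂ) 1 = c}) := by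
    intro c
    by_cases hc : ∃ d : ℕ, c = d
    · obtain ⟨d, rfl⟩ := hc
      exact Finite.card_eq.mp (h d)
    · have : IsEmpty {χ : IrrCharacter G // (χ : G → ℂ) 1 = c} := ⟨fun ⟨χ, e⟩ => by
        obtain ⟨n, -, hn⟩ := irr_one_pos χ.2
        exact hc ⟨n, e.symm.trans hn⟩⟩
      have : IsEmpty {χ : IrrCharacter L // (χ : L → ℂ) 1 = c} := ⟨fun ⟨χ, e⟩ => by
        obtain ⟨n, -, hn⟩ := irr_one_pos χ.2
        exact hc ⟨n, e.symm.trans hn⟩⟩
      exact ⟨Equiv.equivOfIsEmpty _ _⟩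
  exact ⟨Equiv.ofFiberEquiv (fun c => (h1 c).some), fun χ => Equiv.ofFiberEquiv_map
    (f := fun χ : IrrCharacter G => (χ : G → ℂ) 1) (g := fun χ : IrrCharacter L => (χ : L → ℂ) 1)
    (fun c => (h1 c).some) χ⟩

theorem psl2_of_degrees {F : Type*} [Field F] [Fintype F] {p : ℕ} (hp : p.Prime)
    (hF : Fintype.card F = p ^ 2) (e : IrrCharacter G ≃
      IrrCharacter (Matrix.ProjectiveSpecialLinearGroup (Fin 2) F))
    (he : ∀ χ, (e χ : Matrix.ProjectiveSpecialLinearGroup (Fin 2) F → ℂ) 1 = (χ : G → ℂ) 1) :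
    Nonempty (G ≃* Matrix.ProjectiveSpecialLinearGroup (Fin 2) F) := by
  classical
  set L := Matrix.ProjectiveSpecialLinearGroup (Fin 2) F
  have h4 : 4 ≤ p ^ 2 := by have := hp.two_le; nlinarith
  have hL : IsSimpleGroup L := Matrix.ProjectiveSpecialLinearGroup.rank_two_simple
    (by rw [Nat.card_eq_fintype_card]; omega)
  have hcard : Nat.card G = Nat.card L := by
    have h1 := sum_irr_one_sq (G := G)
    have h2 := sum_irr_one_sq (G := L)
    rw [← Equiv.sum_comp e] at h2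
    simp only [he] at h2
    exact_mod_cast h1.symm.trans h2
  have hc := card_psl2_mul F
  have hpar := par_field F (by omega)
  have hspec := spec_of_range_eq (G := L) F (by omega) rfl rfl
  have hr : ringChar F = p := by
    have := hpar.dvd_q
    rw [hF] at this
    exact (Nat.prime_dvd_prime_iff_eq hpar.prime hp).mp (hpar.prime.dvd_of_dvd_pow this)
  have hLp : commutator L = ⊤ := by
    rcases hL.eq_bot_or_eq_top_of_normal (commutator L) inferInstance with h | h
    · exfalso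
      have h1 : IsMulCommutative L := (commutator_eq_bot_iff L).mp h
      have h2 := (Group.is_simple_iff_prime_card (α := L)).mp hL
      have h3 := hspec.card
      rw [hF] at h3
      rw [h3, sq, mul_assoc] at h2
      exact Nat.not_prime_mul hp.one_lt.ne' (fun h => hp.one_lt.ne' (Nat.eq_one_of_mul_eq_one_right h)) h2
    · exact h
  have hlin : ∀ χ, IsIrrCharacter G χ → χ 1 = 1 → χ = 1 := by
    have h1 : ∀ χ : IrrCharacter G, (χ : G → ℂ) 1 = 1 → e χ = ⟨1, isIrrCharacter_one'⟩ :=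
      fun χ h => Subtype.ext (irr_eq_one_of_perfect hLp (e χ).2 ((he χ).trans h))
    intro χ hχ h
    exact congrArg Subtype.val (e.injective ((h1 ⟨χ, hχ⟩ h).trans
      (h1 ⟨1, isIrrCharacter_one'⟩ rfl).symm))
  rcases hp.eq_two_or_odd' with rfl | hodd
  · have h60 : Nat.card L = 60 := by
      rw [hF] at hc
      rw [show Nat.gcd (2 ^ 2 - 1) 2 = 1 by norm_num, mul_one] at hc
      exact hc
    have : Nontrivial G := Finite.one_lt_card_iff_nontrivial.mp (by omega)
    obtain ⟨f₁⟩ := H4.Small.alt5_of_not_isSolvable (hcard.trans h60) (fun _ =>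
      (Group.IsSolvable.commutator_lt_top_of_nontrivial G).ne (perfect_of_irr hlin))
    obtain ⟨f₂⟩ := H4.Small.alt5_of_not_isSolvable h60 (fun _ =>
      (Group.IsSolvable.commutator_lt_top_of_nontrivial L).ne hLp)
    exact ⟨f₁.trans f₂.symm⟩
  · obtain ⟨k, hk⟩ := hodd
    have hq : p ^ 2 = 2 * (2 * (k * k + k)) + 1 := by rw [hk]; ring
    have hk0 : 0 < k := by have := hp.two_le; omega
    generalize hm : 2 * (k * k + k) = m at hq
    have hm1 : Even m := hm ▸ even_two_mul _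
    have hm0 : 0 < m := by rw [← hm]; positivity
    have hg : Nat.gcd (p ^ 2 - 1) 2 = 2 := by
      rw [hq, Nat.add_sub_cancel]; simp
    have e1 : (p ^ 2 - 1) / 2 = m := by omega
    have e2 : (p ^ 2 + 1) / 2 = m + 1 := by omega
    rw [hF, hr, hg, e1, e2] at hpar hspec
    obtain ⟨Z, P, Q, w, h1, h2, h3, -, h5, h6, h7, h8⟩ :=
      exists_zs_of_sq hpar hm1 hspec.card hspec.isolated
    have hdeg : ∀ χ, IsIrrCharacter G χ → χ ≠ 1 → ∀ n : ℕ, χ 1 = n →
        n = p ^ 2 ∨ m + 1 ∣ n ∨ 2 * m ∣ n := by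
      intro χ hχ h n hn
      rw [hq]
      refine (Z.degree_cases h1 hm1 hm0 (h2.trans hq) h3 h5 h6 h7 h8 (e ⟨χ, hχ⟩).2
        ((he _).trans hn)).resolve_left ?_
      rintro rfl
      exact h (hlin χ hχ (by simpa using hn))
    have hG : Nat.card G = p ^ 2 * (m * (m + 1) * 2) := hcard.trans hspec.card
    have hcop : Nat.Coprime (2 * m) (m + 1) := by
      refine Nat.Coprime.mul_left ?_ (by simp)
      exact Nat.coprime_two_left.mpr hm1.add_one
    have hpu : ¬ p ∣ m * (m + 1) * 2 := fun hd =>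
      hp.one_lt.ne' (Nat.eq_one_of_dvd_coprimes hpar.coprime_s hpar.dvd_q hd)
    have hA : ∀ x y : G, x * y = y * x → x ^ p = 1 → (orderOf y).Coprime p → x = 1 ∨ y = 1 := by
      intro x y hc hx hy
      by_contra hn
      rw [not_or] at hn
      have : Fact p.Prime := ⟨hp⟩
      have hox : orderOf x = p := orderOf_eq_prime hx hn.1
      have ho : orderOf (x * y) = p * orderOf y := by
        rw [Commute.orderOf_mul_eq_mul_orderOf_of_coprime hc (hox ▸ hy.symm), hox]
      obtain ⟨s, hs, hsy⟩ := Nat.exists_prime_and_dvd (mt orderOf_eq_one_iff.mp hn.2)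
      have hsp : ¬ s ∣ p ^ 2 := fun h => hs.one_lt.ne' (Nat.eq_one_of_dvd_coprimes hy hsy
        (hs.dvd_of_dvd_pow h))
      have hd1 : p ∣ orderOf (x * y) := ho ▸ Dvd.intro _ rfl
      have hd2 : s ∣ orderOf (x * y) := ho ▸ hsy.mul_left p
      by_cases hsm : s ∣ m + 1
      · exact false_of_degrees (u := m + 1) (v := 2 * m) hp hs (by rw [hG]; ring)
          (by rwa [show (m + 1) * (2 * m) = m * (m + 1) * 2 by ring])
          (fun h => (hs.dvd_mul.mp h).elim hsp (fun h =>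
            hs.one_lt.ne' (Nat.eq_one_of_dvd_coprimes hcop h hsm))) (by omega) hdeg hd1 hd2
      · exact false_of_degrees (u := 2 * m) (v := m + 1) hp hs (by rw [hG]; ring)
          (by rwa [show (2 * m) * (m + 1) = m * (m + 1) * 2 by ring])
          (fun h => (hs.dvd_mul.mp h).elim hsp hsm) (by omega)
          (fun χ h1 h2 n hn => (hdeg χ h1 h2 n hn).imp_right Or.symm) hd1 hd2
    obtain ⟨Z, P, Q, w, h1, h2, h3, h4, h5, h6, h7, h8⟩ := exists_zs_of_sq hpar hm1 hG hA
    have hF' : Nat.card F = p ^ 2 := Nat.card_eq_fintype_card.trans hF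
    exact ((Z.identify h1 (by rw [← Subgroup.one_lt_card_iff_ne_bot]; omega) h4 h6 h7 h8
      (by omega)).2 F (by omega)).1 (by omega)

end Cfsg.Agent.H3
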