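import Cfsg.Agent.H3.L43LocS

/-!
# The local structure at a central element of order three
-/

set_option autoImplicit false

namespace Cfsg.Agent.H3.L43

open Subgroup

variable {G : Type*} [Group G]

/-- Conjugation. -/
def cj (g x : G) : G := g * x * g⁻¹

theorem cj_mul (g x y : G) : cj g (x * y) = cj g x * cj g y := by simp only [cj]; group
theorem cj_inv (g x : G) : cj g x⁻¹ = (cj g x)⁻¹ := by simp only [cj]; group
theorem cj_one (g : G) : cj g 1 = 1 := by simp only [cj]; group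
theorem cj_pow (g x : G) (n : ℕ) : cj g (x ^ n) = cj g x ^ n := by simp only [cj, conj_pow]
theorem mul_cj (g h x : G) : cj (g * h) x = cj g (cj h x) := by simp only [cj]; group
theorem one_cj (x : G) : cj 1 x = x := by simp only [cj]; group
theorem inv_cj_cj (g x : G) : cj g⁻¹ (cj g x) = x := by simp only [cj]; group
theorem cj_inv_cj (g x : G) : cj g (cj g⁻¹ x) = x := by simp only [cj]; group
theorem cj_eq {g x y : G} : cj g x = y ↔ g * x = y * g := mul_inv_eq_iff_eq_mul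
theorem cj_fix {g x : G} : cj g x = x ↔ Commute g x := cj_eq
theorem inv_cj {g x y : G} (h : cj g x = y) : cj g⁻¹ y = x := by rw [← h, inv_cj_cj]
theorem cj_inj {g x y : G} (h : cj g x = cj g y) : x = y := by
  rw [← inv_cj_cj g x, h, inv_cj_cj]
theorem cj_comm {g x y : G} (h : Commute x y) : Commute (cj g x) (cj g y) := by
  rw [Commute, SemiconjBy, ← cj_mul, ← cj_mul, h.eq]
theorem pow_cj {g x : G} (h : cj g x = x) (n : ℕ) : cj (g ^ n) x = x :=
  cj_fix.mpr ((cj_fix.mp h).pow_left n)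
theorem inv_cj_fix {g x : G} (h : cj g x = x) : cj g⁻¹ x = x := inv_cj h
theorem inv_cj_neg {g x : G} (h : cj g x = x⁻¹) : cj g⁻¹ x = x⁻¹ := by
  have := inv_cj h
  rw [cj_inv] at this
  rw [← inv_inv (cj g⁻¹ x), this]
theorem cj_cj_comm {g h : G} (e : Commute g h) (x : G) : cj g (cj h x) = cj h (cj g x) := by
  rw [← mul_cj, e.eq, mul_cj]
theorem cj_cj (g h x : G) : cj g (cj h x) = cj (cj g h) (cj g x) := by simp only [cj]; group

theorem cube_inv {x : G} (h : x ^ 3 = 1) : x⁻¹ = x * x :=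
  inv_eq_of_mul_eq_one_right (by rw [← h, pow_three])

theorem eq_one_of_inv {x : G} (h : x ^ 3 = 1) (h' : x = x⁻¹) : x = 1 := by
  have := cube_inv h
  rw [← h'] at this
  exact left_eq_mul.mp this

/-- A fixed element in a fixed coset. -/
theorem fix_coset {s x : G} (hs : s * s = 1) (h : (x⁻¹ * cj s x) ^ 3 = 1) :
    cj s (x * (cj s x)⁻¹ * x) = x * (cj s x)⁻¹ * x := by
  rw [cj_mul, cj_mul, cj_inv, ← mul_cj, hs, one_cj]
  generalize cj s x = X at h ⊢
  calc X * x⁻¹ * X = x * (x⁻¹ * X) ^ 3 * (X⁻¹ * x) := by simp only [pow_succ]; group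
    _ = _ := by rw [h]; group

theorem braid_cube {x y : G} (hx : x ^ 3 = 1) (h : x * y * x = y * x * y) : y ^ 3 = 1 := by
  have : y = cj (x * y) x := by rw [eq_comm, cj_eq, h, mul_assoc]
  rw [this, ← cj_pow, hx, cj_one]

theorem braid_four {x y : G} (hx : x ^ 3 = 1) (h : x * y * x = y * x * y) :
    (x * y * x) ^ 2 * (x * y * x) ^ 2 = 1 := by
  have hy := braid_cube hx h
  have e1 : (x * y * x) ^ 2 = (x * y⁻¹) ^ 2 := by
    calc _ = x * y * x * (y * x * y) := by rw [pow_two, ← h]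
      _ = x * y * (x * y * x) * y := by simp only [mul_assoc]
      _ = _ := by rw [h, cube_inv hy, pow_two]; simp only [mul_assoc]
  have e2 : (x * y * x) ^ 2 = (y * x⁻¹) ^ 2 := by
    calc _ = y * x * y * (x * y * x) := by rw [pow_two, ← h]
      _ = y * x * (y * x * y) * x := by simp only [mul_assoc]
      _ = _ := by rw [← h, cube_inv hx, pow_two]; simp only [mul_assoc]
  nth_rewrite 1 [e1]
  rw [e2]
  simp only [pow_two]
  group

theorem zp {z x : G} (h : z ^ 3 = 1) : x ∈ zpowers z ↔ ∃ k : ZMod 3, x = z ^ k.val := by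
  refine ⟨?_, fun ⟨k, e⟩ => e ▸ pow_mem (mem_zpowers z) _⟩
  rintro ⟨n, rfl⟩
  refine ⟨n, ?_⟩
  rw [← zpow_natCast, ZMod.val_intCast]
  exact (zpow_eq_zpow_emod' n h).trans rfl

theorem ez_add {z : G} (h : z ^ 3 = 1) (k l : ZMod 3) : z ^ (k + l).val = z ^ k.val * z ^ l.val := by
  rw [ZMod.val_add, ← pow_add]
  exact (pow_eq_pow_mod _ h).symm

theorem ez_inj {z : G} (h : z ^ 3 = 1) (h1 : z ≠ 1) {k l : ZMod 3} (e : z ^ k.val = z ^ l.val) :
    k = l := by
  have : Fact (Nat.Prime 3) := ⟨by norm_num⟩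
  have := pow_eq_pow_iff_modEq.mp e
  rw [orderOf_eq_prime h h1] at this
  exact ZMod.val_injective 3 (this.eq_of_lt_of_lt k.val_lt l.val_lt)

theorem card_zp {z : G} (h : z ^ 3 = 1) (h1 : z ≠ 1) : Nat.card (zpowers z) = 3 := by
  have : Fact (Nat.Prime 3) := ⟨by norm_num⟩
  rw [Nat.card_zpowers, orderOf_eq_prime h h1]

theorem zp_comm {z x w : G} (h : Commute z x) (hw : w ∈ zpowers z) : Commute w x := by
  obtain ⟨n, rfl⟩ := hw
  exact h.zpow_left n

theorem cj_zp {g z w : G} (h : cj g z ∈ zpowers z) (hw : w ∈ zpowers z) : cj g w ∈ zpowers z := by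
  obtain ⟨n, rfl⟩ := hw
  rw [show cj g (z ^ n) = cj g z ^ n by simp only [cj, conj_zpow]]
  exact zpow_mem h n

theorem zp_triv {g z w : G} (h3 : z ^ 3 = 1) (h : cj g z = z⁻¹) (hw : w ∈ zpowers z)
    (e : cj g w = w) : w = 1 := by
  obtain ⟨k, rfl⟩ := (zp h3).mp hw
  rw [cj_pow, h, inv_pow] at e
  exact eq_one_of_inv (by rw [← pow_mul, mul_comm, pow_mul, h3, one_pow]) e.symm

open Classical in
/-- The commutator form. -/
noncomputable def bt (z x y : G) : ZMod 3 :=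
  if x * y = y * x then 0 else if x * y = z * (y * x) then 1 else 2

theorem bt_cj (g z x y : G) : bt (cj g z) (cj g x) (cj g y) = bt z x y := by
  have : ∀ u v : G, cj g u = cj g v ↔ u = v := fun u v => ⟨cj_inj, fun h => h ▸ rfl⟩
  classical
  unfold bt
  exact if_congr (by rw [← cj_mul, ← cj_mul, this]) rfl
    (if_congr (by rw [← cj_mul, ← cj_mul, ← cj_mul, this]) rfl rfl)

theorem bt_zero {z x y : G} : bt z x y = 0 ↔ Commute x y := by
  refine ⟨fun h => ?_, fun h => if_pos h.eq⟩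
  unfold bt at h
  split_ifs at h with h1 h2
  · exact h1
  · exact absurd h (by decide)
  · exact absurd h (by decide)

theorem bt_self (z x : G) : bt z x x = 0 := bt_zero.mpr (Commute.refl x)

theorem bt_eq {z x y : G} (h : z ^ 3 = 1) (h1 : z ≠ 1) {k : ZMod 3}
    (e : x * y = z ^ k.val * (y * x)) : bt z x y = k := by
  unfold bt
  split_ifs with a b
  · rw [a] at e
    exact ez_inj h h1 (by rw [ZMod.val_zero, pow_zero]; exact right_eq_mul.mp e |>.symm)
  · rw [b] at e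
    exact ez_inj h h1 (by rw [ZMod.val_one, pow_one]; exact mul_right_cancel e)
  · have : ∀ k : ZMod 3, k.val = 0 ∨ k.val = 1 ∨ 2 = k := by decide
    rcases this k with c | c | c
    · rw [c, pow_zero, one_mul] at e; exact absurd e a
    · rw [c, pow_one] at e; exact absurd e b
    · exact c

/-- The centralizer of `z` has shape `3¹⁺⁴.SL₂(3)`. -/
structure Loc0 (z : G) (Q : Subgroup G) (π : G → S) : Prop where
  z1 : z ≠ 1
  zQ : z ∈ Q
  QC : ∀ x ∈ Q, Commute z x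
  exp : ∀ x ∈ Q, x ^ 3 = 1
  comm : ∀ x ∈ Q, ∀ y ∈ Q, x * y * x⁻¹ * y⁻¹ ∈ zpowers z
  nondeg : ∀ x ∈ Q, (∀ y ∈ Q, Commute x y) → x ∈ zpowers z
  card : Nat.card Q = 243
  mul : ∀ x y, Commute z x → Commute z y → π (x * y) = π x * π y
  ker : ∀ x, Commute z x → (π x = 1 ↔ x ∈ Q)
  surj : ∀ X, ∃ x, Commute z x ∧ π x = X

/-- Moreover the central involution inverts the Frattini quotient. -/
structure Loc (z : G) (Q : Subgroup G) (π : G → S) : Prop extends Loc0 z Q π where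
  inv : ∀ x, Commute z x → π x = n1 → ∀ v ∈ Q, cj x v * v ∈ zpowers z

namespace Loc0

variable {z : G} {Q : Subgroup G} {π : G → S} (L : Loc0 z Q π)
include L

theorem z3 : z ^ 3 = 1 := L.exp z L.zQ

theorem ZQ {w : G} (h : w ∈ zpowers z) : w ∈ Q := (zpowers_le.mpr L.zQ) h

theorem pQ {x : G} (h : x ∈ Q) : π x = 1 := (L.ker x (L.QC x h)).mpr h

theorem p1 : π 1 = 1 := L.pQ Q.one_mem

theorem pinv {x : G} (h : Commute z x) : π x⁻¹ = (π x)⁻¹ :=
  eq_inv_of_mul_eq_one_left (by rw [← L.mul _ _ h.inv_right h, inv_mul_cancel, L.p1])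

theorem ppow {x : G} (h : Commute z x) (n : ℕ) : π (x ^ n) = π x ^ n := by
  induction n with
  | zero => rw [pow_zero, pow_zero, L.p1]
  | succ n ih => rw [pow_succ, L.mul _ _ (h.pow_right n) h, ih, pow_succ]

theorem pcj {g x : G} (hg : Commute z g) (h : Commute z x) : π (cj g x) = π g * π x * (π g)⁻¹ := by
  rw [cj, L.mul _ _ (hg.mul_right h) hg.inv_right, L.mul _ _ hg h, L.pinv hg]

omit L in
theorem Ccj {g x : G} (hg : Commute z g) (h : Commute z x) : Commute z (cj g x) :=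
  (hg.mul_right h).mul_right hg.inv_right

theorem norm {g v : G} (hg : Commute z g) (h : v ∈ Q) : cj g v ∈ Q :=
  (L.ker _ (Ccj hg (L.QC v h))).mp (by rw [L.pcj hg (L.QC v h), L.pQ h, mul_one, mul_inv_cancel])

theorem spec {x y : G} (hx : x ∈ Q) (hy : y ∈ Q) : x * y = z ^ (bt z x y).val * (y * x) := by
  obtain ⟨k, e⟩ := (zp L.z3).mp (L.comm x hx y hy)
  have : x * y = z ^ k.val * (y * x) := by rw [← e]; group
  rwa [bt_eq L.z3 L.z1 this]

theorem bt_one {x y : G} (e : x * y = z * (y * x)) : bt z x y = 1 :=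
  bt_eq L.z3 L.z1 (by rwa [ZMod.val_one, pow_one])

theorem of_one {x y : G} (hx : x ∈ Q) (hy : y ∈ Q) (e : bt z x y = 1) : x * y = z * (y * x) := by
  have := L.spec hx hy
  rwa [e, ZMod.val_one, pow_one] at this

theorem mull {x x' y : G} (hx : x ∈ Q) (hx' : x' ∈ Q) (hy : y ∈ Q) :
    bt z (x * x') y = bt z x y + bt z x' y := by
  refine bt_eq L.z3 L.z1 ?_
  rw [mul_assoc, L.spec hx' hy, ← mul_assoc, ← ((L.QC x hx).pow_left _).eq, mul_assoc,
    ← mul_assoc x, L.spec hx hy, add_comm, ez_add L.z3]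
  simp only [mul_assoc]

theorem swap {x y : G} (hx : x ∈ Q) (hy : y ∈ Q) : bt z y x = -bt z x y := by
  refine bt_eq L.z3 L.z1 ?_
  rw [L.spec hx hy, ← mul_assoc, ← ez_add L.z3, neg_add_cancel, ZMod.val_zero, pow_zero, one_mul]

theorem mulr {x y y' : G} (hx : x ∈ Q) (hy : y ∈ Q) (hy' : y' ∈ Q) :
    bt z x (y * y') = bt z x y + bt z x y' := by
  rw [L.swap (mul_mem hy hy') hx, L.mull hy hy' hx, L.swap hy hx, L.swap hy' hx]; ring

theorem invl {x y : G} (hx : x ∈ Q) (hy : y ∈ Q) : bt z x⁻¹ y = -bt z x y := by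
  rw [eq_neg_iff_add_eq_zero, ← L.mull (inv_mem hx) hx hy, inv_mul_cancel]
  exact bt_zero.mpr (Commute.one_left y)

theorem invr {x y : G} (hx : x ∈ Q) (hy : y ∈ Q) : bt z x y⁻¹ = -bt z x y := by
  rw [L.swap (inv_mem hy) hx, L.invl hy hx, L.swap hy hx]

theorem powl {x y : G} (hx : x ∈ Q) (hy : y ∈ Q) (n : ℕ) : bt z (x ^ n) y = n * bt z x y := by
  induction n with
  | zero => rw [pow_zero, bt_zero.mpr (Commute.one_left y)]; simp
  | succ n ih => rw [pow_succ, L.mull (pow_mem hx n) hx hy, ih]; push_cast; ring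

theorem powr {x y : G} (hx : x ∈ Q) (hy : y ∈ Q) (n : ℕ) : bt z x (y ^ n) = n * bt z x y := by
  rw [L.swap (pow_mem hy n) hx, L.powl hy hx, L.swap hy hx]; ring

theorem bt_inv {x y : G} (hx : x ∈ Q) (hy : y ∈ Q) : bt z⁻¹ x y = -bt z x y := by
  refine bt_eq (by rw [inv_pow, L.z3, inv_one]) (inv_ne_one.mpr L.z1) ?_
  rw [L.spec hx hy, inv_pow]
  congr 1
  rw [eq_inv_iff_mul_eq_one, ← ez_add L.z3, add_neg_cancel, ZMod.val_zero, pow_zero]

omit L in
theorem move {g x y : G} (hg : Commute z g) : bt z (cj g x) y = bt z x (cj g⁻¹ y) := by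
  rw [← bt_cj g z x, cj_inv_cj, cj_fix.mpr hg.symm]

theorem move' {g x y : G} (hg : cj g z = z⁻¹) (hx : cj g x ∈ Q) (hy : cj g y ∈ Q) :
    bt z (cj g x) (cj g y) = -bt z x y := by
  rw [← bt_cj g z x, hg, L.bt_inv hx hy, neg_neg]

theorem fix_comm {g x y : G} (hg : cj g z = z⁻¹) (hx : x ∈ Q) (hy : y ∈ Q) (ex : cj g x = x)
    (ey : cj g y = y) : Commute x y := by
  have := L.move' hg (ex.symm ▸ hx) (ey.symm ▸ hy)
  rw [ex, ey] at this
  have k : ∀ k : ZMod 3, k = -k → k = 0 := by decide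
  exact bt_zero.mp (k _ this)

theorem neg_comm {g x y : G} (hg : cj g z = z⁻¹) (hx : x ∈ Q) (hy : y ∈ Q) (ex : cj g x = x⁻¹)
    (ey : cj g y = y⁻¹) : Commute x y := by
  have := L.move' hg (ex.symm ▸ inv_mem hx) (ey.symm ▸ inv_mem hy)
  rw [ex, ey, L.invl hx (inv_mem hy), L.invr hx hy, neg_neg] at this
  have k : ∀ k : ZMod 3, k = -k → k = 0 := by decide
  exact bt_zero.mp (k _ this)

theorem exists_one {x : G} (hx : x ∈ Q) (h : x ∉ zpowers z) : ∃ y ∈ Q, bt z x y = 1 := by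
  have : ¬ ∀ y ∈ Q, Commute x y := fun h' => h (L.nondeg x hx h')
  push Not at this
  obtain ⟨y, hy, e⟩ := this
  have k : ∀ k : ZMod 3, k ≠ 0 → k = 1 ∨ -k = 1 := by decide
  rcases k _ (mt bt_zero.mp e) with c | c
  · exact ⟨y, hy, c⟩
  · exact ⟨y⁻¹, inv_mem hy, by rw [L.invr hx hy, c]⟩

/-- The form as a homomorphism. -/
noncomputable def fm {a : G} (ha : a ∈ Q) : Q →* Multiplicative (ZMod 3) :=
  MonoidHom.mk' (fun x => Multiplicative.ofAdd (bt z x.1 a)) fun x y => by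
    rw [Subgroup.coe_mul, L.mull x.2 y.2 ha, ofAdd_add]

theorem card_Z : Nat.card ((zpowers z).subgroupOf Q) = 3 := by
  rw [Nat.card_congr (subgroupOfEquivOfLe (zpowers_le.mpr L.zQ)).toEquiv, card_zp L.z3 L.z1]

theorem exists_perp {a d : G} (ha : a ∈ Q) (hd : d ∈ Q) :
    ∃ x ∈ Q, x ∉ zpowers z ∧ bt z x a = 0 ∧ bt z x d = 0 := by
  by_contra hn
  push Not at hn
  have : Finite Q := Nat.finite_of_card_ne_zero (by rw [L.card]; omega)
  let f := (L.fm ha).prod (L.fm hd)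
  have h1 : f.ker ≤ (zpowers z).subgroupOf Q := fun x hx => by
    by_contra h
    exact hn x x.2 h (congrArg (fun p => p.1.toAdd) hx) (congrArg (fun p => p.2.toAdd) hx)
  have h2 := card_le_of_le h1
  have h3 := f.ker.card_mul_index
  have h4 : Nat.card f.range ≤ 9 := (f.range.card_le_card_group).trans (by simp)
  rw [index_ker, L.card] at h3
  rw [L.card_Z] at h2
  nlinarith

theorem pair {a : G} (ha : a ∈ Q) (h : a ∉ zpowers z) :
    ∃ x ∈ Q, ∃ x' ∈ Q, Commute a x ∧ Commute a x' ∧ bt z x x' = 1 := by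
  obtain ⟨d, hd, e⟩ := L.exists_one ha h
  obtain ⟨x, hx, h1, h2, h3⟩ := L.exists_perp ha hd
  obtain ⟨y, hy, e'⟩ := L.exists_one hx h1
  refine ⟨x, hx, y * d ^ (-bt z a y).val, mul_mem hy (pow_mem hd _), (bt_zero.mp h2).symm,
    (bt_zero (z := z)).mp ?_, ?_⟩
  · rw [L.mulr ha hy (pow_mem hd _), L.powr ha hd, e]; simp
  · rw [L.mulr hx hy (pow_mem hd _), L.powr hx hd, e', h3]; simp

theorem coords {a b c d : G} (ha : a ∈ Q) (hb : b ∈ Q) (hc : c ∈ Q) (hd : d ∈ Q)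
    (ab : bt z a b = 0) (ac : bt z a c = 0) (bd : bt z b d = 0) (cd : bt z c d = 0)
    (bc : bt z b c = 1) (ad : bt z a d = 1) (i j k l : ZMod 3) :
    let x := a ^ l.val * b ^ k.val * c ^ (-j).val * d ^ (-i).val
    bt z x a = i ∧ bt z x b = j ∧ bt z x c = k ∧ bt z x d = l := by
  intro x
  have k : ∀ v ∈ Q, bt z x v = l * bt z a v + k * bt z b v - j * bt z c v - i * bt z d v :=
    fun v hv => by
      rw [L.mull (mul_mem (mul_mem (pow_mem ha _) (pow_mem hb _)) (pow_mem hc _)) (pow_mem hd _) hv,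
        L.mull (mul_mem (pow_mem ha _) (pow_mem hb _)) (pow_mem hc _) hv,
        L.mull (pow_mem ha _) (pow_mem hb _) hv, L.powl ha hv, L.powl hb hv, L.powl hc hv,
        L.powl hd hv]
      simp only [ZMod.natCast_val, ZMod.cast_id', id_eq]
      ring
  rw [k a ha, k b hb, k c hc, k d hd, L.swap ha hb, L.swap ha hc, L.swap ha hd, L.swap hb hc,
    L.swap hb hd, L.swap hc hd]
  simp [bt_self, ab, ac, bd, cd, bc, ad]

theorem span {a b c d : G} (ha : a ∈ Q) (hb : b ∈ Q) (hc : c ∈ Q) (hd : d ∈ Q)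
    (ab : bt z a b = 0) (ac : bt z a c = 0) (bd : bt z b d = 0) (cd : bt z c d = 0)
    (bc : bt z b c = 1) (ad : bt z a d = 1) {x : G} (hx : x ∈ Q) (xa : bt z x a = 0)
    (xb : bt z x b = 0) (xc : bt z x c = 0) (xd : bt z x d = 0) : x ∈ zpowers z := by
  have : Finite Q := Nat.finite_of_card_ne_zero (by rw [L.card]; omega)
  let f := (L.fm ha).prod ((L.fm hb).prod ((L.fm hc).prod (L.fm hd)))
  have h1 : (zpowers z).subgroupOf Q ≤ f.ker := fun w hw => by
    have k : ∀ v ∈ Q, bt z w.1 v = 0 := fun v hv => bt_zero.mpr (zp_comm (L.QC v hv) hw)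
    exact Prod.ext (congrArg Multiplicative.ofAdd (k a ha)) (Prod.ext
      (congrArg Multiplicative.ofAdd (k b hb)) (Prod.ext (congrArg Multiplicative.ofAdd (k c hc))
      (congrArg Multiplicative.ofAdd (k d hd))))
  have h2 : f.range = ⊤ := eq_top_iff.mpr fun p _ => by
    obtain ⟨e1, e2, e3, e4⟩ := L.coords ha hb hc hd ab ac bd cd bc ad p.1.toAdd p.2.1.toAdd
      p.2.2.1.toAdd p.2.2.2.toAdd
    exact ⟨⟨_, mul_mem (mul_mem (mul_mem (pow_mem ha _) (pow_mem hb _)) (pow_mem hc _))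
      (pow_mem hd _)⟩, Prod.ext (congrArg Multiplicative.ofAdd e1) (Prod.ext
      (congrArg Multiplicative.ofAdd e2) (Prod.ext (congrArg Multiplicative.ofAdd e3)
      (congrArg Multiplicative.ofAdd e4)))⟩
  have h3 := f.ker.card_mul_index
  rw [index_ker, L.card, h2, card_top, show Nat.card (Multiplicative (ZMod 3) ×
    Multiplicative (ZMod 3) × Multiplicative (ZMod 3) × Multiplicative (ZMod 3)) = 81 by
      simp] at h3
  have h4 := eq_of_le_of_card_ge h1 (by rw [L.card_Z]; omega)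
  have : (⟨x, hx⟩ : Q) ∈ f.ker := Prod.ext (congrArg Multiplicative.ofAdd xa) (Prod.ext
      (congrArg Multiplicative.ofAdd xb) (Prod.ext (congrArg Multiplicative.ofAdd xc)
      (congrArg Multiplicative.ofAdd xd)))
  rwa [← h4] at this

theorem exists_t : ∃ t, Commute z t ∧ t * t = 1 ∧ π t = n1 := by
  obtain ⟨x, hx, e⟩ := L.surj n1
  refine ⟨x ^ 3, hx.pow_right 3, ?_, by rw [L.ppow hx, e, n1_cube]⟩
  rw [← L.exp _ ((L.ker _ (hx.mul_right hx)).mp (by rw [L.mul _ _ hx hx, e, n1_sq])), ← pow_add,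
    ← pow_two, ← pow_mul]

theorem pi_inv {t : G} (h : Commute z t) (h2 : t * t = 1) (h1 : t ≠ 1) : π t = n1 := by
  refine (sq_one _ (by rw [← L.mul _ _ h h, h2, L.p1])).resolve_left fun e => h1 ?_
  have := L.exp _ ((L.ker _ h).mp e)
  rwa [pow_three', h2, one_mul] at this

theorem memQ {t x : G} (ht : Commute z t) (e : π t = n1) (hx : Commute z x) (h3 : x ^ 3 = 1)
    (h : cj t x * x ∈ Q) : x ∈ Q := by
  have h1 := L.pQ h
  rw [L.mul _ _ (Ccj ht hx) hx, L.pcj ht hx, e, n1_comm, mul_inv_cancel_right] at h1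
  have h2 := L.ppow hx 3
  rw [h3, L.p1, pow_three', h1, one_mul] at h2
  exact (L.ker x hx).mp h2.symm

theorem eq_of_inv {t x y : G} (ht : Commute z t) (hy : y ∈ Q) (ex : cj t x = x⁻¹)
    (ey : cj t y = y⁻¹) (h : x * y⁻¹ ∈ zpowers z) : x = y := by
  rw [← mul_inv_eq_one]
  have h1 := cj_fix.mpr (zp_comm ht h).symm
  rw [cj_mul, cj_inv, ex, ey, inv_inv] at h1
  refine eq_one_of_inv (L.exp _ (L.ZQ h)) ?_
  have h2 := (zp_comm (L.QC y hy) h).eq
  rw [← h1, ← mul_assoc] at h2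
  rw [mul_inv_rev, inv_inv, ← h1]
  exact mul_right_cancel h2

theorem conj (g : G) :
    Loc0 (cj g z) (Q.map (MulAut.conj g).toMonoidHom) fun x => π (cj g⁻¹ x) := by
  have m : ∀ x, x ∈ Q.map (MulAut.conj g).toMonoidHom ↔ cj g⁻¹ x ∈ Q := fun x =>
    ⟨fun ⟨y, hy, e⟩ => by rw [← e]; exact (inv_cj_cj g y).symm ▸ hy,
      fun h => ⟨_, h, cj_inv_cj g x⟩⟩
  have c : ∀ x, Commute (cj g z) x → Commute z (cj g⁻¹ x) := fun x h => by
    have := cj_comm (g := g⁻¹) h
    rwa [inv_cj_cj] at this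
  have c' : ∀ x, Commute z (cj g⁻¹ x) → Commute (cj g z) x := fun x h => by
    have := cj_comm (g := g) h
    rwa [cj_inv_cj] at this
  have k : ∀ x, cj g⁻¹ x ∈ zpowers z → x ∈ zpowers (cj g z) := fun x ⟨n, e⟩ =>
    ⟨n, by rw [← cj_inv_cj g x, ← e]; simp only [cj, conj_zpow]⟩
  refine ⟨fun h => L.z1 (cj_inj (h.trans (cj_one g).symm)), ⟨z, L.zQ, rfl⟩,
    fun x hx => c' x (L.QC _ ((m x).mp hx)), fun x hx => cj_inj (g := g⁻¹) ?_,
    fun x hx y hy => k _ ?_, fun x hx h => k _ (L.nondeg _ ((m x).mp hx) fun y hy => ?_), ?_,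
    fun x y hx hy => ?_, fun x hx => ?_, fun X => ?_⟩
  · rw [cj_pow, L.exp _ ((m x).mp hx), cj_one]
  · simp only [cj_mul, cj_inv]
    exact L.comm _ ((m x).mp hx) _ ((m y).mp hy)
  · have := cj_comm (g := g⁻¹) (h (cj g y) ⟨y, hy, rfl⟩)
    rwa [inv_cj_cj] at this
  · rw [← L.card]
    exact (Nat.card_congr (Q.equivMapOfInjective _ (MulAut.conj g).injective).toEquiv).symm
  · rw [cj_mul, L.mul _ _ (c x hx) (c y hy)]
  · rw [L.ker _ (c x hx), m]
  · obtain ⟨x, hx, e⟩ := L.surj X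
    exact ⟨cj g x, cj_comm hx, by rwa [inv_cj_cj]⟩

theorem neg : Loc0 z⁻¹ Q π :=
  ⟨inv_ne_one.mpr L.z1, inv_mem L.zQ, fun x hx => (L.QC x hx).inv_left, L.exp,
    fun x hx y hy => (by rw [zpowers_inv]; exact L.comm x hx y hy),
    fun x hx h => (by rw [zpowers_inv]; exact L.nondeg x hx h), L.card,
    fun x y hx hy => L.mul x y (Commute.inv_left_iff.mp hx) (Commute.inv_left_iff.mp hy),
    fun x hx => L.ker x (Commute.inv_left_iff.mp hx),
    fun X => let ⟨x, hx, e⟩ := L.surj X; ⟨x, hx.inv_left, e⟩⟩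

end Loc0

namespace Loc

variable {z : G} {Q : Subgroup G} {π : G → S} (L : Loc z Q π)
include L

theorem neg : Loc z⁻¹ Q π :=
  ⟨L.toLoc0.neg, fun x hx e v hv => by
    rw [zpowers_inv]; exact L.inv x (Commute.inv_left_iff.mp hx) e v hv⟩

theorem conj (g : G) :
    Loc (cj g z) (Q.map (MulAut.conj g).toMonoidHom) fun x => π (cj g⁻¹ x) := by
  refine ⟨L.toLoc0.conj g, ?_⟩
  rintro x hx e _ ⟨v, hv, rfl⟩
  have := cj_comm (g := g⁻¹) hx
  rw [inv_cj_cj] at this
  obtain ⟨n, e'⟩ := L.inv _ this e v hv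
  refine ⟨n, ?_⟩
  have := congrArg (cj g) e'
  simp only [cj, conj_zpow] at this ⊢
  simp only [← conj_zpow, this, MulEquiv.coe_toMonoidHom, MulAut.conj_apply]
  group

theorem norm' {g v : G} (hg : cj g z = z⁻¹) (h : v ∈ Q) : cj g v ∈ Q := by
  obtain ⟨t, ht, t2, e⟩ := L.exists_t
  have c : ∀ x, Commute z x → Commute z (cj g x) := fun x hx => by
    have := cj_comm (g := g) hx
    rwa [hg, Commute.inv_left_iff] at this
  refine L.memQ (c t ht) (L.pi_inv (c t ht) (by rw [← cj_mul, t2, cj_one]) fun h' => n1_ne ?_)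
    (c v (L.QC v h)) (by rw [← cj_pow, L.exp v h, cj_one]) ?_
  · rw [← e, cj_inj (h'.trans (cj_one g).symm), L.p1]
  · rw [← cj_cj, ← cj_mul]
    exact L.ZQ (cj_zp (hg ▸ inv_mem (mem_zpowers z)) (L.inv t ht e v h))

theorem tinv {t g x : G} (ht : Commute z t) (e : π t = n1) (hg : cj g z = z⁻¹)
    (c : Commute g t) (hx : x ∈ Q) (ex : cj g x = x) : cj t x = x⁻¹ :=
  eq_inv_of_mul_eq_one_left (zp_triv L.z3 hg (L.inv t ht e x hx) (by
    rw [cj_mul, cj_cj_comm c, ex]))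

theorem tfix {t x : G} (ht : Commute z t) (e : π t = n1) (hx : x ∈ Q) (ex : cj t x = x) :
    x ∈ zpowers z := by
  have := inv_mem (L.inv t ht e x hx)
  rwa [ex, ← cube_inv (L.exp x hx), inv_inv] at this

theorem stab {a x : G} (ha : a ∈ Q) (h : a ∉ zpowers z) (hx : Commute z x) (hx' : Commute a x) :
    π x ^ 3 = 1 := by
  have k : ∀ n : ℕ, π x ^ n ≠ n1 := fun n e => h (L.tfix (hx.pow_right n)
    (by rw [L.ppow hx, e]) ha (cj_fix.mpr (hx'.pow_right n).symm))
  rcases ord_cases (π x) with e | e | e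
  exacts [e, absurd e (k 3), absurd e (k 2)]

theorem stab9 {a x : G} (ha : a ∈ Q) (h : a ∉ zpowers z) (hx : Commute z x) (hx' : Commute a x) :
    x ^ 9 = 1 := by
  rw [show 9 = 3 * 3 from rfl, pow_mul]
  exact L.exp _ ((L.ker _ (hx.pow_right 3)).mp (by rw [L.ppow hx, L.stab ha h hx hx']))

theorem stabQ {a x y : G} (ha : a ∈ Q) (h : a ∉ zpowers z) (hx : Commute z x)
    (hx' : Commute a x) (hy : Commute z y) (hy' : Commute a y) (hQ : y ∉ Q) :
    ∃ k : ℕ, x * y ^ k ∈ Q := by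
  have k : ∀ n : ℕ, π (x * y ^ n) = π x * π y ^ n := fun n => by
    rw [L.mul _ _ hx (hy.pow_right n), L.ppow hy]
  have k' : ∀ n : ℕ, (π x * π y ^ n) ^ 3 = 1 := fun n => by
    rw [← k]; exact L.stab ha h (hx.mul_right (hy.pow_right n)) (hx'.mul_right (hy'.pow_right n))
  have k'' : ∀ n : ℕ, π x * π y ^ n = 1 → ∃ k : ℕ, x * y ^ k ∈ Q := fun n e =>
    ⟨n, (L.ker _ (hx.mul_right (hy.pow_right n))).mp ((k n).trans e)⟩
  rcases syl (π x) (π y) (mt (L.ker y hy).mp hQ) (L.stab ha h hx hx') (L.stab ha h hy hy')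
    (by simpa using k' 1) (by simpa [pow_two, mul_assoc] using k' 2) with e | e | e
  · exact k'' 0 (by simpa using e)
  · exact k'' 1 (by simpa using e)
  · exact k'' 2 (by simpa [pow_two, mul_assoc] using e)

end Loc

end Cfsg.Agent.H3.L43
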