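import Cfsg.Agent.H3.L43LocB

/-!
# Adapted generators of the Sylow normalizer and the further root elements
-/

set_option autoImplicit false
set_option linter.unusedSimpArgs false

namespace Cfsg.Agent.H3.L43

open Subgroup

variable {G : Type*} [Group G]

/-- Adapted generators. -/
structure Bs (z : G) (Q : Subgroup G) (π : G → S) (a b c d y t s : G) : Prop
    extends Loc z Q π where
  aQ : a ∈ Q
  bQ : b ∈ Q
  cQ : c ∈ Q
  dQ : d ∈ Q
  ab : Commute a b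
  ac : Commute a c
  bd : Commute b d
  cd : Commute c d
  bc : b * c = z * (c * b)
  ad : a * d = z * (d * a)
  y3 : y ^ 3 = 1
  zy : Commute z y
  ya : cj y a = a
  yc : cj y c = c
  yb : cj y b = b * a⁻¹
  yd : cj y d = d * c
  t2 : t * t = 1
  zt : Commute z t
  ta : cj t a = a⁻¹
  tb : cj t b = b⁻¹
  tc : cj t c = c⁻¹
  td : cj t d = d⁻¹
  ty : cj t y = y
  s2 : s * s = 1
  st : Commute s t
  sz : cj s z = z⁻¹
  sa : cj s a = a⁻¹
  sb : cj s b = b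
  sc : cj s c = c⁻¹
  sd : cj s d = d
  sy : cj s y = y⁻¹

/-- The root element opposite to `d`. -/
structure Bq (z a b c d y t s q : G) : Prop where
  q3 : q ^ 3 = 1
  dq : d * q * d = q * d * q
  w3 : (d * q * d) ^ 2 = s
  wz : cj (d * q * d) z = a
  qb : Commute q b
  wc : cj (d * q * d) c = y
  tq : cj t q = q⁻¹

/-- The root element opposite to `y`. -/
structure Bu (z a b c d y t s u : G) : Prop where
  u3 : u ^ 3 = 1
  zu : Commute z u
  ub : cj u b = b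
  ud : cj u d = d
  ua : cj u a = a * b
  uc : cj u c = c * d⁻¹
  yu : y * u * y = u * y * u
  w2 : (y * u * y) ^ 2 = t
  su : cj s u = u⁻¹

theorem cj_of_neg {g w : G} (h : cj g w = w⁻¹) : cj w g = w ^ 2 * g := by
  calc cj w g = w * (cj g w)⁻¹ * g := by
        rw [← cj_inv, show cj g w⁻¹ = w by rw [cj_inv, h, inv_inv], cj, mul_assoc, mul_assoc,
          ← cj_eq.mp (show cj g w⁻¹ = w by rw [cj_inv, h, inv_inv])]
    _ = _ := by rw [h, inv_inv, pow_two]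

theorem Bu.symm {z a b c d y t s u : G} (U : Bu z a b c d y t s u) (t2 : t * t = 1) :
    Bu z⁻¹ c d a b y⁻¹ t s u⁻¹ := by
  refine ⟨by rw [inv_pow, U.u3, inv_one], U.zu.inv_inv, inv_cj_fix U.ud, inv_cj_fix U.ub,
    inv_cj ?_, inv_cj ?_, ?_, ?_, by rw [cj_inv, U.su]⟩
  · rw [cj_mul, U.uc, U.ud, inv_mul_cancel_right]
  · rw [cj_mul, cj_inv, U.ua, U.ub, mul_inv_cancel_right]
  · simpa only [mul_inv_rev, mul_assoc] using congrArg (·⁻¹) U.yu
  · rw [show y⁻¹ * u⁻¹ * y⁻¹ = (y * u * y)⁻¹ by group, inv_pow, U.w2,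
      inv_eq_of_mul_eq_one_right t2]

namespace Bs

variable {z : G} {Q : Subgroup G} {π : G → S} {a b c d y t s : G} (B : Bs z Q π a b c d y t s)
include B

theorem symm : Bs z⁻¹ Q π c d a b y⁻¹ t s :=
  { B.toLoc.neg, B with
    aQ := B.cQ, bQ := B.dQ, cQ := B.aQ, dQ := B.bQ, ab := B.cd, ac := B.ac.symm, bd := B.bd.symm
    cd := B.ab
    bc := by rw [B.ad, inv_mul_cancel_left]
    ad := by rw [B.bc, inv_mul_cancel_left]
    y3 := by rw [inv_pow, B.y3, inv_one]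
    zy := B.zy.inv_inv
    ya := inv_cj_fix B.yc
    yc := inv_cj_fix B.ya
    yb := inv_cj (by rw [cj_mul, cj_inv, B.yd, B.yc, mul_inv_cancel_right])
    yd := inv_cj (by rw [cj_mul, B.yb, B.ya, inv_mul_cancel_right])
    zt := B.zt.inv_left
    ta := B.tc, tb := B.td, tc := B.ta, td := B.tb
    ty := by rw [cj_inv, B.ty]
    sz := by rw [cj_inv, B.sz]
    sa := B.sc, sb := B.sd, sc := B.sa, sd := B.sb
    sy := by rw [cj_inv, B.sy] }

theorem shift (i : ℕ) : Bs z Q π a b c d (y * z ^ i) t s := by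
  have k : ∀ v ∈ Q, cj (y * z ^ i) v = cj y v := fun v hv => by
    rw [mul_cj, cj_fix.mpr ((B.QC v hv).pow_left i)]
  exact { B with
    y3 := by
      rw [(B.zy.symm.pow_right i).mul_pow, B.y3, ← pow_mul, mul_comm i, pow_mul, B.z3]; simp
    zy := B.zy.mul_right ((Commute.refl z).pow_right i)
    ya := by rw [k a B.aQ, B.ya]
    yc := by rw [k c B.cQ, B.yc]
    yb := by rw [k b B.bQ, B.yb]
    yd := by rw [k d B.dQ, B.yd]
    ty := by rw [cj_mul, cj_pow, B.ty, cj_fix.mpr B.zt.symm]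
    sy := by
      rw [cj_mul, cj_pow, B.sy, B.sz, inv_pow, ← mul_inv_rev, (B.zy.symm.pow_right i).eq] }

theorem aZ : a ∉ zpowers z := fun h => B.z1 (by
  have := B.ad
  rw [(zp_comm (B.QC d B.dQ) h).eq] at this
  exact (right_eq_mul.mp this))

theorem a1 : a ≠ 1 := fun h => B.aZ (h ▸ one_mem _)

theorem pt : π t = n1 := B.pi_inv B.zt B.t2 fun h => B.a1 (eq_one_of_inv (B.exp a B.aQ) (by
  rw [← B.ta, h, one_cj]))

theorem yQ : y ∉ Q := fun h => B.aZ (by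
  have := B.comm y h b B.bQ
  rw [show y * b * y⁻¹ = cj y b from rfl, B.yb, ← B.ab.inv_left.eq, mul_inv_cancel_right] at this
  exact (inv_mem_iff.mp this))

theorem g_ab : bt z a b = 0 := bt_zero.mpr B.ab
theorem g_ac : bt z a c = 0 := bt_zero.mpr B.ac
theorem g_bd : bt z b d = 0 := bt_zero.mpr B.bd
theorem g_cd : bt z c d = 0 := bt_zero.mpr B.cd
theorem g_ba : bt z b a = 0 := bt_zero.mpr B.ab.symm
theorem g_ca : bt z c a = 0 := bt_zero.mpr B.ac.symm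
theorem g_db : bt z d b = 0 := bt_zero.mpr B.bd.symm
theorem g_dc : bt z d c = 0 := bt_zero.mpr B.cd.symm
theorem g_bc : bt z b c = 1 := B.bt_one B.bc
theorem g_ad : bt z a d = 1 := B.bt_one B.ad
theorem g_cb : bt z c b = -1 := by rw [B.swap B.bQ B.cQ, B.g_bc]
theorem g_da : bt z d a = -1 := by rw [B.swap B.aQ B.dQ, B.g_ad]

theorem congr {x x' : G} (hx : x ∈ Q) (hx' : x' ∈ Q) (ea : bt z x a = bt z x' a)
    (eb : bt z x b = bt z x' b) (ec : bt z x c = bt z x' c) (ed : bt z x d = bt z x' d) :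
    x * x'⁻¹ ∈ zpowers z := by
  have k : ∀ v ∈ Q, bt z x v = bt z x' v → bt z (x * x'⁻¹) v = 0 := fun v hv e => by
    rw [B.mull hx (inv_mem hx') hv, B.invl hx' hv, e, add_neg_cancel]
  exact B.span B.aQ B.bQ B.cQ B.dQ B.g_ab B.g_ac B.g_bd B.g_cd B.g_bc B.g_ad
    (mul_mem hx (inv_mem hx')) (k a B.aQ ea) (k b B.bQ eb) (k c B.cQ ec) (k d B.dQ ed)

theorem eqv {x x' : G} (hx : x ∈ Q) (hx' : x' ∈ Q) (tx : cj t x = x⁻¹) (tx' : cj t x' = x'⁻¹)
    (ea : bt z x a = bt z x' a) (eb : bt z x b = bt z x' b) (ec : bt z x c = bt z x' c)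
    (ed : bt z x d = bt z x' d) : x = x' :=
  B.eq_of_inv B.zt hx' tx tx' (B.congr hx hx' ea eb ec ed)

theorem Cs {x : G} (hz : Commute z x) (ha : Commute a x) (hs : cj s x = x) : ∃ k : ℕ, x = b ^ k := by
  obtain ⟨k, hk⟩ := B.stabQ B.aQ B.aZ hz ha B.zy (cj_fix.mp B.ya).symm B.yQ
  have h1 := mul_mem (inv_mem (B.norm' B.sz hk)) hk
  rw [cj_mul, cj_pow, hs, B.sy, show (x * y⁻¹ ^ k)⁻¹ * (x * y ^ k) = y ^ k * y ^ k by group,
    ← cube_inv (by rw [← pow_mul, mul_comm, pow_mul, B.y3, one_pow])] at h1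
  have hx : x ∈ Q := by simpa using mul_mem hk h1
  refine ⟨(bt z x c).val, mul_inv_eq_one.mp (zp_triv B.z3 B.sz (B.congr hx (pow_mem B.bQ _)
    ?_ ?_ ?_ ?_) (by rw [cj_mul, cj_inv, cj_pow, hs, B.sb]))⟩
  · rw [B.powl B.bQ B.aQ, B.g_ba, bt_zero.mpr ha.symm, mul_zero]
  · rw [B.powl B.bQ B.bQ, bt_self, bt_zero.mpr (B.fix_comm B.sz hx B.bQ hs B.sb), mul_zero]
  · rw [B.powl B.bQ B.cQ, B.g_bc]; simp
  · rw [B.powl B.bQ B.dQ, B.g_bd, bt_zero.mpr (B.fix_comm B.sz hx B.dQ hs B.sd), mul_zero]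

theorem Ct {x : G} (hz : Commute z x) (ha : Commute a x) (ht : cj t x = x) :
    ∃ j < 3, ∃ i : ℕ, x = y ^ j * z ^ i := by
  obtain ⟨k, hk⟩ := B.stabQ B.aQ B.aZ hz ha B.zy (cj_fix.mp B.ya).symm B.yQ
  obtain ⟨i, e⟩ := (zp B.z3).mp (B.tfix B.zt B.pt hk (by rw [cj_mul, cj_pow, ht, B.ty]))
  refine ⟨(k + k) % 3, Nat.mod_lt _ (by norm_num), i.val, ?_⟩
  rw [← pow_eq_pow_mod _ B.y3, pow_add, ← cube_inv (by
    rw [← pow_mul, mul_comm, pow_mul, B.y3, one_pow]), ← ((B.zy.pow_pow _ _).inv_right).eq, ← e,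
    mul_inv_cancel_right]

theorem eq_of_act {g h : G} (hz : cj g z = cj h z) (ha : cj g a = cj h a) (hs : cj g s = cj h s)
    (ht : cj g t = cj h t) : g = h := by
  have k : ∀ v, cj g v = cj h v → Commute v (h⁻¹ * g) := fun v e =>
    (cj_fix.mp (by rw [mul_cj, e, inv_cj_cj])).symm
  obtain ⟨n, e⟩ := B.Cs (k z hz) (k a ha) (cj_fix.mpr (k s hs))
  have := cj_fix.mpr (k t ht)
  rw [e, cj_pow, B.tb, inv_pow] at this
  rw [eq_one_of_inv (B.exp _ (pow_mem B.bQ n)) this.symm] at e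
  exact (inv_mul_eq_one.mp e).symm

theorem ts2 : t * s * (t * s) = 1 := by
  rw [← B.st.eq, mul_assoc, B.st.eq, ← mul_assoc t, B.t2, one_mul, B.s2]

theorem da : cj d a = z⁻¹ * a := by rw [cj_eq, mul_assoc, B.ad, inv_mul_cancel_left]

theorem exists_q {g : G} (hg : cj g z = a) : ∃ q, ∃ i : ℕ, Bq z a b c d (y * z ^ i) t s q := by
  obtain ⟨P, ρ, L⟩ : ∃ P ρ, Loc a P ρ := ⟨_, _, hg ▸ B.toLoc.conj g⟩
  have za := B.QC a B.aQ
  have tz := cj_fix.mpr B.zt.symm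
  have dz := cj_fix.mpr (B.QC d B.dQ).symm
  have c1 : Commute a (t * s) := (cj_fix.mp (by rw [mul_cj, B.sa, cj_inv, B.ta, inv_inv])).symm
  have c2 : cj (t * s) z = z⁻¹ := by rw [mul_cj, B.sz, cj_inv, tz]
  have c3 : ρ (t * s) = n1 := L.pi_inv c1 B.ts2 fun h => B.z1 (eq_one_of_inv B.z3 (by
    rw [← c2, h, one_cj]))
  have mem : ∀ x, Commute a x → x ^ 3 = 1 → cj (t * s) x = x⁻¹ → x ∈ P := fun x h1 h2 h3 =>
    L.memQ c1 c3 h1 h2 (by rw [h3, inv_mul_cancel]; exact one_mem _)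
  have zP := mem z za.symm B.z3 c2
  have bP := mem b B.ab (B.exp b B.bQ) (by rw [mul_cj, B.sb, B.tb])
  obtain ⟨q0, h0, e0⟩ := L.exists_one zP fun h => B.z1 (zp_triv L.z3 B.ta h tz)
  obtain ⟨q1, h1, s1, e1⟩ : ∃ q ∈ P, cj s q = q ∧ bt a q z = 1 := by
    have h2 := L.norm' B.sa (inv_mem h0)
    refine ⟨_, mul_mem (mul_mem (inv_mem h0) (inv_mem h2)) (inv_mem h0),
      fix_coset B.s2 (L.exp _ (mul_mem (inv_mem (inv_mem h0)) h2)), ?_⟩
    have h3 := L.move' (x := q0⁻¹) (y := z) B.sa h2 (B.sz ▸ inv_mem zP)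
    rw [B.sz, L.invr h2 zP, neg_inj] at h3
    rw [L.mull (mul_mem (inv_mem h0) (inv_mem h2)) (inv_mem h0) zP,
      L.mull (inv_mem h0) (inv_mem h2) zP, L.invl h2 zP, h3, L.invl h0 zP, L.swap zP h0, e0]
    ring
  have act : ∀ q ∈ P, bt a q z = 1 → cj (d * q * d) z = a ∧ cj (d * q * d) a = z⁻¹ ∧
      cj (q * d * q) z = a ∧ cj (q * d * q) a = z⁻¹ := fun q hq e => by
    have qz : cj q z = a * z := by rw [cj_eq, L.of_one hq zP e, mul_assoc]
    have qa : cj q a = a := cj_fix.mpr (L.QC q hq).symm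
    have k1 : cj d (a * z) = a := by rw [← za.eq, cj_mul, dz, B.da, mul_inv_cancel_left]
    have k2 : cj q (z⁻¹ * a) = z⁻¹ := by
      rw [cj_mul, cj_inv, qz, qa, mul_inv_rev, inv_mul_cancel_right]
    simp only [mul_cj]
    exact ⟨by rw [dz, qz, k1], by rw [B.da, k2, cj_inv, dz], by rw [qz, k1, qa],
      by rw [qa, B.da, k2]⟩
  have k : ∀ g h v : G, cj g v = cj h v → Commute v (h⁻¹ * g) := fun g h v e =>
    (cj_fix.mp (by rw [mul_cj, e, inv_cj_cj])).symm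
  obtain ⟨q, hq, sq, eq, br⟩ : ∃ q ∈ P, cj s q = q ∧ bt a q z = 1 ∧ d * q * d = q * d * q := by
    obtain ⟨a1, a2, a3, a4⟩ := act q1 h1 e1
    obtain ⟨n, e⟩ := B.Cs (k _ _ z (a1.trans a3.symm)) (k _ _ a (a2.trans a4.symm)) (by
      simp only [cj_mul, cj_inv, s1, B.sd])
    have qb := (L.fix_comm B.sa h1 bP s1 B.sb).pow_right n
    have db := B.bd.symm.pow_right n
    refine ⟨q1 * b ^ n, mul_mem h1 (pow_mem bP n), by rw [cj_mul, cj_pow, s1, B.sb], ?_, ?_⟩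
    · rw [L.mull h1 (pow_mem bP n) zP, e1, bt_zero.mpr ((B.QC b B.bQ).pow_right n).symm, add_zero]
    · rw [inv_mul_eq_iff_eq_mul] at e
      generalize b ^ n = x at e qb db
      calc d * (q1 * x) * d = d * q1 * d * x := by rw [mul_assoc, mul_assoc, ← db.eq]; group
        _ = q1 * (d * q1 * x) * x := by rw [e]; group
        _ = _ := by rw [(db.mul_left qb).eq]; group
  obtain ⟨a1, a2, -, -⟩ := act q hq eq
  have sw : cj s (d * q * d) = d * q * d := by simp only [cj_mul, sq, B.sd]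
  have w3 : (d * q * d) ^ 2 = s := by
    obtain ⟨n, e⟩ := B.Cs (k ((d * q * d) ^ 2) s z (by rw [pow_two, mul_cj, a1, a2, B.sz]))
      (k ((d * q * d) ^ 2) s a (by rw [pow_two, mul_cj, a2, cj_inv, a1, B.sa]))
      (by rw [cj_mul, cj_inv, cj_pow, sw, cj_fix.mpr (Commute.refl s)])
    have h4 := braid_four (B.exp d B.dQ) br
    rw [inv_mul_eq_iff_eq_mul] at e
    rw [e, mul_assoc, ← mul_assoc _ s, ← ((cj_fix.mp B.sb).pow_right n).eq, mul_assoc,
      ← mul_assoc, B.s2, one_mul] at h4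
    rw [e, eq_one_of_inv (B.exp _ (pow_mem B.bQ n)) (eq_inv_of_mul_eq_one_left h4), mul_one]
  have tq : cj t q = q⁻¹ := by
    have := L.tinv c1 c3 B.sa (B.st.mul_right (Commute.refl s)) hq sq
    rwa [mul_cj, sq] at this
  have qb := L.fix_comm B.sa hq bP sq B.sb
  have tw : cj t (d * q * d) = (d * q * d)⁻¹ := by simp only [cj_mul, tq, B.td]; group
  have wb : cj (d * q * d) b = b := cj_fix.mpr ((B.bd.symm.mul_left qb).mul_left B.bd.symm)
  generalize hw : d * q * d = w at a1 a2 w3 tw wb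
  obtain ⟨j, hj, i, e⟩ := B.Ct (x := cj w c)
    (by have := cj_comm (g := w) B.ac; rwa [a2, Commute.inv_left_iff] at this)
    (by have := cj_comm (g := w) (B.QC c B.cQ); rwa [a1] at this)
    (by rw [cj_cj, tw, B.tc, ← B.sc, ← w3, pow_two, mul_cj, inv_cj_cj])
  have h5 : cj (y ^ j) b = b * a⁻¹ := by
    have := congrArg (cj w) B.bc
    simp only [cj_mul, wb, a1] at this
    rw [← cj_fix.mpr ((B.QC b B.bQ).pow_left i), ← mul_cj, cj_fix.mpr ((B.QC b B.bQ).pow_left i),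
      ← e, cj_eq, ← B.ab.inv_left.eq, mul_assoc, this, inv_mul_cancel_left]
  have hj1 : j = 1 := by
    have h6 : a⁻¹ ≠ 1 := inv_ne_one.mpr B.a1
    interval_cases j
    · rw [pow_zero, one_cj] at h5
      exact absurd (left_eq_mul.mp h5) h6
    · rfl
    · rw [pow_two, mul_cj, B.yb, cj_mul, cj_inv, B.yb, B.ya] at h5
      exact absurd (mul_eq_left.mp h5) h6
  subst hw
  exact ⟨q, i, L.exp q hq, br, w3, a1, qb, by rw [e, hj1, pow_one], tq⟩

/-- Braid partners of `y` in the centralizer of `z` and `t`. -/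
def Pt (z : G) (Q : Subgroup G) (y t u : G) : Prop :=
  Commute z u ∧ cj t u = u ∧ y * u * y = u * y * u ∧ u⁻¹ * y ∉ Q

theorem py : π y ^ 3 = 1 := by rw [← B.ppow B.zy, B.y3, B.p1]

theorem pt_ne {u : G} (h : Pt z Q y t u) : π u ≠ π y := fun e => h.2.2.2
  ((B.ker _ (h.1.inv_right.mul_right B.zy)).mp (by
    rw [B.mul _ _ h.1.inv_right B.zy, B.pinv h.1, e, inv_mul_cancel]))

theorem pt_br {u : G} (h : Pt z Q y t u) : π y * π u * π y = π u * π y * π u := by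
  rw [← B.mul _ _ B.zy h.1, ← B.mul _ _ h.1 B.zy, ← B.mul _ _ (B.zy.mul_right h.1) B.zy,
    ← B.mul _ _ (h.1.mul_right B.zy) h.1, h.2.2.1]

theorem pt_eq {u v : G} (hu : Pt z Q y t u) (hv : Pt z Q y t v) (e : π v = π u) : v = u := by
  have h1 := B.tfix B.zt B.pt ((B.ker _ (hv.1.mul_right hu.1.inv_right)).mp (by
    rw [B.mul _ _ hv.1 hu.1.inv_right, B.pinv hu.1, e, mul_inv_cancel])) (by
    rw [cj_mul, cj_inv, hu.2.1, hv.2.1])
  have h2 := zp_comm B.zy h1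
  have h3 := zp_comm hu.1 h1
  have h4 := hv.2.2.1
  rw [← mul_inv_eq_one]
  rw [show v = v * u⁻¹ * u by group] at h4
  generalize v * u⁻¹ = w at h2 h3 h4
  have h5 : w * (y * u * y) = w * (w * (y * u * y)) := by
    calc _ = y * (w * u) * y := by rw [← mul_assoc y, ← h2.eq]; group
      _ = w * (u * y * w) * u := by rw [h4]; group
      _ = _ := by rw [← (h3.mul_right h2).eq, hu.2.2.1]; group
  exact right_eq_mul.mp (mul_left_cancel h5)

theorem pt_cj {u g : G} (h : Pt z Q y t u) (hz : Commute z g) (ht : cj t g = g) (hy : cj g y = y) :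
    Pt z Q y t (cj g u) := by
  refine ⟨Loc0.Ccj hz h.1, by rw [cj_cj, ht, h.2.1], ?_, fun h' => h.2.2.2 ?_⟩
  · simpa only [cj_mul, hy] using congrArg (cj g) h.2.2.1
  · have := B.norm hz.inv_right h'
    rwa [cj_mul, cj_inv, inv_cj_cj, inv_cj_fix hy] at this

theorem pt_s {u : G} (h : Pt z Q y t u) : Pt z Q y t (cj s u)⁻¹ := by
  refine ⟨?_, by rw [cj_inv, ← cj_cj_comm B.st, h.2.1], ?_, fun h' => h.2.2.2 ?_⟩
  · have := cj_comm (g := s) h.1
    rw [B.sz] at this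
    exact (Commute.inv_left_iff.mp this).inv_right
  · simpa only [cj_mul, B.sy, mul_inv_rev, inv_inv, mul_assoc] using
      congrArg (fun x => (cj s x)⁻¹) h.2.2.1
  · have := B.norm' B.sz h'
    rw [inv_inv, cj_mul, ← mul_cj, B.s2, one_cj, B.sy] at this
    have := B.norm h.1.inv_right (inv_mem this)
    rwa [show cj u⁻¹ (u * y⁻¹)⁻¹ = u⁻¹ * y by simp only [cj]; group] at this

theorem exists_pt : ∃ u, Pt z Q y t u := by
  obtain ⟨P, h1, h2⟩ := partner (π y) (mt (B.ker y B.zy).mp B.yQ) B.py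
  obtain ⟨p0, h0, rfl⟩ := B.surj P
  have e0 : π (cj t p0) = π p0 := by rw [B.pcj B.zt h0, B.pt, n1_comm, mul_inv_cancel_right]
  have c0 := Loc0.Ccj B.zt h0
  obtain ⟨p, hp, tp, e⟩ : ∃ p, Commute z p ∧ cj t p = p ∧ π p = π p0 :=
    ⟨_, (h0.mul_right c0.inv_right).mul_right h0, fix_coset B.t2 (B.exp _
      ((B.ker _ (h0.inv_right.mul_right c0)).mp (by
        rw [B.mul _ _ h0.inv_right c0, B.pinv h0, e0, inv_mul_cancel]))), by
      rw [B.mul _ _ (h0.mul_right c0.inv_right) h0, B.mul _ _ h0 c0.inv_right, B.pinv c0, e0,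
        mul_inv_cancel, one_mul]⟩
  rw [← e, ← B.pcj hp B.zy] at h1 h2
  have hu := Loc0.Ccj hp B.zy
  have tu : cj t (cj p y) = cj p y := by rw [cj_cj, tp, B.ty]
  generalize cj p y = u at h1 h2 hu tu
  have c1 := (B.zy.mul_right hu).mul_right B.zy
  have c2 := (hu.mul_right B.zy).mul_right hu
  have h3 := B.tfix B.zt B.pt ((B.ker _ (c1.mul_right c2.inv_right)).mp (by
    rw [B.mul _ _ c1 c2.inv_right, B.pinv c2, B.mul _ _ (B.zy.mul_right hu) B.zy,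
      B.mul _ _ (hu.mul_right B.zy) hu, B.mul _ _ B.zy hu, B.mul _ _ hu B.zy, h1,
      mul_inv_cancel])) (by simp only [cj_mul, cj_inv, tu, B.ty])
  have h4 := zp_comm B.zy h3
  have h5 := zp_comm hu h3
  have h6 := zp_comm B.zt h3
  have h7 := B.ZQ h3
  have h8 : y * u * y = y * u * y * (u * y * u)⁻¹ * (u * y * u) := by group
  generalize y * u * y * (u * y * u)⁻¹ = w at h4 h5 h6 h7 h8
  refine ⟨w * u, (B.QC w h7).mul_right hu, by rw [cj_mul, tu, cj_fix.mpr h6.symm], ?_,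
    fun h => h2 ?_⟩
  · calc _ = w * (y * u * y) := by rw [← mul_assoc y, ← h4.eq]; group
      _ = w * (w * (u * y)) * u := by rw [h8]; group
      _ = _ := by rw [(h5.mul_right h4).eq]; group
  · have c3 := (B.QC w h7).mul_right hu
    have := B.pQ h
    rwa [B.mul _ _ c3.inv_right B.zy, B.pinv c3, B.mul _ _ (B.QC w h7) hu, B.pQ h7, one_mul,
      inv_mul_eq_one] at this

theorem exists_pt' : ∃ u, Pt z Q y t u ∧ cj s u = u⁻¹ := by
  obtain ⟨u, hu⟩ := B.exists_pt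
  have yy := cj_fix.mpr (Commute.refl y)
  have h1 := B.pt_cj hu B.zy B.ty yy
  have h2 := B.pt_cj hu B.zy.inv_right (by rw [cj_inv, B.ty]) (inv_cj_fix yy)
  rcases partners _ _ B.py (B.pt_ne hu) (B.pt_br hu) _ (B.pt_ne (B.pt_s hu))
    (B.pt_br (B.pt_s hu)) with e | e | e
  · exact ⟨u, hu, inv_eq_iff_eq_inv.mp (B.pt_eq hu (B.pt_s hu) e)⟩
  · have := inv_eq_iff_eq_inv.mp (B.pt_eq h1 (B.pt_s hu) (by rw [e, B.pcj B.zy hu.1]))
    refine ⟨_, h2, ?_⟩
    rw [cj_cj, cj_inv, B.sy, inv_inv, this, cj_inv, ← mul_cj, ← cube_inv B.y3]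
  · have := inv_eq_iff_eq_inv.mp (B.pt_eq h2 (B.pt_s hu) (by
      rw [e, B.pcj B.zy.inv_right hu.1, B.pinv B.zy, inv_inv]))
    refine ⟨_, h1, ?_⟩
    rw [cj_cj, B.sy, this, cj_inv, ← mul_cj, ← cube_inv (by rw [inv_pow, B.y3, inv_one]), inv_inv]

theorem y_fix {x : G} (hx : x ∈ Q) (tx : cj t x = x⁻¹) (sx : cj s x = x⁻¹) : cj y x = x := by
  have xa := bt_zero (z := z).mpr (B.neg_comm B.sz hx B.aQ sx B.sa)
  have xc := bt_zero (z := z).mpr (B.neg_comm B.sz hx B.cQ sx B.sc)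
  refine B.eqv (B.norm B.zy hx) hx (by rw [cj_cj, B.ty, tx, cj_inv]) tx ?_ ?_ ?_ ?_ <;>
    rw [Loc0.move B.zy]
  · rw [inv_cj_fix B.ya]
  · rw [B.symm.yd, B.mulr hx B.bQ B.aQ, xa, add_zero]
  · rw [inv_cj_fix B.yc]
  · rw [B.symm.yb, B.mulr hx B.dQ (inv_mem B.cQ), B.invr hx B.cQ, xc, neg_zero, add_zero]

theorem exists_u : ∃ u, Bu z a b c d y t s u := by
  obtain ⟨u, hu, su⟩ := B.exists_pt'
  have br := hu.2.2.1
  have cW := (B.zy.mul_right hu.1).mul_right B.zy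
  have tW : cj t (y * u * y) = y * u * y := by simp only [cj_mul, B.ty, hu.2.1]
  have sW : cj s (y * u * y) = (y * u * y)⁻¹ := by simp only [cj_mul, B.sy, su]; group
  have w2 : (y * u * y) ^ 2 = t := by
    have h1 := B.tfix B.zt B.pt ((B.ker _ ((cW.pow_right 2).mul_right B.zt)).mp (by
      rw [B.mul _ _ (cW.pow_right 2) B.zt, B.ppow cW, B.mul _ _ (B.zy.mul_right hu.1) B.zy,
        B.mul _ _ B.zy hu.1, partner_sq _ _ B.py (B.pt_ne hu) (B.pt_br hu), B.pt, n1_sq]))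
      (by rw [cj_mul, cj_pow, tW, cj_fix.mpr (Commute.refl t)])
    have h2 := braid_four B.y3 br
    have h4 := ((cj_fix.mp tW).pow_right 2).eq
    generalize (y * u * y) ^ 2 = V at h1 h2 h4
    have h3 : (V * t) * (V * t) = 1 := by
      rw [mul_assoc, ← mul_assoc t, h4, mul_assoc, B.t2, mul_one, h2]
    have := eq_one_of_inv (B.exp _ (B.ZQ h1)) (eq_inv_of_mul_eq_one_left h3)
    rw [eq_inv_of_mul_eq_one_left this, inv_eq_of_mul_eq_one_left B.t2]
  have uW : cj (y * u * y) y = u := by rw [cj_eq]; nth_rewrite 1 [br]; group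
  have eW : ∀ x, cj (y * u * y) x = cj y (cj u (cj y x)) := fun x => by simp only [mul_cj]
  have u3 := braid_cube B.y3 br
  generalize hW : y * u * y = W at cW tW sW w2 uW eW
  have Wi : W⁻¹ = W * t := inv_eq_of_mul_eq_one_right (by rw [← mul_assoc, ← pow_two, w2, B.t2])
  have k1 : ∀ x, cj t x = x⁻¹ → cj s x = x → cj s (cj W x) = (cj W x)⁻¹ := fun x tx sx => by
    rw [cj_cj, sW, sx, Wi, mul_cj, tx, cj_inv]
  have k2 : ∀ x ∈ Q, cj t x = x⁻¹ → cj s x = x → cj u x = x := fun x hx tx sx => by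
    have h1 := B.y_fix (B.norm cW hx) (by rw [cj_cj, tW, tx, cj_inv]) (k1 x tx sx)
    have h2 : cj W (cj W x) = x⁻¹ := by rw [← mul_cj, ← pow_two, w2, tx]
    have h3 := congrArg (cj W) h1
    rwa [cj_cj, uW, h2, cj_inv, inv_inj] at h3
  have ub := k2 b B.bQ B.tb B.sb
  have ud := k2 d B.dQ B.td B.sd
  have k3 : ∀ x ∈ Q, cj t x = x⁻¹ → cj s x = x → ∀ v ∈ Q, cj s v = v⁻¹ → cj y v = v →
      bt z (cj u (cj y x)) v = 0 := fun x hx tx sx v hv sv yv => by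
    have := bt_zero (z := z).mpr (B.neg_comm B.sz (B.norm cW hx) hv (k1 x tx sx) sv)
    rwa [eW, Loc0.move B.zy, inv_cj_fix yv] at this
  have uaQ := B.norm hu.1 B.aQ
  have ucQ := B.norm hu.1 B.cQ
  have tu : ∀ x, cj t x = x⁻¹ → cj t (cj u x) = (cj u x)⁻¹ := fun x tx => by
    rw [cj_cj, hu.2.1, tx, cj_inv]
  have b1 := k3 b B.bQ B.tb B.sb a B.aQ B.sa B.ya
  have b2 := k3 b B.bQ B.tb B.sb c B.cQ B.sc B.yc
  have d1 := k3 d B.dQ B.td B.sd a B.aQ B.sa B.ya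
  have d2 := k3 d B.dQ B.td B.sd c B.cQ B.sc B.yc
  rw [B.yb, cj_mul, cj_inv, ub, B.mull B.bQ (inv_mem uaQ) B.aQ, B.invl uaQ B.aQ, B.g_ba] at b1
  rw [B.yb, cj_mul, cj_inv, ub, B.mull B.bQ (inv_mem uaQ) B.cQ, B.invl uaQ B.cQ, B.g_bc] at b2
  rw [B.yd, cj_mul, ud, B.mull B.dQ ucQ B.aQ, B.g_da] at d1
  rw [B.yd, cj_mul, ud, B.mull B.dQ ucQ B.cQ, B.g_dc] at d2
  refine ⟨u, u3, hu.1, ub, ud, B.eqv uaQ (mul_mem B.aQ B.bQ) (tu a B.ta) ?_ ?_ ?_ ?_ ?_,
    B.eqv ucQ (mul_mem B.cQ (inv_mem B.dQ)) (tu c B.tc) ?_ ?_ ?_ ?_ ?_, br, hW ▸ w2, su⟩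
  · rw [cj_mul, B.ta, B.tb, B.ab.eq, mul_inv_rev]
  · rw [B.mull B.aQ B.bQ B.aQ, bt_self, B.g_ba]; linear_combination -b1
  · rw [B.mull B.aQ B.bQ B.bQ, bt_self, Loc0.move hu.1, inv_cj_fix ub, add_zero]
  · rw [B.mull B.aQ B.bQ B.cQ, B.g_ac, B.g_bc]; linear_combination -b2
  · rw [B.mull B.aQ B.bQ B.dQ, B.g_bd, Loc0.move hu.1, inv_cj_fix ud, add_zero]
  · rw [cj_mul, cj_inv, B.tc, B.td, B.cd.inv_right.eq, mul_inv_rev]
  · rw [B.mull B.cQ (inv_mem B.dQ) B.aQ, B.invl B.dQ B.aQ, B.g_ca, B.g_da]; linear_combination d1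
  · rw [B.mull B.cQ (inv_mem B.dQ) B.bQ, B.invl B.dQ B.bQ, B.g_db, Loc0.move hu.1, inv_cj_fix ub,
      neg_zero, add_zero]
  · rw [B.mull B.cQ (inv_mem B.dQ) B.cQ, B.invl B.dQ B.cQ, B.g_dc, bt_self]; linear_combination d2
  · rw [B.mull B.cQ (inv_mem B.dQ) B.dQ, B.invl B.dQ B.dQ, bt_self, Loc0.move hu.1, inv_cj_fix ud,
      neg_zero, add_zero]

theorem w_a {q : G} (R : Bq z a b c d y t s q) : cj (d * q * d) a = z⁻¹ := by
  rw [← R.wz, ← mul_cj, ← pow_two, R.w3, B.sz]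

theorem w_y {q : G} (R : Bq z a b c d y t s q) : cj (d * q * d) y = c⁻¹ := by
  rw [← R.wc, ← mul_cj, ← pow_two, R.w3, B.sc]

omit B in
theorem w_s {q : G} (R : Bq z a b c d y t s q) : cj (d * q * d) s = s := by
  rw [← R.w3, cj_pow, cj_fix.mpr (Commute.refl _)]

theorem w_t {q : G} (R : Bq z a b c d y t s q) : cj (d * q * d) t = s * t := by
  rw [cj_of_neg (by simp only [cj_mul, R.tq, B.td]; group), R.w3]

theorem w23 {q u : G} (R : Bq z a b c d y t s q) (U : Bu z a b c d y t s u) :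
    (y * u * y) * (d * q * d) * (y * u * y) = (d * q * d) * (y * u * y) * (d * q * d) := by
  have a1 : cj (y * u * y) z = z := cj_fix.mpr ((B.zy.mul_right U.zu).mul_right B.zy).symm
  have a2 : cj (y * u * y) a = b := by
    simp only [mul_cj, cj_mul, B.ya, U.ua, B.yb]
    rw [← B.ab.inv_left.eq, mul_inv_cancel_left]
  have a3 : cj (y * u * y) b = a⁻¹ := by
    rw [← a2, ← mul_cj, ← pow_two, U.w2, B.ta]
  have a4 : cj (y * u * y) t = t := by rw [← U.w2, cj_pow, cj_fix.mpr (Commute.refl _)]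
  have a5 : cj (y * u * y) s = t * s := by
    rw [cj_of_neg (by simp only [cj_mul, U.su, B.sy]; group), U.w2]
  have b1 := R.wz
  have b2 := B.w_a R
  have b3 : cj (d * q * d) b = b := cj_fix.mpr ((B.bd.symm.mul_left R.qb).mul_left B.bd.symm)
  have b4 := B.w_t R
  have b5 := w_s R
  generalize y * u * y = V at a1 a2 a3 a4 a5
  generalize d * q * d = W at b1 b2 b3 b4 b5
  have e1 : s * t * s = t := by rw [B.st.eq, mul_assoc, B.s2, mul_one]
  have e2 : t * s * t = s := by rw [← B.st.eq, mul_assoc, B.t2, mul_one]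
  have e3 : t * (s * t) = s := by rw [← mul_assoc, e2]
  have e4 : s * (t * s) = t := by rw [← mul_assoc, e1]
  refine B.eq_of_act ?_ ?_ ?_ ?_ <;>
    simp only [mul_cj, cj_mul, cj_inv, a1, a2, a3, a4, a5, b1, b2, b3, b4, b5, e1, e2, e3,
      e4]

theorem w13 {q r : G} (R : Bq z a b c d y t s q) (R' : Bq z⁻¹ c d a b y⁻¹ t s r) :
    (b * r * b) * (d * q * d) = (d * q * d) * (b * r * b) := by
  have a1 := R'.wz
  rw [cj_inv, inv_eq_iff_eq_inv] at a1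
  have a2 := B.symm.w_a R'
  have a3 := R'.wc
  have a4 := B.symm.w_t R'
  have a5 := w_s R'
  have a6 := B.symm.w_y R'
  rw [cj_inv, inv_inj] at a6
  have b1 := R.wz
  have b2 := B.w_a R
  have b3 := R.wc
  have b4 := B.w_t R
  have b5 := w_s R
  have b6 := B.w_y R
  generalize b * r * b = V at a1 a2 a3 a4 a5 a6
  generalize d * q * d = W at b1 b2 b3 b4 b5 b6
  refine B.eq_of_act ?_ ?_ ?_ ?_ <;>
    simp only [mul_cj, cj_mul, cj_inv, a1, a2, a3, a4, a5, a6, b1, b2, b3, b4, b5, b6, inv_inv]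

theorem gen {u : G} (U : Bu z a b c d y t s u) {H : Subgroup G} (hz : z ∈ H) (ha : a ∈ H)
    (hb : b ∈ H) (hc : c ∈ H) (hd : d ∈ H) (hy : y ∈ H) (hu : u ∈ H) {x : G} (hx : Commute z x) :
    x ∈ H := by
  have cW := (B.zy.mul_right U.zu).mul_right B.zy
  have pW : π (y * u * y) = π y * π u * π y := by
    rw [B.mul _ _ (B.zy.mul_right U.zu) B.zy, B.mul _ _ B.zy U.zu]
  obtain ⟨i, -, j, -, k, -, e⟩ := L43.gen (π y) (π u) B.py
    (by rw [← pW, ← B.ppow cW, U.w2, B.pt])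
    (by rw [← pW, U.yu, B.mul _ _ (U.zu.mul_right B.zy) U.zu, B.mul _ _ U.zu B.zy]) (π x)
  have c1 := ((B.zy.pow_right i).mul_right (cW.pow_right j)).mul_right (B.zy.pow_right k)
  have h1 := (B.ker _ (hx.mul_right c1.inv_right)).mp (by
    rw [B.mul _ _ hx c1.inv_right, B.pinv c1,
      B.mul _ _ ((B.zy.pow_right i).mul_right (cW.pow_right j)) (B.zy.pow_right k),
      B.mul _ _ (B.zy.pow_right i) (cW.pow_right j), B.ppow B.zy, B.ppow B.zy, B.ppow cW, pW, ← e,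
      mul_inv_cancel])
  have h2 : ∀ v ∈ Q, v ∈ H := fun v hv => by
    obtain ⟨e1, e2, e3, e4⟩ := B.coords B.aQ B.bQ B.cQ B.dQ B.g_ab B.g_ac B.g_bd B.g_cd B.g_bc
      B.g_ad (bt z v a) (bt z v b) (bt z v c) (bt z v d)
    have := zpowers_le.mpr hz (B.congr hv (mul_mem (mul_mem (mul_mem (pow_mem B.aQ _)
      (pow_mem B.bQ _)) (pow_mem B.cQ _)) (pow_mem B.dQ _)) e1.symm e2.symm e3.symm e4.symm)
    exact (mul_mem_cancel_right (inv_mem (mul_mem (mul_mem (mul_mem (pow_mem ha _)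
      (pow_mem hb _)) (pow_mem hc _)) (pow_mem hd _)))).mp this
  exact (mul_mem_cancel_right (inv_mem (mul_mem (mul_mem (pow_mem hy _)
    (pow_mem (mul_mem (mul_mem hy hu) hy) _)) (pow_mem hy _)))).mp (h2 _ h1)

theorem inj {i j k : ZMod 3} (h : b ^ i.val * a ^ j.val * z ^ k.val = 1) :
    i = 0 ∧ j = 0 ∧ k = 0 := by
  have e : ∀ v ∈ Q, i * bt z b v + j * bt z a v = 0 := fun v hv => by
    have := bt_zero (z := z).mpr (Commute.one_left v)
    rw [← h, B.mull (mul_mem (pow_mem B.bQ _) (pow_mem B.aQ _)) (pow_mem B.zQ _) hv,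
      B.mull (pow_mem B.bQ _) (pow_mem B.aQ _) hv, B.powl B.bQ hv, B.powl B.aQ hv,
      bt_zero.mpr ((B.QC v hv).pow_left _)] at this
    simpa using this
  have e1 := e c B.cQ
  have e2 := e d B.dQ
  simp only [B.g_bc, B.g_ac, B.g_bd, B.g_ad, mul_one, mul_zero, add_zero, zero_add] at e1 e2
  subst e1 e2
  exact ⟨rfl, rfl, ez_inj B.z3 B.z1 (by simpa using h)⟩

end Bs

end Cfsg.Agent.H3.L43
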