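import Cfsg.Agent.H3.L43LocC

/-!
# Construction of adapted generators
-/

set_option autoImplicit false

namespace Cfsg.Agent.H3.L43

open Subgroup

variable {G : Type*} [Group G]

theorem neg_elt {t : G} (ht : t * t = 1) (x : G) :
    cj t (x * (cj t x)⁻¹) = (x * (cj t x)⁻¹)⁻¹ := by
  rw [cj_mul, cj_inv, ← mul_cj, ht, one_cj, mul_inv_rev, inv_inv]

namespace Loc

variable {z : G} {Q : Subgroup G} {π : G → S} (L : Loc z Q π)
include L

theorem exists_a {g : G} (h1 : cj g z ∈ Q) (h2 : cj g z ∉ zpowers z) :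
    ∃ t a, Commute z t ∧ t * t = 1 ∧ π t = n1 ∧ a ∈ Q ∧ a ∉ zpowers z ∧ cj t a = a⁻¹ ∧
      ∃ g, cj g z = a := by
  obtain ⟨t, ht, t2, e⟩ := L.exists_t
  obtain ⟨d, hd, ed⟩ := L.exists_one h1 h2
  have h3 : ∀ n : ℕ, cj (d⁻¹ ^ n) (cj g z) = z ^ n * cj g z := fun n => by
    induction n with
    | zero => rw [pow_zero, one_cj, pow_zero, one_mul]
    | succ n ih =>
      rw [pow_succ', mul_cj, ih, cj_mul, cj_fix.mpr ((L.QC d hd).pow_left n).inv_right.symm,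
        pow_succ, mul_assoc, inv_cj (g := d) (x := z * cj g z)]
      rw [cj_eq, L.of_one h1 hd ed, ← mul_assoc, ← (L.QC d hd).eq, mul_assoc]
  have hw := L.inv t ht e _ h1
  obtain ⟨k, ek⟩ := (zp L.z3).mp hw
  refine ⟨t, z ^ k.val * cj g z, ht, t2, e, mul_mem (pow_mem L.zQ _) h1, fun h => h2 ?_, ?_,
    d⁻¹ ^ k.val * g, by rw [mul_cj, h3]⟩
  · exact (mul_mem_cancel_left (pow_mem (mem_zpowers z) _)).mp h
  · rw [cj_mul, cj_fix.mpr (ht.pow_left _).symm, eq_mul_inv_of_mul_eq ek, mul_inv_rev, ← mul_assoc,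
      ← cube_inv (L.exp _ (pow_mem L.zQ _)), ((L.QC _ h1).pow_left _).inv_inv.eq]

variable {a : G} {P : Subgroup G} {ρ : G → S} (L' : Loc a P ρ)
include L'

theorem z_mem (ha : a ∈ Q) (h : a ∉ zpowers z) : z ∈ P := by
  obtain ⟨x, hx, y, hy, c1, c2, e⟩ := L.pair ha h
  have c := (L.QC a ha).symm
  have k : ∀ v ∈ Q, Commute a v → ρ v ^ 3 = 1 := fun v hv cv => by
    rw [← L'.ppow cv, L.exp v hv, L'.p1]
  have h1 := syl_comm _ _ (k x hx c1) (k y hy c2)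
    (by rw [← L'.mul _ _ c1 c2]; exact k _ (mul_mem hx hy) (c1.mul_right c2))
    (by rw [← L'.mul _ _ c1 c2, ← L'.mul _ _ (c1.mul_right c2) c2]
        exact k _ (mul_mem (mul_mem hx hy) hy) ((c1.mul_right c2).mul_right c2))
  rw [← L'.mul _ _ c1 c2, ← L'.mul _ _ c2 c1, L.of_one hx hy e, L'.mul _ _ c (c2.mul_right c1)]
    at h1
  exact (L'.ker z c).mp (mul_eq_right.mp h1)

theorem exists_s {t : G} (ha : a ∈ Q) (h : a ∉ zpowers z) (ht : Commute z t) (t2 : t * t = 1)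
    (ta : cj t a = a⁻¹) :
    ∃ s, s * s = 1 ∧ Commute s t ∧ cj s z = z⁻¹ ∧ cj s a = a⁻¹ := by
  have zP := L.z_mem L' ha h
  have za := L.QC a ha
  have tz := cj_fix.mpr ht.symm
  obtain ⟨d, hd, td, ed⟩ : ∃ d ∈ Q, cj t d = d⁻¹ ∧ bt z a d = 1 := by
    obtain ⟨d, hd, ed⟩ := L.exists_one ha h
    have h1 := L.norm ht (inv_mem hd)
    refine ⟨_, mul_mem (inv_mem hd) (inv_mem h1), neg_elt t2 _, ?_⟩
    have h2 := bt_cj t z a⁻¹ d⁻¹
    rw [tz, cj_inv t a, ta, inv_inv] at h2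
    rw [L.mulr ha (inv_mem hd) (inv_mem h1), L.invr ha h1, h2, L.invl ha (inv_mem hd),
      L.invr ha hd, ed]
    decide
  obtain ⟨q, hq, tq, eq⟩ : ∃ q ∈ P, cj t q = q⁻¹ ∧ bt a q z = 1 := by
    obtain ⟨q, hq, eq⟩ := L'.exists_one zP fun h => L.z1 (zp_triv L'.z3 ta h tz)
    have h1 := L'.norm' ta hq
    refine ⟨_, mul_mem hq (inv_mem h1), neg_elt t2 _, ?_⟩
    have h2 := L'.move' (x := q) (y := z) ta h1 (tz.symm ▸ zP)
    rw [tz] at h2
    rw [L'.mull hq (inv_mem h1) zP, L'.invl h1 zP, h2, L'.swap zP hq, eq]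
    decide
  have dz := cj_fix.mpr (L.QC d hd).symm
  have da : cj d a = z⁻¹ * a := by rw [cj_eq, mul_assoc, L.of_one ha hd ed, inv_mul_cancel_left]
  have qz : cj q z = a * z := by rw [cj_eq, L'.of_one hq zP eq, mul_assoc]
  have qa : cj q a = a := cj_fix.mpr (L'.QC q hq).symm
  have a1 : cj (d * q * d) z = a := by
    rw [mul_cj, mul_cj, dz, qz, ← za.eq, cj_mul, dz, da, mul_inv_cancel_left]
  have a2 : cj (d * q * d) a = z⁻¹ := by
    rw [mul_cj, mul_cj, da, cj_mul, cj_inv, qz, qa, mul_inv_rev, inv_mul_cancel_right, cj_inv, dz]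
  have tw : cj t (d * q * d) = (d * q * d)⁻¹ := by simp only [cj_mul, tq, td]; group
  generalize d * q * d = w at a1 a2 tw
  have b1 : cj (w * w) z = z⁻¹ := by rw [mul_cj, a1, a2]
  have b2 : cj (w * w) a = a⁻¹ := by rw [mul_cj, a2, cj_inv, a1]
  have c1 : cj (w * w * (w * w)) z = z := by rw [mul_cj, b1, cj_inv, b1, inv_inv]
  have c2 : cj (w * w * (w * w)) a = a := by rw [mul_cj, b2, cj_inv, b2, inv_inv]
  have h9 := L.stab9 ha h (cj_fix.mp c1).symm (cj_fix.mp c2).symm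
  have e : (w * w * (w * w)) ^ 4 * (w * w) = w ^ 18 := by
    simp only [pow_succ, pow_zero, one_mul, mul_assoc]
  have s2 : w ^ 18 * w ^ 18 = 1 := by rw [← h9]; simp only [pow_succ, pow_zero, one_mul, mul_assoc]
  refine ⟨w ^ 18, s2, (cj_fix.mp ?_).symm, ?_, ?_⟩
  · rw [cj_pow, tw, inv_pow, inv_eq_of_mul_eq_one_left s2]
  · rw [← e, mul_cj, b1, cj_inv, pow_cj c1]
  · rw [← e, mul_cj, b2, cj_inv, pow_cj c2]

theorem exists_yb {t s : G} (ha : a ∈ Q) (h : a ∉ zpowers z) (ht : Commute z t) (t2 : t * t = 1)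
    (pt : π t = n1) (ta : cj t a = a⁻¹) (s2 : s * s = 1) (st : Commute s t) (sz : cj s z = z⁻¹)
    (sa : cj s a = a⁻¹) :
    ∃ y b, y ^ 3 = 1 ∧ Commute z y ∧ Commute a y ∧ cj t y = y ∧ cj s y = y⁻¹ ∧ b ∈ Q ∧
      Commute a b ∧ cj s b = b ∧ cj y b = b * a⁻¹ := by
  have zP := L.z_mem L' ha h
  have tz := cj_fix.mpr ht.symm
  obtain ⟨x, hx, x', hx', c1, c2, e⟩ := L'.pair zP fun h => L.z1 (zp_triv L'.z3 ta h tz)
  obtain ⟨y0, h0, c0, n0⟩ : ∃ y ∈ P, Commute z y ∧ y ∉ Q := by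
    by_contra hn
    push Not at hn
    have := L.comm x (hn x hx c1) x' (hn x' hx' c2)
    rw [L'.of_one hx hx' e, show a * (x' * x) * x⁻¹ * x'⁻¹ = a by group] at this
    exact h this
  obtain ⟨y, hy, cy, ny, ty⟩ : ∃ y ∈ P, Commute z y ∧ y ∉ Q ∧ cj t y = y := by
    have h1 := L'.norm' ta h0
    have c3 := Loc0.Ccj ht c0
    have c4 := (c0.mul_right c3.inv_right).mul_right c0
    refine ⟨_, mul_mem (mul_mem h0 (inv_mem h1)) h0, c4, fun h => n0 ((L.ker _ c0).mp ?_),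
      fix_coset t2 (L'.exp _ (mul_mem (inv_mem h0) h1))⟩
    have := L.pQ h
    rwa [L.mul _ _ (c0.mul_right c3.inv_right) c0, L.mul _ _ c0 c3.inv_right, L.pinv c3,
      L.pcj ht c0, pt, n1_comm, mul_inv_cancel_right, mul_inv_cancel, one_mul] at this
  have d1 : Commute a (t * s) := (cj_fix.mp (by rw [mul_cj, sa, cj_inv, ta, inv_inv])).symm
  have d2 : ρ (t * s) = n1 := L'.pi_inv d1 (by
    rw [← st.eq, mul_assoc, st.eq, ← mul_assoc t, t2, one_mul, s2]) fun h => L.z1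
      (eq_one_of_inv L.z3 (by
        have := congrArg (cj · z) h
        simpa only [mul_cj, sz, cj_inv, tz, one_cj, eq_comm] using this))
  have sy : cj s y = y⁻¹ := by
    have := L'.tinv d1 d2 ta ((Commute.refl t).mul_right st.symm) hy ty
    rwa [← st.eq, mul_cj, ty] at this
  have ay := L'.QC y hy
  obtain ⟨b0, hb, hb', eb⟩ : ∃ b ∈ Q, b ∈ P ∧ bt a b y = 1 := by
    obtain ⟨v, hv, hv', ev⟩ : ∃ v ∈ Q, v ∈ P ∧ bt a v y ≠ 0 := by
      by_contra hn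
      push Not at hn
      obtain ⟨k, hk⟩ := L.stabQ ha h c1 (L'.QC x hx) cy ay ny
      obtain ⟨k', hk'⟩ := L.stabQ ha h c2 (L'.QC x' hx') cy ay ny
      have p1 := mul_mem hx (pow_mem hy k)
      have p2 := mul_mem hx' (pow_mem hy k')
      have e1 := bt_zero.mp (hn _ hk p1)
      have e2 := bt_zero.mp (hn _ hk' p2)
      have e3 : Commute (x * y ^ k) (x' * y ^ k') := commutatorElement_eq_one_iff_commute.mp
        (zp_triv L'.z3 ta (L'.comm _ p1 _ p2) (cj_fix.mpr (zp_comm ht (L.comm _ hk _ hk')).symm))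
      have e4 := (e3.mul_right (e1.pow_right k').inv_right).mul_left
        ((e2.pow_right k).symm.mul_right ((Commute.refl y).pow_pow k k').inv_right).inv_left
      simp only [mul_inv_cancel_right] at e4
      rw [bt_zero.mpr e4] at e
      exact zero_ne_one e
    have k : ∀ k : ZMod 3, k ≠ 0 → k = 1 ∨ -k = 1 := by decide
    rcases k _ ev with c | c
    · exact ⟨v, hv, hv', c⟩
    · exact ⟨v⁻¹, inv_mem hv, inv_mem hv', by rw [L'.invl hv' hy, c]⟩
  have f1 := L.norm' sz hb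
  have f2 := L'.norm' sa hb'
  have f3 := mul_mem (mul_mem hb' (inv_mem f2)) hb'
  have f4 := L'.move' (x := b0) (y := y) sa f2 (sy ▸ inv_mem hy)
  rw [sy, L'.invr f2 hy, neg_inj, eb] at f4
  have f5 : bt a (b0 * (cj s b0)⁻¹ * b0) y = 1 := by
    rw [L'.mull (mul_mem hb' (inv_mem f2)) hb' hy, L'.mull hb' (inv_mem f2) hy, L'.invl f2 hy,
      f4, eb]
    ring
  refine ⟨y, _, L'.exp y hy, cy, ay, ty, sy, mul_mem (mul_mem hb (inv_mem f1)) hb, L'.QC _ f3,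
    fix_coset s2 (L.exp _ (mul_mem (inv_mem hb) f1)), ?_⟩
  rw [cj_eq, ← (L'.QC _ f3).inv_left.eq, mul_assoc a⁻¹, L'.of_one f3 hy f5, inv_mul_cancel_left]

omit L' in
theorem exists_Bs {g : G} (h1 : cj g z ∈ Q) (h2 : cj g z ∉ zpowers z) :
    ∃ a b c d y t s, Bs z Q π a b c d y t s ∧ ∃ g, cj g z = a := by
  obtain ⟨t, a, ht, t2, pt, ha, h, ta, g, hg⟩ := L.exists_a h1 h2
  obtain ⟨P, ρ, L'⟩ : ∃ P ρ, Loc a P ρ := ⟨_, _, hg ▸ L.conj g⟩
  obtain ⟨s, s2, st, sz, sa⟩ := L.exists_s L' ha h ht t2 ta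
  obtain ⟨y, b, y3, zy, ay, ty, sy, hb, ab, sb, yb⟩ := L.exists_yb L' ha h ht t2 pt ta s2 st sz sa
  have ya := cj_fix.mpr ay.symm
  have yb' : cj y⁻¹ b = b * a := inv_cj (by rw [cj_mul, yb, ya, inv_mul_cancel_right])
  have g_ab := bt_zero (z := z).mpr ab
  obtain ⟨d1, hd1, sd1, e1⟩ : ∃ d ∈ Q, cj s d = d ∧ bt z a d = 1 := by
    obtain ⟨d, hd, ed⟩ := L.exists_one ha h
    have f1 := L.norm' sz hd
    have f2 := L.move' (x := a) (y := d) sz (sa ▸ inv_mem ha) f1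
    rw [sa, L.invl ha f1, neg_inj, ed] at f2
    refine ⟨_, mul_mem (mul_mem hd (inv_mem f1)) hd, fix_coset s2 (L.exp _
      (mul_mem (inv_mem hd) f1)), ?_⟩
    rw [L.mulr ha (mul_mem hd (inv_mem f1)) hd, L.mulr ha hd (inv_mem f1), L.invr ha f1, f2, ed]
    ring
  have k : ∀ d ∈ Q, cj s d = d → bt z a d = 1 →
      bt z (cj y d) a = -1 ∧ bt z (cj y d) b = -1 ∧ bt z d b = 0 := fun d hd sd e => by
    have := bt_zero (z := z).mpr (L.fix_comm sz hd hb sd sb)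
    refine ⟨?_, ?_, this⟩ <;> rw [Loc0.move zy]
    · rw [inv_cj_fix ya, L.swap ha hd, e]
    · rw [yb', L.mulr hd hb ha, this, L.swap ha hd, e, zero_add]
  obtain ⟨d, hd, sd, ed, e2⟩ : ∃ d ∈ Q, cj s d = d ∧ bt z a d = 1 ∧ bt z (cj y d) d = 0 := by
    obtain ⟨k1, k2, k3⟩ := k d1 hd1 sd1 e1
    have f1 := L.norm zy hd1
    have f2 := mul_mem hb (inv_mem ha)
    refine ⟨d1 * b ^ (-bt z (cj y d1) d1).val, mul_mem hd1 (pow_mem hb _),
      by rw [cj_mul, cj_pow, sd1, sb], by rw [L.mulr ha hd1 (pow_mem hb _), L.powr ha hb, g_ab, e1,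
        mul_zero, add_zero], ?_⟩
    rw [cj_mul, cj_pow, yb, L.mull f1 (pow_mem f2 _) (mul_mem hd1 (pow_mem hb _)),
      L.mulr f1 hd1 (pow_mem hb _), L.powr f1 hb, L.powl f2 (mul_mem hd1 (pow_mem hb _)),
      L.mulr f2 hd1 (pow_mem hb _), L.powr f2 hb, L.mull hb (inv_mem ha) hd1,
      L.mull hb (inv_mem ha) hb, L.invl ha hd1, L.invl ha hb, k2, e1, g_ab, L.swap hd1 hb, k3,
      bt_self]
    simp only [ZMod.natCast_val, ZMod.cast_id', id_eq]
    generalize bt z (cj y d1) d1 = m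
    revert m; decide
  obtain ⟨k1, k2, k3⟩ := k d hd sd ed
  have f1 := L.norm zy hd
  obtain ⟨c, yd⟩ : ∃ c, cj y d = d * c := ⟨d⁻¹ * cj y d, by group⟩
  have hc : c ∈ Q := (mul_mem_cancel_left hd).mp (yd ▸ f1)
  rw [yd] at k1 k2 e2
  rw [L.mull hd hc ha, L.swap ha hd, ed, add_eq_left] at k1
  rw [L.mull hd hc hb, k3, zero_add] at k2
  rw [L.mull hd hc hd, bt_self, zero_add] at e2
  have td := L.tinv ht pt sz st hd sd
  have cd := bt_zero.mp e2
  have tc : cj t c = c⁻¹ := by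
    have := congrArg (cj t) yd
    rw [cj_cj, ty, td, cj_inv, yd, cj_mul, td, mul_inv_rev, cd.inv_inv.eq] at this
    exact (mul_left_cancel this).symm
  have bc : bt z b c = 1 := by rw [L.swap hc hb, k2, neg_neg]
  have yc : cj y c = c := by
    have f2 := L.norm zy hc
    have f3 := L.norm zy.inv_right hc
    have g1 : c * cj y c * cj y⁻¹ c = 1 := by
      have := congrArg (cj y) (congrArg (cj y) yd)
      rw [← mul_cj, ← mul_cj, ← pow_three', y3, one_cj, cj_mul, yd, cj_mul, cj_mul, yd,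
        ← mul_cj y y c, ← cube_inv y3, mul_assoc, mul_assoc, left_eq_mul] at this
      rw [mul_assoc, this]
    have g2 : bt z (cj y⁻¹ c) d = 0 := by
      rw [Loc0.move zy.inv_right, inv_inv, yd, L.mulr hc hd hc, e2, bt_self, add_zero]
    have g3 : bt z (cj y c) d = 0 := by
      have := bt_zero (z := z).mpr (Commute.one_left d)
      rwa [← g1, L.mull (mul_mem hc f2) f3 hd, L.mull hc f2 hd, e2, g2, zero_add, add_zero] at this
    have g4 : bt z (cj y c) c = 0 := by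
      have := bt_cj y z c d
      rwa [cj_fix.mpr zy.symm, yd, L.mulr f2 hd hc, g3, e2, zero_add] at this
    have g5 : ∀ v ∈ Q, bt z (cj y c) v = bt z c v → bt z (cj y c * c⁻¹) v = 0 := fun v hv e => by
      rw [L.mull f2 (inv_mem hc) hv, L.invl hc hv, e, add_neg_cancel]
    refine L.eq_of_inv ht hc (by rw [cj_cj, ty, tc, cj_inv]) tc (L.span ha hb hc hd g_ab
      (by rw [L.swap hc ha, k1, neg_zero]) (by rw [L.swap hd hb, k3, neg_zero]) e2 bc ed
      (mul_mem f2 (inv_mem hc)) (g5 a ha ?_) (g5 b hb ?_) (g5 c hc ?_) (g5 d hd ?_))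
    · rw [Loc0.move zy, inv_cj_fix ya]
    · rw [Loc0.move zy, yb', L.mulr hc hb ha, k1, add_zero]
    · rw [g4, bt_self]
    · rw [g3, e2]
  have sc : cj s c = c⁻¹ := by
    have := congrArg (cj s) yd
    rw [cj_cj, sy, sd, cj_mul, sd, inv_cj (g := y) (x := d * c⁻¹) (by
      rw [cj_mul, cj_inv, yd, yc, mul_inv_cancel_right])] at this
    exact (mul_left_cancel this).symm
  exact ⟨a, b, c, d, y, t, s, ⟨L, ha, hb, hc, hd, ab, (bt_zero.mp k1).symm, (bt_zero.mp k3).symm,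
    cd, L.of_one hb hc bc, L.of_one ha hd ed, y3, zy, ya, yc, yb, yd, t2, ht, ta,
    L.tinv ht pt sz st hb sb, tc, td, ty, s2, st, sz, sa, sb, sc, sd, sy⟩, g, hg⟩

end Loc

end Cfsg.Agent.H3.L43
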