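import Cfsg.Agent.H3.L43LocW
import Cfsg.Agent.H3.L43LocD
import Cfsg.Prelude.Def_Solvable
import Cfsg.Prelude.Def_CaseTheorems
import Cfsg.Prelude.Def_Transfer

/-!
# From the chief factor hypothesis to the local structure
-/

set_option autoImplicit false

namespace Cfsg.Agent.H3.L43

open Subgroup

universe u

variable {G : Type u} [Group G]

namespace Loc0

variable {z : G} {Q : Subgroup G} {π : G → S} (L : Loc0 z Q π)
include L

theorem model : ∃ (W : Type u) (_ : AddCommGroup W) (κ : G → W), Nat.card W = 81 ∧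
    (∀ x ∈ Q, ∀ y ∈ Q, κ (x * y) = κ x + κ y) ∧ (∀ x ∈ Q, κ x = 0 ↔ x ∈ zpowers z) ∧
    ∀ w, ∃ x ∈ Q, κ x = w := by
  classical
  have hN : ((zpowers z).subgroupOf Q).Normal := ⟨fun n hn g => by
    rw [mem_subgroupOf] at hn ⊢
    have := (zp_comm (L.QC g g.2) hn).eq
    simpa [← this] using hn⟩
  let _ : CommGroup (Q ⧸ (zpowers z).subgroupOf Q) :=
    { QuotientGroup.Quotient.group _ with
      mul_comm := by
        rintro ⟨x⟩ ⟨y⟩
        refine QuotientGroup.eq.mpr ?_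
        have := L.comm _ (inv_mem y.2) _ (inv_mem x.2)
        simpa [mem_subgroupOf, mul_assoc] using this }
  refine ⟨Additive (Q ⧸ (zpowers z).subgroupOf Q), inferInstance,
    fun x => if h : x ∈ Q then Additive.ofMul (QuotientGroup.mk ⟨x, h⟩) else 0, ?_,
    fun x hx y hy => ?_, fun x hx => ?_, fun w => ?_⟩
  · have := ((zpowers z).subgroupOf Q).card_eq_card_quotient_mul_card_subgroup
    rw [L.card, L.card_Z] at this
    show Nat.card (Q ⧸ (zpowers z).subgroupOf Q) = 81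
    omega
  · simp only [dif_pos hx, dif_pos hy, dif_pos (mul_mem hx hy)]
    rfl
  · simp only [dif_pos hx]
    exact QuotientGroup.eq_one_iff (N := (zpowers z).subgroupOf Q) (⟨x, hx⟩ : Q)
  · obtain ⟨x, e⟩ := QuotientGroup.mk_surjective w.toMul
    exact ⟨x, x.2, by simp only [dif_pos x.2]; exact congrArg Additive.ofMul e⟩

theorem toLoc {A1 B1 A2 B2 : Subgroup G} (h0 : zpowers z ≤ A1) (h1 : A1 < B1) (h12 : B1 ≤ A2)
    (h2 : A2 < B2) (h3 : B2 ≤ Q)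
    (i1 : ∀ g, Commute z g → ∀ x ∈ A1, cj g x ∈ A1) (j1 : ∀ g, Commute z g → ∀ x ∈ B1, cj g x ∈ B1)
    (i2 : ∀ g, Commute z g → ∀ x ∈ A2, cj g x ∈ A2) (j2 : ∀ g, Commute z g → ∀ x ∈ B2, cj g x ∈ B2)
    (r1 : ∀ D, A1 < D → D < B1 → ∃ g, Commute z g ∧ ∃ x ∈ D, cj g x ∉ D)
    (r2 : ∀ D, A2 < D → D < B2 → ∃ g, Commute z g ∧ ∃ x ∈ D, cj g x ∉ D)
    (c1 : ∃ g, Commute z g ∧ ∃ x ∈ B1, cj g x * x⁻¹ ∉ A1)
    (c2 : ∃ g, Commute z g ∧ ∃ x ∈ B2, cj g x * x⁻¹ ∉ A2) : Loc z Q π := by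
  obtain ⟨W, _, κ, hW, k1, k2, k3⟩ := L.model
  choose σ s1 s2 using k3
  choose τ t1 t2 using L.surj
  have k0 : κ 1 = 0 := (k2 1 Q.one_mem).mpr (one_mem _)
  have ki : ∀ x ∈ Q, κ x⁻¹ = -κ x := fun x hx =>
    eq_neg_of_add_eq_zero_left (by rw [← k1 _ (inv_mem hx) _ hx, inv_mul_cancel, k0])
  have ke : ∀ x ∈ Q, ∀ y ∈ Q, κ x = κ y ↔ x * y⁻¹ ∈ zpowers z := fun x hx y hy => by
    rw [← k2 _ (mul_mem hx (inv_mem hy)), k1 _ hx _ (inv_mem hy), ki y hy, add_neg_eq_zero]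
  have key : ∀ g, Commute z g → ∀ x ∈ Q, κ (cj (τ (π g)) (σ (κ x))) = κ (cj g x) :=
    fun g hg x hx => by
      have hq := (L.ker _ (hg.inv_right.mul_right (t1 (π g)))).mp (by
        rw [L.mul _ _ hg.inv_right (t1 _), L.pinv hg, t2, inv_mul_cancel])
      rw [show τ (π g) = g * (g⁻¹ * τ (π g)) by group, mul_cj,
        ke _ (L.norm hg (L.norm (L.QC _ hq) (s1 _))) _ (L.norm hg hx), ← cj_inv, ← cj_mul]
      refine cj_zp ((cj_fix.mpr hg.symm).symm ▸ mem_zpowers z) ?_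
      rw [← ke _ (L.norm (L.QC _ hq) (s1 _)) _ hx, cj, k1 _ (mul_mem hq (s1 _)) _ (inv_mem hq),
        k1 _ hq _ (s1 _), ki _ hq, s2]
      abel
  let _ : DistribMulAction S W :=
    { smul := fun X w => κ (cj (τ X) (σ w))
      one_smul := fun w => by
        show κ (cj (τ 1) (σ w)) = w
        have := key 1 (Commute.one_right z) _ (s1 w)
        rwa [L.p1, s2, one_cj, s2] at this
      mul_smul := fun X Y w => by
        show κ (cj (τ (X * Y)) (σ w)) = κ (cj (τ X) (σ (κ (cj (τ Y) (σ w)))))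
        have e1 := key _ (t1 X) _ (L.norm (t1 Y) (s1 w))
        have e2 := key _ ((t1 X).mul_right (t1 Y)) _ (s1 w)
        rw [L.mul _ _ (t1 X) (t1 Y), t2, t2, s2] at e2
        rw [t2] at e1
        rw [e1, e2, mul_cj]
      smul_zero := fun X => by
        show κ (cj (τ X) (σ 0)) = 0
        have := key _ (t1 X) 1 Q.one_mem
        rwa [t2, k0, cj_one, k0] at this
      smul_add := fun X v w => by
        show κ (cj (τ X) (σ (v + w))) = κ (cj (τ X) (σ v)) + κ (cj (τ X) (σ w))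
        have := key _ (t1 X) _ (mul_mem (s1 v) (s1 w))
        rwa [t2, k1 _ (s1 v) _ (s1 w), s2, s2, cj_mul,
          k1 _ (L.norm (t1 X) (s1 v)) _ (L.norm (t1 X) (s1 w))] at this }
  have key' : ∀ g, Commute z g → ∀ x ∈ Q, π g • κ x = κ (cj g x) := key
  let im : Subgroup G → AddSubgroup W := fun A =>
    { carrier := {w | ∃ x ∈ A, x ∈ Q ∧ κ x = w}
      zero_mem' := ⟨1, A.one_mem, Q.one_mem, k0⟩
      add_mem' := by
        rintro _ _ ⟨x, hx, hx', rfl⟩ ⟨y, hy, hy', rfl⟩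
        exact ⟨x * y, mul_mem hx hy, mul_mem hx' hy', k1 x hx' y hy'⟩
      neg_mem' := by
        rintro _ ⟨x, hx, hx', rfl⟩
        exact ⟨x⁻¹, inv_mem hx, inv_mem hx', ki x hx'⟩ }
  let pre : AddSubgroup W → Subgroup G := fun D =>
    { carrier := {x | x ∈ Q ∧ κ x ∈ D}
      one_mem' := ⟨Q.one_mem, k0 ▸ D.zero_mem⟩
      mul_mem' := fun {x y} hx hy => ⟨mul_mem hx.1 hy.1, k1 x hx.1 y hy.1 ▸ D.add_mem hx.2 hy.2⟩
      inv_mem' := fun {x} hx => ⟨inv_mem hx.1, ki x hx.1 ▸ D.neg_mem hx.2⟩ }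
  have m1 : ∀ A, zpowers z ≤ A → ∀ x ∈ Q, κ x ∈ im A → x ∈ A := by
    rintro A hA x hx ⟨y, hy, hy', e⟩
    exact (mul_mem_cancel_right (inv_mem hy)).mp (hA ((ke x hx y hy').mp e.symm))
  have m2 : ∀ A B, A ≤ B → im A ≤ im B := fun A B h w ⟨x, hx, e⟩ => ⟨x, h hx, e⟩
  have m3 : ∀ A B, zpowers z ≤ A → A < B → B ≤ Q → im A < im B := fun A B h h' h'' => by
    obtain ⟨x, hx, hx'⟩ := SetLike.exists_of_lt h'
    exact SetLike.lt_iff_le_and_exists.mpr ⟨m2 _ _ h'.le, κ x,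
      (⟨x, hx, h'' hx, rfl⟩ : ∃ y ∈ B, y ∈ Q ∧ κ y = κ x),
      fun k => hx' (m1 A h x (h'' hx) k)⟩
  have m4 : ∀ A : Subgroup G, (∀ g, Commute z g → ∀ x ∈ A, cj g x ∈ A) → Inv (im A) := by
    rintro A h X _ ⟨x, hx, hx', rfl⟩
    exact ⟨_, h _ (t1 X) x hx, L.norm (t1 X) hx', by rw [← key' _ (t1 X) x hx', t2]⟩
  have m5 : ∀ A B : Subgroup G, zpowers z ≤ A → A ≤ B → B ≤ Q →
      (∀ D, A < D → D < B → ∃ g, Commute z g ∧ ∃ x ∈ D, cj g x ∉ D) →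
      ∀ D, im A < D → D < im B → ¬ Inv D := fun A B h h' h'' r D d1 d2 iD => by
    obtain ⟨v, hv, hv'⟩ := SetLike.exists_of_lt d1
    obtain ⟨_, ⟨x, hx, hx', rfl⟩, hw'⟩ := SetLike.exists_of_lt d2
    obtain ⟨g, hg, y, hy, hy'⟩ := r (pre D) (SetLike.lt_iff_le_and_exists.mpr
      ⟨fun y hy => ⟨h'' (h' hy), d1.le ⟨y, hy, h'' (h' hy), rfl⟩⟩, σ v,
        (⟨s1 v, (s2 v).symm ▸ hv⟩ : σ v ∈ Q ∧ κ (σ v) ∈ D),
        fun k => hv' ⟨_, k, s1 v, s2 v⟩⟩) (SetLike.lt_iff_le_and_exists.mpr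
      ⟨fun y hy => m1 B (h.trans h') y hy.1 (d2.le hy.2), x, hx, fun k => hw' k.2⟩)
    exact hy' ⟨L.norm hg hy.1, key' g hg y hy.1 ▸ iD _ _ hy.2⟩
  have m6 : ∀ A B : Subgroup G, zpowers z ≤ A → B ≤ Q →
      (∃ g, Commute z g ∧ ∃ x ∈ B, cj g x * x⁻¹ ∉ A) →
      ∃ X : S, ∃ w ∈ im B, X • w - w ∉ im A := by
    rintro A B h h' ⟨g, hg, x, hx, hx'⟩
    refine ⟨π g, κ x, ⟨x, hx, h' hx, rfl⟩, fun k => hx' (m1 A h _
      (mul_mem (L.norm hg (h' hx)) (inv_mem (h' hx))) ?_)⟩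
    rwa [k1 _ (L.norm hg (h' hx)) _ (inv_mem (h' hx)), ki _ (h' hx), ← key' g hg x (h' hx),
      ← sub_eq_add_neg]
  have z2 := h0.trans (h1.le.trans h12)
  have q1 := h12.trans (h2.le.trans h3)
  refine ⟨L, fun t ht e v hv => ?_⟩
  have := inverts hW (fun w => by
      rw [← s2 w, ← k1 _ (s1 w) _ (s1 w), ← k1 _ (mul_mem (s1 w) (s1 w)) _ (s1 w), ← pow_three',
        L.exp _ (s1 w), k0])
    (m3 _ _ h0 h1 q1) (m2 _ _ h12) (m3 _ _ z2 h2 h3) (m4 _ i1) (m4 _ j1) (m4 _ i2) (m4 _ j2)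
    (m5 _ _ h0 h1.le q1 r1) (m5 _ _ z2 h2.le h3 r2) (m6 _ _ h0 q1 c1) (m6 _ _ z2 h3 c2) (κ v)
  rwa [← e, key' t ht v hv, ← k1 _ (L.norm ht hv) _ hv, k2 _ (mul_mem (L.norm ht hv) hv)] at this

end Loc0

theorem exists_loc [Finite G]
    (S : Sylow 3 G) (Z : Subgroup G) (hZ : Z = (S : Subgroup G) ⊓ Subgroup.centralizer ((S : Subgroup G) : Set G))
    (C : Subgroup G) (hCZ : C = Subgroup.centralizer (Z : Set G))
    (Q : Subgroup G) (hQ : Q = (Cfsg.pCore 3 C).map C.subtype)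
    (hQex : Cfsg.IsExtraspecial 3 Q) (hQcard : Nat.card Q = 3 ^ 5) (hQexp : ∀ a ∈ Q, a ^ 3 = 1)
    (hCQ : Subgroup.centralizer (Q : Set G) ≤ Q)
    (hZQ : ∃ x : G, Z.map (MulAut.conj x).toMonoidHom ≤ Q ∧ Z.map (MulAut.conj x).toMonoidHom ≠ Z)
    (K : Subgroup G) (hK : K = ((Cfsg.pResidual 2 (C ⧸ Cfsg.pCore 3 C)).comap (QuotientGroup.mk' (Cfsg.pCore 3 C))).map C.subtype)
    (r : ℕ) (A : Fin (r + 1) → Subgroup G) (hA0 : A 0 = Z) (hAr : A (Fin.last r) = Q)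
    (hmono : ∀ i : Fin r, A i.castSucc < A i.succ)
    (hinv : ∀ i : Fin (r + 1), ∀ k ∈ K, ∀ a ∈ A i, k * a * k⁻¹ ∈ A i)
    (hmax : ∀ i : Fin r, ∀ B : Subgroup G, A i.castSucc < B → B < A i.succ → ∃ k ∈ K, ∃ b ∈ B, k * b * k⁻¹ ∉ B)
    (e : C ⧸ Cfsg.pCore 3 C ≃* Matrix.SpecialLinearGroup (Fin 2) (ZMod 3))
    (htwo : ∃ i j : Fin r, i ≠ j ∧ (∃ k ∈ K, ∃ a ∈ A i.succ, k * a * k⁻¹ * a⁻¹ ∉ A i.castSucc) ∧ (∃ k ∈ K, ∃ a ∈ A j.succ, k * a * k⁻¹ * a⁻¹ ∉ A j.castSucc) ∧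
      ∀ l : Fin r, (∃ k ∈ K, ∃ a ∈ A l.succ, k * a * k⁻¹ * a⁻¹ ∉ A l.castSucc) → l = i ∨ l = j) :
    ¬ 3 ^ 7 ∣ Nat.card G ∧ ∃ z π, Loc z Q π ∧ ∃ g, cj g z ∈ Q ∧ cj g z ∉ zpowers z := by
  classical
  have : Fact (Nat.Prime 3) := ⟨by norm_num⟩
  obtain ⟨g, hg1, hg2⟩ := hZQ
  have QC : Q ≤ C := hQ ▸ map_subtype_le _
  have ZQ : Z ≤ Q := fun w hw => hCQ fun x hx => ((hCZ ▸ QC hx) w hw).symm
  have ZC : Z ≤ (center Q).map Q.subtype := fun w hw => ⟨⟨w, ZQ hw⟩,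
    mem_center_iff.mpr fun x => Subtype.ext ((hCZ ▸ QC x.2) w hw).symm, rfl⟩
  have cZ : Nat.card ((center Q).map Q.subtype) = 3 := by
    rw [card_map_of_injective Q.subtype_injective, hQex.2]
  obtain ⟨⟨z, hz⟩, z1⟩ := (ne_bot_iff_exists_ne_one (H := Z)).mp (by
    rintro rfl; exact hg2 (map_bot _))
  replace z1 : z ≠ 1 := fun h => z1 (Subtype.ext h)
  have z3 := hQexp z (ZQ hz)
  have e1 : zpowers z = (center Q).map Q.subtype :=
    eq_of_le_of_card_ge ((zpowers_le.mpr hz).trans ZC) (by rw [cZ, card_zp z3 z1])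
  have e2 : Z = zpowers z := le_antisymm (e1 ▸ ZC) (zpowers_le.mpr hz)
  have mC : ∀ x, x ∈ C ↔ Commute z x := fun x => by
    rw [hCZ, e2]
    exact ⟨fun h => h z (mem_zpowers z), fun h w hw => zp_comm h hw⟩
  let f : C →* L43.S := (e.trans eS).toMonoidHom.comp (QuotientGroup.mk' _)
  have fk : ∀ x : C, f x = 1 ↔ x.1 ∈ Q := fun x => by
    rw [hQ]
    refine ((e.trans eS).map_eq_one_iff).trans ((QuotientGroup.eq_one_iff x).trans
      ⟨fun h => ⟨x, h, rfl⟩, fun ⟨y, h, e⟩ => by rwa [← Subtype.ext e]⟩)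
  have L : Loc0 z Q fun x => if h : x ∈ C then f ⟨x, h⟩ else 1 := by
    refine ⟨z1, ZQ hz, fun x hx => (mC x).mp (QC hx), hQexp, fun x hx y hy => ?_,
      fun x hx h => ?_, hQcard, fun x y hx hy => ?_, fun x hx => ?_, fun X => ?_⟩
    · rw [e1, ← hQex.1.2.2]
      exact ⟨_, commutator_mem_commutator (mem_top (⟨x, hx⟩ : Q)) (mem_top (⟨y, hy⟩ : Q)), rfl⟩
    · rw [e1]
      exact ⟨⟨x, hx⟩, mem_center_iff.mpr fun y => Subtype.ext (h y y.2).symm, rfl⟩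
    · rw [dif_pos ((mC x).mpr hx), dif_pos ((mC y).mpr hy), dif_pos ((mC _).mpr (hx.mul_right hy)),
        ← map_mul]
      rfl
    · rw [dif_pos ((mC x).mpr hx), fk]
    · obtain ⟨x, hx⟩ := QuotientGroup.mk'_surjective _ ((e.trans eS).symm X)
      refine ⟨x, (mC x).mp x.2, ?_⟩
      rw [dif_pos x.2]
      show (e.trans eS) (QuotientGroup.mk' _ x) = X
      rw [hx, MulEquiv.apply_symm_apply]
  have mK : ∀ x, x ∈ K ↔ Commute z x := fun x => by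
    rw [← mC, hK]
    refine ⟨fun h => map_subtype_le _ h, fun h => ⟨⟨x, h⟩, ?_, rfl⟩⟩
    show QuotientGroup.mk' _ (⟨x, h⟩ : C) ∈ pResidual 2 _
    generalize QuotientGroup.mk' (pCore 3 C) (⟨x, h⟩ : C) = v
    obtain ⟨Y1, h1, Y2, h2, Y3, h3, e'⟩ := three ((e.trans eS) v)
    have k : ∀ Y : L43.S, Y ^ 3 = 1 → (e.trans eS).symm Y ∈ pResidual 2 (C ⧸ pCore 3 C) :=
      fun Y hY => subset_closure (Nat.Coprime.coprime_dvd_left (orderOf_dvd_of_pow_eq_one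
        (n := 3) (by rw [← map_pow, hY, map_one])) (by norm_num))
    rw [← (e.trans eS).symm_apply_apply v, e', map_mul, map_mul]
    exact mul_mem (mul_mem (k _ h1) (k _ h2)) (k _ h3)
  refine ⟨fun h7 => ?_, z, fun x => if h : x ∈ C then f ⟨x, h⟩ else 1, ?_, g,
    hg1 ⟨z, hz, rfl⟩, fun h => hg2 ?_⟩
  · have h1 : (S : Subgroup G) ≤ C := fun x hx => by
      rw [hCZ, hZ]; exact fun w hw => (hw.2 x hx).symm
    have h2 := (pCore 3 C).card_eq_card_quotient_mul_card_subgroup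
    rw [Nat.card_congr (e.trans eS).toEquiv, card_S,
      ← card_map_of_injective (K := pCore 3 C) C.subtype_injective, ← hQ, hQcard] at h2
    have h3 := (S.pow_dvd_card_of_pow_dvd_card h7).trans (card_dvd_of_le h1)
    rw [h2] at h3
    norm_num at h3
  · have mono : Monotone A := Fin.monotone_iff_le_succ.mpr fun i => (hmono i).le
    have main : ∀ i j : Fin r, i < j →
        (∃ k ∈ K, ∃ a ∈ A i.succ, k * a * k⁻¹ * a⁻¹ ∉ A i.castSucc) →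
        (∃ k ∈ K, ∃ a ∈ A j.succ, k * a * k⁻¹ * a⁻¹ ∉ A j.castSucc) →
        Loc z Q fun x => if h : x ∈ C then f ⟨x, h⟩ else 1 := fun i j hij c1 c2 => by
      simp only [mK] at hinv hmax c1 c2
      exact L.toLoc (e2 ▸ hA0 ▸ mono (Fin.zero_le _)) (hmono i)
        (mono (Fin.succ_le_castSucc_iff.mpr hij)) (hmono j) (hAr ▸ mono (Fin.le_last _))
        (hinv _) (hinv _) (hinv _) (hinv _) (hmax i) (hmax j) c1 c2
    obtain ⟨i, j, hij, c1, c2, -⟩ := htwo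
    rcases lt_or_gt_of_ne hij with h | h
    exacts [main i j h c1 c2, main j i h c2 c1]
  · refine eq_of_le_of_card_ge ?_ (card_map_of_injective (MulAut.conj g).injective).ge
    rw [e2]
    rintro _ ⟨w, hw, rfl⟩
    exact cj_zp h hw

end Cfsg.Agent.H3.L43
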