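import Mathlib

/-!
# A small model of `SL₂(3)`
-/

set_option autoImplicit false
set_option maxRecDepth 100000
set_option synthInstance.maxSize 100000

namespace Cfsg.Agent.H3.L43

/-- Two by two matrices of determinant one over the field of three elements. -/
@[ext] structure S where
  /-- An entry. -/
  a : ZMod 3
  /-- An entry. -/
  b : ZMod 3
  /-- An entry. -/
  c : ZMod 3
  /-- An entry. -/
  d : ZMod 3
  h : a * d - b * c = 1

instance instDecEqS : DecidableEq S := fun x y =>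
  decidable_of_iff (x.a = y.a ∧ x.b = y.b ∧ x.c = y.c ∧ x.d = y.d) S.ext_iff.symm

instance instMulS : Mul S := ⟨fun x y => ⟨x.a * y.a + x.b * y.c, x.a * y.b + x.b * y.d,
  x.c * y.a + x.d * y.c, x.c * y.b + x.d * y.d, by
    linear_combination (y.a * y.d - y.b * y.c) * x.h + y.h⟩⟩

instance instOneS : One S := ⟨⟨1, 0, 0, 1, by simp⟩⟩

instance instInvS : Inv S := ⟨fun x => ⟨x.d, -x.b, -x.c, x.a, by linear_combination x.h⟩⟩

theorem S.mul_def (x y : S) : x * y = ⟨x.a * y.a + x.b * y.c, x.a * y.b + x.b * y.d,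
  x.c * y.a + x.d * y.c, x.c * y.b + x.d * y.d, by
    linear_combination (y.a * y.d - y.b * y.c) * x.h + y.h⟩ := rfl

theorem S.one_def : (1 : S) = ⟨1, 0, 0, 1, by simp⟩ := rfl

theorem S.inv_def (x : S) : x⁻¹ = ⟨x.d, -x.b, -x.c, x.a, by linear_combination x.h⟩ := rfl

instance instGroupS : Group S where
  mul_assoc x y w := by ext <;> simp only [S.mul_def] <;> ring
  one_mul x := by ext <;> simp only [S.mul_def, S.one_def] <;> ring
  mul_one x := by ext <;> simp only [S.mul_def, S.one_def] <;> ring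
  inv_mul_cancel x := by
    have := x.h
    ext <;> simp only [S.mul_def, S.one_def, S.inv_def]
    · linear_combination this
    · ring
    · ring
    · linear_combination this

/-- The list of all elements. -/
def LS : List S :=
  [⟨0, 1, 2, 0, by decide⟩, ⟨0, 1, 2, 1, by decide⟩, ⟨0, 1, 2, 2, by decide⟩,
   ⟨0, 2, 1, 0, by decide⟩, ⟨0, 2, 1, 1, by decide⟩, ⟨0, 2, 1, 2, by decide⟩,
   ⟨1, 0, 0, 1, by decide⟩, ⟨1, 0, 1, 1, by decide⟩, ⟨1, 0, 2, 1, by decide⟩,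
   ⟨1, 1, 0, 1, by decide⟩, ⟨1, 1, 1, 2, by decide⟩, ⟨1, 1, 2, 0, by decide⟩,
   ⟨1, 2, 0, 1, by decide⟩, ⟨1, 2, 1, 0, by decide⟩, ⟨1, 2, 2, 2, by decide⟩,
   ⟨2, 0, 0, 2, by decide⟩, ⟨2, 0, 1, 2, by decide⟩, ⟨2, 0, 2, 2, by decide⟩,
   ⟨2, 1, 0, 2, by decide⟩, ⟨2, 1, 1, 1, by decide⟩, ⟨2, 1, 2, 0, by decide⟩,
   ⟨2, 2, 0, 2, by decide⟩, ⟨2, 2, 1, 0, by decide⟩, ⟨2, 2, 2, 1, by decide⟩]

theorem mem_LS (x : S) : x ∈ LS := by
  obtain ⟨a, b, c, d, h⟩ := x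
  have : ∀ a b c d : ZMod 3, a * d - b * c = 1 →
      ∃ y ∈ LS, y.a = a ∧ y.b = b ∧ y.c = c ∧ y.d = d := by decide +kernel
  obtain ⟨y, hy, e⟩ := this a b c d h
  rwa [show (⟨a, b, c, d, h⟩ : S) = y from (S.ext_iff.mpr e).symm]

instance instFintypeS : Fintype S := ⟨⟨(LS : Multiset S), by decide +kernel⟩, mem_LS⟩

theorem card_S : Nat.card S = 24 := by rw [Nat.card_eq_fintype_card]; rfl

/-- The model is the special linear group. -/
def eS : Matrix.SpecialLinearGroup (Fin 2) (ZMod 3) ≃* S where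
  toFun A := ⟨A 0 0, A 0 1, A 1 0, A 1 1, by rw [← Matrix.det_fin_two, A.2]⟩
  invFun x := ⟨!![x.a, x.b; x.c, x.d], by rw [Matrix.det_fin_two_of, x.h]⟩
  left_inv A := by ext i j; fin_cases i <;> fin_cases j <;> rfl
  right_inv x := rfl
  map_mul' A B := by
    ext <;> simp [S.mul_def, Matrix.mul_apply, Fin.sum_univ_two]

/-- The central involution. -/
def n1 : S := ⟨2, 0, 0, 2, by decide⟩
/-- A quaternion unit. -/
def qI : S := ⟨0, 1, 2, 0, by decide⟩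
/-- A quaternion unit. -/
def qJ : S := ⟨1, 1, 1, 2, by decide⟩
/-- An element of order three. -/
def qW : S := ⟨0, 1, 2, 2, by decide⟩

theorem n1_comm : ∀ X : S, n1 * X = X * n1 := by decide +kernel
theorem n1_sq : n1 * n1 = 1 := by decide +kernel
theorem n1_ne : n1 ≠ 1 := by decide +kernel
theorem n1_cube : n1 ^ 3 = n1 := by decide +kernel
theorem sq_one : ∀ X : S, X * X = 1 → X = 1 ∨ X = n1 := by decide +kernel
theorem ord_cases : ∀ X : S, X ^ 3 = 1 ∨ X ^ 3 = n1 ∨ X ^ 2 = n1 := by decide +kernel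
theorem syl : ∀ X Y : S, Y ≠ 1 → X ^ 3 = 1 → Y ^ 3 = 1 → (X * Y) ^ 3 = 1 →
    (X * Y * Y) ^ 3 = 1 → X = 1 ∨ X * Y = 1 ∨ X * Y * Y = 1 := by decide +kernel
theorem syl_comm : ∀ X Y : S, X ^ 3 = 1 → Y ^ 3 = 1 → (X * Y) ^ 3 = 1 →
    (X * Y * Y) ^ 3 = 1 → X * Y = Y * X := by decide +kernel
theorem partner : ∀ Y : S, Y ≠ 1 → Y ^ 3 = 1 → ∃ P : S,
    Y * (P * Y * P⁻¹) * Y = (P * Y * P⁻¹) * Y * (P * Y * P⁻¹) ∧ P * Y * P⁻¹ ≠ Y := by
  decide +kernel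
theorem partner_sq : ∀ Y U : S, Y ^ 3 = 1 → U ≠ Y → Y * U * Y = U * Y * U →
    (Y * U * Y) ^ 2 = n1 := by decide +kernel
theorem partners : ∀ Y U : S, Y ^ 3 = 1 → U ≠ Y → Y * U * Y = U * Y * U → ∀ U' : S, U' ≠ Y →
    Y * U' * Y = U' * Y * U' → U' = U ∨ U' = Y * U * Y⁻¹ ∨ U' = Y⁻¹ * U * Y := by decide +kernel
theorem gen : ∀ Y U : S, Y ^ 3 = 1 → (Y * U * Y) ^ 2 = n1 → Y * U * Y = U * Y * U → ∀ X : S,
    ∃ i < 3, ∃ j < 4, ∃ k < 3, X = Y ^ i * (Y * U * Y) ^ j * Y ^ k := by decide +kernel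
theorem three : ∀ X : S, ∃ Y1 : S, Y1 ^ 3 = 1 ∧ ∃ Y2 : S, Y2 ^ 3 = 1 ∧ ∃ Y3 : S, Y3 ^ 3 = 1 ∧
    X = Y1 * Y2 * Y3 := by decide +kernel
theorem quat : qI * qI = n1 ∧ qJ * qJ = n1 ∧ qI * qJ * (qI * qJ) = n1 ∧ qI * qJ = n1 * (qJ * qI) ∧
    qW * qI = qJ * qW ∧ qW * qJ = qI * qJ * qW ∧ qW * (qI * qJ) = qI * qW := by decide +kernel
theorem quat_conj : ∀ X : S, (∃ i < 4, ∃ j < 2, qI * X = X * (qI ^ i * qJ ^ j)) ∧
    ∃ i < 4, ∃ j < 2, qJ * X = X * (qI ^ i * qJ ^ j) := by decide +kernel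
theorem quat_gen : ∀ Y : S, Y ≠ 1 → Y ^ 3 = 1 → ∀ X : S,
    ∃ i < 4, ∃ j < 2, ∃ n < 3, X = qI ^ i * qJ ^ j * Y ^ n := by decide +kernel

end Cfsg.Agent.H3.L43
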