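import Cfsg.Agent.H3.L43LocS

/-!
# Modules of order `81` for `SL₂(3)` with two non-central chief factors
-/

set_option autoImplicit false

namespace Cfsg.Agent.H3.L43

variable {W : Type*} [AddCommGroup W] [DistribMulAction S W]

/-- Invariant subgroups. -/
def Inv (A : AddSubgroup W) : Prop := ∀ X : S, ∀ w ∈ A, X • w ∈ A

/-- Fixed vectors modulo `A`. -/
def fx (A B : AddSubgroup W) (X : S) : AddSubgroup W where
  carrier := {w | w ∈ B ∧ X • w - w ∈ A}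
  zero_mem' := ⟨B.zero_mem, by simp⟩
  add_mem' := fun {v w} hv hw => ⟨B.add_mem hv.1 hw.1, by
    convert A.add_mem hv.2 hw.2 using 1; rw [smul_add]; abel⟩
  neg_mem' := fun {v} hv => ⟨B.neg_mem hv.1, by
    convert A.neg_mem hv.2 using 1; rw [smul_neg]; abel⟩

/-- Inverted vectors modulo `A`. -/
def ng (A B : AddSubgroup W) (X : S) : AddSubgroup W where
  carrier := {w | w ∈ B ∧ X • w + w ∈ A}
  zero_mem' := ⟨B.zero_mem, by simp⟩
  add_mem' := fun {v w} hv hw => ⟨B.add_mem hv.1 hw.1, by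
    convert A.add_mem hv.2 hw.2 using 1; rw [smul_add]; abel⟩
  neg_mem' := fun {v} hv => ⟨B.neg_mem hv.1, by
    convert A.neg_mem hv.2 using 1; rw [smul_neg]; abel⟩

/-- The stabilizer of a vector modulo `A`. -/
def st {A : AddSubgroup W} (iA : Inv A) (w : W) : Submonoid S where
  carrier := {X | X • w - w ∈ A}
  one_mem' := by simp
  mul_mem' := fun {X Y} hX hY => by
    have := A.add_mem (iA X _ hY) hX
    rw [Set.mem_ofPred_eq]
    convert this using 1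
    rw [smul_sub, mul_smul]; abel

variable {A B : AddSubgroup W}

theorem le_fx (h : A ≤ B) (iA : Inv A) (X : S) : A ≤ fx A B X :=
  fun w hw => ⟨h hw, A.sub_mem (iA X w hw) hw⟩

theorem le_ng (h : A ≤ B) (iA : Inv A) (X : S) : A ≤ ng A B X :=
  fun w hw => ⟨h hw, A.add_mem (iA X w hw) hw⟩

theorem lt_fx (h3 : ∀ w : W, w + w + w = 0) (h : A < B) (iA : Inv A) (iB : Inv B) {Y : S}
    (hY : Y ^ 3 = 1) : A < fx A B Y := by
  obtain ⟨w, hB, hA⟩ := SetLike.exists_of_lt h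
  refine SetLike.lt_iff_le_and_exists.mpr ⟨le_fx h.le iA Y, ?_⟩
  by_cases h1 : Y • w - w ∈ A
  · exact ⟨w, ⟨hB, h1⟩, hA⟩
  have hB1 := B.sub_mem (iB Y w hB) hB
  by_cases h2 : Y • (Y • w - w) - (Y • w - w) ∈ A
  · exact ⟨_, ⟨hB1, h2⟩, h1⟩
  refine ⟨_, ⟨B.sub_mem (iB Y _ hB1) hB1, ?_⟩, h2⟩
  have e : Y • Y • Y • w = w := by
    rw [← mul_smul, ← mul_smul, ← pow_three', hY, one_smul]
  convert A.zero_mem using 1
  simp only [smul_sub, e]
  have := h3 (Y • w - Y • Y • w)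
  rw [← this]; abel

omit [DistribMulAction S W] in
theorem two_mem (h3 : ∀ w : W, w + w + w = 0) {w : W} (h : w + w ∈ A) : w ∈ A := by
  convert A.neg_mem h using 1
  exact eq_neg_of_add_eq_zero_right (h3 w)

theorem sec (h3 : ∀ w : W, w + w + w = 0) (h : A < B) (iA : Inv A) (iB : Inv B)
    (irr : ∀ D, A < D → D < B → ¬ Inv D) (nc : ∃ X : S, ∃ w ∈ B, X • w - w ∉ A) :
    (∃ D, A < D ∧ D < B) ∧
      ((∀ w ∈ B, n1 • w + w ∈ A) ∨ ∃ D1 D2, A < D1 ∧ D1 < D2 ∧ D2 < B) := by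
  have dich : ∀ D, A ≤ D → D ≤ B → Inv D → D = A ∨ D = B := fun D h1 h2 h3 => by
    by_contra hn
    push Not at hn
    exact irr D (lt_of_le_of_ne h1 hn.1.symm) (lt_of_le_of_ne h2 hn.2) h3
  obtain ⟨Y, hY3, hY⟩ : ∃ Y : S, Y ^ 3 = 1 ∧ fx A B Y ≠ B := by
    by_contra hn
    push Not at hn
    obtain ⟨X, w, hw, hX⟩ := nc
    obtain ⟨Y1, h1, Y2, h2, Y3, h3, rfl⟩ := three X
    have k : ∀ Y : S, Y ^ 3 = 1 → Y ∈ st iA w := fun Y hY => ((hn Y hY).ge hw).2
    exact hX (mul_mem (mul_mem (k _ h1) (k _ h2)) (k _ h3))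
  have hY1 := lt_fx h3 h iA iB hY3
  have hY2 : fx A B Y < B := lt_of_le_of_ne (fun _ h => h.1) hY
  refine ⟨⟨_, hY1, hY2⟩, ?_⟩
  rcases dich (ng A B n1) (le_ng h.le iA _) (fun _ h => h.1) (fun X w hw => ⟨iB X w hw.1, by
      rw [← mul_smul, n1_comm, mul_smul, ← smul_add]; exact iA X _ hw.2⟩) with hn | hn
  swap
  · exact Or.inl fun w hw => (hn.ge hw).2
  right
  have hn1 : ∀ w ∈ B, n1 • w - w ∈ A := fun w hw => hn.le ⟨B.sub_mem (iB _ w hw) hw, by
    rw [smul_sub, ← mul_smul, n1_sq, one_smul]; simp⟩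
  obtain ⟨q1, q2, q3, q4, q5, q6, q7⟩ := quat
  rcases dich (fx A B qI ⊓ fx A B qJ) (le_inf (le_fx h.le iA _) (le_fx h.le iA _))
      (fun _ h => h.1.1) (fun X w hw => by
        have k : ∀ i j : ℕ, qI ^ i * qJ ^ j ∈ st iA w := fun i j =>
          mul_mem (pow_mem (S := st iA w) hw.1.2 i) (pow_mem (S := st iA w) hw.2.2 j)
        obtain ⟨⟨i, -, j, -, e⟩, i', -, j', -, e'⟩ := quat_conj X
        refine ⟨⟨iB X w hw.1.1, ?_⟩, iB X w hw.1.1, ?_⟩
        · rw [← mul_smul, e, mul_smul, ← smul_sub]; exact iA X _ (k i j)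
        · rw [← mul_smul, e', mul_smul, ← smul_sub]; exact iA X _ (k i' j')) with h0 | h0
  swap
  · refine absurd (fun X w hw => ?_) (irr _ hY1 hY2)
    obtain ⟨i, -, j, -, n, -, rfl⟩ := quat_gen Y (by
      rintro rfl; exact hY (le_antisymm (fun _ h => h.1) fun w hw => ⟨hw, by simp⟩)) hY3 X
    have h1 := h0.ge hw.1
    have : qI ^ i * qJ ^ j * Y ^ n ∈ st iA w :=
      mul_mem (mul_mem (pow_mem (S := st iA w) h1.1.2 i) (pow_mem (S := st iA w) h1.2.2 j))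
        (pow_mem (S := st iA w) hw.2 n)
    have := (fx A B Y).add_mem (le_fx h.le iA Y this) hw
    rwa [sub_add_cancel] at this
  have sq : ∀ X : S, X * X = n1 → ∀ w ∈ B, X • w + w ∈ fx A B X := fun X e w hw =>
    ⟨B.add_mem (iB X w hw) hw, by
      convert hn1 w hw using 1
      rw [smul_add, ← mul_smul, e]; abel⟩
  have cj : ∀ X X' : S, qW * X = X' * qW → A < fx A B X → A < fx A B X' := fun X X' e hX => by
    obtain ⟨w, hw, hA⟩ := SetLike.exists_of_lt hX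
    refine SetLike.lt_iff_le_and_exists.mpr ⟨le_fx h.le iA _, qW • w, ⟨iB _ w hw.1, ?_⟩,
      fun h' => hA ?_⟩
    · rw [← mul_smul, ← e, mul_smul, ← smul_sub]; exact iA _ _ hw.2
    · have := iA qW⁻¹ _ h'
      rwa [inv_smul_smul] at this
  have hI : A < fx A B qI := by
    by_contra hI
    have hK : ¬ A < fx A B (qI * qJ) := fun h => hI (cj _ _ q7 h)
    have hJ : ¬ A < fx A B qJ := fun h => hK (cj _ _ q6 h)
    have e : ∀ X : S, ¬ A < fx A B X → fx A B X ≤ A := fun X hX =>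
      ((le_fx h.le iA X).eq_of_not_lt hX).ge
    obtain ⟨w, hB, hA⟩ := SetLike.exists_of_lt h
    refine hA (two_mem h3 ?_)
    convert A.add_mem (A.sub_mem (e _ hK (sq _ q3 w hB)) (iA qI _ (e _ hJ (sq _ q2 w hB))))
      (e _ hI (sq _ q1 w hB)) using 1
    rw [smul_add, mul_smul]; abel
  have hJ := cj _ _ q5 hI
  have hK := cj _ _ q6 hJ
  have cm : ∀ w ∈ B, qI • qJ • w - qJ • qI • w ∈ A := fun w hw => by
    rw [← mul_smul, q4, mul_smul, mul_smul]
    exact hn1 _ (iB _ _ (iB _ _ hw))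
  have l1 : fx A B qI ≤ ng A B (qI * qJ) := fun w hw => by
    have u : qJ • w + w ∈ A := h0.le ⟨⟨(sq _ q2 w hw.1).1, by
      convert A.add_mem (A.add_mem (cm w hw.1) (iA qJ _ hw.2)) hw.2 using 1
      rw [smul_add, smul_sub]; abel⟩, sq _ q2 w hw.1⟩
    refine ⟨hw.1, ?_⟩
    convert A.sub_mem (iA qI _ u) hw.2 using 1
    rw [smul_add, mul_smul]; abel
  have l2 : fx A B qJ ≤ ng A B (qI * qJ) := fun w hw => by
    have u : qI • w + w ∈ A := h0.le ⟨sq _ q1 w hw.1, (sq _ q1 w hw.1).1, by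
      convert A.add_mem (A.sub_mem (iA qI _ hw.2) (cm w hw.1)) hw.2 using 1
      rw [smul_add, smul_sub]; abel⟩
    refine ⟨hw.1, ?_⟩
    convert A.add_mem (iA qI _ hw.2) u using 1
    rw [smul_sub, mul_smul]; abel
  refine ⟨_, _, hI, SetLike.lt_iff_le_and_exists.mpr ⟨l1, ?_⟩,
    SetLike.lt_iff_le_and_exists.mpr ⟨fun _ h => h.1, ?_⟩⟩
  · obtain ⟨w, hw, hA⟩ := SetLike.exists_of_lt hJ
    exact ⟨w, l2 hw, fun h' => hA (h0.le ⟨h', hw⟩)⟩
  · obtain ⟨w, hw, hA⟩ := SetLike.exists_of_lt hK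
    refine ⟨w, hw.1, fun h' => hA (two_mem h3 ?_)⟩
    convert A.sub_mem h'.2 hw.2 using 1
    abel

omit [DistribMulAction S W] in
theorem step (hW : Nat.card W = 81) (h : A < B) : 3 * Nat.card A ≤ Nat.card B := by
  have : Finite W := Nat.finite_of_card_ne_zero (by omega)
  obtain ⟨m, hm⟩ := AddSubgroup.card_dvd_of_le h.le
  have h1 : m ∣ 81 := (Dvd.intro_left _ hm.symm).trans (hW ▸ B.card_addSubgroup_dvd_card)
  have h2 : m ≠ 1 := fun e => h.ne (AddSubgroup.eq_of_le_of_card_ge h.le (by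
    rw [hm, e, mul_one]))
  have h3 : 3 ≤ m := by
    rcases m with _ | _ | _ | m
    · simp at h1
    · simp at h2
    · simp at h1
    · omega
  rw [hm, mul_comm]; exact Nat.mul_le_mul_left _ h3

theorem inverts (hW : Nat.card W = 81) (h3 : ∀ w : W, w + w + w = 0)
    {A1 B1 A2 B2 : AddSubgroup W} (h1 : A1 < B1) (h12 : B1 ≤ A2) (h2 : A2 < B2)
    (i1 : Inv A1) (j1 : Inv B1) (i2 : Inv A2) (j2 : Inv B2)
    (r1 : ∀ D, A1 < D → D < B1 → ¬ Inv D) (r2 : ∀ D, A2 < D → D < B2 → ¬ Inv D)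
    (c1 : ∃ X : S, ∃ w ∈ B1, X • w - w ∉ A1) (c2 : ∃ X : S, ∃ w ∈ B2, X • w - w ∉ A2) (w : W) :
    n1 • w + w = 0 := by
  have : Finite W := Nat.finite_of_card_ne_zero (by omega)
  obtain ⟨⟨D, d1, d2⟩, k1⟩ := sec h3 h1 i1 j1 r1 c1
  obtain ⟨⟨E, e1, e2⟩, k2⟩ := sec h3 h2 i2 j2 r2 c2
  have p1 : 0 < Nat.card A1 := Nat.card_pos
  have p2 := AddSubgroup.card_le_of_le h12
  have p3 : Nat.card B2 ≤ 81 := hW ▸ B2.card_le_card_addGroup
  have := step hW d1
  have := step hW d2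
  have := step hW e1
  have := step hW e2
  rcases k1 with k1 | ⟨D1, D2, a1, a2, a3⟩
  swap
  · have := step hW a1
    have := step hW a2
    have := step hW a3
    omega
  rcases k2 with k2 | ⟨D1, D2, a1, a2, a3⟩
  swap
  · have := step hW a1
    have := step hW a2
    have := step hW a3
    omega
  have f1 : A1 = ⊥ := A1.card_le_one_iff_eq_bot.mp (by omega)
  have f2 : B1 = A2 := AddSubgroup.eq_of_le_of_card_ge h12 (by omega)
  have f3 : B2 = ⊤ := AddSubgroup.eq_top_of_card_eq _ (by omega)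
  have := k1 _ (f2 ▸ k2 w (f3 ▸ AddSubgroup.mem_top w))
  rw [smul_add, ← mul_smul, n1_sq, one_smul, add_comm w] at this
  have := two_mem h3 this
  rwa [f1, AddSubgroup.mem_bot] at this

end Cfsg.Agent.H3.L43
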