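import Cfsg.Agent.H9.FxTransfer
import Cfsg.Agent.H4.Nse4
import Cfsg.Agent.H9.O11Def

/-! Piece `T` of S3403: counting transfer. -/

set_option autoImplicit false

namespace Cfsg.Agent.H9.O11

open Subgroup MulAction Cfsg.Agent.H7 Cfsg.Agent.Fx4
open MulAut (conj)
open scoped Pointwise

namespace TP

universe u
variable {G : Type u} [Group G] [Finite G] {p : ℕ} [hp : Fact p.Prime] {S Y P : Subgroup G}
  {x y z : G}

open Classical in
theorem transfer_eq_prod {A : Type*} [CommGroup A] (φ : S →* A) (h3 : x ^ p = 1)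
    [Fintype (G ⧸ S)] : φ.transfer x =
      ∏ q : G ⧸ S, if h : q.out⁻¹ * x * q.out ∈ S then φ ⟨_, h⟩ else 1 := by
  have : Fintype (Quotient (orbitRel (zpowers x) (G ⧸ S))) := Fintype.ofFinite _
  have k : ∀ q : G ⧸ S, q.out⁻¹ * x * q.out ∈ S ↔ x • q = q := fun q => by
    rw [← smul_mk_iff, QuotientGroup.out_eq']
  rw [MonoidHom.transfer_eq_prod_quotient_orbitRel_zpowers_quot]
  refine Finset.prod_of_injOn Quotient.out (Quotient.out_injective.injOn) (fun _ _ => by simp)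
    (fun q _ hq => dif_neg fun e => hq ⟨Quotient.mk _ q, by simp, ?_⟩) fun o _ => ?_
  · obtain ⟨⟨_, n, rfl⟩, e'⟩ := Quotient.mk_out (s := orbitRel (zpowers x) (G ⧸ S)) q
    exact e'.symm.trans (zpow_mem (K := stabilizer G q) ((k q).1 e) n)
  · split_ifs with e
    · have : Function.minimalPeriod (x • ·) o.out = 1 :=
        Function.minimalPeriod_eq_one_iff_isFixedPt.2 ((k _).1 e)
      simp only [this, pow_one]
    · have : Function.minimalPeriod (x • ·) o.out = p :=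
        Function.minimalPeriod_eq_prime (by
          rw [isPeriodicPt_smul_iff, h3, one_smul]) fun e' => e ((k _).2 e')
      simp only [this, h3, mul_one, inv_mul_cancel]
      exact map_one φ

theorem sq_le_index (hP : IsPGroup p G) (hc : p ^ 2 ≤ Nat.card G) :
    p ^ 2 ≤ (commutator G).index := by
  by_contra k
  obtain ⟨n, hn⟩ := hP.index (commutator G)
  have k3 : (commutator G).index ∣ p := by
    rw [hn] at k ⊢
    have : n < 2 := by
      by_contra c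
      exact k (Nat.pow_le_pow_right hp.out.pos (not_lt.1 c))
    interval_cases n <;> simp
  obtain ⟨y, hy⟩ : ∃ y : G, ⊤ ≤ commutator G ⊔ zpowers y := by
    by_cases e : commutator G = ⊤
    · exact ⟨1, e ▸ le_sup_left⟩
    obtain ⟨y, -, hy⟩ := SetLike.not_le_iff_exists.1 (mt top_le_iff.1 e)
    refine ⟨y, ((eq_or_eq_of_relIndex_prime (le_sup_left (b := zpowers y)) le_top ?_).resolve_left
      fun e' => hy (e'.le (mem_sup_right (mem_zpowers y)))).ge⟩
    rw [relIndex_top_right, ((Nat.dvd_prime hp.out).1 k3).resolve_left (mt index_eq_one.1 e)]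
    exact hp.out
  have k1 := Phi_nongen le_top (hy.trans (sup_le_sup_right (der_le_Phi (hP.to_subgroup ⊤)) _))
  have k2 : commutator G = ⊥ := comm_eq_bot_iff.2 (by
    rw [← k1, cent_zpowers]; exact zpowers_le_of_mem (mem_cent1_self y))
  rw [k2, index_bot] at k
  exact k hc

/-- The hypothesis. -/
structure TH (p : ℕ) (y : G) : Prop where
  oy : orderOf y = p
  t1 : ∀ (g : G) (i : ℕ), g * y * g⁻¹ = y ^ i → y ^ i = y
  t2 : ¬ p ^ 3 ∣ Nat.card (centralizer ({y} : Set G))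

namespace TH

variable (h : TH p y)
include h

omit hp in
theorem conj (hz : IsConj y z) : TH p z := by
  obtain ⟨c, rfl⟩ := isConj_iff.mp hz
  refine ⟨(H4.Nse.orderOf_conj' c y).trans h.oy, fun g i e => ?_,
    H4.Nse.card_centralizer_conj c y ▸ h.t2⟩
  rw [conj_pow, h.t1 (c⁻¹ * g * c) i]
  calc _ = c⁻¹ * (g * (c * y * c⁻¹) * g⁻¹) * c := by group
    _ = _ := by rw [e, conj_pow]; group

omit [Finite G] in
theorem ne_one : y ≠ 1 := fun e => hp.out.one_lt.ne' (by rw [← h.oy, e, orderOf_one])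

theorem cle (hP : IsPGroup p P) : Nat.card ↥(C₁[y] ⊓ P) ≤ p ^ 2 := by
  obtain ⟨n, hn⟩ := (hP.to_le (inf_le_right (a := C₁[y]))).exists_card_eq
  rw [hn]
  refine Nat.pow_le_pow_right hp.out.pos (not_lt.mp fun e => h.t2 ?_)
  exact (pow_dvd_pow p e).trans (hn ▸ card_dvd_of_le inf_le_left)

variable (hY : IsPGroup p Y) (hc : p ^ 2 ≤ Nat.card Y)
include hY hc

theorem loc (hy : y ∈ Y) : Nat.card ↥(C₁[y] ⊓ Y) = p ^ 2 ∧ (commutator Y).index = p ^ 2 ∧
    (⟨y, hy⟩ : Y) ∉ commutator Y ∧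
      ∀ z : Y, z * (⟨y, hy⟩ : Y)⁻¹ ∈ commutator Y → ∃ s ∈ Y, s * y * s⁻¹ = z := by
  have h1 := sq_le_index hY hc
  have h2 := index_commutator_le (⟨y, hy⟩ : Y)
  have h3 := h.cle hY
  have h4 : ∀ z : Y, z * (⟨y, hy⟩ : Y)⁻¹ ∈ commutator Y → ∃ s ∈ Y, s * y * s⁻¹ = z := fun z e => by
    obtain ⟨s, hs⟩ := conj_eq_coset ((card_cent1_coe hy).trans_le (h3.trans h1)) e
    exact ⟨s, s.2, by simpa using congrArg Subtype.val hs⟩
  rw [card_cent1_coe] at h2
  refine ⟨by omega, by omega, fun e => ?_, h4⟩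
  obtain ⟨s, -, hs⟩ := h4 1 (by simpa using e)
  exact h.ne_one (conj_eq_one_iff.mp hs)

theorem bound : {z | z ∈ Y ∧ IsConj y z}.ncard ≤ (p + 1) * Nat.card (commutator Y) := by
  classical
  have := Fintype.ofFinite Y
  by_cases hn : ∃ z, z ∈ Y ∧ IsConj y z
  swap
  · rw [Set.eq_empty_of_forall_notMem (s := {z | z ∈ Y ∧ IsConj y z}) fun z hz => hn ⟨z, hz⟩]
    simp
  obtain ⟨z, hz, hz'⟩ := hn
  have h1 := (commutator Y).index_mul_card
  rw [((h.conj hz').loc hY hc hz).2.1] at h1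
  have h2 : {z | z ∈ Y ∧ IsConj y z}.ncard = (Finset.univ.filter fun z : Y => IsConj y z).card := by
    rw [← Set.ncard_coe_finset, ← Set.ncard_image_of_injective _ Subtype.val_injective]
    congr 1
    ext z
    simp only [Set.mem_ofPred_eq, Finset.coe_filter, Finset.mem_univ, true_and, Set.mem_image]
    exact ⟨fun k => ⟨⟨z, k.1⟩, k.2, rfl⟩, fun ⟨w, k, e⟩ => e ▸ ⟨w.2, k⟩⟩
  have gen : ∀ z : Y, IsConj y z → ∀ i ∈ Finset.Ioo 0 p, zpowers (z ^ i) = zpowers z :=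
    fun z hz i hi => by
      have oz : orderOf z = p := (orderOf_coe z).symm.trans (h.conj hz).oy
      refine zpowers_eq_of_card_prime (by rw [Nat.card_zpowers, oz]; exact hp.out)
        (pow_mem (mem_zpowers z) i) (pow_ne_one_of_lt_orderOf (Finset.mem_Ioo.mp hi).1.ne' ?_)
      exact oz ▸ (Finset.mem_Ioo.mp hi).2
  have h3 := Finset.card_le_card_of_injOn
    (s := (Finset.univ.filter fun z : Y => IsConj y z) ×ˢ Finset.Ioo 0 p)
    (t := Finset.univ.filter fun z : Y => z ∉ commutator Y) (fun a => a.1 ^ a.2) (fun a ha => by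
      obtain ⟨a1, a2⟩ := Finset.mem_product.mp ha
      have a3 := (Finset.mem_filter.mp a1).2
      exact Finset.mem_filter.mpr ⟨Finset.mem_univ _, fun e => ((h.conj a3).loc hY hc a.1.2).2.2.1
        (zpowers_le.mpr e ((gen _ a3 _ a2).ge (mem_zpowers _)))⟩) (fun a ha b hb e => by
      obtain ⟨a1, a2⟩ := Finset.mem_product.mp ha
      obtain ⟨b1, b2⟩ := Finset.mem_product.mp hb
      have a3 := (Finset.mem_filter.mp a1).2
      have b3 := (Finset.mem_filter.mp b1).2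
      have e1 : a.1 ^ a.2 = b.1 ^ b.2 := e
      obtain ⟨m, hm⟩ := mem_powers_iff_mem_zpowers.mpr
        (((gen _ b3 _ b2).symm.trans (e1 ▸ gen _ a3 _ a2)).le (mem_zpowers _))
      obtain ⟨c, hc⟩ := isConj_iff.mp (a3.symm.trans b3)
      have hm' : (a.1 : G) ^ m = b.1 := congrArg Subtype.val hm
      have e2 : a.1 = b.1 := Subtype.ext (((h.conj a3).t1 c m (hc.trans hm'.symm)).symm.trans hm')
      have oz : orderOf b.1 = p := (orderOf_coe _).symm.trans (h.conj b3).oy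
      rw [e2] at e1
      exact Prod.ext e2 (pow_injOn_Iio_orderOf (oz ▸ (Finset.mem_Ioo.mp a2).2)
        (oz ▸ (Finset.mem_Ioo.mp b2).2) e1))
  have h4 := Finset.card_filter_add_card_filter_not (s := Finset.univ)
    fun z : Y => z ∈ commutator Y
  rw [Finset.card_product, Nat.card_Ioo, ← h2] at h3
  rw [Finset.card_univ, ← Fintype.card_subtype, ← Nat.card_eq_fintype_card,
    ← Nat.card_eq_fintype_card, ← h1] at h4
  obtain ⟨r, rfl⟩ := Nat.exists_eq_add_of_lt hp.out.one_lt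
  refine Nat.le_of_mul_le_mul_right (c := r + 1) ?_ r.succ_pos
  rw [show 1 + r + 1 - 0 - 1 = r + 1 by omega] at h3
  nlinarith

theorem trans (hP : IsPGroup p P) (h1 : Y < P) (h2 : P ≤ N[Y]) (hy : y ∈ Y) (hz : z ∈ Y)
    (hz' : IsConj y z) : ∃ u ∈ P, u * y * u⁻¹ = z := by
  by_contra k
  push Not at k
  have c1 := (commutator Y).index_mul_card
  rw [(h.loc hY hc hy).2.1] at c1
  have c2 : p * Nat.card Y ≤ Nat.card P := by
    obtain ⟨i, hi⟩ := hP.exists_card_eq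
    obtain ⟨j, hj⟩ := hY.exists_card_eq
    have := card_lt_of_lt h1
    rw [hi, hj] at this ⊢
    rw [← pow_succ']
    exact Nat.pow_le_pow_right hp.out.pos ((Nat.pow_lt_pow_iff_right hp.out.one_lt).mp this)
  have c3 : ∀ z, IsConj y z → p * Nat.card (commutator Y) ≤
      ((fun u => u * z * u⁻¹) '' (P : Set G)).ncard := fun z hz => by
    have := c2.trans ((card_le_cent_mul P z (T := (fun u => u * z * u⁻¹) '' (P : Set G))
      fun w hw => ⟨w, hw, rfl⟩).trans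
      (Nat.mul_le_mul_right _ ((h.conj hz).cle hP)))
    rw [← c1, mul_left_comm] at this
    exact Nat.le_of_mul_le_mul_left this (pow_pos hp.out.pos 2)
  have c4 : ∀ z ∈ Y, IsConj y z → (fun u => u * z * u⁻¹) '' (P : Set G) ⊆
      {z | z ∈ Y ∧ IsConj y z} := by
    rintro z hz hz' _ ⟨u, hu, rfl⟩
    exact ⟨conj_mem_of_norm (h2 hu) hz, hz'.trans (isConj_iff.mpr ⟨u, rfl⟩)⟩
  have c5 := (Set.ncard_le_ncard (Set.union_subset (c4 y hy (.refl y)) (c4 z hz hz'))).trans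
    (h.bound hY hc)
  rw [Set.ncard_union_eq (Set.disjoint_left.mpr (by
    rintro _ ⟨u, hu, rfl⟩ ⟨v, hv, e⟩
    refine k (v⁻¹ * u) (mul_mem (inv_mem hv) hu) ?_
    calc _ = v⁻¹ * (u * y * u⁻¹) * v := by group
      _ = _ := by rw [← show v * z * v⁻¹ = u * y * u⁻¹ from e]; group))] at c5
  have := c3 y (.refl y)
  have := c3 z hz'
  have := card_pos' (commutator Y)
  have := hp.out.one_lt
  nlinarith

omit hY in
theorem syl (hy : y ∈ Y) (S T : Sylow p G) (h1 : Y ≤ S) (h2 : Y ≤ T) :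
    ∃ c : G, Commute c y ∧ c • S = T := by
  induction Y using WellFoundedGT.induction generalizing S T with | ind Y ih => ?_
  by_cases e : S = T
  · exact ⟨1, Commute.one_left y, by rw [one_smul, e]⟩
  have hY := S.2.to_le h1
  have l1 := lt_inf_norm_of_nil (nil_of_pgroup S.2)
    (h1.lt_of_ne fun k => e (Sylow.ext (S.3 T.2 (k ▸ h2)).symm))
  have l2 := lt_inf_norm_of_nil (nil_of_pgroup T.2)
    (h2.lt_of_ne fun k => e (Sylow.ext (T.3 S.2 (k ▸ h1))))
  have p1 := S.2.to_le (inf_le_left (b := N[Y]))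
  obtain ⟨U, hU, u1⟩ := exists_isSylowIn_ge inf_le_right p1
  obtain ⟨n, hn, u2⟩ := H4.Nse.exists_conj_le inf_le_right (T.2.to_le (inf_le_left (b := N[Y])))
    hU.not_dvd
  obtain ⟨u, hu, e1⟩ := h.trans hY hc p1 l1 inf_le_right hy (conj_mem_of_norm hn hy)
    (isConj_iff.mpr ⟨n, rfl⟩)
  obtain ⟨R, hR⟩ := hU.isPGroup.exists_le_sylow
  have e2 : Commute (n⁻¹ * u) y := by
    rw [Commute, SemiconjBy, mul_assoc, mul_inv_eq_iff_eq_mul.mp e1]; group
  obtain ⟨c, c1, c2⟩ := ih _ l1 (hc.trans (card_le_of_le' l1.le)) (l1.le hy) S R inf_le_left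
    (u1.trans hR)
  obtain ⟨d, d1, d2⟩ := ih _ l2 (hc.trans (card_le_of_le' l2.le)) (l2.le hy) ((n⁻¹ * u) • R) T
    (fun g hg => by
      rw [Sylow.coe_subgroup_smul, mem_conj_smul]
      have := mul_mem (mul_mem (inv_mem (u1 hu)) (u2 g hg)) (u1 hu)
      exact hR (by convert this using 1; group)) inf_le_left
  exact ⟨d * (n⁻¹ * u) * c, (d1.mul_left e2).mul_left c1, by rw [mul_smul, mul_smul, c2, d2]⟩

omit hY hc in
theorem syl' (S T : Sylow p G) (hc : p ^ 2 ≤ Nat.card S) (h1 : y ∈ S) (h2 : y ∈ T) :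
    ∃ c : G, Commute c y ∧ c • S = T := by
  have e1 := (h.loc S.2 hc h1).1
  have e2 := (h.loc T.2 (by rwa [T.card_eq_multiplicity, ← S.card_eq_multiplicity]) h2).1
  obtain ⟨c, c1, c2⟩ := H4.Nse.exists_conj_le (T := C₁[y] ⊓ T) inf_le_left
    (S.2.to_le (inf_le_right (a := C₁[y]))) fun e => h.t2 (by
      rw [← card_mul_relIndex (inf_le_left : C₁[y] ⊓ T ≤ _), e2, pow_succ p 2]
      exact mul_dvd_mul_left _ e)
  obtain ⟨d, d1, d2⟩ := h.syl e1.ge ⟨mem_cent1_self y, h1⟩ S (c⁻¹ • T) inf_le_right fun g hg => by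
    rw [Sylow.coe_subgroup_smul, mem_conj_smul, inv_inv]
    exact (c2 g hg).2
  exact ⟨c * d, Commute.mul_left (mem_cent1_iff.mp c1) d1, by rw [mul_smul, d2, smul_inv_smul]⟩

theorem core (hG : commutator G = ⊤) (hi : ¬ p ∣ Y.index) : ∃ C : Finset (Abelianization Y),
    (∀ c, c ∈ C ↔ ∃ z : Y, IsConj y z ∧ Abelianization.of z = c) ∧ ∏ c ∈ C, c = 1 ∧
      ¬ p ∣ C.card ∧ {z | z ∈ Y ∧ IsConj y z}.ncard = C.card * Nat.card (commutator Y) := by
  classical
  have := Fintype.ofFinite (G ⧸ Y)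
  have := Fintype.ofFinite Y
  set φ := Abelianization.of (G := Y)
  have h3 : y ^ p = 1 := h.oy ▸ pow_orderOf_eq_one y
  have hφ : ∀ y : Y, y ∈ commutator Y ↔ φ y = 1 := fun y => by
    rw [← Abelianization.ker_of]; rfl
  have ic : ∀ g : G, IsConj y (g⁻¹ * y * g) := fun g => isConj_iff.mpr ⟨g⁻¹, by rw [inv_inv]⟩
  have cj : ∀ (g : G) (hg : g⁻¹ * y * g ∈ Y) (z : Y), φ z = φ ⟨_, hg⟩ →
      ∃ s ∈ Y, s * (g⁻¹ * y * g) * s⁻¹ = z := fun g hg z e =>
    ((h.conj (ic g)).loc hY hc hg).2.2.2 z ((hφ _).2 (by simp [e]))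
  let ψ : G ⧸ Y → Abelianization Y := fun q =>
    if h : q.out⁻¹ * y * q.out ∈ Y then φ ⟨_, h⟩ else 1
  have hψ : ∀ (g : G) (hg : g⁻¹ * y * g ∈ Y), ψ g = φ ⟨_, hg⟩ := fun g hg => by
    obtain ⟨s, hs⟩ := QuotientGroup.mk_out_eq_mul Y g
    have e : (g * s)⁻¹ * y * (g * s) = (s⁻¹ * ⟨_, hg⟩ * s : Y) := by simp [mul_assoc]
    simp only [ψ, hs, e, SetLike.coe_mem, dif_pos, Subtype.coe_eta, map_mul, map_inv,
      inv_mul_cancel_comm]
  let F : Finset (G ⧸ Y) := Finset.univ.filter fun q => y • q = q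
  have hF : ∀ g : G, (g : G ⧸ Y) ∈ F ↔ g⁻¹ * y * g ∈ Y := fun g => by
    rw [← smul_mk_iff]; simp only [F, Finset.mem_filter, Finset.mem_univ, true_and]
  have cF : ¬ p ∣ F.card := fun k => hi (by
    have k1 : IsPGroup p (zpowers y) := IsPGroup.of_card (n := 1) (by
      rw [Nat.card_zpowers, h.oy, pow_one])
    refine (Nat.modEq_zero_iff_dvd.1 ((k1.card_modEq_card_fixedPoints (G ⧸ Y)).trans ?_))
    rw [Nat.modEq_zero_iff_dvd]
    convert k
    rw [← Nat.card_eq_finsetCard]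
    refine Nat.card_congr (Equiv.subtypeEquivRight fun q => ?_)
    simp only [F, Finset.mem_filter, Finset.mem_univ, true_and]
    exact ⟨fun e => e ⟨y, mem_zpowers y⟩, fun e ⟨_, n, rfl⟩ => zpow_mem (K := stabilizer G q) e n⟩)
  have fib : ∀ c ∈ F.image ψ, (F.filter fun q => ψ q = c).card = Nat.card C₁[y] / p ^ 2 := by
    intro c hc'
    obtain ⟨q, hq, rfl⟩ := Finset.mem_image.1 hc'
    obtain ⟨g, rfl⟩ := QuotientGroup.mk_surjective q
    have hg := (hF g).1 hq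
    have e1 : stabilizer G (g : G ⧸ Y) = MulAut.conj g • Y := by
      conv_rhs => rw [← stabilizer_quotient Y, ← stabilizer_smul_eq]
      simp
    have e2 := card_inf_mul_relIndex (stabilizer G (g : G ⧸ Y)) C₁[y]
    have e3 : Nat.card ↥(stabilizer G (g : G ⧸ Y) ⊓ C₁[y]) = p ^ 2 := by
      rw [e1, ← H7.card_conj_smul g⁻¹, conj_smul_inf, conj_inv_smul_smul, H7.conj_smul_cent1, inv_inv,
        inf_comm]
      exact ((h.conj (ic g)).loc hY hc hg).1
    rw [← e2, e3, Nat.mul_div_cancel_left _ (pow_pos hp.out.pos 2), relIndex_stabilizer,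
      ← Set.ncard_coe_finset]
    congr 1
    ext q
    obtain ⟨g', rfl⟩ := QuotientGroup.mk_surjective q
    rw [Finset.coe_filter, Set.mem_ofPred_eq, hF]
    constructor
    · rintro ⟨hg', e⟩
      rw [hψ g hg, hψ g' hg'] at e
      obtain ⟨s, hs, e'⟩ := cj g hg _ e
      refine ⟨⟨g' * s * g⁻¹, mem_cent1_iff.2 ?_⟩, QuotientGroup.eq.2 (by simpa using hs)⟩
      calc g' * s * g⁻¹ * y = g' * (s * (g⁻¹ * y * g) * s⁻¹) * (s * g⁻¹) := by group
        _ = _ := by rw [e']; group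
    · rintro ⟨⟨w, hw⟩, e⟩
      have e4 : (w * g)⁻¹ * y * (w * g) = g⁻¹ * y * g := by
        rw [mul_assoc, ← mul_assoc y, ← mem_cent1_iff.1 hw]; group
      have e5 : ((w * g : G) : G ⧸ Y) = g' := e
      refine ⟨(hF g').1 (e5 ▸ (hF _).2 (e4 ▸ hg)), ?_⟩
      rw [← e5, hψ _ (e4 ▸ hg), hψ g hg]
      simp only [e4]
  have t1 := map_eq_one hG φ.transfer y
  rw [transfer_eq_prod φ h3, ← Finset.prod_subset (Finset.subset_univ F) (fun q _ hq => dif_neg
    fun e => hq (by rw [← QuotientGroup.out_eq' q, hF]; exact e))] at t1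
  change ∏ q ∈ F, id (ψ q) = 1 at t1
  rw [Finset.prod_comp, Finset.prod_congr rfl fun c hc => by rw [fib c hc], Finset.prod_pow] at t1
  rw [Finset.card_eq_sum_card_image ψ F, Finset.sum_const_nat fib] at cF
  have mem : ∀ c, c ∈ F.image ψ ↔ ∃ z : Y, IsConj y z ∧ φ z = c := fun c => by
    rw [Finset.mem_image]
    constructor
    · rintro ⟨q, hq, rfl⟩
      obtain ⟨g, rfl⟩ := QuotientGroup.mk_surjective q
      exact ⟨⟨_, (hF g).1 hq⟩, ic g, (hψ g _).symm⟩
    · rintro ⟨⟨z, hz⟩, e, rfl⟩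
      obtain ⟨g, rfl⟩ := isConj_iff.mp e
      have : g⁻¹⁻¹ * y * g⁻¹ ∈ Y := by rwa [inv_inv]
      exact ⟨(g⁻¹ : G), (hF _).2 this, (hψ _ this).trans (by simp only [inv_inv])⟩
  refine ⟨F.image ψ, mem, ?_, fun k => cF (k.mul_right _), ?_⟩
  · refine (pow_eq_one_iff_of_coprime (m := p) (n := Nat.card C₁[y] / p ^ 2)
      ((Nat.Prime.coprime_iff_not_dvd hp.out).2 fun k => cF (k.mul_left _))).1 ⟨?_, t1⟩
    rw [← Finset.prod_pow]
    refine Finset.prod_eq_one fun c hc => ?_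
    obtain ⟨z, hz, rfl⟩ := (mem c).1 hc
    rw [← map_pow, orderOf_dvd_iff_pow_eq_one.mp
      ((orderOf_coe z).symm.trans (h.conj hz).oy).dvd, map_one]
  · have h2 : {z | z ∈ Y ∧ IsConj y z}.ncard =
        (Finset.univ.filter fun z : Y => φ z ∈ F.image ψ).card := by
      rw [← Set.ncard_coe_finset, ← Set.ncard_image_of_injective _ Subtype.val_injective]
      congr 1
      ext z
      simp only [Set.mem_ofPred_eq, Finset.coe_filter, Finset.mem_univ, true_and, Set.mem_image, mem]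
      refine ⟨fun k => ⟨⟨z, k.1⟩, ⟨_, k.2, rfl⟩, rfl⟩, ?_⟩
      rintro ⟨w, ⟨v, k, e⟩, rfl⟩
      obtain ⟨s, -, hs⟩ := ((h.conj k).loc hY hc v.2).2.2.2 w ((hφ _).2 (by simp [e]))
      exact ⟨w.2, k.trans (isConj_iff.mpr ⟨s, hs⟩)⟩
    rw [h2, Finset.card_eq_sum_card_fiberwise (f := φ) (t := F.image ψ)
      (s := Finset.univ.filter fun z : Y => φ z ∈ F.image ψ)
      fun z hz => (Finset.mem_filter.mp hz).2]
    refine Finset.sum_const_nat fun c hc => ?_
    obtain ⟨z, -, rfl⟩ := (mem c).1 hc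
    rw [Finset.filter_filter, Finset.filter_congr (q := fun w => φ w = φ z) fun w _ =>
      ⟨fun k => k.2, fun k => ⟨k ▸ hc, k⟩⟩,
      MonoidHom.card_fiber_eq_of_mem_range φ ⟨z, rfl⟩ ⟨1, map_one φ⟩, Nat.card_eq_fintype_card,
      Fintype.card_subtype]
    exact congrArg _ (Finset.filter_congr fun w _ => (hφ w).symm)

end TH

end TP

open TP

theorem tp {G : Type*} [Group G] [Finite G] (hG : commutator G = ⊤) {p : ℕ} [Fact p.Prime]
    {y : G} (hy : orderOf y = p) (t1 : ∀ (g : G) (i : ℕ), g * y * g⁻¹ = y ^ i → y ^ i = y)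
    (t2 : ¬ p ^ 3 ∣ Nat.card (centralizer ({y} : Set G))) (S : Sylow p G) (hyS : y ∈ S)
    (t3 : p ^ 2 ∣ Nat.card S) :
    (∀ S' : Sylow p G, y ∈ S' → ∃ c : G, Commute c y ∧ c • S = S') ∧
    ∃ k, 2 ≤ k ∧ k ≤ p + 1 ∧ ¬ p ∣ k ∧ k ∣ Nat.card (normalizer ((S : Subgroup G) : Set G)) ∧
      {z | z ∈ S ∧ IsConj y z}.ncard * p ^ 2 = k * Nat.card S := by
  have hp : p.Prime := Fact.out
  have h : TH p y := ⟨hy, t1, t2⟩
  have hc := Nat.le_of_dvd Nat.card_pos t3
  have h1 := fun T => h.syl' S T hc hyS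
  obtain ⟨C, c1, c2, c3, c4⟩ := h.core S.2 hc hG S.not_dvd_index
  obtain ⟨-, l2, l3, -⟩ := h.loc S.2 hc hyS
  have c5 := (commutator S).index_mul_card
  rw [l2] at c5
  have c6 : {z | z ∈ S ∧ IsConj y z}.ncard * p ^ 2 = C.card * Nat.card S := by
    rw [← c5, mul_left_comm, mul_comm]
    exact congrArg _ c4
  refine ⟨h1, C.card, ?_, Nat.le_of_mul_le_mul_right (c4 ▸ h.bound S.2 hc) Nat.card_pos, c3, ?_, c6⟩
  · by_contra k
    have m := (c1 _).2 ⟨⟨y, hyS⟩, .refl y, rfl⟩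
    rw [Finset.eq_singleton_iff_unique_mem.mpr ⟨m, fun c hc =>
      Finset.card_le_one.mp (by omega) c hc _ m⟩, Finset.prod_singleton] at c2
    exact l3 (by rw [← Abelianization.ker_of]; exact c2)
  · have e1 : (fun g => g * y * g⁻¹) '' (N[(S : Subgroup G)] : Set G) =
        {z | z ∈ S ∧ IsConj y z} := by
      ext z
      refine ⟨?_, fun ⟨k1, k2⟩ => ?_⟩
      · rintro ⟨g, hg, rfl⟩
        exact ⟨conj_mem_of_norm hg hyS, isConj_iff.mpr ⟨g, rfl⟩⟩
      · obtain ⟨g, rfl⟩ := isConj_iff.mp k2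
        obtain ⟨c, d1, d2⟩ := h1 (g⁻¹ • S) (by
          change y ∈ MulAut.conj g⁻¹ • (S : Subgroup G)
          rwa [mem_conj_smul, inv_inv])
        refine ⟨g * c, Sylow.smul_eq_iff_mem_normalizer.mp (by rw [mul_smul, d2, smul_inv_smul]),
          ?_⟩
        simp only
        rw [mul_assoc g, d1.eq]
        group
    have e2 : Nat.card N[(S : Subgroup G)] = Nat.card ↥(C₁[y] ⊓ N[(S : Subgroup G)]) *
        {z | z ∈ S ∧ IsConj y z}.ncard := by
      rw [← e1]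
      refine le_antisymm (card_le_cent_mul _ y fun g hg => ⟨g, hg, rfl⟩) ?_
      rw [← card_inf_mul_relIndex C₁[y] N[(S : Subgroup G)]]
      exact Nat.mul_le_mul_left _ (ncard_le_relIndex _ C₁[y] _ fun a _ b _ e => by
        calc a * y * a⁻¹ = b * (a⁻¹ * b)⁻¹ * (y * (a⁻¹ * b)) * b⁻¹ := by group
          _ = _ := by rw [← mem_cent1_iff.mp e]; group)
    rw [e2]
    exact (Dvd.intro _ c4.symm).mul_left _

theorem t3 {G : Type*} [Group G] [Finite G] (hG : commutator G = ⊤) {y : G} (hy : orderOf y = 3)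
    (t1 : ∀ g : G, g * y * g⁻¹ ≠ y⁻¹) (t2 : ¬ 27 ∣ Nat.card (centralizer ({y} : Set G))) :
    False := by
  have : Fact (Nat.Prime 3) := ⟨Nat.prime_three⟩
  have y3 : y ^ 3 = 1 := hy ▸ pow_orderOf_eq_one y
  have h : TH 3 y := ⟨hy, fun g i e => by
    rw [← pow_mod_orderOf, hy] at e ⊢
    rcases (by omega : i % 3 = 0 ∨ i % 3 = 1 ∨ i % 3 = 2) with k | k | k <;> rw [k] at e ⊢
    · rw [pow_zero, conj_eq_one_iff] at e
      simp [e]
    · simp
    · exact absurd (e.trans (eq_inv_of_mul_eq_one_left (by rw [← pow_succ, y3]))) (t1 g), t2⟩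
  obtain ⟨S, hS⟩ := (IsPGroup.of_card (n := 1) (by rw [Nat.card_zpowers, hy, pow_one]) :
    IsPGroup 3 (zpowers y)).exists_le_sylow
  have hyS := hS (mem_zpowers y)
  by_cases hc : 3 ^ 2 ≤ Nat.card S
  · obtain ⟨C, c1, c2, c3, -⟩ := h.core S.2 hc hG S.not_dvd_index
    refine prod_ne_one (A := Abelianization S) (h.loc S.2 hc hyS).2.1.le (fun c hc => ?_)
      (fun c hc1 hc2 => ?_) c3 c2
    · obtain ⟨z, hz, rfl⟩ := (c1 c).1 hc
      rw [← pow_three', ← map_pow, orderOf_dvd_iff_pow_eq_one.mp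
        ((orderOf_coe z).symm.trans (h.conj hz).oy).dvd, map_one]
    · obtain ⟨z, hz, rfl⟩ := (c1 c).1 hc1
      obtain ⟨w, hw, e⟩ := (c1 _).1 hc2
      obtain ⟨s, -, hs⟩ := ((h.conj hw).loc S.2 hc w.2).2.2.2 z⁻¹
        (by rw [← Abelianization.ker_of, MonoidHom.mem_ker]; simp [e])
      obtain ⟨a, ha⟩ := isConj_iff.mp hz
      obtain ⟨b, hb⟩ := isConj_iff.mp hw
      refine t1 (a⁻¹ * s * b) ?_
      calc _ = a⁻¹ * (s * (b * y * b⁻¹) * s⁻¹) * a := by group
        _ = _ := by rw [hb, hs, coe_inv, ← ha]; group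
  · obtain ⟨n, hn⟩ := S.2.exists_card_eq
    have e : zpowers y = S := eq_of_le_of_card_ge hS (by
      rw [Nat.card_zpowers, hy, hn]
      rw [hn, Nat.pow_le_pow_iff_right (by norm_num)] at hc
      exact Nat.pow_le_pow_right (n := 3) (by norm_num) (show n ≤ 1 by omega))
    have := transfer_pow' (M := ⊥) (S := S) hG (comm_eq_bot_iff.2 (by
      rw [← e, cent_zpowers]; exact zpowers_le_of_mem (mem_cent1_self y))).le hyS fun k g hg => by
        rw [mem_bot, mul_inv_eq_one]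
        by_cases k3 : 3 ∣ k
        · rw [orderOf_dvd_iff_pow_eq_one.mp (hy ▸ k3)]; simp
        have e1 : zpowers (y ^ k) = zpowers y := zpowers_eq_of_card_prime
          (by rw [Nat.card_zpowers, hy]; norm_num) (pow_mem (mem_zpowers y) k)
          fun e => k3 (hy ▸ orderOf_dvd_of_pow_eq_one e)
        obtain ⟨m, hm⟩ := mem_powers_iff_mem_zpowers.mpr (e1.ge (mem_zpowers y))
        obtain ⟨j, hj⟩ := mem_powers_iff_mem_zpowers.mpr (e.ge hg)
        simp only at hm hj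
        have e2 : g⁻¹ * y * g⁻¹⁻¹ = y ^ (j * m) := by
          rw [pow_mul, hj, ← inv_inv g, inv_inv g⁻¹, conj_pow, hm]
        rw [h.t1 _ _ e2] at e2
        rw [← inv_inv g, inv_inv g⁻¹, ← conj_pow, e2]
    exact S.not_dvd_index (hy.symm.dvd.trans (orderOf_dvd_of_pow_eq_one (mem_bot.mp this)))

theorem t11 {G : Type*} [Group G] [Finite G] (hG : commutator G = ⊤) {y a h : G}
    (hy : orderOf y = 11) (t1 : ∀ (g : G) (i : ℕ), g * y * g⁻¹ = y ^ i → y ^ i = y)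
    (t2 : ¬ 11 ^ 3 ∣ Nat.card (centralizer ({y} : Set G))) (ha : orderOf a = 11)
    (ay : Commute a y) (ay' : a ∉ zpowers y) (h5 : h ^ 5 = 1) (hy' : Commute h y)
    (hN : h ∈ normalizer (zpowers a : Set G)) (odd : Odd (Nat.card (normalizer (zpowers a : Set G))))
    (wc : ∀ P : Subgroup G, IsPGroup 11 P → a ∈ P → ∀ g : G, g * a * g⁻¹ ∈ P →
      g ∈ normalizer (zpowers a : Set G))
    (hc : ∀ c ∈ normalizer (zpowers a : Set G), Commute c y →
      ∃ i j k : ℕ, c = a ^ i * y ^ j * h ^ k)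
    (hf : ∀ P : Subgroup G, IsPGroup 11 P → y ∈ P → ∀ z ∈ P, IsConj y z → Commute h z → z = y) :
    False := by
  have : Fact (Nat.Prime 11) := ⟨by norm_num⟩
  have ca : Nat.card (zpowers a) = 11 := by rw [Nat.card_zpowers, ha]
  have cQ : Nat.card ↥(zpowers y ⊔ zpowers a) = 11 ^ 2 := by
    rw [card_sup_of_inf_eq_bot (zpowers_le.mpr (cent_le_norm _ (by
      rw [cent_zpowers]; exact mem_cent1_iff.mpr ay))), ca, Nat.card_zpowers, hy]
    · rfl
    rw [inf_comm]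
    exact (inf_eq_bot_or_le_of_card_prime _ (by rw [ca]; norm_num)).resolve_right
      fun e => ay' (e (mem_zpowers a))
  have pQ := IsPGroup.of_card cQ
  obtain ⟨S, hS⟩ := pQ.exists_le_sylow
  have hyS := hS (mem_sup_left (mem_zpowers y))
  have haS := hS (mem_sup_right (mem_zpowers a))
  obtain ⟨h1, k, k1, k2, k3, k4, k5⟩ := tp hG hy t1 t2 S hyS (cQ ▸ card_dvd_of_le hS)
  have sub : fixedPoints ↥(zpowers y ⊔ zpowers a) (Sylow 11 G) ⊆
      (fun i : ℕ => (h ^ i)⁻¹ • S) '' (Finset.range 5 : Set ℕ) := fun T hT => by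
    rw [pQ.sylow_mem_fixedPoints_iff] at hT
    obtain ⟨c, c1, rfl⟩ := h1 T (hT (mem_sup_left (mem_zpowers y)))
    have c2 := hT (mem_sup_right (mem_zpowers a))
    rw [Sylow.coe_subgroup_smul, mem_conj_smul] at c2
    obtain ⟨i, j, l, e⟩ := hc c⁻¹ (wc S S.2 haS _ (by rwa [inv_inv])) c1.inv_left
    refine ⟨l % 5, by simpa using Nat.mod_lt l (by norm_num), ?_⟩
    simp only
    rw [← pow_eq_pow_mod l h5, ← inv_inv c, e, mul_inv_rev, mul_smul,
      Sylow.smul_eq_iff_mem_normalizer.mpr (le_normalizer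
        (inv_mem (mul_mem (pow_mem haS i) (pow_mem hyS j))))]
  have n1 := (pQ.card_modEq_card_fixedPoints (Sylow 11 G)).symm.trans (card_sylow_modEq_one 11 G)
  have n2 := (Set.ncard_le_ncard sub).trans (Set.ncard_image_le (Finset.finite_toSet _))
  rw [Set.ncard_coe_finset, Finset.card_range] at n2
  rw [Nat.card_coe_set_eq, Nat.ModEq] at n1
  have hS' : h • S = S := (Set.ncard_le_one (Set.toFinite _)).mp
    (show (fixedPoints ↥(zpowers y ⊔ zpowers a) (Sylow 11 G)).ncard ≤ 1 by omega) _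
    (pQ.sylow_mem_fixedPoints_iff.mpr (sup_le (zpowers_le.mpr (by
      rw [Sylow.coe_subgroup_smul, mem_conj_smul, mul_assoc, ← hy'.eq, inv_mul_cancel_left]
      exact hyS)) (zpowers_le.mpr (by
      rw [Sylow.coe_subgroup_smul, mem_conj_smul]
      exact zpowers_le.mpr haS ((mem_normalizer_iff''.mp hN a).mp (mem_zpowers a)))))) _
    (pQ.sylow_mem_fixedPoints_iff.mpr hS)
  have hn := Sylow.smul_eq_iff_mem_normalizer.mp hS'
  have k6 : Odd k := odd.of_dvd_nat (k4.trans (card_dvd_of_le fun g hg =>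
    wc S S.2 haS g (conj_mem_of_norm hg haS)))
  have m1 := H4.Nse.ncard_modEq_conj Nat.prime_five h5 (S := {z | z ∈ S ∧ IsConj y z})
    fun z hz => ⟨conj_mem_of_norm hn hz.1, hz.2.trans (isConj_iff.mpr ⟨h, rfl⟩)⟩
  rw [show {x | x ∈ {z | z ∈ S ∧ IsConj y z} ∧ Commute h x} = {y} from
    Set.eq_singleton_iff_unique_mem.mpr ⟨⟨⟨hyS, .refl y⟩, hy'⟩,
      fun z hz => hf S S.2 hyS z hz.1.1 hz.1.2 hz.2⟩, Set.ncard_singleton] at m1
  obtain ⟨n, hn'⟩ := S.2.exists_card_eq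
  have m2 : k * Nat.card S ≡ k * 1 [MOD 5] :=
    Nat.ModEq.mul_left k (hn' ▸ ((show 11 ≡ 1 [MOD 5] by decide).pow n).trans (by rw [one_pow]))
  have m3 := m2.symm.trans (k5 ▸ m1.mul_right (11 ^ 2))
  rw [Nat.ModEq] at m3
  obtain ⟨j, rfl⟩ := k6
  omega

end Cfsg.Agent.H9.O11
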