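import Cfsg.Agent.H9.O11Def

/-! Piece `TG` of S3403. -/

set_option autoImplicit false

namespace Cfsg.Agent.H9.O11

open Subgroup MulAction Finset

namespace TG

variable {G Ω : Type*} [Group G] [MulAction G Ω] {α β : Ω} {a b h u w : G}

theorem fx_mul {x y : G} (hx : x • α = α) (hy : y • α = α) : (x * y) • α = α := by
  rw [mul_smul, hy, hx]

theorem fx_inv {x : G} (hx : x • α = α) : x⁻¹ • α = α := by rw [inv_smul_eq_iff, hx]

theorem fx_pow {x : G} (hx : x • α = α) (n : ℕ) : x ^ n • α = α :=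
  pow_mem (mem_stabilizer_iff.mpr hx) n

theorem exists_sg [Finite G] (ob : orderOf b = 61)
    (nb : ∀ g : G, g • α = α → g * b * g⁻¹ ∈ zpowers b) (uα : u • α = α)
    (ub : u * b * u⁻¹ = b⁻¹) : ∃ σ : G → ℤ,
      (∀ x y, x • α = α → y • α = α → σ (x * y) = σ x * σ y) ∧ (∀ x, σ x * σ x = 1) ∧
      (∀ x, x • α = α → Commute x b → σ x = 1) ∧ ∃ x, x • α = α ∧ σ x = -1 := by
  classical
  have n0 : ((60 : ℕ) : ZMod 61) = -1 := by decide
  have n1 : (-1 : ZMod 61) ≠ 1 := by decide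
  have n2 : (-1 : ZMod 61) ^ 15 ≠ 1 := by decide
  have : Fact (Nat.Prime 61) := ⟨by norm_num⟩
  choose n hn using fun g hg => (mem_powers_iff_mem_zpowers.mpr (nb g hg))
  simp only at hn
  let k : G → ZMod 61 := fun g => if hg : g • α = α then n g hg else 0
  have hk : ∀ g, g • α = α → ∀ m : ℕ, g * b * g⁻¹ = b ^ m → k g = m := fun g hg m e => by
    simp only [k, dif_pos hg]
    rw [ZMod.natCast_eq_natCast_iff, ← ob, ← pow_eq_pow_iff_modEq, hn, e]
  have km : ∀ x y, x • α = α → y • α = α → k (x * y) = k x * k y := fun x y hx hy => by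
    rw [hk x hx _ (hn x hx).symm, hk y hy _ (hn y hy).symm, ← Nat.cast_mul]
    refine hk _ (fx_mul hx hy) _ ?_
    rw [pow_mul, hn, conj_pow, hn]
    group
  have k1 : ∀ x, x • α = α → Commute x b → k x = 1 := fun x hx e =>
    (hk x hx 1 (by rw [e.eq, mul_inv_cancel_right, pow_one])).trans Nat.cast_one
  have ku : k u = -1 := (hk u uα 60 (by
    rw [ub, inv_eq_iff_mul_eq_one, ← pow_succ']
    exact (ob ▸ pow_orderOf_eq_one b : b ^ 61 = 1))).trans n0
  have k60 : ∀ x, x • α = α → k x ^ 60 = 1 := fun x hx =>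
    ZMod.pow_card_sub_one_eq_one fun e => by
      have := km x x⁻¹ hx (fx_inv hx)
      rw [mul_inv_cancel, k1 1 (one_smul _ _) (Commute.one_left b), e, zero_mul] at this
      exact one_ne_zero this
  obtain ⟨m, h1, x, hx, h2⟩ : ∃ m : ℕ, (∀ x, x • α = α → (k x ^ m) ^ 2 = 1) ∧
      ∃ x, x • α = α ∧ k x ^ m ≠ 1 := by
    by_cases e : ∀ x, x • α = α → (k x ^ 15) ^ 2 = 1
    · exact ⟨15, e, u, uα, by rw [ku]; exact n2⟩
    · push Not at e
      obtain ⟨x, hx, e⟩ := e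
      exact ⟨30, fun x hx => by rw [← pow_mul, k60 x hx], x, hx, by rwa [← pow_mul] at e⟩
  refine ⟨fun g => if k g ^ m = 1 then 1 else -1, fun x y hx hy => ?_, fun x => ?_,
    fun x hx e => by simp [k1 x hx e], x, hx, if_neg h2⟩
  · simp only [km x y hx hy, mul_pow]
    rcases sq_eq_one_iff.mp (h1 x hx) with e | e <;>
      rcases sq_eq_one_iff.mp (h1 y hy) with f | f <;> simp [e, f, n1]
  · simp only
    split_ifs <;> rfl

/-- The data. -/
structure D (α β : Ω) (w : G) (σ F : G → ℤ) : Prop where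
  ne : α ≠ β
  wα : w • α = β
  wβ : w • β = α
  two : ∀ γ, γ ≠ α → ∃ x : G, x • α = α ∧ x • β = γ
  mul : ∀ x y, x • α = α → y • α = α → σ (x * y) = σ x * σ y
  sq : ∀ x, σ x * σ x = 1
  F0 : ∀ x, x • α = α → F x = 0
  F1 : ∀ x y, x • α = α → y • α = α → F (x * w * y) = σ x * σ y

theorem exists_D {σ : G → ℤ} (ne : α ≠ β) (wα : w • α = β) (wβ : w • β = α)
    (two : ∀ γ, γ ≠ α → ∃ x : G, x • α = α ∧ x • β = γ)
    (mul : ∀ x y, x • α = α → y • α = α → σ (x * y) = σ x * σ y) (sq : ∀ x, σ x * σ x = 1)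
    (hw : ∀ g : G, g • α = α → g • β = β → σ (w * g * w⁻¹) = σ g) : ∃ F, D α β w σ F := by
  classical
  choose c c1 c2 using two
  refine ⟨fun g => if hg : g • α = α then 0 else σ (c _ hg) * σ (w⁻¹ * (c _ hg)⁻¹ * g),
    ne, wα, wβ, fun γ hγ => ⟨_, c1 γ hγ, c2 γ hγ⟩, mul, sq, fun x hx => dif_pos hx,
    fun x y hx hy => ?_⟩
  have e : (x * w * y) • α = x • β := by rw [mul_smul, mul_smul, hy, wα]
  have hg : (x * w * y) • α ≠ α := fun f => ne (smul_left_cancel x (hx.trans (e ▸ f).symm))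
  simp only [dif_neg hg]
  have h1 := c1 _ hg
  have h2 := (c2 _ hg).trans e
  generalize c _ hg = z at h1 h2
  have h3 : (w⁻¹ * (z⁻¹ * x) * w) • α = α := by
    rw [mul_smul, mul_smul, mul_smul, wα, ← h2, inv_smul_smul, inv_smul_eq_iff, wα]
  have h4 : (w⁻¹ * (z⁻¹ * x) * w) • β = β := by
    rw [mul_smul, mul_smul, mul_smul, wβ, hx, fx_inv h1, inv_smul_eq_iff, wβ]
  have h5 := hw _ h3 h4
  rw [show w * (w⁻¹ * (z⁻¹ * x) * w) * w⁻¹ = z⁻¹ * x by group] at h5
  rw [show w⁻¹ * z⁻¹ * (x * w * y) = w⁻¹ * (z⁻¹ * x) * w * y by group, mul _ _ h3 hy, ← h5,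
    ← mul_assoc, ← mul _ _ h1 (fx_mul (fx_inv h1) hx), mul_inv_cancel_left]

namespace D

variable {σ F : G → ℤ} (d : D α β w σ F)
include d

theorem one : σ 1 = 1 := by
  have := d.mul 1 1 (one_smul _ _) (one_smul _ _)
  rwa [mul_one, d.sq] at this

theorem inv {x : G} (hx : x • α = α) : σ x⁻¹ = σ x := by
  have := d.mul x x⁻¹ hx (fx_inv hx)
  rw [mul_inv_cancel, d.one] at this
  rw [← one_mul (σ x⁻¹), ← d.sq x, mul_assoc, ← this, mul_one]

theorem dec {g : G} (hg : g • α ≠ α) : ∃ x y, x • α = α ∧ y • α = α ∧ g = x * w * y := by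
  obtain ⟨x, h1, h2⟩ := d.two _ hg
  refine ⟨x, w⁻¹ * x⁻¹ * g, h1, ?_, by group⟩
  rw [mul_smul, mul_smul, ← h2, inv_smul_smul, inv_smul_eq_iff, d.wα]

theorem left {x : G} (hx : x • α = α) (g : G) : F (x * g) = σ x * F g := by
  by_cases hg : g • α = α
  · rw [d.F0 _ hg, d.F0 _ (fx_mul hx hg), mul_zero]
  obtain ⟨y, z, hy, hz, rfl⟩ := d.dec hg
  rw [← mul_assoc, ← mul_assoc, d.F1 _ _ (fx_mul hx hy) hz, d.F1 _ _ hy hz, d.mul _ _ hx hy,
    mul_assoc]

theorem right {x : G} (hx : x • α = α) (g : G) : F (g * x) = F g * σ x := by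
  by_cases hg : g • α = α
  · rw [d.F0 _ hg, d.F0 _ (fx_mul hg hx), zero_mul]
  obtain ⟨y, z, hy, hz, rfl⟩ := d.dec hg
  rw [mul_assoc _ z, d.F1 _ _ hy (fx_mul hz hx), d.F1 _ _ hy hz, d.mul _ _ hz hx, mul_assoc]

theorem Fw : F w = 1 := by
  simpa [d.one] using d.F1 1 1 (one_smul _ _) (one_smul _ _)

theorem Fsq {g : G} (hg : g • α ≠ α) : F g * F g = 1 := by
  obtain ⟨y, z, hy, hz, rfl⟩ := d.dec hg
  rw [d.F1 _ _ hy hz, mul_mul_mul_comm, d.sq, d.sq, mul_one]

theorem Finv (g : G) : F g⁻¹ = F w⁻¹ * F g := by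
  by_cases hg : g • α = α
  · rw [d.F0 _ hg, d.F0 _ (fx_inv hg), mul_zero]
  obtain ⟨y, z, hy, hz, rfl⟩ := d.dec hg
  rw [d.F1 _ _ hy hz, mul_inv_rev, mul_inv_rev, d.left (fx_inv hz), d.right (fx_inv hy), d.inv hy,
    d.inv hz]
  ring

theorem cj_fix {x : G} : (w⁻¹ * x * w) • α = α ↔ x • β = β := by
  rw [mul_smul, mul_smul, d.wα, inv_smul_eq_iff, d.wα]

theorem cj_fix' {x : G} (hx : x • α = α) : (w⁻¹ * x * w) • β = β := by
  rw [mul_smul, mul_smul, d.wβ, hx, inv_smul_eq_iff, d.wβ]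

theorem cj {x : G} (hx : x • β = β) (y : G) :
    F (w⁻¹ * (x * y * x⁻¹) * w) = F (w⁻¹ * y * w) := by
  have h1 := d.cj_fix.mpr hx
  rw [show w⁻¹ * (x * y * x⁻¹) * w = w⁻¹ * x * w * (w⁻¹ * y * w) * (w⁻¹ * x * w)⁻¹ by group,
    d.right (fx_inv h1), d.left h1, d.inv h1, mul_right_comm, d.sq, one_mul]

theorem eps (hb : b • β ≠ β) (uβ : u • β = β) (ub : u * b * u⁻¹ = b⁻¹) : F w⁻¹ = 1 := by
  have h1 := d.cj uβ b
  rw [ub, show w⁻¹ * b⁻¹ * w = (w⁻¹ * b * w)⁻¹ by group, d.Finv] at h1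
  rw [← mul_one (F w⁻¹), ← d.Fsq (d.cj_fix.not.mpr hb), ← mul_assoc, h1]

/-- the trivial two-graph -/
theorem hom (hG : commutator G = ⊤) (e : F w⁻¹ = 1) {s : ℤ} (hs : s * s = 1)
    (H : ∀ x, x • α = α → x • β ≠ β → F (w⁻¹ * x * w) = s * σ x)
    (hw : ∀ x, x • α = α → x • β = β → σ (w⁻¹ * x * w) = σ x) {x : G} (hx : x • α = α) :
    σ x = 1 := by
  classical
  let L : G → ℤ := fun g => if g • α = α then σ g else s * F g
  have l1 : ∀ x, x • α = α → ∀ g, L (x * g) = σ x * L g := fun x hx g => by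
    by_cases hg : g • α = α
    · simp only [L, if_pos hg, if_pos (fx_mul hx hg), d.mul _ _ hx hg]
    · have : ¬ (x * g) • α = α := fun f => hg (by simpa using fx_mul (fx_inv hx) f)
      simp only [L, if_neg hg, if_neg this, d.left hx]
      ring
  have l2 : ∀ x, x • α = α → ∀ g, L (g * x) = L g * σ x := fun x hx g => by
    by_cases hg : g • α = α
    · simp only [L, if_pos hg, if_pos (fx_mul hg hx), d.mul _ _ hg hx]
    · have : ¬ (g * x) • α = α := fun f => hg (by simpa using fx_mul f (fx_inv hx))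
      simp only [L, if_neg hg, if_neg this, d.right hx]
      ring
  have ww : (w * w) • α = α := by rw [mul_smul, d.wα, d.wβ]
  have sw : σ (w * w) = 1 := by
    have := d.left ww w⁻¹
    rwa [mul_inv_cancel_right, d.Fw, e, mul_one, eq_comm] at this
  have lw : L w = s := by simp only [L, d.wα, if_neg d.ne.symm, d.Fw, mul_one]
  have l3 : ∀ x, x • α = α → L (w * x * w) = σ x := fun x hx => by
    rw [show w * x * w = w * w * (w⁻¹ * x * w) by group, l1 _ ww, sw, one_mul]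
    by_cases hb : x • β = β
    · simp only [L, if_pos (d.cj_fix.mpr hb), hw x hx hb]
    · simp only [L, if_neg (d.cj_fix.not.mpr hb), H x hx hb, ← mul_assoc, hs, one_mul]
  have lm : ∀ g k, L (g * k) = L g * L k := fun g k => by
    by_cases hg : g • α = α
    · rw [l1 g hg]; simp only [L, if_pos hg]
    by_cases hk : k • α = α
    · rw [l2 k hk]; simp only [L, if_pos hk]
    obtain ⟨x, y, hx, hy, rfl⟩ := d.dec hg
    obtain ⟨z, v, hz, hv, rfl⟩ := d.dec hk
    rw [show x * w * y * (z * w * v) = x * (w * (y * z) * w) * v by group, l2 _ hv, l2 _ hv,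
      l2 _ hy, l1 _ hx, l1 _ hx, l1 _ hz, l3 _ (fx_mul hy hz), lw, d.mul _ _ hy hz]
    linear_combination -(σ x * σ y * σ z * σ v) * hs
  let φ : G →* ℤ := ⟨⟨L, by simp only [L, one_smul, if_true, d.one]⟩, lm⟩
  have := Abelianization.commutator_subset_ker φ.toHomUnits (hG ▸ mem_top x)
  have h2 : L x = 1 := congrArg Units.val this
  simpa only [L, if_pos hx] using h2

variable {ι : Type*} [Fintype ι] {r : ι → G} (hr : Function.Bijective fun i => r i • α)
include hr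

omit d in
theorem shift {Φ : G → ℤ} (hΦ : ∀ g x, x • α = α → Φ (g * x) = Φ g) (g : G) :
    ∑ i, Φ (g * r i) = ∑ i, Φ (r i) := by
  let e := Equiv.ofBijective _ hr
  refine Fintype.sum_equiv (e.trans ((toPerm g).trans e.symm)) _ _ fun i => ?_
  have h1 : r (e.symm (g • r i • α)) • α = g • r i • α := e.apply_symm_apply _
  change _ = Φ (r (e.symm (g • r i • α)))
  generalize r (e.symm (g • r i • α)) = k at h1
  rw [← hΦ k (k⁻¹ * (g * r i)) (by rw [mul_smul, mul_smul, ← h1, inv_smul_smul]),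
    mul_inv_cancel_left]

theorem shift' (g y : G) :
    ∑ i, F (g * r i) * F ((r i)⁻¹ * y) = ∑ i, F (r i) * F ((r i)⁻¹ * (g * y)) := by
  rw [← shift hr (Φ := fun k => F k * F (k⁻¹ * (g * y))) (fun k x hx => ?_) g]
  · simp only [mul_inv_rev, mul_assoc, inv_mul_cancel_left]
  · simp only [mul_inv_rev, mul_assoc, d.left (fx_inv hx), d.right hx, d.inv hx]
    rw [← mul_assoc (σ x), d.sq, one_mul]

theorem K1 {y : G} (hy : y • α ≠ α) :
    ∑ i, F (r i) * F ((r i)⁻¹ * y) = (∑ i, F (r i) * F ((r i)⁻¹ * w)) * F y := by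
  obtain ⟨x, z, hx, hz, rfl⟩ := d.dec hy
  rw [mul_assoc x, ← d.shift' hr, ← mul_assoc x, d.F1 _ _ hx hz, sum_mul]
  refine sum_congr rfl fun i _ => ?_
  rw [d.left hx, ← mul_assoc (r i)⁻¹, d.right hz]
  ring

theorem K0 (e : F w⁻¹ = 1) : ∑ i, F (r i) * F ((r i)⁻¹ * 1) = Fintype.card ι - 1 := by
  classical
  obtain ⟨j, hj⟩ := hr.2 α
  rw [← add_sum_erase _ _ (mem_univ j), d.F0 _ hj, zero_mul, zero_add,
    sum_congr rfl (g := fun _ => 1) fun i hi => ?_, sum_const, card_erase_of_mem (mem_univ _),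
    card_univ, nsmul_eq_mul, mul_one, Nat.cast_sub (Fintype.card_pos_iff.mpr ⟨j⟩), Nat.cast_one]
  rw [mul_one, d.Finv, e, one_mul, d.Fsq fun f => (mem_erase.mp hi).1 (hr.1 (f.trans hj.symm))]

theorem trace (e : F w⁻¹ = 1) (hc : Fintype.card ι = 672) {z y : ℤ} (hz : z ≠ y)
    (h1 : z * y = -671) (h2 : z + y = ∑ i, F (r i) * F ((r i)⁻¹ * w)) : z - y ∣ 672 * y := by
  classical
  let C : Matrix ι ι ℚ := Matrix.of fun i j => F ((r i)⁻¹ * r j)
  have hC : C * C = ((z + y : ℤ) : ℚ) • C + (671 : ℚ) • 1 := by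
    ext i j
    simp only [C, Matrix.mul_apply, Matrix.add_apply, Matrix.smul_apply, smul_eq_mul,
      Matrix.of_apply]
    rw [← Int.cast_ofNat, show ∑ k, (F ((r i)⁻¹ * r k) : ℚ) * F ((r k)⁻¹ * r j) =
      (∑ k, F ((r i)⁻¹ * r k) * F ((r k)⁻¹ * r j) : ℤ) by push_cast; rfl, d.shift' hr]
    by_cases hij : i = j
    · rw [hij, inv_mul_cancel, d.K0 hr e, hc, d.F0 1 (one_smul _ _)]
      simp
    · rw [d.K1 hr fun f => hij (hr.1 (by rwa [mul_smul, inv_smul_eq_iff, eq_comm] at f)), ← h2,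
        Matrix.one_apply_ne hij]
      simp
  have h0 : ((z - y : ℤ) : ℚ) ≠ 0 := by exact_mod_cast sub_ne_zero.mpr hz
  have h1' : (z * y : ℚ) = -671 := by exact_mod_cast h1
  let P : Matrix ι ι ℚ := ((z - y : ℤ) : ℚ)⁻¹ • (C - (y : ℚ) • 1)
  have hP : P * P = P := by
    simp only [P, smul_mul_smul_comm, mul_smul]
    congr 1
    rw [inv_smul_eq_iff₀ h0]
    simp only [sub_mul, mul_sub, hC, Matrix.smul_mul, Matrix.mul_smul, one_mul, mul_one, smul_smul]
    rw [show (671 : ℚ) = -(z * y) by rw [h1']; norm_num]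
    push_cast
    module
  have h3 := (LinearMap.IsIdempotentElem.isProj_range (Matrix.toLin' P)
    (by rw [IsIdempotentElem, Module.End.mul_eq_comp, ← Matrix.toLin'_mul, hP])).trace
  have h4 : C.trace = 0 := sum_eq_zero fun i _ => by simp [C, d.F0 1 (one_smul _ _)]
  rw [Matrix.trace_toLin'_eq] at h3
  simp only [P, Matrix.trace_smul, Matrix.trace_sub, h4, Matrix.trace_one, hc, smul_eq_mul] at h3
  rw [inv_mul_eq_iff_eq_mul₀ h0] at h3
  refine ⟨-(Module.finrank ℚ (LinearMap.range (Matrix.toLin' P)) : ℤ), ?_⟩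
  apply Int.cast_injective (α := ℚ)
  push_cast at h3 ⊢
  linear_combination -h3

end D

theorem arith {z t : ℤ} (h : z * z = t * z + 671) (h2 : z - (t - z) ∣ 672 * (t - z)) :
    t = 670 ∨ t = -670 := by
  have h1 : z ∣ 671 := ⟨z - t, by linear_combination -h⟩
  have h3 := Int.le_of_dvd (by norm_num) h1
  have h4 := Int.le_of_dvd (by norm_num) (neg_dvd.mpr h1)
  have := (by decide +kernel : ∀ n ∈ range 672, 671 % n = 0 → n ∈ [1, 11, 61, 671]) z.natAbs
    (mem_range.mpr (by omega)) (Nat.mod_eq_zero_of_dvd (Int.natAbs_dvd_natAbs.mpr h1))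
  simp only [List.mem_cons, List.not_mem_nil, or_false] at this
  rcases (by omega : z = 1 ∨ z = -1 ∨ z = 11 ∨ z = -11 ∨ z = 61 ∨ z = -61 ∨ z = 671 ∨ z = -671)
    with e | e | e | e | e | e | e | e <;> subst e
  · omega
  · omega
  · rw [show t = -50 by omega] at h2; norm_num at h2
  · rw [show t = 50 by omega] at h2; norm_num at h2
  · rw [show t = 50 by omega] at h2; norm_num at h2
  · rw [show t = -50 by omega] at h2; norm_num at h2
  · omega
  · omega

set_option synthInstance.maxSize 1000 in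
theorem units11 : ∀ k < 11, k ≠ 0 → k * k % 11 ≠ 1 → ∀ m < 11, m ≠ 0 →
    ∃ n < 5, k ^ n % 11 = m ∨ k ^ n % 11 + m = 11 := by decide

end TG

open TG in
theorem tg {G Ω : Type*} [Group G] [Finite G] [MulAction G Ω] (hG : commutator G = ⊤)
    (hΩ : Nat.card Ω = 672)
    (two : ∀ a b c d : Ω, a ≠ b → c ≠ d → ∃ g : G, g • a = c ∧ g • b = d)
    {α β : Ω} (hab : α ≠ β) {a b h u w : G} (oa : orderOf a = 11) (ob : orderOf b = 61)
    (ab : Commute a b) (aα : a • α = α) (bα : b • α = α)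
    (reg : ∀ i j : ℕ, (a ^ i * b ^ j) • β = β → a ^ i * b ^ j = 1)
    (nb : ∀ g : G, g • α = α → g * b * g⁻¹ ∈ zpowers b)
    (h5 : h ^ 5 = 1) (hα : h • α = α) (hβ : h • β = β) (ha : h * a * h⁻¹ ∈ zpowers a)
    (ha' : ¬ Commute h a) (uα : u • α = α) (uβ : u • β = β) (ub : u * b * u⁻¹ = b⁻¹)
    (wα : w • α = β) (wβ : w • β = α)
    (hw : ∀ g : G, g • α = α → g • β = β → ∃ i : ℕ, w * g * w⁻¹ = g * h ^ i) : False := by
  classical
  have := Fintype.ofFinite G
  obtain ⟨σ, s1, s2, s3, x0, hx0, s4⟩ := exists_sg ob nb uα ub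
  have sp : ∀ x, x • α = α → σ x = 1 → ∀ n : ℕ, σ (x ^ n) = 1 := fun x hx e n => by
    induction n with
    | zero => exact s3 _ (fx_pow hx 0) (by simp)
    | succ n ih => rw [pow_succ, s1 _ _ (fx_pow hx n) hx, ih, e, mul_one]
  have sh : σ h = 1 := by
    have := sp (h * h) (fx_mul hα hα) (by rw [s1 _ _ hα hα, s2]) 3
    rwa [← pow_two, ← pow_mul, show 2 * 3 = 5 + 1 from rfl, pow_succ, h5, one_mul] at this
  have hw' : ∀ g : G, g • α = α → g • β = β → σ (w * g * w⁻¹) = σ g := fun g h1 h2 => by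
    obtain ⟨i, e⟩ := hw g h1 h2
    rw [e, s1 _ _ h1 (fx_pow hα i), sp h hα sh, mul_one]
  obtain ⟨F, d⟩ := exists_D hab wα wβ (fun γ hγ => two α β α γ hab hγ.symm) s1 s2 hw'
  have hw'' : ∀ g : G, g • α = α → g • β = β → σ (w⁻¹ * g * w) = σ g := fun g h1 h2 => by
    rw [← hw' _ (d.cj_fix.mpr h2) (d.cj_fix' h1)]
    congr 1
    group
  -- the regular subgroup
  let A := zpowers (a * b)
  have cA : Nat.card A = 671 := by
    rw [Nat.card_zpowers, ab.orderOf_mul_eq_mul_orderOf_of_coprime (by rw [oa, ob]; norm_num),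
      oa, ob]
  have a11 : a ^ 11 = 1 := oa ▸ pow_orderOf_eq_one a
  have mA : ∀ x ∈ A, ∃ i j : ℕ, x = a ^ i * b ^ j := fun x hx => by
    obtain ⟨n, rfl⟩ := mem_powers_iff_mem_zpowers.mpr hx
    exact ⟨n, n, ab.mul_pow n⟩
  have aA : a ∈ A := by
    have := pow_mem (mem_zpowers (a * b)) 122
    rwa [ab.mul_pow, ← pow_mod_orderOf, ← pow_mod_orderOf b, oa, ob, pow_one, pow_zero,
      mul_one] at this
  have bA : b ∈ A := by simpa using mul_mem (inv_mem aA) (mem_zpowers (a * b))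
  have BA : zpowers b ≤ A := zpowers_le.mpr bA
  have Aα : ∀ x ∈ A, x • α = α := fun x hx => by
    obtain ⟨i, j, rfl⟩ := mA x hx
    exact fx_mul (fx_pow aα i) (fx_pow bα j)
  have Aσ : ∀ x ∈ A, σ x = 1 := fun x hx => s3 x (Aα x hx) (by
    obtain ⟨i, j, rfl⟩ := mA x hx
    exact (ab.pow_left i).mul_left ((Commute.refl b).pow_left j))
  have Aβ : ∀ x ∈ A, x • β = β → x = 1 := fun x hx => by
    obtain ⟨i, j, rfl⟩ := mA x hx
    exact reg i j
  have Ac : ∀ x ∈ A, ∀ y ∈ A, x * y = y * x := fun x hx y hy =>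
    congrArg Subtype.val (mul_comm' (⟨x, hx⟩ : A) ⟨y, hy⟩)
  let r : Option A → G := fun i => i.elim 1 fun x => x * w
  have cι : Fintype.card (Option A) = 672 := by
    rw [Fintype.card_option, ← Nat.card_eq_fintype_card, cA]
  have : Finite Ω := Nat.finite_of_card_ne_zero (by omega)
  have hr : Function.Bijective fun i => r i • α := by
    refine Function.Injective.bijective_of_nat_card_le ?_ (by
      rw [hΩ, Nat.card_eq_fintype_card, cι])
    have k : ∀ x : A, x.1 • β ≠ α := fun x e =>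
      hab (smul_left_cancel x.1 ((Aα _ x.2).trans e.symm))
    rintro (_ | x) (_ | y) e <;> simp only [r, Option.elim, mul_smul, one_smul, wα] at e
    · rfl
    · exact absurd e.symm (k y)
    · exact absurd e (k x)
    · have := Aβ _ (mul_mem (inv_mem y.2) x.2) (by rw [mul_smul, e, inv_smul_smul])
      rw [inv_mul_eq_one] at this
      rw [Subtype.ext this]
  have b1 : b • β ≠ β := fun e => by simp [Aβ b bA e] at ob
  have e := d.eps b1 uβ ub
  let f : G → ℤ := fun x => F (w⁻¹ * x * w)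
  have f1 : f 1 = 0 := d.F0 _ (by simp)
  have fi : ∀ x, f x⁻¹ = f x := fun x => by
    simp only [f]
    rw [show w⁻¹ * x⁻¹ * w = (w⁻¹ * x * w)⁻¹ by group, d.Finv, e, one_mul]
  have Fx : ∀ x ∈ A, F (x * w) = 1 := fun x hx => by rw [d.left (Aα x hx), Aσ x hx, d.Fw, mul_one]
  obtain ⟨t, ht⟩ : ∃ t, t = ∑ i, F (r i) * F ((r i)⁻¹ * w) := ⟨_, rfl⟩
  let As : Finset G := univ.filter (· ∈ A)
  let Bs : Finset G := univ.filter (· ∈ zpowers b)
  have sA : ∀ φ : G → ℤ, ∑ x : A, φ x = ∑ x ∈ As, φ x := fun φ =>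
    (sum_subtype As (by simp [As]) φ).symm
  have tA : ∑ x ∈ As, f x = t := by
    rw [ht, Fintype.sum_option, ← sA]
    simp only [r, Option.elim, d.F0 1 (one_smul _ _), zero_mul, zero_add]
    exact sum_congr rfl fun x _ => by rw [Fx _ x.2, one_mul, ← fi, mul_inv_rev]
  have conv : ∀ x ∈ A, 1 + ∑ y ∈ As, f y * f (y⁻¹ * x) = t * f x + if x = 1 then 671 else 0 := by
    intro x hx
    have h1 := d.shift' hr w⁻¹ (x * w)
    rw [Fintype.sum_option] at h1
    simp only [r, Option.elim, mul_one, inv_one, one_mul, e, Fx x hx] at h1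
    rw [← sA fun y => f y * f (y⁻¹ * x), ← sum_congr rfl fun (y : A) _ =>
      show F (w⁻¹ * (y * w)) * F ((y * w)⁻¹ * (x * w)) = f y * f ((y : G)⁻¹ * x) by
        simp only [f, mul_inv_rev, mul_assoc], h1]
    split_ifs with h2
    · rw [h2, one_mul, inv_mul_cancel, f1, mul_zero, zero_add]
      exact (d.K0 hr e).trans (by rw [cι]; rfl)
    · rw [add_zero, ht, ← mul_assoc]
      exact d.K1 hr (d.cj_fix.not.mpr fun k => h2 (Aβ x hx k))
  let S : G → ℤ := fun x => ∑ y ∈ Bs, f (x * y)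
  have S1 : ∀ x, ∀ y ∈ zpowers b, S (x * y) = S x := fun x y hy =>
    sum_equiv (Equiv.mulLeft y) (fun z => by simp [Bs, mul_mem_cancel_left hy]) fun z _ => by
      simp [mul_assoc]
  have S2 : ∀ x ∈ A, S x⁻¹ = S x := fun x hx =>
    sum_equiv (Equiv.inv G) (fun z => by simp [Bs]) fun z hz => by
      rw [← fi, mul_inv_rev, inv_inv, Ac _ (inv_mem (BA (mem_filter.mp hz).2)) _ hx]
      rfl
  have hN : h ∈ normalizer (zpowers b : Set G) := mem_normalizer_fintype fun z hz => by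
    obtain ⟨n, rfl⟩ := mem_zpowers_iff.mp hz
    rw [← conj_zpow]
    exact zpow_mem (nb h hα) n
  have S3 : ∀ x, S (h * x * h⁻¹) = S x := fun x => (sum_equiv (MulAut.conj h).toEquiv
    (fun z => by simpa [Bs] using mem_normalizer_iff.mp hN z) fun z _ => by
      simp only [f]
      rw [← d.cj hβ]
      simp [mul_assoc]).symm
  obtain ⟨k, hk⟩ := mem_powers_iff_mem_zpowers.mpr ha
  simp only at hk
  have S4 : ∀ i, S (a ^ (k ^ i % 11)) = S a := fun i => by
    rw [← oa, pow_mod_orderOf]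
    induction i with
    | zero => simp
    | succ i ih => rw [pow_succ', pow_mul, hk, conj_pow, S3, ih]
  have k1 : k * k % 11 ≠ 1 := fun e => ha' (by
    have : Commute (h * h) a := by
      rw [Commute, SemiconjBy, ← mul_inv_eq_iff_eq_mul, show h * h * a * (h * h)⁻¹ =
        h * (h * a * h⁻¹) * h⁻¹ by group, ← hk, ← conj_pow, ← hk, ← pow_mul, ← pow_mod_orderOf, oa,
        e, pow_one]
    have := this.pow_left 3
    rwa [← pow_two, ← pow_mul, show 2 * 3 = 5 + 1 from rfl, pow_succ, h5, one_mul] at this)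
  have k0 : k % 11 ≠ 0 := fun e => by
    rw [← pow_mod_orderOf, oa, e, pow_zero, eq_comm, conj_eq_one_iff] at hk
    simp [hk] at oa
  have S5 : ∀ x ∈ A, S x = S a + if x ∈ zpowers b then S 1 - S a else 0 := fun x hx => by
    split_ifs with h1
    · rw [← S1 1 x h1, one_mul]; ring
    obtain ⟨i, j, rfl⟩ := mA x hx
    rw [S1 _ _ (pow_mem (mem_zpowers b) j), add_zero, ← pow_mod_orderOf, oa]
    have h2 : i % 11 ≠ 0 := fun e => h1 (by
      rw [← pow_mod_orderOf, oa, e, pow_zero, one_mul]; exact pow_mem (mem_zpowers b) j)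
    obtain ⟨n, -, h3⟩ := units11 (k % 11) (Nat.mod_lt _ (by norm_num)) k0
      (by rwa [← Nat.mul_mod]) (i % 11) (Nat.mod_lt _ (by norm_num)) h2
    rw [← Nat.pow_mod] at h3
    rcases h3 with h3 | h3
    · rw [← h3, S4]
    · rw [← S4 n, ← S2 _ (pow_mem aA _), eq_inv_of_mul_eq_one_left
        (show a ^ (k ^ n % 11) * a ^ (i % 11) = 1 by rw [← pow_add, h3, a11])]
  have cB : #Bs = 61 := by
    rw [← ob, ← Nat.card_zpowers, Nat.card_eq_fintype_card, Fintype.card_subtype]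
  have key : ∀ x ∈ A, 61 + (t * S a + (S 1 - S a) * S x) =
      t * S x + if x ∈ zpowers b then 671 else 0 := fun x hx => by
    have h1 := sum_congr (rfl : Bs = Bs) fun y hy => conv (x * y)
      (mul_mem hx (BA (mem_filter.mp hy).2))
    rw [sum_add_distrib, sum_add_distrib, sum_const, cB, sum_comm, ← mul_sum] at h1
    have h2 : ∑ y ∈ Bs, (if x * y = 1 then (671 : ℤ) else 0) =
        if x ∈ zpowers b then 671 else 0 := by
      simp only [mul_eq_one_iff_inv_eq, sum_ite_eq, Bs, mem_filter, mem_univ, true_and, inv_mem_iff]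
    have h3 : ∑ y ∈ As, ∑ z ∈ Bs, f y * f (y⁻¹ * (x * z)) = t * S a + (S 1 - S a) * S x := by
      rw [sum_congr rfl (g := fun y => f y * S a + (S 1 - S a) *
        if y⁻¹ * x ∈ zpowers b then f y else 0) fun y hy => ?_, sum_add_distrib, ← sum_mul, tA,
        ← mul_sum, ← sum_filter]
      · congr 2
        refine sum_equiv (Equiv.mulLeft x⁻¹) (fun z => ?_) fun z _ => by simp
        simp only [As, Bs, mem_filter, mem_univ, true_and, Equiv.coe_mulLeft]
        rw [← inv_mem_iff (x := x⁻¹ * z), mul_inv_rev, inv_inv]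
        exact ⟨fun k => k.2, fun k => ⟨by simpa using mul_mem hx (inv_mem (BA k)), k⟩⟩
      · simp only [← mul_assoc y⁻¹, ← mul_sum]
        change f y * S (y⁻¹ * x) = _
        rw [S5 _ (mul_mem (inv_mem (mem_filter.mp hy).2) hx)]
        split_ifs <;> ring
    rw [h2, h3] at h1
    exact h1
  have aB : a ∉ zpowers b := fun k => by
    have := orderOf_dvd_natCard (⟨a, k⟩ : zpowers b)
    rw [Nat.card_zpowers, ob, ← orderOf_coe, oa] at this
    omega
  have k2 := key 1 (one_mem _)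
  have k3 := key a aA
  rw [if_pos (one_mem _)] at k2
  rw [if_neg aB] at k3
  obtain ⟨z, hz⟩ : ∃ z, z = S 1 - S a := ⟨_, rfl⟩
  have hz2 : z * z = t * z + 671 := by rw [hz]; linear_combination k2 - k3
  have ht2 := arith hz2 (d.trace hr e cι (y := t - z) (fun e => by
    have h1 : t = 2 * z := by omega
    rw [h1] at hz2
    nlinarith [mul_self_nonneg z]) (by linear_combination -hz2) (by rw [← ht]; ring))
  obtain ⟨s, hs, ts⟩ : ∃ s : ℤ, s * s = 1 ∧ s * t = 670 :=
    ht2.elim (fun e => ⟨1, rfl, by rw [e]; rfl⟩) fun e => ⟨-1, rfl, by rw [e]; rfl⟩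
  have fs : ∀ x ∈ As.erase 1, 1 - s * f x = 0 := by
    have h1 : 1 ∈ As := by simp [As]
    rw [← sum_eq_zero_iff_of_nonneg fun x hx => ?_, sum_sub_distrib, ← mul_sum, sum_erase _ f1, tA,
      ts, sum_const, card_erase_of_mem h1, ← Fintype.card_subtype, ← Nat.card_eq_fintype_card, cA]
    · rfl
    · have := d.Fsq (d.cj_fix.not.mpr fun k =>
        (mem_erase.mp hx).1 (Aβ x (mem_filter.mp (mem_erase.mp hx).2).2 k))
      change f x * f x = 1 at this
      nlinarith [mul_self_nonneg (s - f x)]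
  refine absurd (s4.symm.trans (d.hom hG e hs (fun x h1 h2 => ?_) hw'' hx0)) (by norm_num)
  obtain ⟨_ | y, hy⟩ := hr.2 (x • β) <;> simp only [r, Option.elim, mul_smul, one_smul, wα] at hy
  · exact absurd (smul_left_cancel x (h1.trans hy)) hab
  have h3 : ((y : G)⁻¹ * x) • α = α := fx_mul (fx_inv (Aα _ y.2)) h1
  have h4 : ((y : G)⁻¹ * x) • β = β := by rw [mul_smul, ← hy, inv_smul_smul]
  have h6 := fs y (mem_erase.mpr ⟨fun k => h2 (by rw [← hy, k, one_smul]), by simp [As]⟩)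
  have h7 := s1 _ _ (Aα _ y.2) h3
  rw [mul_inv_cancel_left, Aσ _ y.2, one_mul] at h7
  rw [show w⁻¹ * x * w = w⁻¹ * y * w * (w⁻¹ * ((y : G)⁻¹ * x) * w) by group, 
    d.right (d.cj_fix.mpr h4), hw'' _ h3 h4, ← h7]
  change f y * _ = _
  linear_combination -s * σ x * h6 - f y * σ x * hs

end Cfsg.Agent.H9.O11
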