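import Cfsg.Agent.H3.O8Ex
import Cfsg.Prelude.Def_Solvable
import Cfsg.Prelude.Def_CaseTheorems
import Cfsg.Prelude.Def_Transfer

/-!
# From the chief factor hypothesis to the local structure
-/

set_option autoImplicit false
set_option maxRecDepth 100000
set_option synthInstance.maxSize 100000

namespace Cfsg.Agent.H3.O8

open Subgroup Cfsg.Agent.H3.L43

variable {G : Type*} [Group G]

/-- The central involution has a nontrivial fixed space centralized by the quaternion group. -/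
structure Tt (z : G) (Q : Subgroup G) (π : G → S) (χ : G → ZMod 2) (t : G) : Prop
    extends Ex z Q π χ where
  zt : Commute z t
  t2 : t * t = 1
  pt : π t = n1
  xt : χ t = 0
  q8 : ∀ e, Commute z e → χ e = 0 → Commute t e → e ^ 4 = 1 → ∀ v ∈ Q, cj t v = v → Commute e v
  v2 : ∃ x ∈ Q, x ∉ zpowers z ∧ cj t x = x

theorem cop0 {e v w : G} (h1 : cj e v = w * v) (h2 : cj e w = w) (e4 : e ^ 4 = 1)
    (w3 : w ^ 3 = 1) : w = 1 := by
  have k : ∀ n : ℕ, cj (e ^ n) v = w ^ n * v := fun n => by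
    induction n with
    | zero => rw [pow_zero, one_cj, pow_zero, one_mul]
    | succ n ih => rw [pow_succ', mul_cj, ih, cj_mul, cj_pow, h2, h1, pow_succ, mul_assoc]
  have := k 4
  rw [e4, one_cj, pow_succ, w3, one_mul] at this
  exact mul_eq_right.mp this.symm

theorem cop {B : Subgroup G} {e v : G} (he : e ∈ normalizer (B : Set G))
    (hv : v ∈ normalizer (B : Set G)) (e4 : e ^ 4 = 1) (w3 : (cj e v * v⁻¹) ^ 3 = 1)
    (h : cj e (cj e v * v⁻¹) * (cj e v * v⁻¹)⁻¹ ∈ B) : cj e v * v⁻¹ ∈ B := by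
  have : (B.subgroupOf (normalizer (B : Set G))).Normal := inferInstance
  let f := QuotientGroup.mk' (B.subgroupOf (normalizer (B : Set G)))
  let E : normalizer (B : Set G) := ⟨e, he⟩
  let U : normalizer (B : Set G) := ⟨v, hv⟩
  have k : ∀ x : normalizer (B : Set G), f x = 1 ↔ x.1 ∈ B := fun x =>
    QuotientGroup.eq_one_iff x
  have kc : ∀ x y, f (cj x y) = cj (f x) (f y) := fun x y => by simp only [cj, map_mul, map_inv]
  refine (k (cj E U * U⁻¹)).mp (cop0 (e := f E) (v := f U) ?_ ?_ ?_ ?_)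
  · rw [map_mul, map_inv, kc, inv_mul_cancel_right]
  · rw [← kc, ← mul_inv_eq_one, ← map_inv, ← map_mul]
    exact (k _).mpr h
  · rw [← map_pow, show E ^ 4 = 1 from Subtype.ext e4, map_one]
  · rw [← map_pow, show (cj E U * U⁻¹) ^ 3 = 1 from Subtype.ext w3, map_one]

theorem fn1 (φ : S → ZMod 3) (h1 : ∀ X, φ (X * n1) = -φ X) (X : S) :
    (φ (X * qI * qI) + φ (X * qI * qJ) + φ (X * qI * (qI * qJ))) +
    (φ (X * qJ * qI) + φ (X * qJ * qJ) + φ (X * qJ * (qI * qJ))) +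
    (φ (X * (qI * qJ) * qI) + φ (X * (qI * qJ) * qJ) + φ (X * (qI * qJ) * (qI * qJ))) = 0 := by
  have k : qI * qI = n1 ∧ qI * (qI * qJ) = qJ * n1 ∧ qJ * qI = qI * qJ * n1 ∧ qJ * qJ = n1 ∧
      qJ * (qI * qJ) = qI ∧ qI * qJ * qI = qJ ∧ qI * qJ * qJ = qI * n1 ∧
      qI * qJ * (qI * qJ) = n1 := by decide +kernel
  obtain ⟨k1, k2, k3, k4, k5, k6, k7, k8⟩ := k
  simp only [mul_assoc X, k1, k2, k3, k4, k5, k6, k7, k8]
  rw [← mul_assoc X qJ, ← mul_assoc X (qI * qJ), ← mul_assoc X qI n1]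
  simp only [h1]
  generalize φ X = a
  generalize φ (X * qI) = b
  generalize φ (X * qJ) = c
  generalize φ (X * (qI * qJ)) = d
  revert a b c d; decide

theorem fn2 (φ : S → ZMod 3) (h1 : ∀ X, φ (X * n1) = -φ X) (h2 : ∀ X, φ (X * qW) = φ X)
    (h3 : ∀ X, φ (X * qI) + φ (X * qJ) + φ (X * (qI * qJ)) = 0) (e1 : φ 1 = 0) (e2 : φ qI = 0)
    (X : S) : φ X = 0 := by
  have k : qI * qI = 1 * n1 ∧ qI * (qI * qJ) = qJ * n1 := by decide +kernel
  have a1 := h3 1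
  have a2 := h3 qI
  rw [k.1, k.2, h1, h1, e1] at a2
  simp only [one_mul, e2] at a1
  have a3 : φ qJ = 0 ∧ φ (qI * qJ) = 0 := by
    revert a1 a2
    generalize φ qJ = c
    generalize φ (qI * qJ) = d
    revert c d; decide
  have k' : ∀ X : S, ∃ Y ∈ [1, qI, qJ, qI * qJ], X = Y ∨ X = Y * n1 ∨ X = Y * qW ∨
      X = Y * n1 * qW ∨ X = Y * qW * qW ∨ X = Y * n1 * qW * qW := by decide +kernel
  obtain ⟨Y, hY, e⟩ := k' X
  have : φ Y = 0 := by
    simp only [List.mem_cons, List.not_mem_nil, or_false] at hY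
    rcases hY with rfl | rfl | rfl | rfl
    exacts [e1, e2, a3.1, a3.2]
  rcases e with rfl | rfl | rfl | rfl | rfl | rfl <;> simp only [h1, h2, this, neg_zero]

namespace Ex

variable {z : G} {Q : Subgroup G} {π : G → S} {χ : G → ZMod 2} (L : Ex z Q π χ)
include L

theorem modZ {v : G} (hv : v ∈ Q) (h : ∀ x ∈ Q, bt z x v = 0) : v ∈ zpowers z :=
  L.nondeg v hv fun x hx => (bt_zero.mp (h x hx)).symm

theorem btZ' {w x : G} (hw : w ∈ zpowers z) (hx : x ∈ Q) : bt z x w = 0 :=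
  bt_zero.mpr (zp_comm (L.QC x hx) hw).symm

theorem bt_cjQ {g v x : G} (hg : g ∈ Q) (hv : v ∈ Q) (hx : x ∈ Q) :
    bt z x (cj g v) = bt z x v := by
  rw [L.cjZ hg hv, L.mulr hx (pow_mem L.zQ _) hv, L.btZ' (pow_mem (mem_zpowers z) _) hx, zero_add]

theorem bt_div {x u v : G} (hx : x ∈ Q) (hu : u ∈ Q) (hv : v ∈ Q) :
    bt z x (u * v⁻¹) = bt z x u - bt z x v := by
  rw [L.mulr hx hu (inv_mem hv), L.invr hx hv, sub_eq_add_neg]

omit L in
theorem mover {g x y : G} (hg : Commute z g) : bt z x (cj g y) = bt z (cj g⁻¹ x) y := by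
  rw [move hg.inv_right, inv_inv]

theorem exists_fix {y : G} (hy : Commute z y) (y3 : y ^ 3 ∈ Q) :
    ∃ u ∈ Q, u ∉ zpowers z ∧ ∀ x ∈ Q, bt z x (cj y u) = bt z x u := by
  by_contra hn
  push Not at hn
  have hD : ∀ u ∈ Q, cj y u * u⁻¹ ∈ Q := fun u hu => mul_mem (L.norm hy hu) (inv_mem hu)
  have k : ∀ u ∈ Q, u ∉ zpowers z → cj y u * u⁻¹ ∉ zpowers z := fun u hu h h' => by
    obtain ⟨x, hx, e⟩ := hn u hu h
    have := L.btZ' h' hx
    rw [L.bt_div hx (L.norm hy hu) hu, sub_eq_zero] at this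
    exact e this
  obtain ⟨v, hv, h, -⟩ := L.exists_perp L.zQ L.zQ
  refine k _ (hD _ (hD _ hv)) (k _ (hD _ hv) (k _ hv h)) (L.modZ (hD _ (hD _ (hD _ hv)))
    fun x hx => ?_)
  have h1 := L.norm hy hv
  have h2 := L.norm hy h1
  have h3 := L.norm hy h2
  have e : bt z x (cj y (cj y (cj y v))) = bt z x v := by
    rw [← mul_cj, ← mul_cj, ← pow_three', L.bt_cjQ y3 hv hx]
  simp only [cj_mul, cj_inv]
  rw [L.bt_div hx (mul_mem (mul_mem h3 (inv_mem h2)) (inv_mem (mul_mem h2 (inv_mem h1))))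
      (mul_mem (mul_mem h2 (inv_mem h1)) (inv_mem (mul_mem h1 (inv_mem hv)))),
    L.bt_div hx (mul_mem h3 (inv_mem h2)) (mul_mem h2 (inv_mem h1)),
    L.bt_div hx (mul_mem h2 (inv_mem h1)) (mul_mem h1 (inv_mem hv)), L.bt_div hx h3 h2,
    L.bt_div hx h2 h1, L.bt_div hx h1 hv, e]
  generalize bt z x v = a
  generalize bt z x (cj y v) = b
  generalize bt z x (cj y (cj y v)) = c
  revert a b c; decide

/-- If the central involution inverts the Frattini quotient, the quotient is reducible. -/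
theorem red {t : G} (ht : Commute z t) (pt : π t = n1) (xt : χ t = 0)
    (h : ∀ v ∈ Q, ∀ x ∈ Q, bt z x (cj t v) = -bt z x v) :
    ∃ D : Subgroup G, zpowers z < D ∧ D < Q ∧
      ∀ g, Commute z g → χ g = 0 → ∀ x ∈ D, cj g x ∈ D := by
  choose τ t1 t2 t3 using L.surj
  have key : ∀ g, Commute z g → χ g = 0 → ∀ u ∈ Q, ∀ x ∈ Q,
      bt z x (cj g u) = bt z x (cj (τ (π g)) u) := fun g hg xg u hu x hx => by
    have hq := L.toQ (hg.mul_right (t1 (π g)).inv_right)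
      (by rw [L.mul _ _ hg (t1 _).inv_right, L.pinv (t1 _), t2, mul_inv_cancel])
      (by rw [L.mulx _ _ hg (t1 _).inv_right, L.xinv (t1 _), t3, xg, add_zero])
    rw [← L.bt_cjQ hq (L.norm (t1 _) hu) hx, ← mul_cj, inv_mul_cancel_right]
  have key2 : ∀ X Y, ∀ u ∈ Q, ∀ x ∈ Q,
      bt z x (cj (τ (X * Y)) u) = bt z (cj (τ X)⁻¹ x) (cj (τ Y) u) := fun X Y u hu x hx => by
    rw [← mover (t1 X), ← mul_cj, key _ ((t1 X).mul_right (t1 Y))
      (by rw [L.mulx _ _ (t1 X) (t1 Y), t3, t3, add_zero]) u hu x hx,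
      L.mul _ _ (t1 X) (t1 Y), t2, t2]
  have hn : ∀ u ∈ Q, ∀ x ∈ Q, ∀ X, bt z x (cj (τ (X * n1)) u) = -bt z x (cj (τ X) u) :=
    fun u hu x hx X => by
      have hx' := L.norm (t1 X).inv_right hx
      rw [key2 X n1 u hu x hx, ← pt, ← key t ht xt u hu _ hx', h u hu _ hx', mover (t1 X)]
  have hη : ∀ u ∈ Q, ∀ x ∈ Q, ∀ X,
      bt z x (cj (τ X) (cj (τ qI) u * cj (τ qJ) u * cj (τ (qI * qJ)) u)) =
      bt z x (cj (τ (X * qI)) u) + bt z x (cj (τ (X * qJ)) u) +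
        bt z x (cj (τ (X * (qI * qJ))) u) := fun u hu x hx X => by
    have hx' := L.norm (t1 X).inv_right hx
    rw [mover (t1 X), L.mulr hx' (mul_mem (L.norm (t1 _) hu) (L.norm (t1 _) hu)) (L.norm (t1 _) hu),
      L.mulr hx' (L.norm (t1 _) hu) (L.norm (t1 _) hu), key2 X _ u hu x hx, key2 X _ u hu x hx,
      key2 X _ u hu x hx]
  obtain ⟨p, hp, p1, pW, pη⟩ : ∃ p ∈ Q, p ∉ zpowers z ∧
      (∀ x ∈ Q, ∀ X, bt z x (cj (τ (X * qW)) p) = bt z x (cj (τ X) p)) ∧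
      ∀ x ∈ Q, ∀ X, bt z x (cj (τ (X * qI)) p) + bt z x (cj (τ (X * qJ)) p) +
        bt z x (cj (τ (X * (qI * qJ))) p) = 0 := by
    obtain ⟨u, hu, u1, uW⟩ := L.exists_fix (t1 qW) (L.toQ ((t1 _).pow_right 3)
      (by rw [L.ppow (t1 _), t2]; decide +kernel) (by rw [L.xpow (t1 _), t3, mul_zero]))
    have uW' : ∀ x ∈ Q, ∀ X, bt z x (cj (τ (X * qW)) u) = bt z x (cj (τ X) u) := fun x hx X => by
      rw [key2 X _ u hu x hx, uW _ (L.norm (t1 X).inv_right hx), mover (t1 X)]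
    have hv := mul_mem (mul_mem (L.norm (t1 qI) hu) (L.norm (t1 qJ) hu))
      (L.norm (t1 (qI * qJ)) hu)
    by_cases hz : cj (τ qI) u * cj (τ qJ) u * cj (τ (qI * qJ)) u ∈ zpowers z
    · refine ⟨u, hu, u1, uW', fun x hx X => ?_⟩
      rw [← hη u hu x hx X, mover (t1 X), L.btZ' hz (L.norm (t1 X).inv_right hx)]
    · refine ⟨_, hv, hz, fun x hx X => ?_, fun x hx X => ?_⟩
      · obtain ⟨-, -, -, -, k1, k2, k3⟩ := quat
        rw [hη u hu x hx, hη u hu x hx, mul_assoc X, mul_assoc X, mul_assoc X, k1, k2, k3,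
          ← mul_assoc X, ← mul_assoc X, ← mul_assoc X _ qW, uW' x hx, uW' x hx, uW' x hx]
        ring
      · rw [hη u hu x hx, hη u hu x hx, hη u hu x hx]
        exact fn1 (fun X => bt z x (cj (τ X) u)) (hn u hu x hx) X
  have hp' := L.norm (t1 qI) hp
  let D : Subgroup G :=
    { carrier := {x | x ∈ Q ∧ bt z x p = 0 ∧ bt z x (cj (τ qI) p) = 0}
      one_mem' := ⟨Q.one_mem, bt_zero.mpr (Commute.one_left _), bt_zero.mpr (Commute.one_left _)⟩
      mul_mem' := fun {x y} hx hy => ⟨mul_mem hx.1 hy.1,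
        by rw [L.mull hx.1 hy.1 hp, hx.2.1, hy.2.1, add_zero],
        by rw [L.mull hx.1 hy.1 hp', hx.2.2, hy.2.2, add_zero]⟩
      inv_mem' := fun {x} hx => ⟨inv_mem hx.1, by rw [L.invl hx.1 hp, hx.2.1, neg_zero],
        by rw [L.invl hx.1 hp', hx.2.2, neg_zero]⟩ }
  have hD : ∀ x ∈ D, ∀ g, Commute z g → χ g = 0 → bt z x (cj g p) = 0 := fun x hx g hg xg => by
    rw [key g hg xg p hp x hx.1]
    refine fn2 (fun X => bt z x (cj (τ X) p)) (hn p hp x hx.1) (pW x hx.1) (pη x hx.1) ?_ hx.2.2 _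
    rw [← L.p1, ← key 1 (Commute.one_right z) L.x1 p hp x hx.1, one_cj]
    exact hx.2.1
  refine ⟨D, SetLike.lt_iff_le_and_exists.mpr ⟨fun w hw =>
    (⟨L.ZQ hw, L.btZ hw hp, L.btZ hw hp'⟩ : w ∈ Q ∧ _ ∧ _), ?_⟩,
    SetLike.lt_iff_le_and_exists.mpr ⟨fun w hw => hw.1, ?_⟩, fun g hg xg x hx => ?_⟩
  · obtain ⟨x, hx, h1, h2, h3⟩ := L.exists_perp hp hp'
    exact ⟨x, (⟨hx, h2, h3⟩ : x ∈ Q ∧ _ ∧ _), h1⟩
  · obtain ⟨d, hd, e⟩ := L.exists_one hp p1
    refine ⟨d, hd, fun h => ?_⟩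
    have := h.2.1
    rw [L.swap hp hd, e] at this
    exact absurd this (by decide)
  · refine (⟨L.norm hg hx.1, ?_, ?_⟩ : cj g x ∈ Q ∧ _ ∧ _)
    · rw [move hg]
      exact hD x hx _ hg.inv_right (by rw [L.xinv hg, xg])
    · rw [move hg, ← mul_cj]
      exact hD x hx _ (hg.inv_right.mul_right (t1 _))
        (by rw [L.mulx _ _ hg.inv_right (t1 _), L.xinv hg, xg, t3, add_zero])

theorem nQ {B : Subgroup G} [Finite G] (h : zpowers z ≤ B) (hB : B ≤ Q) {v : G} (hv : v ∈ Q) :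
    v ∈ normalizer (B : Set G) :=
  mem_normalizer_fintype fun x hx => by
    have := L.cjZ hv (hB hx)
    rw [cj] at this
    rw [this]
    exact mul_mem (h (pow_mem (mem_zpowers z) _)) hx

theorem toTt [Finite G] {r : ℕ} (A : Fin (r + 1) → Subgroup G) (hA0 : A 0 = zpowers z)
    (hAr : A (Fin.last r) = Q) (hmono : ∀ i : Fin r, A i.castSucc < A i.succ)
    (hinv : ∀ i, ∀ k, Commute z k → χ k = 0 → ∀ a ∈ A i, cj k a ∈ A i)
    (hmax : ∀ i : Fin r, ∀ B : Subgroup G, A i.castSucc < B → B < A i.succ →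
      ∃ k, (Commute z k ∧ χ k = 0) ∧ ∃ b ∈ B, cj k b ∉ B) (i0 : Fin r)
    (hone : ∀ i : Fin r, i ≠ i0 → ∀ k, Commute z k → χ k = 0 → ∀ a ∈ A i.succ,
      cj k a * a⁻¹ ∈ A i.castSucc) : ∃ t, Tt z Q π χ t := by
  obtain ⟨t, ht, t2, pt, xt⟩ := L.exists_t
  have mono : Monotone A := Fin.monotone_iff_le_succ.mpr fun i => (hmono i).le
  have hZ : ∀ i, zpowers z ≤ A i := fun i => hA0 ▸ mono (Fin.zero_le _)
  have hQ : ∀ i, A i ≤ Q := fun i => hAr ▸ mono (Fin.le_last _)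
  have hD : ∀ e, Commute z e → ∀ v ∈ Q, cj e v * v⁻¹ ∈ Q := fun e he v hv =>
    mul_mem (L.norm he hv) (inv_mem hv)
  have L1 : ∀ e, Commute z e → χ e = 0 → e ^ 4 = 1 → ∀ j, j ≤ i0.castSucc → ∀ v ∈ A j,
      cj e v = v := fun e he xe e4 j => by
    induction j using Fin.induction with
    | zero => exact fun _ v hv => cj_fix.mpr (zp_comm he (hA0 ▸ hv)).symm
    | succ j ih =>
      intro hj v hv
      have h1 : j.castSucc < i0.castSucc := lt_of_lt_of_le j.castSucc_lt_succ hj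
      have h2 := hone j (fun e => by rw [e] at h1; exact lt_irrefl _ h1) e he xe v hv
      exact mul_inv_eq_one.mp (cop0 (e := e) (v := v) (by group) (ih h1.le _ h2) e4
        (L.exp _ (hQ _ h2)))
  have L2 : ∀ e, Commute z e → χ e = 0 → e ^ 4 = 1 → ∀ j, ∀ v ∈ A j,
      cj e v * v⁻¹ ∈ A i0.succ := fun e he xe e4 j => by
    induction j using Fin.induction with
    | zero => exact fun v hv => hZ _ (hA0 ▸ mul_mem (hinv _ e he xe v hv) (inv_mem hv))
    | succ j ih =>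
      intro v hv
      by_cases hj : j = i0
      · subst hj
        exact mul_mem (hinv _ e he xe v hv) (inv_mem hv)
      · exact cop (mem_normalizer_fintype (hinv _ e he xe)) (L.nQ (hZ _) (hQ _) (hQ _ hv)) e4
          (L.exp _ (hD e he v (hQ _ hv))) (ih _ (hone j hj e he xe v hv))
  have t4 : t ^ 4 = 1 := by rw [show 4 = 2 * 2 from rfl, pow_mul, pow_two t, t2, one_pow]
  have L3 : ∀ v ∈ A i0.succ, cj t v = v → v ∈ A i0.castSucc := by
    let D : Subgroup G :=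
      { carrier := {x | x ∈ A i0.succ ∧ ∀ y ∈ Q, bt z y (cj t x) = bt z y x}
        one_mem' := ⟨one_mem _, fun y _ => by rw [cj_one]⟩
        mul_mem' := fun {x y} hx hy => ⟨mul_mem hx.1 hy.1, fun w hw => by
          rw [cj_mul, L.mulr hw (L.norm ht (hQ _ hx.1)) (L.norm ht (hQ _ hy.1)),
            L.mulr hw (hQ _ hx.1) (hQ _ hy.1), hx.2 w hw, hy.2 w hw]⟩
        inv_mem' := fun {x} hx => ⟨inv_mem hx.1, fun w hw => by
          rw [cj_inv, L.invr hw (L.norm ht (hQ _ hx.1)), L.invr hw (hQ _ hx.1), hx.2 w hw]⟩ }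
    have h1 : A i0.castSucc ≤ D := fun x hx =>
      (⟨(hmono i0).le hx, fun y _ => by rw [L1 t ht xt t4 _ le_rfl x hx]⟩ : x ∈ A i0.succ ∧ _)
    have h2 : D ≤ A i0.succ := fun x hx => hx.1
    rcases h1.eq_or_lt with h1 | h1
    · exact fun v hv e => h1 ▸ (⟨hv, fun y _ => by rw [e]⟩ : v ∈ A i0.succ ∧ _)
    exfalso
    rcases h2.eq_or_lt with h2 | h2
    · have k : ∀ B, B = A i0.succ → B ≤ D → ∀ v ∈ B, cj t v = v := fun B _ h v hv => by
        have hv' := hQ _ (h hv).1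
        have := L.modZ (hD t ht v hv') fun y hy => by
          rw [L.bt_div hy (L.norm ht hv') hv', (h hv).2 y hy, sub_self]
        exact mul_inv_eq_one.mp (cop0 (e := t) (v := v) (by group)
          (cj_fix.mpr (zp_comm ht this).symm) t4 (L.exp _ (L.ZQ this)))
      have := L.pQ (L.cQ t fun v hv => cj_fix.mp (mul_inv_eq_one.mp (cop0 (e := t) (v := v)
        (by group) (k _ rfl h2.ge _ (L2 t ht xt t4 _ v (hAr ▸ hv))) t4 (L.exp _ (hD t ht v hv)))))
      exact n1_ne (pt ▸ this)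
    · obtain ⟨k, ⟨hk, xk⟩, b, hb, hb'⟩ := hmax i0 D h1 h2
      refine hb' (⟨hinv _ k hk xk b hb.1, fun y hy => ?_⟩ : cj k b ∈ A i0.succ ∧ _)
      have hq := L.toQ ((Ccj hk.inv_right ht).mul_right ht.inv_right)
        (by rw [L.mul _ _ (Ccj hk.inv_right ht) ht.inv_right, L.pcj hk.inv_right ht, pt,
          ← n1_comm, mul_inv_cancel_right, L.pinv ht, pt, mul_inv_cancel])
        (by rw [L.mulx _ _ (Ccj hk.inv_right ht) ht.inv_right, L.xcj hk.inv_right ht,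
          L.xinv ht, xt, add_zero])
      have hy' := L.norm hk.inv_right hy
      rw [show cj t (cj k b) = cj k (cj (cj k⁻¹ t * t⁻¹) (cj t b)) by simp only [cj]; group,
        mover hk, mover hk, L.bt_cjQ hq (L.norm ht (hQ _ hb.1)) hy', hb.2 _ hy']
  refine ⟨t, L, ht, t2, pt, xt, fun e he xe te e4 v hv tv => ?_, ?_⟩
  · have h1 := L3 _ (L2 e he xe e4 _ v (hAr ▸ hv)) (by
      rw [cj_mul, cj_inv, cj_cj_comm te, tv])
    exact cj_fix.mp (mul_inv_eq_one.mp (cop0 (e := e) (v := v) (by group)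
      (L1 e he xe e4 _ le_rfl _ h1) e4 (L.exp _ (hD e he v hv))))
  · by_contra hn
    push Not at hn
    have h1 : ∀ v ∈ Q, v * (cj t v)⁻¹ * v ∈ zpowers z := fun v hv => by
      by_contra h
      exact hn _ (mul_mem (mul_mem hv (inv_mem (L.norm ht hv))) hv) h
        (fix_coset t2 (L.exp _ (mul_mem (inv_mem hv) (L.norm ht hv))))
    obtain ⟨D, d1, d2, d3⟩ := L.red ht pt xt fun v hv x hx => by
      have := L.btZ' (h1 v hv) hx
      rw [L.mulr hx (mul_mem hv (inv_mem (L.norm ht hv))) hv, L.bt_div hx hv (L.norm ht hv)] at this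
      revert this
      generalize bt z x v = a
      generalize bt z x (cj t v) = b
      revert a b; decide
    have e1 : A i0.castSucc = zpowers z := le_antisymm (fun v hv => by
      by_contra h
      exact hn v (hQ _ hv) h (L1 t ht xt t4 _ le_rfl v hv)) (hZ _)
    have e2 : A i0.succ = Q := le_antisymm (hQ _) fun v hv => by
      have := inv_mem (L2 t ht xt t4 _ v (hAr ▸ hv))
      rw [mul_inv_rev, inv_inv] at this
      exact (mul_mem_cancel_left this).mp (hZ _ (h1 v hv))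
    obtain ⟨k, ⟨hk, xk⟩, b, hb, hb'⟩ := hmax i0 D (e1 ▸ d1) (e2 ▸ d2)
    exact hb' (d3 k hk xk b hb)

end Ex

theorem exists_Tt [Finite G]
    (S : Sylow 3 G) (Z : Subgroup G) (hZ : Z = (S : Subgroup G) ⊓ Subgroup.centralizer ((S : Subgroup G) : Set G))
    (C : Subgroup G) (hCZ : C = Subgroup.centralizer (Z : Set G))
    (Q : Subgroup G) (hQ : Q = (Cfsg.pCore 3 C).map C.subtype)
    (hQex : Cfsg.IsExtraspecial 3 Q) (hQcard : Nat.card Q = 3 ^ 5) (hQexp : ∀ a ∈ Q, a ^ 3 = 1)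
    (hCQ : Subgroup.centralizer (Q : Set G) ≤ Q)
    (hZQ : ∃ x : G, Z.map (MulAut.conj x).toMonoidHom ≤ Q ∧ Z.map (MulAut.conj x).toMonoidHom ≠ Z)
    (K : Subgroup G) (hK : K = ((Cfsg.pResidual 2 (C ⧸ Cfsg.pCore 3 C)).comap (QuotientGroup.mk' (Cfsg.pCore 3 C))).map C.subtype)
    (r : ℕ) (A : Fin (r + 1) → Subgroup G) (hA0 : A 0 = Z) (hAr : A (Fin.last r) = Q)
    (hmono : ∀ i : Fin r, A i.castSucc < A i.succ)
    (hinv : ∀ i : Fin (r + 1), ∀ k ∈ K, ∀ a ∈ A i, k * a * k⁻¹ ∈ A i)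
    (hmax : ∀ i : Fin r, ∀ B : Subgroup G, A i.castSucc < B → B < A i.succ → ∃ k ∈ K, ∃ b ∈ B, k * b * k⁻¹ ∉ B)
    (e : Nonempty (C ⧸ Cfsg.pCore 3 C ≃* Matrix.SpecialLinearGroup (Fin 2) (ZMod 3)) ∨
      Nonempty (C ⧸ Cfsg.pCore 3 C ≃* Matrix.SpecialLinearGroup (Fin 2) (ZMod 3) × Multiplicative (ZMod 2)))
    (hone : ∃! i : Fin r, (∃ k ∈ K, ∃ a ∈ A i.succ, k * a * k⁻¹ * a⁻¹ ∉ A i.castSucc)) :
    ¬ 3 ^ 7 ∣ Nat.card G ∧ ∃ z π χ t, Tt z Q π χ t ∧ ∃ g, cj g z ∈ Q ∧ cj g z ∉ zpowers z := by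
  classical
  have : Fact (Nat.Prime 3) := ⟨by norm_num⟩
  obtain ⟨g, hg1, hg2⟩ := hZQ
  have QC : Q ≤ C := hQ ▸ map_subtype_le _
  have ZQ : Z ≤ Q := fun w hw => hCQ fun x hx => ((hCZ ▸ QC hx) w hw).symm
  have ZC : Z ≤ (center Q).map Q.subtype := fun w hw => ⟨⟨w, ZQ hw⟩,
    mem_center_iff.mpr fun x => Subtype.ext ((hCZ ▸ QC x.2) w hw).symm, rfl⟩
  have cZ : Nat.card ((center Q).map Q.subtype) = 3 := by
    rw [card_map_of_injective Q.subtype_injective, hQex.2]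
  obtain ⟨⟨z, hz⟩, z1⟩ := (ne_bot_iff_exists_ne_one (H := Z)).mp (by
    rintro rfl; exact hg2 (map_bot _))
  replace z1 : z ≠ 1 := fun h => z1 (Subtype.ext h)
  have z3 := hQexp z (ZQ hz)
  have e1 : zpowers z = (center Q).map Q.subtype :=
    eq_of_le_of_card_ge ((zpowers_le.mpr hz).trans ZC) (by rw [cZ, card_zp z3 z1])
  have e2 : Z = zpowers z := le_antisymm (e1 ▸ ZC) (zpowers_le.mpr hz)
  have mC : ∀ x, x ∈ C ↔ Commute z x := fun x => by
    rw [hCZ, e2]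
    exact ⟨fun h => h z (mem_zpowers z), fun h w hw => zp_comm h hw⟩
  obtain ⟨φ, φi, φs⟩ : ∃ φ : C ⧸ pCore 3 C →* L43.S × Multiplicative (ZMod 2),
      Function.Injective φ ∧ ∀ X, ∃ c, φ c = (X, 1) := by
    rcases e with ⟨⟨e⟩⟩ | ⟨⟨e⟩⟩
    · exact ⟨(MonoidHom.inl _ _).comp (e.trans eS).toMonoidHom,
        fun a b h => (e.trans eS).injective (congrArg Prod.fst h),
        fun X => ⟨(e.trans eS).symm X, Prod.ext ((e.trans eS).apply_symm_apply X) rfl⟩⟩
    · exact ⟨(e.trans (eS.prodCongr (MulEquiv.refl _))).toMonoidHom,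
        (e.trans (eS.prodCongr (MulEquiv.refl _))).injective,
        fun X => (e.trans (eS.prodCongr (MulEquiv.refl _))).surjective _⟩
  let f := φ.comp (QuotientGroup.mk' (pCore 3 C))
  have fk : ∀ x : C, f x = 1 ↔ x.1 ∈ Q := fun x => by
    rw [hQ]
    refine (map_eq_one_iff φ φi).trans ((QuotientGroup.eq_one_iff x).trans
      ⟨fun h => ⟨x, h, rfl⟩, fun ⟨y, h, e⟩ => by rwa [← Subtype.ext e]⟩)
  have L : Ex z Q (fun x => if h : x ∈ C then (f ⟨x, h⟩).1 else 1)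
      fun x => if h : x ∈ C then (f ⟨x, h⟩).2.toAdd else 0 := by
    refine ⟨z1, ZQ hz, fun x hx => (mC x).mp (QC hx), hQexp, fun x hx y hy => ?_,
      fun x hx h => ?_, hQcard, fun x y hx hy => ?_, fun x y hx hy => ?_, fun x hx => ?_,
      fun X => ?_, fun x h => hCQ fun y hy => (h y hy).symm⟩
    · rw [e1, ← hQex.1.2.2]
      exact ⟨_, commutator_mem_commutator (mem_top (⟨x, hx⟩ : Q)) (mem_top (⟨y, hy⟩ : Q)), rfl⟩
    · rw [e1]
      exact ⟨⟨x, hx⟩, mem_center_iff.mpr fun y => Subtype.ext (h y y.2).symm, rfl⟩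
    · rw [dif_pos ((mC x).mpr hx), dif_pos ((mC y).mpr hy), dif_pos ((mC _).mpr (hx.mul_right hy)),
        ← Prod.fst_mul, ← map_mul]
      rfl
    · rw [dif_pos ((mC x).mpr hx), dif_pos ((mC y).mpr hy), dif_pos ((mC _).mpr (hx.mul_right hy)),
        ← toAdd_mul, ← Prod.snd_mul, ← map_mul]
      rfl
    · rw [dif_pos ((mC x).mpr hx), dif_pos ((mC x).mpr hx)]
      exact Prod.ext_iff.symm.trans (fk ⟨x, (mC x).mpr hx⟩)
    · obtain ⟨c, hc⟩ := φs X
      obtain ⟨x, rfl⟩ := QuotientGroup.mk'_surjective _ c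
      refine ⟨x, (mC x).mp x.2, ?_⟩
      rw [dif_pos x.2, dif_pos x.2]
      exact ⟨congrArg Prod.fst hc, congrArg (fun p => p.2.toAdd) hc⟩
  have mK : ∀ x, x ∈ K ↔ Commute z x ∧ (if h : x ∈ C then (f ⟨x, h⟩).2.toAdd else 0) = 0 :=
    fun x => by
      rw [hK]
      constructor
      · rintro ⟨x, hx, rfl⟩
        refine ⟨(mC x).mp x.2, ?_⟩
        rw [C.subtype_apply, dif_pos x.2]
        have : pResidual 2 (C ⧸ pCore 3 C) ≤ ((MonoidHom.snd _ _).comp φ).ker :=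
          (closure_le _).mpr fun y hy => by
            have h1 := orderOf_map_dvd ((MonoidHom.snd _ _).comp φ) y
            have h2 : orderOf (((MonoidHom.snd _ _).comp φ) y) ∣ 2 := orderOf_dvd_of_pow_eq_one (by
              generalize ((MonoidHom.snd _ _).comp φ) y = u
              revert u; decide)
            exact orderOf_eq_one_iff.mp (Nat.eq_one_of_dvd_coprimes hy h1 h2)
        exact congrArg Multiplicative.toAdd (this hx)
      · rintro ⟨h, h'⟩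
        obtain ⟨y1, y2, y3, c1, c2, c3, p1, p2, p3, rfl⟩ := L.three_elts h h'
        have k : ∀ y, Commute z y → y ^ 3 ^ 2 = 1 → y ∈ ((pResidual 2 (C ⧸ pCore 3 C)).comap
            (QuotientGroup.mk' (pCore 3 C))).map C.subtype := fun y c p =>
          ⟨⟨y, (mC y).mpr c⟩, subset_closure (Nat.Coprime.coprime_dvd_left
            (orderOf_dvd_of_pow_eq_one (n := 3 ^ 2) (by
              rw [← map_pow, show (⟨y, (mC y).mpr c⟩ : C) ^ 3 ^ 2 = 1 from Subtype.ext p, map_one]))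
            (by norm_num)), rfl⟩
        exact mul_mem (mul_mem (k _ c1 p1) (k _ c2 p2)) (k _ c3 p3)
  refine ⟨fun h7 => ?_, ?_⟩
  · have h1 : (S : Subgroup G) ≤ C := fun x hx => by
      rw [hCZ, hZ]; exact fun w hw => (hw.2 x hx).symm
    have h2 := (pCore 3 C).card_eq_card_quotient_mul_card_subgroup
    have h4 := card_dvd_of_injective φ φi
    rw [Nat.card_prod, card_S, show Nat.card (Multiplicative (ZMod 2)) = 2 by simp] at h4
    rw [← card_map_of_injective (K := pCore 3 C) C.subtype_injective, ← hQ, hQcard] at h2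
    have h3 := (S.pow_dvd_card_of_pow_dvd_card h7).trans (card_dvd_of_le h1)
    rw [h2] at h3
    have := h3.trans (Nat.mul_dvd_mul_right h4 _)
    norm_num at this
  · obtain ⟨i0, -, hi⟩ := hone
    simp only [mK] at hinv hmax hi
    obtain ⟨t, T⟩ := L.toTt A (e2 ▸ hA0) hAr hmono (fun i k h h' => hinv i k ⟨h, h'⟩) hmax i0
      fun i h k c c' a ha => by
        by_contra hn
        exact h (hi i ⟨k, ⟨c, c'⟩, a, ha, hn⟩)
    refine ⟨z, _, _, t, T, g, hg1 ⟨z, hz, rfl⟩, fun h => hg2 ?_⟩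
    refine eq_of_le_of_card_ge ?_ (card_map_of_injective (MulAut.conj g).injective).ge
    rw [e2]
    rintro _ ⟨w, hw, rfl⟩
    exact cj_zp h hw

end Cfsg.Agent.H3.O8
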