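import Cfsg.Agent.H3.L43LocB
import Cfsg.Agent.H1.T3Basic

/-!
# The local configuration for the triality extensions of the orthogonal group
-/

set_option autoImplicit false
set_option maxRecDepth 100000
set_option synthInstance.maxSize 100000

namespace Cfsg.Agent.H3.O8

open Subgroup Cfsg.Agent.H3.L43 Cfsg.Agent.H1.T3

/-- Vectors of length four over the field of three elements. -/
abbrev V := Fin 4 → ZMod 3

/-- The sum of squares. -/
def F (v : V) : ZMod 3 := v 0 * v 0 + v 1 * v 1 + v 2 * v 2 + v 3 * v 3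

/-- Signed permutations. -/
@[ext] structure SP where
  /-- The signs. -/
  e : Fin 4 → Bool
  /-- The permutation. -/
  p : Equiv.Perm (Fin 4)

instance instDecEqSP : DecidableEq SP := fun x y =>
  decidable_of_iff ((∀ i, x.e i = y.e i) ∧ ∀ i, x.p i = y.p i)
    ⟨fun h => SP.ext (funext h.1) (Equiv.ext h.2), fun h => h ▸ ⟨fun _ => rfl, fun _ => rfl⟩⟩

instance instMulSP : Mul SP := ⟨fun a b => ⟨fun i => xor (a.e i) (b.e (a.p⁻¹ i)), a.p * b.p⟩⟩
instance instOneSP : One SP := ⟨⟨fun _ => false, 1⟩⟩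
instance instInvSP : Inv SP := ⟨fun a => ⟨fun i => a.e (a.p i), a.p⁻¹⟩⟩

theorem SP.mul_e (a b : SP) (i : Fin 4) : (a * b).e i = xor (a.e i) (b.e (a.p⁻¹ i)) := rfl
theorem SP.mul_p (a b : SP) : (a * b).p = a.p * b.p := rfl
theorem SP.one_e (i : Fin 4) : (1 : SP).e i = false := rfl
theorem SP.one_p : (1 : SP).p = 1 := rfl
theorem SP.inv_e (a : SP) (i : Fin 4) : a⁻¹.e i = a.e (a.p i) := rfl
theorem SP.inv_p (a : SP) : a⁻¹.p = a.p⁻¹ := rfl

instance instGroupSP : Group SP where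
  mul_assoc a b c := SP.ext (funext fun i => by
    simp only [SP.mul_e, SP.mul_p, mul_inv_rev, Equiv.Perm.mul_apply, Bool.xor_assoc])
    (mul_assoc _ _ _)
  one_mul a := SP.ext (funext fun i => by simp [SP.mul_e, SP.one_e, SP.one_p]) (one_mul _)
  mul_one a := SP.ext (funext fun i => by simp [SP.mul_e, SP.one_e]) (mul_one _)
  inv_mul_cancel a := SP.ext (funext fun i => by simp [SP.mul_e, SP.one_e, SP.inv_e, SP.inv_p])
    (inv_mul_cancel _)

instance instFintypeSP : Fintype SP :=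
  Fintype.ofEquiv ((Fin 4 → Bool) × Equiv.Perm (Fin 4))
    ⟨fun x => ⟨x.1, x.2⟩, fun a => ⟨a.e, a.p⟩, fun _ => rfl, fun _ => rfl⟩

/-- The action on vectors. -/
def SP.act (a : SP) (v : V) : V := fun i => if a.e i then -v (a.p⁻¹ i) else v (a.p⁻¹ i)

theorem act_one (v : V) : (1 : SP).act v = v := rfl

theorem act_mul (a b : SP) (v : V) : (a * b).act v = a.act (b.act v) := by
  funext i
  simp only [SP.act, SP.mul_e, SP.mul_p, mul_inv_rev, Equiv.Perm.mul_apply]
  cases a.e i <;> cases b.e (a.p⁻¹ i) <;> simp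

theorem act_add (a : SP) (u v : V) : a.act (u + v) = a.act u + a.act v := by
  funext i
  simp only [SP.act, Pi.add_apply]
  cases a.e i <;> simp [add_comm]

theorem act_inj {a b : SP} (h : ∀ v, a.act v = b.act v) : a = b := by
  have k : ∀ a : SP, (∀ j, a.act (Pi.single j 1) = Pi.single j 1) → a = 1 := by decide +kernel
  rw [← inv_mul_eq_one]
  refine k _ fun j => ?_
  rw [act_mul, ← h, ← act_mul, inv_mul_cancel, act_one]

/-- The permutation is even. -/
def SP.ev (a : SP) : Prop := Equiv.Perm.sign a.p = 1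

/-- The permutation lies in the four-group. -/
def SP.v4 (a : SP) : Prop := a.ev ∧ a.p * a.p = 1

/-- The signed permutations realized in the group. -/
def ok (b : Bool) (a : SP) : Prop := b = true ∨ a.ev

instance instDecEv (a : SP) : Decidable a.ev := inferInstanceAs (Decidable (_ = _))
instance instDecV4 (a : SP) : Decidable a.v4 := inferInstanceAs (Decidable (_ ∧ _))
instance instDecOk (b : Bool) (a : SP) : Decidable (ok b a) := inferInstanceAs (Decidable (_ ∨ _))

theorem ok_ev {b : Bool} {a : SP} (h : a.ev) : ok b a := Or.inr h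
theorem ok_true (a : SP) : ok true a := Or.inl rfl
theorem ok_p {b : Bool} {a : SP} (h : a.p = 1) : ok b a := Or.inr (by simp [SP.ev, h])
theorem ok_one {b : Bool} : ok b 1 := ok_p rfl
theorem ok_mul {b : Bool} {a a' : SP} (h : ok b a) (h' : ok b a') : ok b (a * a') :=
  h.elim Or.inl fun h => h'.elim Or.inl fun h' => Or.inr (by
    rw [SP.ev, SP.mul_p, map_mul, h, h', mul_one])
theorem ok_inv {b : Bool} {a : SP} (h : ok b a) : ok b a⁻¹ :=
  h.elim Or.inl fun h => Or.inr (by rw [SP.ev, SP.inv_p, map_inv, h, inv_one])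
theorem ok_pow {b : Bool} {a : SP} (h : ok b a) (n : ℕ) : ok b (a ^ n) := by
  induction n with
  | zero => exact ok_one
  | succ n ih => rw [pow_succ]; exact ok_mul ih h

/-- The change of one sign. -/
def sg (k : Fin 4) : SP := ⟨fun i => decide (i = k), 1⟩
/-- The change of the first three signs. -/
def sr : SP := ⟨fun i => decide (i ≠ 3), 1⟩
/-- The cyclic permutation of the first three coordinates. -/
def st : SP := ⟨fun _ => false, Equiv.swap 0 2 * Equiv.swap 0 1⟩
/-- The transposition of the first two coordinates. -/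
def sw : SP := ⟨fun _ => false, Equiv.swap 0 1⟩
/-- A basis vector. -/
def ee (k : Fin 4) : V := Pi.single k 1
/-- A singular vector. -/
def vz : V := ![1, 1, 1, 0]
/-- A vector of weight two. -/
def vv : V := ![1, -1, 0, 0]

theorem st_act : st.act (ee 0) = ee 1 ∧ st.act (ee 1) = ee 2 ∧ st.act (ee 2) = ee 0 ∧
    st.act (ee 3) = ee 3 := by decide +kernel

variable {G : Type*} [Group G]

/-- The quaternion group centralizing the chosen singular vector. -/
def E1 (ξ : V → G) (i : G) : Subgroup G := closure {i, cj (ξ (ee 0)) i}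

/-- The product of the four quaternion groups. -/
def EE (ξ : V → G) (μ : SP → G) (i : G) : Subgroup G :=
  closure {g | ∃ a : SP, a.p = 1 ∧ ∃ e ∈ E1 ξ i, g = cj (μ a) e}

/-- The configuration.  Here `t = μ (sg 3)`, `z = ξ vz`, `τ = μ st` and `w = μ sw`. -/
structure Cfg (b : Bool) (ξ : V → G) (μ : SP → G) (i : G) : Prop where
  add : ∀ u v, ξ (u + v) = ξ u * ξ v
  inj : ∀ v, ξ v = 1 → v = 0
  mul : ∀ a a', ok b a → ok b a' → μ (a * a') = μ a * μ a'
  act : ∀ a v, ok b a → cj (μ a) (ξ v) = ξ (a.act v)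
  cJ : ∀ g, (∀ v, Commute g (ξ v)) → ∃ v, g = ξ v
  i2 : i * i = μ (sg 3)
  ij : cj (ξ (ee 0)) (cj (ξ (ee 0)) i) = i * cj (ξ (ee 0)) i
  iJ : ∀ v : V, v 3 = 0 → v 0 + v 1 + v 2 = 0 → Commute i (ξ v)
  iS : ∀ a, ok b a → (∀ k, a.e k = false) → a.p 3 = 3 → Commute i (μ a)
  ir : cj (μ sr) i = i⁻¹
  cz4 : ∀ g, Commute g (ξ vz) → Commute g (ξ (ee 3)) → ∃ v a, ok b a ∧ g = ξ v * μ a
  czt : ∀ g, Commute g (ξ vz) → Commute g (μ (sg 3)) →
    ∃ e ∈ E1 ξ i, ∃ v a, ok b a ∧ g = e * ξ v * μ a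
  fJ : ∀ g u v, cj g (ξ u) = ξ v → F u = F v
  sig : ∀ O : Subgroup G, (Nat.card O).Coprime 3 → (∀ v, ξ v ∈ normalizer (O : Set G)) → O = ⊥
  tauJ : ∀ g u v, cj g (ξ u * μ st) ≠ ξ v
  cw : b = true → ∀ g, ¬ Commute (cj g (μ st)) (μ sw)
  lam : ∀ H : Subgroup G, Idx2 H ⊤ → (b = true → μ sw ∉ H) → ∃ N ≤ H, N.relIndex H = 3 ∧
    (∀ v, ξ v ∈ N) ∧ μ st ∉ N ∧ H ≤ normalizer (N : Set G) ∧ ∀ g ∈ H, g * g = 1 → g ∈ N

/-- An ambient subgroup playing the role of the simple group. -/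
structure Amb (b : Bool) (ξ : V → G) (μ : SP → G) (i : G) (N : Subgroup G) : Prop where
  J : ∀ v, ξ v ∈ N
  mu : ∀ a, ok b a → (μ a ∈ N ↔ a.v4)
  i : i ∈ N
  tau : μ st ∈ normalizer (N : Set G)

namespace Cfg

variable {b : Bool} {ξ : V → G} {μ : SP → G} {i : G} (c : Cfg b ξ μ i)
include c

theorem zero : ξ 0 = 1 := by
  have := c.add 0 0
  rwa [add_zero, left_eq_mul] at this

theorem neg (v : V) : ξ (-v) = (ξ v)⁻¹ :=
  eq_inv_of_mul_eq_one_left (by rw [← c.add, neg_add_cancel, c.zero])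

theorem sub (u v : V) : ξ (u - v) = ξ u * (ξ v)⁻¹ := by rw [sub_eq_add_neg, c.add, c.neg]

theorem comm (u v : V) : Commute (ξ u) (ξ v) := by
  rw [Commute, SemiconjBy, ← c.add, ← c.add, add_comm]

theorem nsmul (n : ℕ) (v : V) : ξ (n • v) = ξ v ^ n := by
  induction n with
  | zero => rw [zero_smul, c.zero, pow_zero]
  | succ n ih => rw [succ_nsmul, c.add, ih, pow_succ]

theorem cube (v : V) : ξ v ^ 3 = 1 := by
  rw [← c.nsmul, ← c.zero]
  congr 1
  revert v; decide +kernel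

theorem injective {u v : V} (h : ξ u = ξ v) : u = v :=
  sub_eq_zero.mp (c.inj _ (by rw [c.sub, h, mul_inv_cancel]))

theorem ne_one {v : V} (h : v ≠ 0) : ξ v ≠ 1 := fun e => h (c.inj v e)

theorem one : μ 1 = 1 := by
  have := c.mul 1 1 ok_one ok_one
  rwa [mul_one, left_eq_mul] at this

theorem inv {a : SP} (h : ok b a) : μ a⁻¹ = (μ a)⁻¹ :=
  eq_inv_of_mul_eq_one_left (by rw [← c.mul _ _ (ok_inv h) h, inv_mul_cancel, c.one])

theorem pow {a : SP} (h : ok b a) (n : ℕ) : μ (a ^ n) = μ a ^ n := by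
  induction n with
  | zero => rw [pow_zero, pow_zero, c.one]
  | succ n ih => rw [pow_succ, c.mul _ _ (ok_pow h n) h, ih, pow_succ]

theorem mcj {a a' : SP} (h : ok b a) (h' : ok b a') : cj (μ a) (μ a') = μ (a * a' * a⁻¹) := by
  rw [c.mul _ _ (ok_mul h h') (ok_inv h), c.mul _ _ h h', c.inv h, cj]

theorem mcomm {a a' : SP} (h : ok b a) (h' : ok b a') (e : a * a' = a' * a) :
    Commute (μ a) (μ a') := by
  rw [Commute, SemiconjBy, ← c.mul _ _ h h', e, c.mul _ _ h' h]

theorem msq {a : SP} (h : ok b a) (e : a * a = 1) : μ a * μ a = 1 := by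
  rw [← c.mul _ _ h h, e, c.one]

theorem mx {a : SP} (h : ok b a) (v : V) : μ a * ξ v = ξ (a.act v) * μ a := cj_eq.mp (c.act a v h)

theorem mxcomm {a : SP} (h : ok b a) {v : V} (e : a.act v = v) : Commute (μ a) (ξ v) :=
  cj_fix.mp (by rw [c.act a v h, e])

/-- The action of an element in normal form. -/
theorem act' {a : SP} (h : ok b a) (u v : V) : cj (ξ u * μ a) (ξ v) = ξ (a.act v) := by
  rw [mul_cj, c.act a v h, cj_fix.mpr (c.comm _ _)]

theorem fix_of_comm {a : SP} (h : ok b a) {u v : V} (e : Commute (ξ u * μ a) (ξ v)) :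
    a.act v = v := c.injective (by rw [← c.act' h u, cj_fix.mpr e])

theorem nf_mul {a a' : SP} (h : ok b a) (h' : ok b a') (u v : V) :
    ξ u * μ a * (ξ v * μ a') = ξ (u + a.act v) * μ (a * a') := by
  rw [c.add, c.mul _ _ h h', mul_assoc, ← mul_assoc (μ a), c.mx h]
  simp only [mul_assoc]

theorem nf_inj {a a' : SP} (h : ok b a) (h' : ok b a') {u v : V} (e : ξ u * μ a = ξ v * μ a') :
    u = v ∧ a = a' := by
  have : a = a' := act_inj fun w => c.injective (by rw [← c.act' h u, e, c.act' h'])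
  subst this
  exact ⟨c.injective (mul_right_cancel e), rfl⟩

theorem mu_inj {a a' : SP} (h : ok b a) (h' : ok b a') (e : μ a = μ a') : a = a' :=
  (c.nf_inj h h' (u := 0) (v := 0) (by rw [e])).2

theorem t2 : μ (sg 3) * μ (sg 3) = 1 := c.msq (ok_p rfl) (by decide +kernel)

theorem t1 : μ (sg 3) ≠ 1 := fun h =>
  absurd (c.mu_inj (ok_p rfl) ok_one (h.trans c.one.symm)) (by decide +kernel)

/-- An element in normal form commuting with `t`. -/
theorem nf_t {a : SP} (h : ok b a) {v : V} (e : Commute (ξ v * μ a) (μ (sg 3))) :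
    v 3 = 0 ∧ a.p 3 = 3 := by
  have h3 : ok b (sg 3) := ok_p rfl
  have e1 : ξ v * μ a * (ξ 0 * μ (sg 3)) = ξ 0 * μ (sg 3) * (ξ v * μ a) := by
    rw [c.zero, one_mul]; exact e
  rw [c.nf_mul h h3, c.nf_mul h3 h] at e1
  obtain ⟨e2, e3⟩ := c.nf_inj (ok_mul h h3) (ok_mul h3 h) e1
  have k1 : ∀ a : SP, a * sg 3 = sg 3 * a → a.p 3 = 3 := by decide +kernel
  have k2 : ∀ v : V, v = (sg 3).act v → v 3 = 0 := by decide +kernel
  have k3 : ∀ a : SP, a.act 0 = 0 := by decide +kernel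
  rw [k3, add_zero, zero_add] at e2
  exact ⟨k2 v e2, k1 a e3⟩

end Cfg

end Cfsg.Agent.H3.O8
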