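import Cfsg.Agent.H3.O8Def

/-!
# An extraspecial group of order `3 ^ 5` in the centralizer of an element of order three
-/

set_option autoImplicit false
set_option maxRecDepth 100000
set_option synthInstance.maxSize 100000

namespace Cfsg.Agent.H3.O8

open Subgroup Cfsg.Agent.H3.L43

variable {G : Type*} [Group G]

/-- The centralizer of `z` has shape `3¹⁺⁴.SL₂(3)` or `3¹⁺⁴.(SL₂(3) × 2)`. -/
structure Ex (z : G) (Q : Subgroup G) (π : G → S) (χ : G → ZMod 2) : Prop where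
  z1 : z ≠ 1
  zQ : z ∈ Q
  QC : ∀ x ∈ Q, Commute z x
  exp : ∀ x ∈ Q, x ^ 3 = 1
  comm : ∀ x ∈ Q, ∀ y ∈ Q, x * y * x⁻¹ * y⁻¹ ∈ zpowers z
  nondeg : ∀ x ∈ Q, (∀ y ∈ Q, Commute x y) → x ∈ zpowers z
  card : Nat.card Q = 243
  mul : ∀ x y, Commute z x → Commute z y → π (x * y) = π x * π y
  mulx : ∀ x y, Commute z x → Commute z y → χ (x * y) = χ x + χ y
  ker : ∀ x, Commute z x → (π x = 1 ∧ χ x = 0 ↔ x ∈ Q)
  surj : ∀ X, ∃ x, Commute z x ∧ π x = X ∧ χ x = 0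
  cQ : ∀ x, (∀ y ∈ Q, Commute x y) → x ∈ Q

theorem Ccj {z g x : G} (hg : Commute z g) (h : Commute z x) : Commute z (cj g x) :=
  (hg.mul_right h).mul_right hg.inv_right

namespace Ex

variable {z : G} {Q : Subgroup G} {π : G → S} {χ : G → ZMod 2} (L : Ex z Q π χ)
include L

theorem z3 : z ^ 3 = 1 := L.exp z L.zQ

theorem ZQ {w : G} (h : w ∈ zpowers z) : w ∈ Q := (zpowers_le.mpr L.zQ) h

theorem pQ {x : G} (h : x ∈ Q) : π x = 1 := ((L.ker x (L.QC x h)).mpr h).1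

theorem xQ {x : G} (h : x ∈ Q) : χ x = 0 := ((L.ker x (L.QC x h)).mpr h).2

theorem p1 : π 1 = 1 := L.pQ Q.one_mem

theorem x1 : χ 1 = 0 := L.xQ Q.one_mem

theorem pinv {x : G} (h : Commute z x) : π x⁻¹ = (π x)⁻¹ :=
  eq_inv_of_mul_eq_one_left (by rw [← L.mul _ _ h.inv_right h, inv_mul_cancel, L.p1])

theorem xinv {x : G} (h : Commute z x) : χ x⁻¹ = χ x := by
  have := L.mulx _ _ h.inv_right h
  rw [inv_mul_cancel, L.x1] at this
  have k : ∀ a b : ZMod 2, 0 = a + b → a = b := by decide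
  exact k _ _ this

theorem ppow {x : G} (h : Commute z x) (n : ℕ) : π (x ^ n) = π x ^ n := by
  induction n with
  | zero => rw [pow_zero, pow_zero, L.p1]
  | succ n ih => rw [pow_succ, L.mul _ _ (h.pow_right n) h, ih, pow_succ]

theorem xpow {x : G} (h : Commute z x) (n : ℕ) : χ (x ^ n) = n * χ x := by
  induction n with
  | zero => rw [pow_zero, L.x1]; simp
  | succ n ih => rw [pow_succ, L.mulx _ _ (h.pow_right n) h, ih]; push_cast; ring

theorem pcj {g x : G} (hg : Commute z g) (h : Commute z x) : π (cj g x) = π g * π x * (π g)⁻¹ := by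
  rw [cj, L.mul _ _ (hg.mul_right h) hg.inv_right, L.mul _ _ hg h, L.pinv hg]

theorem xcj {g x : G} (hg : Commute z g) (h : Commute z x) : χ (cj g x) = χ x := by
  rw [cj, L.mulx _ _ (hg.mul_right h) hg.inv_right, L.mulx _ _ hg h, L.xinv hg]
  have k : ∀ a b : ZMod 2, a + b + a = b := by decide
  exact k _ _

theorem xodd {x : G} (h : Commute z x) {k : ℕ} (e : x ^ 3 ^ k = 1) : χ x = 0 := by
  have := L.xpow h (3 ^ k)
  rw [e, L.x1] at this
  push_cast at this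
  rw [show (3 : ZMod 2) = 1 from rfl, one_pow, one_mul] at this
  exact this.symm

theorem x3 {x : G} (h : Commute z x) (e : x ^ 3 = 1) : χ x = 0 := L.xodd h (k := 1) e

theorem p3 {x : G} (h : Commute z x) (e : x ^ 3 = 1) : π x ^ 3 = 1 := by
  rw [← L.ppow h, e, L.p1]

theorem toQ {x : G} (h : Commute z x) (e : π x = 1) (e' : χ x = 0) : x ∈ Q :=
  (L.ker x h).mp ⟨e, e'⟩

theorem norm {g v : G} (hg : Commute z g) (h : v ∈ Q) : cj g v ∈ Q :=
  L.toQ (Ccj hg (L.QC v h)) (by rw [L.pcj hg (L.QC v h), L.pQ h, mul_one, mul_inv_cancel])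
    (by rw [L.xcj hg (L.QC v h), L.xQ h])

theorem spec {x y : G} (hx : x ∈ Q) (hy : y ∈ Q) : x * y = z ^ (bt z x y).val * (y * x) := by
  obtain ⟨k, e⟩ := (zp L.z3).mp (L.comm x hx y hy)
  have : x * y = z ^ k.val * (y * x) := by rw [← e]; group
  rwa [bt_eq L.z3 L.z1 this]

theorem bt_one {x y : G} (e : x * y = z * (y * x)) : bt z x y = 1 :=
  bt_eq L.z3 L.z1 (by rwa [ZMod.val_one, pow_one])

theorem of_one {x y : G} (hx : x ∈ Q) (hy : y ∈ Q) (e : bt z x y = 1) : x * y = z * (y * x) := by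
  have := L.spec hx hy
  rwa [e, ZMod.val_one, pow_one] at this

theorem mull {x x' y : G} (hx : x ∈ Q) (hx' : x' ∈ Q) (hy : y ∈ Q) :
    bt z (x * x') y = bt z x y + bt z x' y := by
  refine bt_eq L.z3 L.z1 ?_
  rw [mul_assoc, L.spec hx' hy, ← mul_assoc, ← ((L.QC x hx).pow_left _).eq, mul_assoc,
    ← mul_assoc x, L.spec hx hy, add_comm, ez_add L.z3]
  simp only [mul_assoc]

theorem swap {x y : G} (hx : x ∈ Q) (hy : y ∈ Q) : bt z y x = -bt z x y := by
  refine bt_eq L.z3 L.z1 ?_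
  rw [L.spec hx hy, ← mul_assoc, ← ez_add L.z3, neg_add_cancel, ZMod.val_zero, pow_zero, one_mul]

theorem mulr {x y y' : G} (hx : x ∈ Q) (hy : y ∈ Q) (hy' : y' ∈ Q) :
    bt z x (y * y') = bt z x y + bt z x y' := by
  rw [L.swap (mul_mem hy hy') hx, L.mull hy hy' hx, L.swap hy hx, L.swap hy' hx]; ring

theorem invl {x y : G} (hx : x ∈ Q) (hy : y ∈ Q) : bt z x⁻¹ y = -bt z x y := by
  rw [eq_neg_iff_add_eq_zero, ← L.mull (inv_mem hx) hx hy, inv_mul_cancel]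
  exact bt_zero.mpr (Commute.one_left y)

theorem invr {x y : G} (hx : x ∈ Q) (hy : y ∈ Q) : bt z x y⁻¹ = -bt z x y := by
  rw [L.swap (inv_mem hy) hx, L.invl hy hx, L.swap hy hx]

theorem powl {x y : G} (hx : x ∈ Q) (hy : y ∈ Q) (n : ℕ) : bt z (x ^ n) y = n * bt z x y := by
  induction n with
  | zero => rw [pow_zero, bt_zero.mpr (Commute.one_left y)]; simp
  | succ n ih => rw [pow_succ, L.mull (pow_mem hx n) hx hy, ih]; push_cast; ring

theorem powr {x y : G} (hx : x ∈ Q) (hy : y ∈ Q) (n : ℕ) : bt z x (y ^ n) = n * bt z x y := by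
  rw [L.swap (pow_mem hy n) hx, L.powl hy hx, L.swap hy hx]; ring

theorem bt_inv {x y : G} (hx : x ∈ Q) (hy : y ∈ Q) : bt z⁻¹ x y = -bt z x y := by
  refine bt_eq (by rw [inv_pow, L.z3, inv_one]) (inv_ne_one.mpr L.z1) ?_
  rw [L.spec hx hy, inv_pow]
  congr 1
  rw [eq_inv_iff_mul_eq_one, ← ez_add L.z3, add_neg_cancel, ZMod.val_zero, pow_zero]

omit L in
theorem move {g x y : G} (hg : Commute z g) : bt z (cj g x) y = bt z x (cj g⁻¹ y) := by
  rw [← bt_cj g z x, cj_inv_cj, cj_fix.mpr hg.symm]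

theorem move' {g x y : G} (hg : cj g z = z⁻¹) (hx : cj g x ∈ Q) (hy : cj g y ∈ Q) :
    bt z (cj g x) (cj g y) = -bt z x y := by
  rw [← bt_cj g z x, hg, L.bt_inv hx hy, neg_neg]

theorem fix_comm {g x y : G} (hg : cj g z = z⁻¹) (hx : x ∈ Q) (hy : y ∈ Q) (ex : cj g x = x)
    (ey : cj g y = y) : Commute x y := by
  have := L.move' hg (ex.symm ▸ hx) (ey.symm ▸ hy)
  rw [ex, ey] at this
  have k : ∀ k : ZMod 3, k = -k → k = 0 := by decide
  exact bt_zero.mp (k _ this)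

theorem neg_comm {g x y : G} (hg : cj g z = z⁻¹) (hx : x ∈ Q) (hy : y ∈ Q) (ex : cj g x = x⁻¹)
    (ey : cj g y = y⁻¹) : Commute x y := by
  have := L.move' hg (ex.symm ▸ inv_mem hx) (ey.symm ▸ inv_mem hy)
  rw [ex, ey, L.invl hx (inv_mem hy), L.invr hx hy, neg_neg] at this
  have k : ∀ k : ZMod 3, k = -k → k = 0 := by decide
  exact bt_zero.mp (k _ this)

theorem exists_one {x : G} (hx : x ∈ Q) (h : x ∉ zpowers z) : ∃ y ∈ Q, bt z x y = 1 := by
  have : ¬ ∀ y ∈ Q, Commute x y := fun h' => h (L.nondeg x hx h')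
  push Not at this
  obtain ⟨y, hy, e⟩ := this
  have k : ∀ k : ZMod 3, k ≠ 0 → k = 1 ∨ -k = 1 := by decide
  rcases k _ (mt bt_zero.mp e) with c | c
  · exact ⟨y, hy, c⟩
  · exact ⟨y⁻¹, inv_mem hy, by rw [L.invr hx hy, c]⟩

/-- The form as a homomorphism. -/
noncomputable def fm {a : G} (ha : a ∈ Q) : Q →* Multiplicative (ZMod 3) :=
  MonoidHom.mk' (fun x => Multiplicative.ofAdd (bt z x.1 a)) fun x y => by
    rw [Subgroup.coe_mul, L.mull x.2 y.2 ha, ofAdd_add]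

theorem card_Z : Nat.card ((zpowers z).subgroupOf Q) = 3 := by
  rw [Nat.card_congr (subgroupOfEquivOfLe (zpowers_le.mpr L.zQ)).toEquiv, card_zp L.z3 L.z1]

theorem exists_perp {a d : G} (ha : a ∈ Q) (hd : d ∈ Q) :
    ∃ x ∈ Q, x ∉ zpowers z ∧ bt z x a = 0 ∧ bt z x d = 0 := by
  by_contra hn
  push Not at hn
  have : Finite Q := Nat.finite_of_card_ne_zero (by rw [L.card]; omega)
  let f := (L.fm ha).prod (L.fm hd)
  have h1 : f.ker ≤ (zpowers z).subgroupOf Q := fun x hx => by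
    by_contra h
    exact hn x x.2 h (congrArg (fun p => p.1.toAdd) hx) (congrArg (fun p => p.2.toAdd) hx)
  have h2 := card_le_of_le h1
  have h3 := f.ker.card_mul_index
  have h4 : Nat.card f.range ≤ 9 := (f.range.card_le_card_group).trans (by simp)
  rw [index_ker, L.card] at h3
  rw [L.card_Z] at h2
  nlinarith

theorem pair {a : G} (ha : a ∈ Q) (h : a ∉ zpowers z) :
    ∃ x ∈ Q, ∃ x' ∈ Q, Commute a x ∧ Commute a x' ∧ bt z x x' = 1 := by
  obtain ⟨d, hd, e⟩ := L.exists_one ha h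
  obtain ⟨x, hx, h1, h2, h3⟩ := L.exists_perp ha hd
  obtain ⟨y, hy, e'⟩ := L.exists_one hx h1
  refine ⟨x, hx, y * d ^ (-bt z a y).val, mul_mem hy (pow_mem hd _), (bt_zero.mp h2).symm,
    (bt_zero (z := z)).mp ?_, ?_⟩
  · rw [L.mulr ha hy (pow_mem hd _), L.powr ha hd, e]; simp
  · rw [L.mulr hx hy (pow_mem hd _), L.powr hx hd, e', h3]; simp

theorem coords {a b c d : G} (ha : a ∈ Q) (hb : b ∈ Q) (hc : c ∈ Q) (hd : d ∈ Q)
    (ab : bt z a b = 0) (ac : bt z a c = 0) (bd : bt z b d = 0) (cd : bt z c d = 0)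
    (bc : bt z b c = 1) (ad : bt z a d = 1) (i j k l : ZMod 3) :
    let x := a ^ l.val * b ^ k.val * c ^ (-j).val * d ^ (-i).val
    bt z x a = i ∧ bt z x b = j ∧ bt z x c = k ∧ bt z x d = l := by
  intro x
  have k : ∀ v ∈ Q, bt z x v = l * bt z a v + k * bt z b v - j * bt z c v - i * bt z d v :=
    fun v hv => by
      rw [L.mull (mul_mem (mul_mem (pow_mem ha _) (pow_mem hb _)) (pow_mem hc _)) (pow_mem hd _) hv,
        L.mull (mul_mem (pow_mem ha _) (pow_mem hb _)) (pow_mem hc _) hv,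
        L.mull (pow_mem ha _) (pow_mem hb _) hv, L.powl ha hv, L.powl hb hv, L.powl hc hv,
        L.powl hd hv]
      simp only [ZMod.natCast_val, ZMod.cast_id', id_eq]
      ring
  rw [k a ha, k b hb, k c hc, k d hd, L.swap ha hb, L.swap ha hc, L.swap ha hd, L.swap hb hc,
    L.swap hb hd, L.swap hc hd]
  simp [bt_self, ab, ac, bd, cd, bc, ad]

theorem span {a b c d : G} (ha : a ∈ Q) (hb : b ∈ Q) (hc : c ∈ Q) (hd : d ∈ Q)
    (ab : bt z a b = 0) (ac : bt z a c = 0) (bd : bt z b d = 0) (cd : bt z c d = 0)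
    (bc : bt z b c = 1) (ad : bt z a d = 1) {x : G} (hx : x ∈ Q) (xa : bt z x a = 0)
    (xb : bt z x b = 0) (xc : bt z x c = 0) (xd : bt z x d = 0) : x ∈ zpowers z := by
  have : Finite Q := Nat.finite_of_card_ne_zero (by rw [L.card]; omega)
  let f := (L.fm ha).prod ((L.fm hb).prod ((L.fm hc).prod (L.fm hd)))
  have h1 : (zpowers z).subgroupOf Q ≤ f.ker := fun w hw => by
    have k : ∀ v ∈ Q, bt z w.1 v = 0 := fun v hv => bt_zero.mpr (zp_comm (L.QC v hv) hw)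
    exact Prod.ext (congrArg Multiplicative.ofAdd (k a ha)) (Prod.ext
      (congrArg Multiplicative.ofAdd (k b hb)) (Prod.ext (congrArg Multiplicative.ofAdd (k c hc))
      (congrArg Multiplicative.ofAdd (k d hd))))
  have h2 : f.range = ⊤ := eq_top_iff.mpr fun p _ => by
    obtain ⟨e1, e2, e3, e4⟩ := L.coords ha hb hc hd ab ac bd cd bc ad p.1.toAdd p.2.1.toAdd
      p.2.2.1.toAdd p.2.2.2.toAdd
    exact ⟨⟨_, mul_mem (mul_mem (mul_mem (pow_mem ha _) (pow_mem hb _)) (pow_mem hc _))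
      (pow_mem hd _)⟩, Prod.ext (congrArg Multiplicative.ofAdd e1) (Prod.ext
      (congrArg Multiplicative.ofAdd e2) (Prod.ext (congrArg Multiplicative.ofAdd e3)
      (congrArg Multiplicative.ofAdd e4)))⟩
  have h3 := f.ker.card_mul_index
  rw [index_ker, L.card, h2, card_top, show Nat.card (Multiplicative (ZMod 3) ×
    Multiplicative (ZMod 3) × Multiplicative (ZMod 3) × Multiplicative (ZMod 3)) = 81 by
      simp] at h3
  have h4 := eq_of_le_of_card_ge h1 (by rw [L.card_Z]; omega)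
  have : (⟨x, hx⟩ : Q) ∈ f.ker := Prod.ext (congrArg Multiplicative.ofAdd xa) (Prod.ext
      (congrArg Multiplicative.ofAdd xb) (Prod.ext (congrArg Multiplicative.ofAdd xc)
      (congrArg Multiplicative.ofAdd xd)))
  rwa [← h4] at this

theorem exists_t : ∃ t, Commute z t ∧ t * t = 1 ∧ π t = n1 ∧ χ t = 0 := by
  obtain ⟨x, hx, e, e'⟩ := L.surj n1
  refine ⟨x ^ 3, hx.pow_right 3, ?_, by rw [L.ppow hx, e, n1_cube], by rw [L.xpow hx, e', mul_zero]⟩
  rw [← L.exp _ (L.toQ (hx.mul_right hx) (by rw [L.mul _ _ hx hx, e, n1_sq])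
    (by rw [L.mulx _ _ hx hx, e', add_zero])), ← pow_add, ← pow_two, ← pow_mul]

theorem inv_Q {x : G} (h : x ∈ Q) (h2 : x * x = 1) : x = 1 := by
  have := L.exp _ h
  rwa [pow_three', h2, one_mul] at this

theorem pi_inv {t : G} (h : Commute z t) (h2 : t * t = 1) (h1 : t ≠ 1) (hx : χ t = 0) :
    π t = n1 :=
  (sq_one _ (by rw [← L.mul _ _ h h, h2, L.p1])).resolve_left fun e =>
    h1 (L.inv_Q (L.toQ h e hx) h2)

theorem pi_cen {t : G} (h : Commute z t) (h2 : t * t = 1) (X : S) : π t * X = X * π t := by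
  rcases sq_one _ (show π t * π t = 1 by rw [← L.mul _ _ h h, h2, L.p1]) with e | e <;> rw [e]
  · rw [one_mul, mul_one]
  · exact n1_comm X

/-- An element of order three inverted modulo `Q` by an involution lies in `Q`. -/
theorem memQ {t x : G} (ht : Commute z t) (t2 : t * t = 1) (hx : Commute z x) (h3 : x ^ 3 = 1)
    (h : cj t x * x ∈ Q) : x ∈ Q := by
  have h1 := L.pQ h
  rw [L.mul _ _ (Ccj ht hx) hx, L.pcj ht hx, L.pi_cen ht t2, mul_inv_cancel_right] at h1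
  have h2 := L.p3 hx h3
  rw [pow_three', h1, one_mul] at h2
  exact L.toQ hx h2 (L.x3 hx h3)

theorem eq_of_inv {t x y : G} (ht : Commute z t) (hy : y ∈ Q) (ex : cj t x = x⁻¹)
    (ey : cj t y = y⁻¹) (h : x * y⁻¹ ∈ zpowers z) : x = y := by
  rw [← mul_inv_eq_one]
  have h1 := cj_fix.mpr (zp_comm ht h).symm
  rw [cj_mul, cj_inv, ex, ey, inv_inv] at h1
  refine eq_one_of_inv (L.exp _ (L.ZQ h)) ?_
  have h2 := (zp_comm (L.QC y hy) h).eq
  rw [← h1, ← mul_assoc] at h2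
  rw [mul_inv_rev, inv_inv, ← h1]
  exact mul_right_cancel h2

theorem conj (g : G) :
    Ex (cj g z) (Q.map (MulAut.conj g).toMonoidHom) (fun x => π (cj g⁻¹ x))
      fun x => χ (cj g⁻¹ x) := by
  have m : ∀ x, x ∈ Q.map (MulAut.conj g).toMonoidHom ↔ cj g⁻¹ x ∈ Q := fun x =>
    ⟨fun ⟨y, hy, e⟩ => by rw [← e]; exact (inv_cj_cj g y).symm ▸ hy,
      fun h => ⟨_, h, cj_inv_cj g x⟩⟩
  have c : ∀ x, Commute (cj g z) x → Commute z (cj g⁻¹ x) := fun x h => by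
    have := cj_comm (g := g⁻¹) h
    rwa [inv_cj_cj] at this
  have c' : ∀ x, Commute z (cj g⁻¹ x) → Commute (cj g z) x := fun x h => by
    have := cj_comm (g := g) h
    rwa [cj_inv_cj] at this
  have k : ∀ x, cj g⁻¹ x ∈ zpowers z → x ∈ zpowers (cj g z) := fun x ⟨n, e⟩ =>
    ⟨n, by rw [← cj_inv_cj g x, ← e]; simp only [cj, conj_zpow]⟩
  refine ⟨fun h => L.z1 (cj_inj (h.trans (cj_one g).symm)), ⟨z, L.zQ, rfl⟩,
    fun x hx => c' x (L.QC _ ((m x).mp hx)), fun x hx => cj_inj (g := g⁻¹) ?_,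
    fun x hx y hy => k _ ?_, fun x hx h => k _ (L.nondeg _ ((m x).mp hx) fun y hy => ?_), ?_,
    fun x y hx hy => ?_, fun x y hx hy => ?_, fun x hx => ?_, fun X => ?_, fun x h => ?_⟩
  · rw [cj_pow, L.exp _ ((m x).mp hx), cj_one]
  · simp only [cj_mul, cj_inv]
    exact L.comm _ ((m x).mp hx) _ ((m y).mp hy)
  · have := cj_comm (g := g⁻¹) (h (cj g y) ⟨y, hy, rfl⟩)
    rwa [inv_cj_cj] at this
  · rw [← L.card]
    exact (Nat.card_congr (Q.equivMapOfInjective _ (MulAut.conj g).injective).toEquiv).symm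
  · rw [cj_mul, L.mul _ _ (c x hx) (c y hy)]
  · rw [cj_mul, L.mulx _ _ (c x hx) (c y hy)]
  · rw [L.ker _ (c x hx), m]
  · obtain ⟨x, hx, e⟩ := L.surj X
    exact ⟨cj g x, cj_comm hx, by rwa [inv_cj_cj]⟩
  · refine (m x).mpr (L.cQ _ fun y hy => ?_)
    have := cj_comm (g := g⁻¹) (h (cj g y) ⟨y, hy, rfl⟩)
    rwa [inv_cj_cj] at this

theorem nrm3 : ∀ X : S, X ^ 3 = 1 → (∀ Y : S, (X * (Y * X * Y⁻¹)) ^ 3 = 1) → X = 1 := by
  decide +kernel

/-- Elements inverting `z` normalize `Q`. -/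
theorem norm' {g v : G} (hg : cj g z = z⁻¹) (h : v ∈ Q) : cj g v ∈ Q := by
  have c : ∀ x, Commute z x → Commute z (cj g x) := fun x hx => by
    have := cj_comm (g := g) hx
    rwa [hg, Commute.inv_left_iff] at this
  have c' : ∀ x, Commute z x → Commute z (cj g⁻¹ x) := fun x hx => by
    have := cj_comm (g := g⁻¹) hx
    rwa [inv_cj_neg hg, Commute.inv_left_iff] at this
  have h3 : ∀ v ∈ Q, cj g v ^ 3 = 1 := fun v h => by rw [← cj_pow, L.exp v h, cj_one]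
  have hv := c v (L.QC v h)
  refine L.toQ hv (L.nrm3 _ (L.p3 hv (h3 v h)) fun Y => ?_) (L.x3 hv (h3 v h))
  obtain ⟨y, hy, e, -⟩ := L.surj Y
  rw [← e, ← L.pcj hy hv, ← L.mul _ _ hv (Ccj hy hv)]
  refine L.p3 (hv.mul_right (Ccj hy hv)) ?_
  rw [← cj_inv_cj g y, ← cj_cj, ← cj_mul]
  exact h3 _ (mul_mem h (L.norm (c' y hy) h))

/-- Elements of the kernel of `χ` are products of three-elements. -/
theorem three_elts {x : G} (h : Commute z x) (e : χ x = 0) : ∃ y1 y2 y3 : G,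
    Commute z y1 ∧ Commute z y2 ∧ Commute z y3 ∧ y1 ^ 3 ^ 2 = 1 ∧ y2 ^ 3 ^ 2 = 1 ∧ y3 ^ 3 ^ 2 = 1 ∧
      x = y1 * y2 * y3 := by
  obtain ⟨Y1, h1, Y2, h2, Y3, h3, e'⟩ := three (π x)
  obtain ⟨y1, c1, p1, q1⟩ := L.surj Y1
  obtain ⟨y2, c2, p2, q2⟩ := L.surj Y2
  have k : ∀ y, Commute z y → χ y = 0 → π y ^ 3 = 1 → y ^ 3 ^ 2 = 1 := fun y c q p => by
    rw [pow_two, pow_mul]
    exact L.exp _ (L.toQ (c.pow_right 3) (by rw [L.ppow c, p]) (by rw [L.xpow c, q, mul_zero]))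
  have c3 := (c1.mul_right c2).inv_right.mul_right h
  refine ⟨y1, y2, (y1 * y2)⁻¹ * x, c1, c2, c3, k _ c1 q1 (p1 ▸ h1), k _ c2 q2 (p2 ▸ h2),
    k _ c3 ?_ ?_, by group⟩
  · rw [L.mulx _ _ (c1.mul_right c2).inv_right h, L.xinv (c1.mul_right c2), L.mulx _ _ c1 c2,
      q1, q2, e]; rfl
  · rw [L.mul _ _ (c1.mul_right c2).inv_right h, L.pinv (c1.mul_right c2), L.mul _ _ c1 c2,
      p1, p2, e', inv_mul_cancel_left, h3]

theorem xcj' {g x : G} (hg : cj g z = z⁻¹) (h : Commute z x) (e : χ x = 0) : χ (cj g x) = 0 := by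
  have c : ∀ x, Commute z x → Commute z (cj g x) := fun x hx => by
    have := cj_comm (g := g) hx
    rwa [hg, Commute.inv_left_iff] at this
  obtain ⟨y1, y2, y3, c1, c2, c3, e1, e2, e3, rfl⟩ := L.three_elts h e
  have k : ∀ y, Commute z y → y ^ 3 ^ 2 = 1 → χ (cj g y) = 0 := fun y cy ey =>
    L.xodd (c y cy) (k := 2) (by rw [← cj_pow, ey, cj_one])
  rw [cj_mul, cj_mul, L.mulx _ _ ((c _ c1).mul_right (c _ c2)) (c _ c3),
    L.mulx _ _ (c _ c1) (c _ c2), k _ c1 e1, k _ c2 e2, k _ c3 e3]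
  rfl

theorem cjZ {g x : G} (hg : g ∈ Q) (hx : x ∈ Q) : cj g x = z ^ (bt z g x).val * x := by
  rw [cj_eq, L.spec hg hx, mul_assoc]

theorem btZ {w x : G} (hw : w ∈ zpowers z) (hx : x ∈ Q) : bt z w x = 0 :=
  bt_zero.mpr (zp_comm (L.QC x hx) hw)

theorem bt_congr {x x' y : G} (hx' : x' ∈ Q) (hy : y ∈ Q) (h : x * x'⁻¹ ∈ zpowers z) :
    bt z x y = bt z x' y := by
  rw [← inv_mul_cancel_right x x', mul_assoc, ← mul_assoc, L.mull (L.ZQ h) hx' hy, L.btZ h hy,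
    zero_add]

/-- Fixed and inverted elements commute. -/
theorem fix_neg {t x y : G} (ht : Commute z t) (hx : x ∈ Q) (hy : y ∈ Q) (ex : cj t x = x⁻¹)
    (ey : cj t y = y) : bt z x y = 0 := by
  have := bt_cj t z x y
  rw [cj_fix.mpr ht.symm, ex, ey, L.invl hx hy] at this
  have k : ∀ k : ZMod 3, -k = k → k = 0 := by decide
  exact k _ this

/-- The perpendicular of an isotropic plane. -/
theorem lag {a c v : G} (ha : a ∈ Q) (hc : c ∈ Q) (hv : v ∈ Q) (a1 : a ∉ zpowers z)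
    (ac : bt z a c = 0) (av : bt z a v = 0) (cv : bt z c v ≠ 0) {x : G} (hx : x ∈ Q)
    (xa : bt z x a = 0) (xc : bt z x c = 0) :
    ∃ k l m : ZMod 3, x = z ^ k.val * a ^ l.val * c ^ m.val := by
  obtain ⟨u, hu, au, cu⟩ : ∃ u ∈ Q, bt z a u = 0 ∧ bt z c u = 1 := by
    have k : ∀ k : ZMod 3, k ≠ 0 → k = 1 ∨ -k = 1 := by decide
    rcases k _ cv with e | e
    · exact ⟨v, hv, av, e⟩
    · exact ⟨v⁻¹, inv_mem hv, by rw [L.invr ha hv, av, neg_zero], by rw [L.invr hc hv, e]⟩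
  obtain ⟨d0, hd0, ad0⟩ := L.exists_one ha a1
  have hd1 := mul_mem hd0 (pow_mem hu (-bt z c d0).val)
  have ad1 : bt z a (d0 * u ^ (-bt z c d0).val) = 1 := by
    rw [L.mulr ha hd0 (pow_mem hu _), L.powr ha hu, ad0, au]; simp
  have cd1 : bt z c (d0 * u ^ (-bt z c d0).val) = 0 := by
    rw [L.mulr hc hd0 (pow_mem hu _), L.powr hc hu, cu]; simp
  generalize d0 * u ^ (-bt z c d0).val = d1 at hd1 ad1 cd1
  have hd := mul_mem hd1 (pow_mem hc (bt z u d1).val)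
  have ad : bt z a (d1 * c ^ (bt z u d1).val) = 1 := by
    rw [L.mulr ha hd1 (pow_mem hc _), L.powr ha hc, ad1, ac]; simp
  have cd : bt z c (d1 * c ^ (bt z u d1).val) = 0 := by
    rw [L.mulr hc hd1 (pow_mem hc _), L.powr hc hc, cd1, bt_self]; simp
  have ud : bt z u (d1 * c ^ (bt z u d1).val) = 0 := by
    rw [L.mulr hu hd1 (pow_mem hc _), L.powr hu hc, L.swap hc hu, cu]; simp
  generalize d1 * c ^ (bt z u d1).val = d at hd ad cd ud
  have hw := mul_mem (pow_mem ha (bt z x d).val) (pow_mem hc (bt z x u).val)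
  have k : ∀ y ∈ Q, bt z (x * (a ^ (bt z x d).val * c ^ (bt z x u).val)⁻¹) y =
      bt z x y - (bt z x d * bt z a y + bt z x u * bt z c y) := fun y hy => by
    rw [L.mull hx (inv_mem hw) hy, L.invl hw hy, L.mull (pow_mem ha _) (pow_mem hc _) hy,
      L.powl ha hy, L.powl hc hy]
    simp only [ZMod.natCast_val, ZMod.cast_id', id_eq]
    ring
  obtain ⟨n, e⟩ := (zp L.z3).mp (L.span ha hc hu hd ac au cd ud cu ad (mul_mem hx (inv_mem hw))
    (by rw [k a ha, xa, bt_self, L.swap ha hc, ac]; ring)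
    (by rw [k c hc, xc, bt_self, ac]; ring)
    (by rw [k u hu, au, cu]; ring) (by rw [k d hd, ad, cd]; ring))
  exact ⟨n, _, _, by rw [mul_assoc, ← e, inv_mul_cancel_right]⟩

end Ex

end Cfsg.Agent.H3.O8
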