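import Cfsg.Agent.H3.O8Ch
import Cfsg.Agent.H3.L43LocD

/-!
# Adapted generators
-/

set_option autoImplicit false
set_option maxRecDepth 100000
set_option synthInstance.maxSize 100000

namespace Cfsg.Agent.H3.O8

open Subgroup Cfsg.Agent.H3.L43

variable {G : Type*} [Group G]

theorem cj_pow_of {e v w : G} (h1 : cj e v = w * v) (h2 : cj e w = w) (n : ℕ) :
    cj (e ^ n) v = w ^ n * v := by
  induction n with
  | zero => rw [pow_zero, one_cj, pow_zero, one_mul]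
  | succ n ih => rw [pow_succ', mul_cj, ih, cj_mul, cj_pow, h2, h1, pow_succ, mul_assoc]

theorem zp_swap {z a : G} (z3 : z ^ 3 = 1) (z1 : z ≠ 1) (a3 : a ^ 3 = 1) {k : ZMod 3}
    (hk : k ≠ 0) (h : z ^ k.val ∈ zpowers a) : a ∈ zpowers z := by
  have k1 : ∀ k : ZMod 3, k ≠ 0 → k.val * k.val = 1 ∨ k.val * k.val = 3 + 1 := by decide
  have k2 : ∀ x : G, x ^ 3 = 1 → ∀ k : ZMod 3, k ≠ 0 → (x ^ k.val) ^ k.val = x := fun x h k hk => by
    rw [← pow_mul]
    rcases k1 k hk with e | e <;> rw [e]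
    · exact pow_one x
    · rw [pow_succ, h, one_mul]
  obtain ⟨l, e⟩ := (zp a3).mp (pow_mem h k.val)
  rw [k2 z z3 k hk] at e
  by_cases hl : l = 0
  · rw [hl, ZMod.val_zero, pow_zero] at e; exact absurd e z1
  · rw [← k2 a a3 l hl, ← e]; exact pow_mem (mem_zpowers z) _

/-- A product of powers of four elements. -/
def xi (z a c y : G) (v : V) : G := z ^ (v 0).val * a ^ (v 1).val * c ^ (v 2).val * y ^ (v 3).val

/-- Four commuting elements of order dividing three. -/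
structure Cm (z a c y : G) : Prop where
  z3 : z ^ 3 = 1
  a3 : a ^ 3 = 1
  c3 : c ^ 3 = 1
  y3 : y ^ 3 = 1
  za : Commute z a
  zc : Commute z c
  zy : Commute z y
  ac : Commute a c
  ay : Commute a y
  cy : Commute c y

/-- The action by conjugation on coordinates. -/
def Act (ξ : V → G) (g : G) (f : V → V) : Prop := ∀ v, cj g (ξ v) = ξ (f v)

theorem Act.mul {ξ : V → G} {g h : G} {f f' : V → V} (h1 : Act ξ g f) (h2 : Act ξ h f') :
    Act ξ (g * h) (f ∘ f') := fun v => by rw [mul_cj, h2, h1]; rfl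

theorem Act.pow {ξ : V → G} {g : G} {f : V → V} (h1 : Act ξ g f) (n : ℕ) :
    Act ξ (g ^ n) f^[n] := by
  induction n with
  | zero => exact fun v => by rw [pow_zero, one_cj]; rfl
  | succ n ih => rw [pow_succ, Function.iterate_succ]; exact ih.mul h1

theorem Act.congr {ξ : V → G} {g : G} {f f' : V → V} (h1 : Act ξ g f) (h : ∀ v, f v = f' v) :
    Act ξ g f' := fun v => by rw [h1, h]

theorem Act.inv {ξ : V → G} {g : G} {f f' : V → V} (h1 : Act ξ g f) (h : ∀ v, f (f' v) = v) :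
    Act ξ g⁻¹ f' := fun v => inv_cj (by rw [h1, h])

/-- A linear map given by the images of the basis. -/
def lin (m0 m1 m2 m3 v : V) : V := v 0 • m0 + v 1 • m1 + v 2 • m2 + v 3 • m3

namespace Cm

variable {z a c y : G} (h : Cm z a c y)
include h

theorem add (u v : V) : xi z a c y (u + v) = xi z a c y u * xi z a c y v := by
  simp only [xi, Pi.add_apply, ez_add h.z3, ez_add h.a3, ez_add h.c3, ez_add h.y3]
  rw [Commute.mul_mul_mul_comm (((h.zy.pow_pow (v 0).val (u 3).val).mul_left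
      (h.ay.pow_pow (v 1).val (u 3).val)).mul_left (h.cy.pow_pow (v 2).val (u 3).val)).symm,
    Commute.mul_mul_mul_comm ((h.zc.pow_pow (v 0).val (u 2).val).mul_left
      (h.ac.pow_pow (v 1).val (u 2).val)).symm,
    Commute.mul_mul_mul_comm (h.za.pow_pow (v 0).val (u 1).val).symm]

theorem zero : xi z a c y 0 = 1 := by
  have := h.add 0 0
  rwa [add_zero, left_eq_mul] at this

theorem smul (k : ZMod 3) (v : V) : xi z a c y (k • v) = xi z a c y v ^ k.val := by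
  have : ∀ n : ℕ, xi z a c y (n • v) = xi z a c y v ^ n := fun n => by
    induction n with
    | zero => rw [zero_smul, h.zero, pow_zero]
    | succ n ih => rw [succ_nsmul, h.add, ih, pow_succ]
  have k' : ∀ (k : ZMod 3) (v : V), k • v = k.val • v := by decide +kernel
  rw [← this, k']

theorem neg (v : V) : xi z a c y (-v) = (xi z a c y v)⁻¹ :=
  eq_inv_of_mul_eq_one_left (by rw [← h.add, neg_add_cancel, h.zero])

theorem act {g : G} {m0 m1 m2 m3 : V} (h0 : cj g z = xi z a c y m0) (h1 : cj g a = xi z a c y m1)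
    (h2 : cj g c = xi z a c y m2) (h3 : cj g y = xi z a c y m3) :
    Act (xi z a c y) g (lin m0 m1 m2 m3) := fun v => by
  rw [lin, h.add, h.add, h.add, h.smul, h.smul, h.smul, h.smul, ← h0, ← h1, ← h2, ← h3, xi,
    cj_mul, cj_mul, cj_mul, cj_pow, cj_pow, cj_pow, cj_pow]

end Cm

theorem xi_val (z a c y : G) (k l m n : ZMod 3) :
    xi z a c y ![k, l, m, n] = z ^ k.val * a ^ l.val * c ^ m.val * y ^ n.val := rfl

theorem xi0 (z a c y : G) : xi z a c y ![1, 0, 0, 0] = z := by simp [xi_val, ZMod.val_one]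
theorem xi1 (z a c y : G) : xi z a c y ![0, 1, 0, 0] = a := by simp [xi_val, ZMod.val_one]
theorem xi2 (z a c y : G) : xi z a c y ![0, 0, 1, 0] = c := by simp [xi_val, ZMod.val_one]
theorem xi3 (z a c y : G) : xi z a c y ![0, 0, 0, 1] = y := by simp [xi_val, ZMod.val_one]

namespace Ex

variable {z : G} {Q : Subgroup G} {π : G → S} {χ : G → ZMod 2} (L : Ex z Q π χ)
include L

theorem conjZ {a w : G} (ha : a ∈ Q) (a1 : a ∉ zpowers z) (hw : w ∈ zpowers z) :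
    ∃ h ∈ Q, cj h a = w * a := by
  obtain ⟨d, hd, e⟩ := L.exists_one ha a1
  obtain ⟨k, rfl⟩ := (zp L.z3).mp hw
  refine ⟨d⁻¹ ^ k.val, pow_mem (inv_mem hd) _, cj_pow_of ?_ (cj_fix.mpr (L.QC d hd).inv_right.symm) _⟩
  rw [L.cjZ (inv_mem hd) ha, L.invl hd ha, L.swap ha hd, e, neg_neg, ZMod.val_one, pow_one]

section lag

variable {a c v : G} (ha : a ∈ Q) (hc : c ∈ Q) (hv : v ∈ Q) (a1 : a ∉ zpowers z)
  (ac : bt z a c = 0) (av : bt z a v = 0) (cv : bt z c v ≠ 0)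
include ha hc hv a1 ac av cv

theorem cube_mem {g : G} (hz : Commute z g) (ga : Commute a g) (gc : Commute c g) : g ^ 3 ∈ Q := by
  refine L.cQ _ fun u hu => cj_fix.mp ?_
  have h1 := L.norm hz hu
  have h2 := mul_mem h1 (inv_mem hu)
  have k : ∀ w ∈ Q, Commute w g → bt z (cj g u * u⁻¹) w = 0 := fun w hw e => by
    rw [L.swap hw h2, L.bt_div hw h1 hu, mover hz, cj_fix.mpr e.symm.inv_left, sub_self, neg_zero]
  obtain ⟨k, l, m, e⟩ := L.lag ha hc hv a1 ac av cv h2 (k a ha ga) (k c hc gc)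
  rw [cj_pow_of (w := cj g u * u⁻¹) (by group) (by
    rw [e]
    exact cj_fix.mpr (((hz.pow_left _).mul_left (ga.pow_left _)).mul_left (gc.pow_left _)).symm),
    L.exp _ h2, one_mul]

theorem cen {y g : G} (zy : Commute z y) (ay : Commute a y) (cy : Commute c y) (yQ : y ∉ Q)
    (hz : Commute z g) (ga : Commute a g) (gc : Commute c g) :
    ∃ k l m n : ZMod 3, g = z ^ k.val * a ^ l.val * c ^ m.val * y ^ n.val := by
  have k1 : ∀ g, Commute z g → Commute a g → Commute c g → π g ^ 3 = 1 ∧ χ g = 0 :=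
    fun g h1 h2 h3 => by
      have := L.cube_mem ha hc hv a1 ac av cv h1 h2 h3
      refine ⟨by rw [← L.ppow h1, L.pQ this], ?_⟩
      have h := L.xQ this
      rw [L.xpow h1] at h
      have k : ∀ a : ZMod 2, ((3 : ℕ) : ZMod 2) * a = 0 → a = 0 := by decide
      exact k _ h
  have k2 : ∀ n : ℕ, π (g * y⁻¹ ^ n) ^ 3 = 1 ∧ χ (g * y⁻¹ ^ n) = 0 := fun n =>
    k1 _ (hz.mul_right (zy.inv_right.pow_right n)) (ga.mul_right (ay.inv_right.pow_right n))
      (gc.mul_right (cy.inv_right.pow_right n))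
  have k3 : ∀ n : ℕ, π (g * y⁻¹ ^ n) = π g * π y⁻¹ ^ n := fun n => by
    rw [L.mul _ _ hz (zy.inv_right.pow_right n), L.ppow zy.inv_right]
  have k4 : ∀ n : ZMod 3, π g * π y⁻¹ ^ n.val = 1 →
      ∃ k l m n : ZMod 3, g = z ^ k.val * a ^ l.val * c ^ m.val * y ^ n.val := fun n e => by
    obtain ⟨k, l, m, e'⟩ := L.lag ha hc hv a1 ac av cv
      (L.toQ (hz.mul_right (zy.inv_right.pow_right n.val)) ((k3 _).trans e) (k2 _).2)
      (bt_zero.mpr (ga.mul_right (ay.inv_right.pow_right _)).symm)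
      (bt_zero.mpr (gc.mul_right (cy.inv_right.pow_right _)).symm)
    exact ⟨k, l, m, n, by rw [← e', inv_pow, inv_mul_cancel_right]⟩
  have h1 := k1 _ zy.inv_right ay.inv_right cy.inv_right
  rcases syl (π g) (π y⁻¹) (fun e => yQ (inv_mem_iff.mp (L.toQ zy.inv_right e h1.2)))
    (k1 g hz ga gc).1 h1.1 (by have := (k2 1).1; rwa [k3, pow_one] at this)
    (by have := (k2 2).1; rwa [k3, pow_two, ← mul_assoc] at this) with e | e | e
  · exact k4 0 (by simpa using e)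
  · exact k4 1 (by simpa [ZMod.val_one] using e)
  · exact k4 2 (by rw [show (2 : ZMod 3).val = 2 from rfl, pow_two, ← mul_assoc]; exact e)

end lag

theorem z_mem {a : G} {P : Subgroup G} {ρ : G → S} {ψ : G → ZMod 2} (L' : Ex a P ρ ψ)
    (ha : a ∈ Q) (h : a ∉ zpowers z) : z ∈ P := by
  obtain ⟨x, hx, y, hy, c1, c2, e⟩ := L.pair ha h
  have c := (L.QC a ha).symm
  have k : ∀ v ∈ Q, Commute a v → ρ v ^ 3 = 1 := fun v hv cv => L'.p3 cv (L.exp v hv)
  have h1 := syl_comm _ _ (k x hx c1) (k y hy c2)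
    (by rw [← L'.mul _ _ c1 c2]; exact k _ (mul_mem hx hy) (c1.mul_right c2))
    (by rw [← L'.mul _ _ c1 c2, ← L'.mul _ _ (c1.mul_right c2) c2]
        exact k _ (mul_mem (mul_mem hx hy) hy) ((c1.mul_right c2).mul_right c2))
  rw [← L'.mul _ _ c1 c2, ← L'.mul _ _ c2 c1, L.of_one hx hy e, L'.mul _ _ c (c2.mul_right c1)]
    at h1
  exact L'.toQ c (mul_eq_right.mp h1) (L'.x3 c L.z3)

theorem com_eq {x y : G} (hx : x ∈ Q) (hy : y ∈ Q) : x * y * x⁻¹ * y⁻¹ = z ^ (bt z x y).val := by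
  rw [L.spec hx hy]; group

end Ex

namespace Tt

variable {z : G} {Q : Subgroup G} {π : G → S} {χ : G → ZMod 2} {t : G} (T : Tt z Q π χ t)
include T

theorem tz : cj t z = z := cj_fix.mpr T.zt.symm

theorem tt (x : G) : cj t (cj t x) = x := by rw [← mul_cj, T.t2, one_cj]

theorem tinv : t⁻¹ = t := inv_eq_of_mul_eq_one_left T.t2

theorem negZ {u : G} (hu : u ∈ zpowers z) (e : cj t u = u⁻¹) : u = 1 :=
  eq_one_of_inv (T.exp _ (T.ZQ hu)) (by rw [← e, cj_fix.mpr (zp_comm T.zt hu).symm])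

theorem neg_partner {p : G} (hp : p ∈ Q) (p1 : p ∉ zpowers z) (e : cj t p = p⁻¹) :
    ∃ u ∈ Q, cj t u = u⁻¹ ∧ bt z p u ≠ 0 := by
  obtain ⟨d, hd, ed⟩ := T.exists_one hp p1
  refine ⟨_, mul_mem hd (inv_mem (T.norm T.zt hd)), neg_elt T.t2 d, ?_⟩
  rw [T.bt_div hp hd (T.norm T.zt hd), Ex.mover T.zt, T.tinv, e, T.invl hp hd, ed]
  decide

theorem fix_partner {x : G} (hx : x ∈ Q) (x1 : x ∉ zpowers z) (e : cj t x = x) :
    ∃ u ∈ Q, cj t u = u ∧ bt z x u ≠ 0 := by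
  obtain ⟨d, hd, ed⟩ := T.exists_one hx x1
  have h := T.norm T.zt hd
  refine ⟨_, mul_mem (mul_mem hd (inv_mem h)) hd, fix_coset T.t2 (T.exp _ (mul_mem (inv_mem hd) h)),
    ?_⟩
  rw [T.mulr hx (mul_mem hd (inv_mem h)) hd, T.bt_div hx hd h, Ex.mover T.zt, T.tinv, e, ed]
  decide

theorem exists_neg : ∃ p ∈ Q, p ∉ zpowers z ∧ cj t p = p⁻¹ := by
  by_contra hn
  push Not at hn
  refine n1_ne (T.pt ▸ T.pQ (T.cQ t fun v hv => cj_fix.mp ?_))
  have h := mul_mem hv (inv_mem (T.norm T.zt hv))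
  have := T.negZ (by_contra fun h' => hn _ h h' (neg_elt T.t2 v)) (neg_elt T.t2 v)
  exact (mul_inv_eq_one.mp this).symm

theorem exclX {g : G} (ha : cj g z ∈ Q) (a1 : cj g z ∉ zpowers z) : cj t (cj g z) ≠ cj g z := by
  intro e
  have L' := T.toEx.conj g
  generalize cj g z = a at ha a1 e L'
  obtain ⟨p, hp, p1, tp⟩ := T.exists_neg
  obtain ⟨u, hu, tu, pu⟩ := T.neg_partner hp p1 tp
  have k : ∀ v ∈ Q, cj t v = v⁻¹ → v ∈ Q.map (MulAut.conj g).toMonoidHom := fun v hv tv =>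
    L'.memQ (cj_fix.mp e).symm T.t2 (bt_zero.mp (T.fix_neg T.zt hv ha tv e)).symm (T.exp v hv)
      (by rw [tv, inv_mul_cancel]; exact one_mem _)
  exact a1 (zp_swap T.z3 T.z1 L'.z3 pu (T.com_eq hp hu ▸ L'.comm _ (k p hp tp) _ (k u hu tu)))

/-- Inverted elements commuting with an inverted element. -/
theorem neg_line {p u : G} (hp : p ∈ Q) (p1 : p ∉ zpowers z) (tp : cj t p = p⁻¹) (hu : u ∈ Q)
    (tu : cj t u = u⁻¹) (e : bt z u p = 0) : u ∈ zpowers p := by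
  obtain ⟨x, hx, x1, tx⟩ := T.v2
  obtain ⟨x', hx', tx', xx⟩ := T.fix_partner hx x1 tx
  obtain ⟨k, l, m, e'⟩ := T.lag hp hx hx' p1 (T.fix_neg T.zt hp hx tp tx)
    (T.fix_neg T.zt hp hx' tp tx') xx hu e (T.fix_neg T.zt hu hx tu tx)
  have h1 := T.fix_neg T.zt hu hx' tu tx'
  rw [e', T.mull (mul_mem (pow_mem T.zQ _) (pow_mem hp _)) (pow_mem hx _) hx',
    T.mull (pow_mem T.zQ _) (pow_mem hp _) hx', T.btZ (pow_mem (mem_zpowers z) _) hx',
    T.powl hp hx', T.powl hx hx', T.fix_neg T.zt hp hx' tp tx'] at h1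
  have h2 : m = 0 := by simpa [xx] using h1
  rw [h2, ZMod.val_zero, pow_zero, mul_one] at e'
  rw [T.eq_of_inv T.zt (pow_mem hp l.val) tu (by rw [cj_pow, tp, inv_pow])
    (by rw [e', mul_inv_cancel_right]; exact pow_mem (mem_zpowers z) _)]
  exact pow_mem (mem_zpowers p) _

theorem exclP {g : G} (ha : cj g z ∈ Q) : cj t (cj g z) ≠ (cj g z)⁻¹ := by
  intro e
  have L' := T.toEx.conj g
  generalize cj g z = a at ha e L'
  generalize Q.map (MulAut.conj g).toMonoidHom = P at L'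
  have a1 : a ∉ zpowers z := fun h => L'.z1 (T.negZ h e)
  have hz := T.z_mem L' ha a1
  have z1 : z ∉ zpowers a := fun h =>
    a1 (zp_swap T.z3 T.z1 L'.z3 (k := 1) (by decide) (by rwa [ZMod.val_one, pow_one]))
  obtain ⟨m, hm, m', hm', c1, c2, e'⟩ := L'.pair hz z1
  have k : ∀ v ∈ P, Commute z v → v * (cj t v)⁻¹ ∈ zpowers a := fun v hv c => by
    have h1 := mul_mem hv (inv_mem (L'.norm' e hv))
    exact T.neg_line ha a1 e (T.memQ T.zt T.t2 (c.mul_right (Ccj T.zt c).inv_right) (L'.exp _ h1)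
      (by rw [neg_elt T.t2, inv_mul_cancel]; exact one_mem _)) (neg_elt T.t2 v)
      (bt_zero.mpr (L'.QC _ h1).symm)
  have h1 := L'.move' e (L'.norm' e hm) (L'.norm' e hm')
  rw [← L'.bt_congr (L'.norm' e hm) (L'.norm' e hm') (k m hm c1), L'.swap (L'.norm' e hm') hm,
    ← L'.bt_congr (L'.norm' e hm') hm (k m' hm' c2), ← L'.swap hm' hm, e'] at h1
  exact absurd h1 (by decide)

theorem decomp {g : G} (ha : cj g z ∈ Q) (a1 : cj g z ∉ zpowers z) :
    ∃ p ∈ Q, ∃ x ∈ Q, cj g z = p * x ∧ cj t p = p⁻¹ ∧ cj t x = x ∧ p ∉ zpowers z ∧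
      x ∉ zpowers z := by
  obtain ⟨a, ea⟩ : ∃ a, a = cj g z := ⟨_, rfl⟩
  rw [← ea] at ha a1 ⊢
  have h := T.norm T.zt ha
  have hp := inv_mem (mul_mem ha (inv_mem h))
  have tp : cj t (a * (cj t a)⁻¹)⁻¹ = (a * (cj t a)⁻¹)⁻¹⁻¹ := by rw [cj_inv, neg_elt T.t2]
  have tx := fix_coset T.t2 (T.exp _ (mul_mem (inv_mem ha) h))
  have hx := mul_mem (mul_mem ha (inv_mem h)) ha
  have e : a = (a * (cj t a)⁻¹)⁻¹ * (a * (cj t a)⁻¹ * a) := by group
  refine ⟨_, hp, _, hx, e, tp, tx, fun h1 => ?_, fun h1 => ?_⟩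
  · rw [T.negZ h1 tp, one_mul] at e
    rw [← e] at tx
    exact T.exclX (ea ▸ ha) (ea ▸ a1) (ea ▸ tx)
  · obtain ⟨k, hk, ek⟩ := T.conjZ ha a1 (inv_mem h1)
    have : cj (k * g) z = (a * (cj t a)⁻¹)⁻¹ := by
      rw [mul_cj, ← ea, ek, (zp_comm (T.QC a ha) (inv_mem h1)).eq]
      nth_rewrite 1 [e]
      rw [mul_inv_cancel_right]
    exact T.exclP (this ▸ hp) (this ▸ tp)

theorem cjt {g : G} (hg : cj g z = z ∨ cj g z = z⁻¹) : cj g t * t⁻¹ ∈ Q := by
  have c : Commute z (cj g t) := by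
    have := cj_comm (g := g) T.zt
    rcases hg with h | h <;> rw [h] at this
    exacts [this, Commute.inv_left_iff.mp this]
  have x : χ (cj g t) = 0 := hg.elim (fun h => by rw [T.xcj (cj_fix.mp h).symm T.zt, T.xt])
    fun h => T.xcj' h T.zt T.xt
  refine T.toQ (c.mul_right T.zt.inv_right) ?_ ?_
  · rw [T.mul _ _ c T.zt.inv_right, T.pinv T.zt, T.pt, T.pi_inv c (by rw [← cj_mul, T.t2, cj_one])
      (fun h => n1_ne (by rw [← T.pt, cj_inj (h.trans (cj_one g).symm), T.p1])) x, mul_inv_cancel]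
  · rw [T.mulx _ _ c T.zt.inv_right, T.xinv T.zt, x, T.xt, add_zero]

theorem cjt2 {g v : G} (hg : cj g z = z ∨ cj g z = z⁻¹) (hv : v ∈ Q) :
    ∃ k : ZMod 3, cj g (cj t v) = z ^ k.val * cj t (cj g v) :=
  ⟨_, by
    rw [← T.cjZ (T.cjt hg) (T.norm T.zt (hg.elim (fun h => T.norm (cj_fix.mp h).symm hv)
      fun h => T.norm' h hv))]
    simp only [cj]; group⟩

end Tt

/-- The action of `b`. -/
def fb (v : V) : V := ![v 0 + v 2, v 1 + v 3, v 2, v 3]
/-- The action of `d`. -/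
def fd (v : V) : V := ![v 0 - v 1, v 1, v 2 - v 3, v 3]
/-- The action of `t`. -/
def ft (v : V) : V := ![v 0, -v 2, -v 1, v 3]
/-- The action of `q`. -/
def fq (v : V) : V := ![v 0, v 1 + v 0, v 2, v 3 + v 2]

theorem wtest : ∀ k l m : ZMod 3,
    let f := ((fd ∘ lin ![1, 1, 0, 0] ![0, 1, 0, 0] ![l, k, 1, m] ![0, 0, 0, 1]) ∘ fd)^[2]
    f ![1, 0, 0, 0] = -![1, 0, 0, 0] ∧ f ![0, 1, 0, 0] = -![0, 1, 0, 0] ∧
      ∀ n, f ![0, 0, 1, 0] = ![n, 0, 0, 0] + -![0, 0, 1, 0] → m = 1 ∧ k = -l := by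
  decide +kernel

theorem qtest : ∀ l : ZMod 3,
    let f := lin ![1, 1, 0, 0] ![0, 1, 0, 0] ![l, -l, 1, 1] ![0, 0, 0, 1] ∘ fb^[l.val]
    f ![1, 0, 0, 0] = ![1, 0, 0, 0] + ![0, 1, 0, 0] ∧ f ![0, 1, 0, 0] = ![0, 1, 0, 0] ∧
      f ![0, 0, 1, 0] = ![0, 0, 1, 0] + ![-l, 0, 0, 1] ∧ f ![-l, 0, 0, 1] = ![-l, 0, 0, 1] ∧
      fb ![-l, 0, 0, 1] = ![0, 1, 0, 0] + ![-l, 0, 0, 1] ∧ ft ![-l, 0, 0, 1] = ![-l, 0, 0, 1] := by
  decide +kernel

theorem Cm.actb {z a c y b : G} (M : Cm z a c y) (bz : cj b z = z) (ba : cj b a = a)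
    (bc : cj b c = z * c) (by' : cj b y = a * y) : Act (xi z a c y) b fb :=
  (M.act (g := b) (m0 := ![1, 0, 0, 0]) (m1 := ![0, 1, 0, 0]) (m2 := ![1, 0, 1, 0])
    (m3 := ![0, 1, 0, 1]) (by rw [xi0, bz]) (by rw [xi1, ba])
    (by rw [bc]; simp [xi_val, ZMod.val_one])
    (by rw [by']; simp [xi_val, ZMod.val_one])).congr (by decide +kernel)

theorem Cm.actt {z a c y t : G} (M : Cm z a c y) (tz : cj t z = z) (ta : cj t a = c⁻¹)
    (tc : cj t c = a⁻¹) (ty : cj t y = y) : Act (xi z a c y) t ft :=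
  (M.act (g := t) (m0 := ![1, 0, 0, 0]) (m1 := -![0, 0, 1, 0]) (m2 := -![0, 1, 0, 0])
    (m3 := ![0, 0, 0, 1]) (by rw [xi0, tz]) (by rw [M.neg, xi2, ta]) (by rw [M.neg, xi1, tc])
    (by rw [xi3, ty])).congr (by decide +kernel)

/-- Adapted generators. -/
structure Bs (z : G) (Q : Subgroup G) (π : G → S) (χ : G → ZMod 2) (t a c y b q : G) : Prop
    extends Tt z Q π χ t, Cm z a c y where
  ha : a ∈ Q
  hc : c ∈ Q
  hb : b ∈ Q
  a1 : a ∉ zpowers z
  yQ : y ∉ Q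
  q3 : q ^ 3 = 1
  ba : cj b a = a
  bc : cj b c = z * c
  by' : cj b y = a * y
  qz : cj q z = z * a
  qa : cj q a = a
  qc : cj q c = c * y
  qy : cj q y = y
  ta : cj t a = c⁻¹
  ty : cj t y = y

theorem xi_inj {z : G} {Q : Subgroup G} {π : G → S} {χ : G → ZMod 2} (L : Ex z Q π χ)
    {a c y b : G} (h : Cm z a c y) (ha : a ∈ Q) (hc : c ∈ Q) (hb : b ∈ Q) (a1 : a ∉ zpowers z)
    (yQ : y ∉ Q) (ba : cj b a = a) (bc : cj b c = z * c) {u v : V}
    (e : xi z a c y u = xi z a c y v) : u = v := by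
  rw [← sub_eq_zero]
  replace e : xi z a c y (u - v) = 1 := by rw [sub_eq_add_neg, h.add, h.neg, e, mul_inv_cancel]
  generalize u - v = w at e
  have k : ∀ x : G, x ^ 3 = 1 → ∀ H : Subgroup G, x ∉ H → ∀ k : ZMod 3, x ^ k.val ∈ H → k = 0 :=
    fun x x3 H hx k hk => by
      by_contra h0
      have k1 : ∀ k : ZMod 3, k ≠ 0 → k.val * k.val = 1 ∨ k.val * k.val = 3 + 1 := by decide
      have := pow_mem hk k.val
      rw [← pow_mul] at this
      rcases k1 k h0 with e | e <;> rw [e] at this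
      · exact hx (by rwa [pow_one] at this)
      · exact hx (by rwa [pow_succ, x3, one_mul] at this)
  have h3 : w 3 = 0 := k y h.y3 Q yQ _ ((mul_mem_cancel_left (mul_mem (mul_mem (pow_mem L.zQ _)
    (pow_mem ha _)) (pow_mem hc _))).mp (show xi z a c y w ∈ Q from e ▸ Q.one_mem))
  rw [xi, h3, ZMod.val_zero, pow_zero, mul_one] at e
  have h2 : w 2 = 0 := by
    have := bt_zero (z := z).mpr (Commute.one_right b)
    rw [← e, L.mulr hb (mul_mem (pow_mem L.zQ _) (pow_mem ha _)) (pow_mem hc _),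
      L.mulr hb (pow_mem L.zQ _) (pow_mem ha _), L.btZ' (pow_mem (mem_zpowers z) _) hb,
      L.powr hb ha, L.powr hb hc, bt_zero.mpr (cj_fix.mp ba),
      L.bt_one (by rw [cj_eq.mp bc, mul_assoc])] at this
    simpa using this
  rw [h2, ZMod.val_zero, pow_zero, mul_one] at e
  have h1 : w 1 = 0 := k a h.a3 _ a1 _ ((mul_mem_cancel_left (pow_mem (mem_zpowers z) _)).mp
    (e ▸ one_mem _))
  rw [h1, ZMod.val_zero, pow_zero, mul_one] at e
  have h0 : w 0 = 0 := k z h.z3 ⊥ (fun h => L.z1 (mem_bot.mp h)) _ (mem_bot.mpr e)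
  funext i
  fin_cases i
  exacts [h0, h1, h2, h3]

namespace Tt

variable {z : G} {Q : Subgroup G} {π : G → S} {χ : G → ZMod 2} {t : G} (T : Tt z Q π χ t)
include T

theorem exists_yb {a p x : G} {P : Subgroup G} {ρ : G → S} {ψ : G → ZMod 2} (L' : Ex a P ρ ψ)
    (hp : p ∈ Q) (hx : x ∈ Q) (e : a = p * x) (tp : cj t p = p⁻¹) (tx : cj t x = x)
    (p1 : p ∉ zpowers z) (x1 : x ∉ zpowers z) (a1 : a ∉ zpowers z) :
    ∃ y ∈ P, ∃ b ∈ P, b ∈ Q ∧ y ∉ Q ∧ Commute z y ∧ Commute (p * x⁻¹) y ∧ cj t y = y ∧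
      cj b (p * x⁻¹) = z * (p * x⁻¹) ∧ cj b y = a * y := by
  have ha : a ∈ Q := e ▸ mul_mem hp hx
  have hc := mul_mem hp (inv_mem hx)
  have px := bt_zero.mp (T.fix_neg T.zt hp hx tp tx)
  have ta : cj t a = (p * x⁻¹)⁻¹ := by
    rw [e, cj_mul, tp, tx, mul_inv_rev, inv_inv, px.inv_left.eq]
  have ac : Commute a (p * x⁻¹) :=
    e ▸ ((Commute.refl p).mul_right px.inv_right).mul_left (px.symm.mul_right (Commute.refl x).inv_right)
  have acp : a * (p * x⁻¹) = p⁻¹ := by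
    rw [e, mul_assoc, ← mul_assoc x, ← px.eq, mul_inv_cancel_right, cube_inv (T.exp p hp)]
  obtain ⟨v, hv, av, cv⟩ : ∃ v ∈ Q, bt z a v = 0 ∧ bt z (p * x⁻¹) v ≠ 0 := by
    obtain ⟨p', hp', tp', pp⟩ := T.neg_partner hp p1 tp
    obtain ⟨x', hx', tx', xx⟩ := T.fix_partner hx x1 tx
    have hv := mul_mem (pow_mem hp' (bt z x x').val) (pow_mem hx' (-bt z p p').val)
    have k : ∀ w ∈ Q, bt z w (p' ^ (bt z x x').val * x' ^ (-bt z p p').val) =
        bt z x x' * bt z w p' - bt z p p' * bt z w x' := fun w hw => by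
      rw [T.mulr hw (pow_mem hp' _) (pow_mem hx' _), T.powr hw hp', T.powr hw hx']
      simp only [ZMod.natCast_val, ZMod.cast_id', id_eq]
      ring
    refine ⟨_, hv, ?_, ?_⟩
    · rw [e, T.mull hp hx hv, k p hp, k x hx, T.fix_neg T.zt hp hx' tp tx', T.swap hp' hx,
        T.fix_neg T.zt hp' hx tp' tx]
      ring
    · rw [T.mull hp (inv_mem hx) hv, T.invl hx hv, k p hp, k x hx, T.fix_neg T.zt hp hx' tp tx',
        T.swap hp' hx, T.fix_neg T.zt hp' hx tp' tx]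
      revert pp xx
      generalize bt z p p' = m
      generalize bt z x x' = n
      revert m n; decide
  generalize p * x⁻¹ = c at hc ta ac acp cv ⊢
  have hz := T.z_mem L' ha a1
  have z1 : z ∉ zpowers a := fun h =>
    a1 (zp_swap T.z3 T.z1 L'.z3 (k := 1) (by decide) (by rwa [ZMod.val_one, pow_one]))
  obtain ⟨m, hm, m', hm', c1, c2, e'⟩ := L'.pair hz z1
  have nq : ∀ m ∈ P, ∀ m' ∈ P, m ∈ Q → m' ∈ Q → bt a m m' = 0 := fun m h1 m' h2 h3 h4 => by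
    by_contra h
    exact z1 (zp_swap L'.z3 L'.z1 T.z3 h (L'.com_eq h1 h2 ▸ T.comm _ h3 _ h4))
  obtain ⟨y0, hy0, zy0, yQ0⟩ : ∃ y ∈ P, Commute z y ∧ y ∉ Q := by
    by_contra hn
    push Not at hn
    rw [nq m hm m' hm' (hn m hm c1) (hn m' hm' c2)] at e'
    exact absurd e' (by decide)
  obtain ⟨b0, hb0, hb0', e0⟩ : ∃ b ∈ Q, b ∈ P ∧ bt a b y0 ≠ 0 := by
    by_contra hn
    push Not at hn
    have k : ∀ m ∈ P, Commute z m → ∃ n : ℕ, m * y0 ^ n ∈ Q := fun m hm c => by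
      have k1 : ∀ n : ℕ, (π m * π y0 ^ n) ^ 3 = 1 := fun n => by
        rw [← T.ppow zy0, ← T.mul _ _ c (zy0.pow_right n)]
        exact T.p3 (c.mul_right (zy0.pow_right n)) (L'.exp _ (mul_mem hm (pow_mem hy0 n)))
      have k2 : ∀ n : ℕ, π m * π y0 ^ n = 1 → ∃ n : ℕ, m * y0 ^ n ∈ Q := fun n e =>
        ⟨n, T.toQ (c.mul_right (zy0.pow_right n)) (by
          rw [T.mul _ _ c (zy0.pow_right n), T.ppow zy0, e])
          (T.x3 (c.mul_right (zy0.pow_right n)) (L'.exp _ (mul_mem hm (pow_mem hy0 n))))⟩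
      rcases syl (π m) (π y0) (fun e => yQ0 (T.toQ zy0 e (T.x3 zy0 (L'.exp _ hy0))))
        (T.p3 c (L'.exp _ hm)) (T.p3 zy0 (L'.exp _ hy0)) (by simpa using k1 1)
        (by simpa [pow_two, mul_assoc] using k1 2) with e | e | e
      · exact k2 0 (by simpa using e)
      · exact k2 1 (by simpa using e)
      · exact k2 2 (by simpa [pow_two, mul_assoc] using e)
    obtain ⟨n, h1⟩ := k m hm c1
    obtain ⟨n', h2⟩ := k m' hm' c2
    have p1 := mul_mem hm (pow_mem hy0 n)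
    have p2 := mul_mem hm' (pow_mem hy0 n')
    have f1 := hn _ h1 p1
    have f2 := hn _ h2 p2
    have f3 := nq _ p1 _ p2 h1 h2
    rw [L'.mull hm' (pow_mem hy0 _) hy0, L'.powl hy0 hy0, bt_self, mul_zero, add_zero] at f2
    rw [L'.mulr p1 hm' (pow_mem hy0 _), L'.powr p1 hy0, f1, L'.mull hm (pow_mem hy0 _) hm',
      L'.powl hy0 hm', L'.swap hm' hy0, f2, e'] at f3
    simp at f3
  have tc : cj t c = a⁻¹ := by rw [← inv_inv c, ← ta, cj_inv, T.tt]
  obtain ⟨k, ek⟩ : ∃ k : ZMod 3, cj y0 c = z ^ k.val * c := by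
    obtain ⟨k, ek⟩ := T.cjt2 (Or.inl (cj_fix.mpr zy0.symm)) (inv_mem ha)
    simp only [cj_inv, cj_fix.mpr (L'.QC y0 hy0).symm, ta, inv_inv] at ek
    exact ⟨k, ek⟩
  have ab0 := bt_zero (z := z).mpr (L'.QC b0 hb0').symm
  have bc0 : bt z b0 c ≠ 0 := fun h => by
    obtain ⟨l, m, n, e1⟩ := T.lag ha hc hv a1 (bt_zero.mpr ac) av cv hb0 ab0 h
    refine z1 (zp_swap L'.z3 L'.z1 T.z3 e0 ?_)
    rw [← L'.com_eq hb0' hy0, show b0 * y0 * b0⁻¹ * y0⁻¹ = b0 * (cj y0 b0)⁻¹ by simp only [cj]; group]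
    refine T.modZ (mul_mem hb0 (inv_mem (T.norm zy0 hb0))) fun w hw => ?_
    rw [T.bt_div hw hb0 (T.norm zy0 hb0), e1, cj_mul, cj_mul, cj_pow, cj_pow, cj_pow, ek,
      cj_fix.mpr zy0.symm, cj_fix.mpr (L'.QC y0 hy0).symm,
      T.mulr hw (mul_mem (pow_mem T.zQ _) (pow_mem ha _)) (pow_mem hc _),
      T.mulr hw (mul_mem (pow_mem T.zQ _) (pow_mem ha _))
        (pow_mem (mul_mem (pow_mem T.zQ _) hc) _), T.powr hw hc,
      T.powr hw (mul_mem (pow_mem T.zQ _) hc), T.mulr hw (pow_mem T.zQ _) hc,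
      T.btZ' (pow_mem (mem_zpowers z) k.val) hw]
    ring
  obtain ⟨b, hb, hb', bc, e1⟩ : ∃ b ∈ Q, b ∈ P ∧ bt z b c = 1 ∧ bt a b y0 ≠ 0 := by
    have k : ∀ k : ZMod 3, k ≠ 0 → k = 1 ∨ -k = 1 := by decide
    rcases k _ bc0 with h | h
    · exact ⟨b0, hb0, hb0', h, e0⟩
    · exact ⟨b0⁻¹, inv_mem hb0, inv_mem hb0', by rw [T.invl hb0 hc, h],
        by rwa [L'.invl hb0' hy0, neg_ne_zero]⟩
  have bc' : cj b c = z * c := by rw [T.cjZ hb hc, bc, ZMod.val_one, pow_one]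
  have zb := T.QC b hb
  obtain ⟨y1, hy1, zy1, cy1, yQ1, e2⟩ : ∃ y ∈ P, Commute z y ∧ Commute c y ∧ y ∉ Q ∧
      bt a b y ≠ 0 := by
    refine ⟨y0 * b ^ (-k).val, mul_mem hy0 (pow_mem hb' _), zy0.mul_right (zb.pow_right _),
      (cj_fix.mp ?_).symm, fun h => yQ0 ((mul_mem_cancel_right (pow_mem hb _)).mp h), ?_⟩
    · rw [mul_cj, cj_pow_of bc' (cj_fix.mpr zb.symm), cj_mul, cj_pow, cj_fix.mpr zy0.symm, ek,
        ← mul_assoc, ← ez_add T.z3, neg_add_cancel, ZMod.val_zero, pow_zero, one_mul]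
    · rwa [L'.mulr hb' hy0 (pow_mem hb' _), L'.powr hb' hb', bt_self, mul_zero, add_zero]
  have ay1 := L'.QC y1 hy1
  obtain ⟨y2, hy2, zy2, cy2, yQ2, ty2, e3⟩ : ∃ y ∈ P, Commute z y ∧ Commute c y ∧ y ∉ Q ∧
      cj t y = y ∧ bt a b y ≠ 0 := by
    have f1 := Ccj T.zt zy1
    have f2 : y1 * (cj t y1)⁻¹ ∈ Q := T.toQ (zy1.mul_right f1.inv_right)
      (by rw [T.mul _ _ zy1 f1.inv_right, T.pinv f1, T.pcj T.zt zy1, T.pt, n1_comm,
        mul_inv_cancel_right, mul_inv_cancel])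
      (by rw [T.mulx _ _ zy1 f1.inv_right, T.xinv f1, T.xcj T.zt zy1, T.x3 zy1 (L'.exp _ hy1),
        add_zero])
    have f3 : Commute p y1 := by
      have := ay1.mul_left cy1
      rwa [acp, Commute.inv_left_iff] at this
    have f4 : Commute p (cj t y1) := by
      have := cj_comm (g := t) f3
      rwa [tp, Commute.inv_left_iff] at this
    obtain ⟨n, en⟩ := (zp (T.exp p hp)).mp (T.neg_line hp p1 tp f2 (neg_elt T.t2 y1)
      (bt_zero.mpr (f3.mul_right f4.inv_right).symm))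
    refine ⟨y1 * a ^ n.val, mul_mem hy1 (pow_mem L'.zQ _),
      zy1.mul_right ((T.QC a ha).pow_right _), cy1.mul_right (ac.symm.pow_right _),
      fun h => yQ1 ((mul_mem_cancel_right (pow_mem ha _)).mp h), ?_, ?_⟩
    · have f5 : cj t y1 = y1 * (a * c) ^ n.val := by
        rw [acp, inv_pow, ← (f3.pow_left _).inv_left.eq, ← en]; group
      rw [cj_mul, cj_pow, ta, f5, ac.mul_pow, inv_pow, mul_assoc, mul_inv_cancel_right]
    · rwa [L'.mulr hb' hy1 (pow_mem L'.zQ _), L'.btZ' (pow_mem (mem_zpowers a) _) hb', add_zero]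
  have k' : ∀ y ∈ P, bt a b y = 1 → cj b y = a * y := fun y hy h => by
    rw [L'.cjZ hb' hy, h, ZMod.val_one, pow_one]
  have k : ∀ k : ZMod 3, k ≠ 0 → k = 1 ∨ -k = 1 := by decide
  rcases k _ e3 with h | h
  · exact ⟨y2, hy2, b, hb', hb, yQ2, zy2, cy2, ty2, bc', k' _ hy2 h⟩
  · exact ⟨y2⁻¹, inv_mem hy2, b, hb', hb, fun h => yQ2 (inv_mem_iff.mp h), zy2.inv_right,
      cy2.inv_right, by rw [cj_inv, ty2], bc', k' _ (inv_mem hy2) (by rw [L'.invr hb' hy2, h])⟩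

theorem exists_Bs {g : G} (ha : cj g z ∈ Q) (a1 : cj g z ∉ zpowers z) :
    ∃ a c y b q, Bs z Q π χ t a c y b q := by
  obtain ⟨p, hp, x, hx, e, tp, tx, p1, x1⟩ := T.decomp ha a1
  have L' := T.toEx.conj g
  generalize cj g z = a at ha a1 e L'
  generalize Q.map (MulAut.conj g).toMonoidHom = P at L'
  obtain ⟨y, hy, b, hb', hb, yQ, zy, cy, ty, bc, by'⟩ := T.exists_yb L' hp hx e tp tx p1 x1 a1
  have hc := mul_mem hp (inv_mem hx)
  have px := bt_zero.mp (T.fix_neg T.zt hp hx tp tx)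
  have ta : cj t a = (p * x⁻¹)⁻¹ := by
    rw [e, cj_mul, tp, tx, mul_inv_rev, inv_inv, px.inv_left.eq]
  have ac : Commute a (p * x⁻¹) :=
    e ▸ ((Commute.refl p).mul_right px.inv_right).mul_left (px.symm.mul_right (Commute.refl x).inv_right)
  generalize p * x⁻¹ = c at hc ta ac cy bc
  have tc : cj t c = a⁻¹ := by rw [← inv_inv c, ← ta, cj_inv, T.tt]
  have hz := T.z_mem L' ha a1
  have z1 : z ∉ zpowers a := fun h =>
    a1 (zp_swap T.z3 T.z1 L'.z3 (k := 1) (by decide) (by rwa [ZMod.val_one, pow_one]))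
  have za := T.QC a ha
  have aby : bt a b y = 1 := L'.bt_one (by rw [cj_eq.mp by', mul_assoc])
  have abz : bt a b z = 0 := bt_zero.mpr (T.QC b hb).symm
  obtain ⟨q1, hq1, e1, e2⟩ : ∃ q ∈ P, bt a q z = 1 ∧ bt a q y = 0 := by
    obtain ⟨d, hd, ed⟩ := L'.exists_one hz z1
    refine ⟨d⁻¹ * b ^ (bt a d y).val, mul_mem (inv_mem hd) (pow_mem hb' _), ?_, ?_⟩
    · rw [L'.mull (inv_mem hd) (pow_mem hb' _) hz, L'.powl hb' hz, abz, L'.invl hd hz,
        L'.swap hz hd, ed]; simp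
    · rw [L'.mull (inv_mem hd) (pow_mem hb' _) hy, L'.powl hb' hy, aby, L'.invl hd hy]; simp
  have qz : cj q1 z = z * a := by rw [L'.cjZ hq1 hz, e1, ZMod.val_one, pow_one, za.eq]
  have qa : cj q1 a = a := cj_fix.mpr (L'.QC _ hq1).symm
  have qy : cj q1 y = y := cj_fix.mpr (bt_zero.mp e2)
  have M : Cm z a c y := ⟨T.z3, L'.z3, T.exp c hc, L'.exp y hy, za, T.QC c hc, zy, ac,
    L'.QC y hy, cy⟩
  obtain ⟨k, l, m, qc⟩ : ∃ k l m : ZMod 3, cj q1 c = xi z a c y ![l, k, 1, m] := by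
    have f1 : cj q1 c * c⁻¹ ∈ P := by
      rw [show cj q1 c * c⁻¹ = q1 * cj c q1⁻¹ by simp only [cj]; group]
      exact mul_mem hq1 (L'.norm ac (inv_mem hq1))
    have f2 : Commute a (cj q1 c) := qa ▸ cj_comm ac
    have f3 : Commute z (cj q1 c) := by
      have := cj_comm (g := q1) M.zc
      rw [qz] at this
      simpa using this.mul_left f2.inv_left
    have f4 : Commute y (cj q1 c) := qy ▸ cj_comm cy.symm
    obtain ⟨k, l, m, e3⟩ := L'.lag hz hy hb' z1 (bt_zero.mpr zy) (by rw [L'.swap hb' hz, abz, neg_zero])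
      (by rw [L'.swap hb' hy, aby]; decide) f1 (bt_zero.mpr (f3.mul_right M.zc.inv_right).symm)
      (bt_zero.mpr (f4.mul_right cy.symm.inv_right).symm)
    refine ⟨k, l, m, ?_⟩
    rw [xi_val, ZMod.val_one, pow_one, (za.pow_pow _ _).eq, mul_assoc, (cy.pow_right _).eq,
      ← mul_assoc, ← e3, inv_mul_cancel_right]
  have ba : cj b a = a := cj_fix.mpr (L'.QC _ hb').symm
  have inj := fun u v => xi_inj T.toEx M ha hc hb a1 yQ ba bc (u := u) (v := v)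
  have Ab := M.actb (cj_fix.mpr (T.QC b hb).symm) ba bc by'
  have At := M.actt T.tz ta tc ty
  have Aq := M.act (g := q1) (m0 := ![1, 1, 0, 0]) (m1 := ![0, 1, 0, 0]) (m2 := ![l, k, 1, m])
    (m3 := ![0, 0, 0, 1]) (by rw [qz]; simp [xi_val, ZMod.val_one]) (by rw [xi1, qa]) qc
    (by rw [xi3, qy])
  have Ad : Act _ _ fd := ((At.mul Ab).mul At).congr (by decide +kernel)
  obtain ⟨rfl, rfl⟩ : m = 1 ∧ k = -l := by
    have Aw := ((Ad.mul Aq).mul Ad).pow 2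
    generalize (t * b * t * q1 * (t * b * t)) ^ 2 = W at Aw
    obtain ⟨h0, h1, h2⟩ := wtest k l m
    have w0 := Aw ![1, 0, 0, 0]
    have w1 := Aw ![0, 1, 0, 0]
    have w2 := Aw ![0, 0, 1, 0]
    rw [h0, M.neg, xi0] at w0
    rw [h1, M.neg, xi1] at w1
    obtain ⟨n, en⟩ := T.cjt2 (Or.inr w0) (inv_mem ha)
    simp only [cj_inv, w1, ta, inv_inv] at en
    refine h2 n (inj _ _ ?_)
    rw [← w2, M.add, M.neg, xi2, en]
    simp [xi_val]
  obtain ⟨h0, h1, h2, h3, h4, h5⟩ := qtest l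
  have Aq' := Aq.mul (Ab.pow l.val)
  have hy' : xi z a c y ![-l, 0, 0, 1] ∈ P := by
    simpa [xi_val, ZMod.val_one] using mul_mem (pow_mem hz _) hy
  have cm : ∀ u v, Commute (xi z a c y u) (xi z a c y v) := fun u v => by
    rw [Commute, SemiconjBy, ← M.add, ← M.add, add_comm]
  refine ⟨a, c, xi z a c y ![-l, 0, 0, 1], b, q1 * b ^ l.val, T, ⟨M.z3, M.a3, M.c3, L'.exp _ hy',
    M.za, M.zc, by simpa only [xi0] using cm ![1, 0, 0, 0] ![-l, 0, 0, 1], M.ac,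
    by simpa only [xi1] using cm ![0, 1, 0, 0] ![-l, 0, 0, 1],
    by simpa only [xi2] using cm ![0, 0, 1, 0] ![-l, 0, 0, 1]⟩, ha, hc, hb,
    a1, fun h => yQ ?_, L'.exp _ (mul_mem hq1 (pow_mem hb' _)), ba, bc, ?_, ?_, ?_, ?_, ?_, ta, ?_⟩
  · simp only [xi_val, ZMod.val_one, ZMod.val_zero, pow_zero, mul_one, pow_one] at h
    exact (mul_mem_cancel_left (pow_mem T.zQ _)).mp h
  · rw [Ab, h4, M.add, xi1]
  · have := Aq' ![1, 0, 0, 0]
    rwa [h0, M.add, xi0, xi1] at this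
  · have := Aq' ![0, 1, 0, 0]
    rwa [h1, xi1] at this
  · have := Aq' ![0, 0, 1, 0]
    rwa [h2, M.add, xi2] at this
  · rw [Aq', h3]
  · rw [At, h5]

end Tt

end Cfsg.Agent.H3.O8
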