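import Cfsg.Agent.H3.O8Nj

/-!
# Monomial elements and the quaternion group
-/

set_option autoImplicit false
set_option maxRecDepth 100000
set_option synthInstance.maxSize 100000

namespace Cfsg.Agent.H3.O8

open Subgroup Cfsg.Agent.H3.L43

variable {G : Type*} [Group G]

/-- The monomial elements. -/
structure Jm (bo : Bool) (z : G) (Q : Subgroup G) (π : G → S) (χ : G → ZMod 2) (t : G)
    (ξ : V → G) (s b q : G) (μ : SP → G) : Prop extends Jc z Q π χ t ξ s b q where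
  ms : ∀ a, ok bo a → Commute s (μ a)
  ma : ∀ a, ok bo a → Act ξ (μ a) a.act
  bf : bo = false → ∀ g, Commute z g → χ g = 0

theorem ev_gen : ∀ a : SP, a.ev → ∃ x ∈ [1, sg 0, sg 1, sg 0 * sg 1], ∃ y ∈ [1, sg 2, sg 3, sg 2 * sg 3],
    ∃ u ∈ [1, sρ, st * sρ * st * st, sρ * (st * sρ * st * st)], ∃ v ∈ [1, st, st * st],
      a = x * y * u * v := by decide +kernel

namespace Jc

variable {z : G} {Q : Subgroup G} {π : G → S} {χ : G → ZMod 2} {t : G} {ξ : V → G} {s b q : G}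
  (c : Jc z Q π χ t ξ s b q)
include c

theorem triv {v : V} (h : Commute s (ξ v)) : v = 0 := by
  have k : ∀ v : V, -v = v → v = 0 := by decide +kernel
  exact k v (c.inj _ _ (by rw [← c.As, cj_fix.mpr h]))

theorem uniq {g h : G} {f f' : V → V} (h1 : Act ξ g f) (h2 : Act ξ h f') (e : ∀ v, f v = f' v)
    (s1 : Commute s g) (s2 : Commute s h) : g = h := by
  obtain ⟨v, ev⟩ := c.cJ (g := g⁻¹ * h) fun v => (cj_fix.mp (by
    rw [mul_cj, h2, ← e, ← h1, inv_cj_cj])).symm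
  rw [← inv_mul_eq_one, ev, c.triv (v := v) (ev ▸ s1.inv_right.mul_right s2), c.zero]

theorem sz : cj s z = z⁻¹ := by rw [← c.hz, c.As, c.neg]

theorem sd : Commute s (cj t b) := (c.st.mul_right c.sb).mul_right c.st.inv_right

theorem exists_ev (a : SP) (h : a.ev) : ∃ g, Commute s g ∧ Act ξ g a.act := by
  let T : Submonoid SP :=
    { carrier := {a | ∃ g, Commute s g ∧ Act ξ g a.act}
      one_mem' := ⟨1, Commute.one_right s, fun v => one_cj _⟩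
      mul_mem' := fun ⟨g, h1, h2⟩ ⟨g', h1', h2'⟩ =>
        ⟨g * g', h1.mul_right h1', (h2.mul h2').congr fun v => (act_mul _ _ v).symm⟩ }
  have h3 : sg 3 ∈ T := ⟨t, c.st, c.At⟩
  have ht : O8.st ∈ T := ⟨_, (c.sb.mul_right c.sd).inv_right, c.Aτ⟩
  have hr : sρ ∈ T := ⟨_, (c.sd.mul_right c.sq).mul_right c.sd,
    ((c.Ad.mul c.Aq).mul c.Ad).congr (by decide +kernel)⟩
  have h0 : sg 0 ∈ T := by
    rw [show sg 0 = sρ * sg 3 * sρ * sρ * sρ by decide +kernel]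
    exact mul_mem (mul_mem (mul_mem (mul_mem hr h3) hr) hr) hr
  have h1 : sg 1 ∈ T := by
    rw [show sg 1 = O8.st * sg 0 * O8.st * O8.st by decide +kernel]
    exact mul_mem (mul_mem (mul_mem ht h0) ht) ht
  have h2 : sg 2 ∈ T := by
    rw [show sg 2 = O8.st * sg 1 * O8.st * O8.st by decide +kernel]
    exact mul_mem (mul_mem (mul_mem ht h1) ht) ht
  have h4 := mul_mem (mul_mem (mul_mem ht hr) ht) ht
  obtain ⟨x, hx, y, hy, u, hu, v, hv, rfl⟩ := ev_gen a h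
  simp only [List.mem_cons, List.not_mem_nil, or_false] at hx hy hu hv
  refine (mul_mem (mul_mem (mul_mem ?_ ?_) ?_) ?_ : _ ∈ T)
  · rcases hx with rfl | rfl | rfl | rfl
    exacts [one_mem _, h0, h1, mul_mem h0 h1]
  · rcases hy with rfl | rfl | rfl | rfl
    exacts [one_mem _, h2, h3, mul_mem h2 h3]
  · rcases hu with rfl | rfl | rfl | rfl
    exacts [one_mem _, hr, h4, mul_mem hr h4]
  · rcases hv with rfl | rfl | rfl
    exacts [one_mem _, ht, mul_mem ht ht]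

theorem toJm : ∃ bo μ, Jm bo z Q π χ t ξ s b q μ := by
  classical
  have : ∃ bo : Bool, (bo = false → ∀ g, Commute z g → χ g = 0) ∧
      ∀ a, ok bo a → ∃ g, Commute s g ∧ Act ξ g a.act := by
    by_cases h : ∀ g, Commute z g → χ g = 0
    · exact ⟨false, fun _ => h, fun a ha => c.exists_ev a (ha.resolve_left (by decide))⟩
    · push Not at h
      obtain ⟨g, hg, xg⟩ := h
      obtain ⟨w, a0, n0, A0⟩ := c.exists_w hg xg
      obtain ⟨h1, v, e⟩ := c.lift c.s2 c.As A0 (f' := a0⁻¹.act)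
        (fun v => by rw [← act_mul, mul_inv_cancel, act_one]) (fun v => by
          have k : ∀ (a : SP) (v : V), -a.act (-v) = a.act v := fun a v => by
            funext i; simp only [SP.act, Pi.neg_apply]; cases a.e i <;> simp
          rw [k, ← act_mul, inv_mul_cancel, act_one])
      have A1 : Act ξ (w * (cj s w)⁻¹ * w) a0.act := e ▸ A0.mul (c.act_xi v)
      refine ⟨true, fun h => absurd h (by decide), fun a _ => ?_⟩
      by_cases ha : a.ev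
      · exact c.exists_ev a ha
      · obtain ⟨g, s1, A⟩ := c.exists_ev (a0⁻¹ * a) (by
          unfold SP.ev at ha n0 ⊢
          rw [SP.mul_p, SP.inv_p, map_mul, map_inv,
            (Int.units_eq_one_or _).resolve_left ha, (Int.units_eq_one_or _).resolve_left n0]
          rfl)
        exact ⟨_, h1.mul_right s1, (A1.mul A).congr fun v => by
          rw [Function.comp, ← act_mul, mul_inv_cancel_left]⟩
  obtain ⟨bo, h1, h2⟩ := this
  choose! μ m1 m2 using h2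
  exact ⟨bo, μ, c, m1, m2, h1⟩

end Jc

/-- The two-elements of the centralizer of `z` and `t` in the kernel of `χ`. -/
structure Ee (z : G) (χ : G → ZMod 2) (t e : G) : Prop where
  z : Commute z e
  t : Commute t e
  x : χ e = 0
  e4 : e ^ 4 = 1

namespace Tt

variable {z : G} {Q : Subgroup G} {π : G → S} {χ : G → ZMod 2} {t : G} (T : Tt z Q π χ t)
include T

theorem ee_t : Ee z χ t t :=
  ⟨T.zt, Commute.refl t, T.xt, by rw [show 4 = 2 * 2 from rfl, pow_mul, pow_two t, T.t2, one_pow]⟩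

theorem ee_one : Ee z χ t 1 := ⟨Commute.one_right _, Commute.one_right _, T.x1, one_pow _⟩

theorem ee_inv {e : G} (h : Ee z χ t e) : Ee z χ t e⁻¹ :=
  ⟨h.z.inv_right, h.t.inv_right, by rw [T.xinv h.z, h.x], by rw [inv_pow, h.e4, inv_one]⟩

theorem ee_uniq {e f : G} (he : Ee z χ t e) (hf : Ee z χ t f) (h : π e = π f) : e = f := by
  have h1 := T.toQ (he.z.mul_right hf.z.inv_right)
    (by rw [T.mul _ _ he.z hf.z.inv_right, T.pinv hf.z, h, mul_inv_cancel])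
    (by rw [T.mulx _ _ he.z hf.z.inv_right, T.xinv hf.z, he.x, hf.x, add_zero])
  have h2 := T.q8 f hf.z hf.x hf.t hf.e4 _ h1 (cj_fix.mpr (he.t.mul_right hf.t.inv_right))
  have h3 := he.e4
  rw [← inv_mul_cancel_right e f, mul_assoc, ← mul_assoc, h2.symm.mul_pow, hf.e4, mul_one,
    pow_succ, T.exp _ h1, one_mul] at h3
  exact mul_inv_eq_one.mp h3

theorem ee_sq {e : G} (h : Ee z χ t e) (e2 : π e * π e = n1) : e * e = t :=
  T.ee_uniq ⟨h.z.mul_right h.z, h.t.mul_right h.t, by rw [T.mulx _ _ h.z h.z, h.x, add_zero],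
    by rw [← pow_two, ← pow_mul, mul_comm, pow_mul, h.e4, one_pow]⟩ T.ee_t
    (by rw [T.mul _ _ h.z h.z, e2, T.pt])

theorem ee_mul {e f : G} (he : Ee z χ t e) (hf : Ee z χ t f) : Ee z χ t (e * f) := by
  have hz := he.z.mul_right hf.z
  have hx : χ (e * f) = 0 := by rw [T.mulx _ _ he.z hf.z, he.x, hf.x, add_zero]
  refine ⟨hz, he.t.mul_right hf.t, hx, ?_⟩
  have k : ∀ X Y : S, X ^ 4 = 1 → Y ^ 4 = 1 → X = 1 ∨ X = n1 ∨ Y = 1 ∨ Y = n1 ∨ Y = X⁻¹ ∨ Y = X ∨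
      (X * X = n1 ∧ Y * Y = n1 ∧ X * Y * (X * Y) * n1 = 1) := by decide +kernel
  have k4 : ∀ e, Ee z χ t e → π e ^ 4 = 1 := fun e h => by rw [← T.ppow h.z, h.e4, T.p1]
  rcases k _ _ (k4 e he) (k4 f hf) with h | h | h | h | h | h | ⟨h1, h2, h3⟩
  · rw [T.ee_uniq he T.ee_one (h.trans T.p1.symm), one_mul, hf.e4]
  · rw [T.ee_uniq he T.ee_t (h.trans T.pt.symm), hf.t.mul_pow, hf.e4, T.ee_t.e4, mul_one]
  · rw [T.ee_uniq hf T.ee_one (h.trans T.p1.symm), mul_one, he.e4]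
  · rw [T.ee_uniq hf T.ee_t (h.trans T.pt.symm), he.t.symm.mul_pow, he.e4, T.ee_t.e4, mul_one]
  · rw [T.ee_uniq hf (T.ee_inv he) (h.trans (T.pinv he.z).symm), mul_inv_cancel, one_pow]
  · rw [T.ee_uniq hf he h, ← pow_two, ← pow_mul, mul_comm, pow_mul, he.e4, one_pow]
  · have e2 := T.ee_sq he h1
    have hr := T.toQ ((hz.mul_right hz).mul_right T.zt)
      (by rw [T.mul _ _ (hz.mul_right hz) T.zt, T.mul _ _ hz hz, T.mul _ _ he.z hf.z, T.pt, h3])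
      (by rw [T.mulx _ _ (hz.mul_right hz) T.zt, T.mulx _ _ hz hz, hx, T.xt]; rfl)
    have ht := ((he.t.mul_right hf.t).mul_right (he.t.mul_right hf.t)).mul_right (Commute.refl t)
    have c1 := T.q8 f hf.z hf.x hf.t hf.e4 _ hr (cj_fix.mpr ht)
    have e3 : cj e f = e * f * (e * f) * t * f⁻¹ := by
      rw [mul_assoc _ t, hf.t.inv_right.eq, ← T.tinv, ← e2, cj]; group
    have e4 : cj e f ^ 4 = 1 := by rw [← cj_pow, hf.e4, cj_one]
    rw [e3, c1.symm.inv_right.mul_pow, inv_pow, hf.e4, inv_one, mul_one, pow_succ, T.exp _ hr,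
      one_mul, mul_eq_one_iff_eq_inv, T.tinv] at e4
    rw [show 4 = 2 * 2 from rfl, pow_mul, pow_two (e * f), e4, pow_two, T.t2]

theorem ee_pow {e : G} (he : Ee z χ t e) (n : ℕ) : Ee z χ t (e ^ n) := by
  induction n with
  | zero => rw [pow_zero]; exact T.ee_one
  | succ n ih => rw [pow_succ]; exact T.ee_mul ih he

theorem ee_cj {g e : G} (hg : cj g z = z ∨ cj g z = z⁻¹) (gt : Commute t g) (he : Ee z χ t e) :
    Ee z χ t (cj g e) := by
  refine ⟨?_, (gt.mul_right he.t).mul_right gt.inv_right, ?_, by rw [← cj_pow, he.e4, cj_one]⟩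
  · have := cj_comm (g := g) he.z
    rcases hg with h | h <;> rw [h] at this
    exacts [this, Commute.inv_left_iff.mp this]
  · exact hg.elim (fun h => by rw [T.xcj (cj_fix.mp h).symm he.z, he.x]) fun h =>
      T.xcj' h he.z he.x

theorem ee_exists {X : S} (h : X ^ 4 = 1) : ∃ e, Ee z χ t e ∧ π e = X := by
  obtain ⟨k, hk, pk, xk⟩ := T.surj X
  have h2 := Ccj T.zt hk
  have p2 : π (cj t k) = X := by rw [T.pcj T.zt hk, T.pt, n1_comm, mul_inv_cancel_right, pk]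
  have x2 : χ (cj t k) = 0 := by rw [T.xcj T.zt hk, xk]
  have f := fix_coset T.t2 (T.exp _ (T.toQ (hk.inv_right.mul_right h2)
    (by rw [T.mul _ _ hk.inv_right h2, T.pinv hk, pk, p2, inv_mul_cancel])
    (by rw [T.mulx _ _ hk.inv_right h2, T.xinv hk, xk, x2]; rfl)))
  have h3 := (hk.mul_right h2.inv_right).mul_right hk
  have p3 : π (k * (cj t k)⁻¹ * k) = X := by
    rw [T.mul _ _ (hk.mul_right h2.inv_right) hk, T.mul _ _ hk h2.inv_right, T.pinv h2, pk, p2,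
      mul_inv_cancel, one_mul]
  have x3 : χ (k * (cj t k)⁻¹ * k) = 0 := by
    rw [T.mulx _ _ (hk.mul_right h2.inv_right) hk, T.mulx _ _ hk h2.inv_right, T.xinv h2, xk, x2]
    rfl
  generalize k * (cj t k)⁻¹ * k = g at f h3 p3 x3
  refine ⟨g ^ 9, ⟨h3.pow_right 9, (cj_fix.mp f).pow_right 9, by rw [T.xpow h3, x3, mul_zero], ?_⟩,
    ?_⟩
  · rw [← pow_mul, show 9 * 4 = 4 * 3 * 3 from rfl, pow_mul, pow_mul, T.exp _ (T.toQ (h3.pow_right 4)
      (by rw [T.ppow h3, p3, h]) (by rw [T.xpow h3, x3, mul_zero])), one_pow]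
  · rw [T.ppow h3, p3, show 9 = 4 * 2 + 1 from rfl, pow_succ, pow_mul, h, one_pow, one_mul]

/-- The choice of a quaternion unit adapted to `x` and `r`. -/
theorem exists_i {x r : G} (zx : Commute z x) (tx : Commute t x) (x3 : x ^ 3 = 1) (xQ : x ∉ Q)
    (rz : cj r z = z⁻¹) (tr : Commute t r) (rx : cj r x = x⁻¹) :
    ∃ i, Ee z χ t i ∧ π i * π i = n1 ∧ cj x (cj x i) = i * cj x i ∧ cj r i = i⁻¹ := by
  have x1 : π x ≠ 1 := fun e => xQ (T.toQ zx e (T.x3 zx x3))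
  have k1 : ∀ Y : S, Y ≠ 1 → Y ^ 3 = 1 → ∃ I : S, I ^ 4 = 1 ∧ I * I = n1 ∧
      Y * (Y * I * Y⁻¹) * Y⁻¹ = I * (Y * I * Y⁻¹) := by decide +kernel
  have k2 : ∀ Y I : S, Y ^ 3 = 1 → I * I = n1 → Y * (Y * I * Y⁻¹) * Y⁻¹ = I * (Y * I * Y⁻¹) →
      (Y * I * Y⁻¹) * (Y * I * Y⁻¹) = n1 ∧ Y * (Y * (Y * I * Y⁻¹) * Y⁻¹) * Y⁻¹ =
        (Y * I * Y⁻¹) * (Y * (Y * I * Y⁻¹) * Y⁻¹) := by decide +kernel
  have k3 : ∀ Y : S, Y ≠ 1 → Y ^ 3 = 1 → ∀ I : S, I * I = n1 →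
      Y * (Y * I * Y⁻¹) * Y⁻¹ = I * (Y * I * Y⁻¹) → ∀ I' : S, I' * I' = n1 →
      Y⁻¹ * (Y⁻¹ * I' * Y⁻¹⁻¹) * Y⁻¹⁻¹ = I' * (Y⁻¹ * I' * Y⁻¹⁻¹) → I' = I⁻¹ ∨
      Y⁻¹ * I' * Y⁻¹⁻¹ = (Y * I * Y⁻¹)⁻¹ ∨
      Y⁻¹ * (Y⁻¹ * I' * Y⁻¹⁻¹) * Y⁻¹⁻¹ = (Y * (Y * I * Y⁻¹) * Y⁻¹)⁻¹ := by decide +kernel
  have ex : ∀ e, Ee z χ t e → Ee z χ t (cj x e) := fun e h =>
    T.ee_cj (Or.inl (cj_fix.mpr zx.symm)) tx h
  have er : ∀ e, Ee z χ t e → Ee z χ t (cj r e) := fun e h => T.ee_cj (Or.inr rz) tr h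
  have rel : ∀ i, Ee z χ t i → π x * (π x * π i * (π x)⁻¹) * (π x)⁻¹ = π i * (π x * π i * (π x)⁻¹) →
      cj x (cj x i) = i * cj x i := fun i h e => T.ee_uniq (ex _ (ex _ h)) (T.ee_mul h (ex _ h))
    (by rw [T.mul _ _ h.z (ex _ h).z, T.pcj zx (ex _ h).z, T.pcj zx h.z, e])
  have fin : ∀ i, Ee z χ t i → π (cj r i) = (π i)⁻¹ → cj r i = i⁻¹ := fun i h e =>
    T.ee_uniq (er _ h) (T.ee_inv h) (by rw [e, T.pinv h.z])
  have x3' := T.p3 zx x3
  obtain ⟨I, I4, I2, hI⟩ := k1 _ x1 x3'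
  obtain ⟨i, hi, rfl⟩ := T.ee_exists I4
  have r1 : ∀ e, Ee z χ t e → π (cj r (cj x e)) = (π x)⁻¹ * π (cj r e) * (π x)⁻¹⁻¹ := fun e h => by
    rw [cj_cj, rx, T.pcj zx.inv_right (er _ h).z, T.pinv zx]
  obtain ⟨J2, hJ⟩ := k2 _ _ x3' I2 hI
  obtain ⟨K2, hK⟩ := k2 _ _ x3' J2 hJ
  rcases k3 _ x1 x3' _ I2 hI (π (cj r i)) (by
      rw [← T.mul _ _ (er _ hi).z (er _ hi).z, ← cj_mul, T.ee_sq hi I2, cj_fix.mpr tr.symm, T.pt])
    (by rw [← r1 _ hi, ← r1 _ (ex _ hi), rel i hi hI, cj_mul,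
      T.mul _ _ (er _ hi).z (er _ (ex _ hi)).z]) with h | h | h
  · exact ⟨i, hi, I2, rel i hi hI, fin i hi h⟩
  · rw [← T.pcj zx hi.z] at J2 hJ h
    exact ⟨_, ex _ hi, J2, rel _ (ex _ hi) hJ, fin _ (ex _ hi) (by rw [r1 _ hi, h])⟩
  · rw [← T.pcj zx hi.z, ← T.pcj zx (ex _ hi).z] at K2 hK h
    exact ⟨_, ex _ (ex _ hi), K2, rel _ (ex _ (ex _ hi)) hK, fin _ (ex _ (ex _ hi))
      (by rw [r1 _ (ex _ hi), r1 _ hi, h])⟩

end Tt

namespace Jm

variable {bo : Bool} {z : G} {Q : Subgroup G} {π : G → S} {χ : G → ZMod 2} {t : G} {ξ : V → G}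
  {s b q : G} {μ : SP → G} (c : Jm bo z Q π χ t ξ s b q μ)
include c

theorem mmul {a a' : SP} (h : ok bo a) (h' : ok bo a') : μ (a * a') = μ a * μ a' :=
  c.uniq (c.ma _ (ok_mul h h')) ((c.ma _ h).mul (c.ma _ h')) (act_mul a a')
    (c.ms _ (ok_mul h h')) ((c.ms _ h).mul_right (c.ms _ h'))

theorem mone : μ 1 = 1 := by
  have := c.mmul ok_one ok_one
  rwa [mul_one, left_eq_mul] at this

theorem minv {a : SP} (h : ok bo a) : μ a⁻¹ = (μ a)⁻¹ :=
  eq_inv_of_mul_eq_one_left (by rw [← c.mmul (ok_inv h) h, inv_mul_cancel, c.mone])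

theorem mt : μ (sg 3) = t :=
  c.uniq (c.ma _ (ok_p rfl)) c.At (fun _ => rfl) (c.ms _ (ok_p rfl)) c.st

theorem mτ : μ O8.st = (b * cj t b)⁻¹ :=
  c.uniq (c.ma _ (ok_ev (by decide +kernel))) c.Aτ (fun _ => rfl)
    (c.ms _ (ok_ev (by decide +kernel))) (c.sb.mul_right c.sd).inv_right

theorem τQ' : μ O8.st ∈ Q := c.mτ ▸ c.τQ

theorem mcomm {a a' : SP} (h : ok bo a) (h' : ok bo a') (e : a * a' = a' * a) :
    Commute (μ a) (μ a') := by
  rw [Commute, SemiconjBy, ← c.mmul h h', e, c.mmul h' h]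

theorem mfix {a : SP} (h : ok bo a) {v : V} (e : a.act v = v) : Commute (ξ v) (μ a) :=
  (cj_fix.mp (by rw [c.ma a h, e])).symm

/-- Elements in normal form. -/
def nf : Subgroup G where
  carrier := {g | ∃ v a, ok bo a ∧ g = ξ v * μ a}
  one_mem' := ⟨0, 1, ok_one, by rw [c.zero, c.mone, mul_one]⟩
  mul_mem' := by
    rintro _ _ ⟨u, a, h, rfl⟩ ⟨v, a', h', rfl⟩
    refine ⟨u + a.act v, a * a', ok_mul h h', ?_⟩
    rw [c.add, c.mmul h h', ← c.ma a h, cj]; group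
  inv_mem' := by
    rintro _ ⟨u, a, h, rfl⟩
    refine ⟨a⁻¹.act (-u), a⁻¹, ok_inv h, ?_⟩
    rw [← c.ma _ (ok_inv h), c.neg, c.minv h, cj]; group

theorem xi_nf (v : V) : ξ v ∈ c.nf := ⟨v, 1, ok_one, by rw [c.mone, mul_one]⟩
theorem mu_nf {a : SP} (h : ok bo a) : μ a ∈ c.nf := ⟨0, a, h, by rw [c.zero, one_mul]⟩

theorem zw (h : bo = true) : Commute z (μ sw) :=
  c.hz ▸ c.mfix (Or.inl h) (by decide +kernel)

theorem w2 (h : bo = true) : μ sw * μ sw = 1 := by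
  rw [← c.mmul (Or.inl h) (Or.inl h), show sw * sw = 1 by decide +kernel, c.mone]

theorem xw (h : bo = true) : χ (μ sw) = 1 := by
  have k : ∀ a : ZMod 2, a ≠ 0 → a = 1 := by decide
  refine k _ fun h0 => ?_
  have k1 : ∀ a, ok bo a → μ a = 1 → a.act vv = vv := fun a ha e =>
    c.inj _ _ (by rw [← c.ma a ha, e, one_cj])
  have h1 := c.pi_inv (c.zw h) (c.w2 h) (fun e => absurd (k1 _ (Or.inl h) e) (by decide +kernel)) h0
  have h2 := c.inv_Q (c.toQ ((c.zw h).mul_right c.zt)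
    (by rw [c.mul _ _ (c.zw h) c.zt, h1, c.pt, n1_sq])
    (by rw [c.mulx _ _ (c.zw h) c.zt, h0, c.xt, add_zero])) (by
      rw [← c.mt, ← c.mmul (Or.inl h) (Or.inl h), ← c.mmul (Or.inl h) (Or.inl h),
        show sw * sg 3 * (sw * sg 3) = 1 by decide +kernel, c.mone])
  rw [← c.mt, ← c.mmul (Or.inl h) (Or.inl h)] at h2
  exact absurd (k1 _ (Or.inl h) h2) (by decide +kernel)

theorem split {g : G} (hg : Commute z g) : χ g = 0 ∨ (bo = true ∧ χ (g * μ sw) = 0) := by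
  by_cases h : χ g = 0
  · exact Or.inl h
  · have hb : bo = true := by
      cases bo
      · exact absurd (c.bf rfl g hg) h
      · rfl
    have k : ∀ a : ZMod 2, a ≠ 0 → a + 1 = 0 := by decide
    exact Or.inr ⟨hb, by rw [c.mulx _ _ hg (c.zw hb), c.xw hb, k _ h]⟩

theorem btτ : bt z (μ O8.st) (ξ vv) = -1 ∧ bt z (μ O8.st) (ξ (ee 3)) = 0 :=
  ⟨c.bt_act (c.ma _ (ok_ev (by decide +kernel))) (by decide +kernel),
    c.bt_act (c.ma _ (ok_ev (by decide +kernel))) (by decide +kernel)⟩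

theorem Qp {g : G} (hg : g ∈ Q) (h : bt z g (ξ (ee 3)) = 0) :
    ∃ v, ∃ k : ZMod 3, sm v = 0 ∧ g = ξ v * (μ O8.st)⁻¹ ^ k.val := by
  obtain ⟨v, sv, e⟩ := c.lagJ (mul_mem hg (pow_mem c.τQ' (bt z g (ξ vv)).val))
    (by rw [c.mull hg (pow_mem c.τQ' _) c.pQ', c.powl c.τQ' c.pQ', h, c.btτ.2]; simp)
    (by rw [c.mull hg (pow_mem c.τQ' _) c.XQ, c.powl c.τQ' c.XQ, c.btτ.1]; simp)
  exact ⟨v, _, sv, by rw [← e, inv_pow, mul_inv_cancel_right]⟩

theorem Qp_nf {g : G} (hg : g ∈ Q) (h : bt z g (ξ (ee 3)) = 0) : g ∈ c.nf := by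
  obtain ⟨v, k, -, rfl⟩ := c.Qp hg h
  exact mul_mem (c.xi_nf v) (pow_mem (inv_mem (c.mu_nf (ok_ev (by decide +kernel)))) _)

theorem syl_x0 {g : G} (hg : Commute z g) (xg : χ g = 0)
    (h : ∀ n : ℕ, π (g * ξ (ee 0) ^ n) ^ 3 = 1) : ∃ n : ℕ, g * ξ (ee 0) ^ n ∈ Q := by
  have zx := c.zx (ee 0)
  have k3 : ∀ n : ℕ, π (g * ξ (ee 0) ^ n) = π g * π (ξ (ee 0)) ^ n := fun n => by
    rw [c.mul _ _ hg (zx.pow_right n), c.ppow zx]
  have k2 : ∀ n : ℕ, π g * π (ξ (ee 0)) ^ n = 1 → ∃ n : ℕ, g * ξ (ee 0) ^ n ∈ Q := fun n e =>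
    ⟨n, c.toQ (hg.mul_right (zx.pow_right n)) ((k3 n).trans e) (by
      rw [c.mulx _ _ hg (zx.pow_right n), c.xpow zx, c.x3 zx (c.cube _), xg]; simp)⟩
  rcases syl (π g) (π (ξ (ee 0))) (fun e => c.x0Q (c.toQ zx e (c.x3 zx (c.cube _))))
    (by simpa using h 0) (c.p3 zx (c.cube _)) (by have := h 1; rwa [k3, pow_one] at this)
    (by have := h 2; rwa [k3, pow_two, ← mul_assoc] at this) with e | e | e
  · exact k2 0 (by simpa using e)
  · exact k2 1 (by simpa using e)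
  · exact k2 2 (by simpa [pow_two, mul_assoc] using e)

theorem stab {g : G} (hg : Commute z g) (xg : χ g = 0) (h : Commute (ξ (ee 3)) g) :
    π g ^ 3 = 1 := by
  have k : ∀ n : ℕ, π g ^ n ≠ n1 := fun n e => by
    have h1 := c.toQ ((hg.pow_right n).mul_right c.zt)
      (by rw [c.mul _ _ (hg.pow_right n) c.zt, c.ppow hg, e, c.pt, n1_sq])
      (by rw [c.mulx _ _ (hg.pow_right n) c.zt, c.xpow hg, xg, c.xt]; simp)
    have h2 := c.cjZ h1 c.pQ'
    rw [mul_cj, c.tp, cj_inv, cj_fix.mpr (h.pow_right n).symm, ← mul_inv_eq_iff_eq_mul,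
      ← cube_inv (by rw [inv_pow, c.cube, inv_one]), inv_inv] at h2
    exact c.pZ (h2 ▸ pow_mem (mem_zpowers z) _)
  rcases ord_cases (π g) with e | e | e
  exacts [e, absurd e (k 3), absurd e (k 2)]

theorem cz4 {g : G} (hg : Commute z g) (h : Commute (ξ (ee 3)) g) : g ∈ c.nf := by
  have k : ∀ g, Commute z g → Commute (ξ (ee 3)) g → χ g = 0 → g ∈ c.nf := fun g hg h xg => by
    obtain ⟨n, e⟩ := c.syl_x0 hg xg fun n => c.stab (hg.mul_right ((c.zx _).pow_right n)) (by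
      rw [c.mulx _ _ hg ((c.zx _).pow_right n), c.xpow (c.zx _), c.x3 (c.zx _) (c.cube _), xg]
      simp) (h.mul_right ((c.xc _ _).pow_right n))
    exact (mul_mem_cancel_right (pow_mem (c.xi_nf _) n)).mp
      (c.Qp_nf e (bt_zero.mpr (h.mul_right ((c.xc _ _).pow_right n)).symm))
  rcases c.split hg with e | ⟨hb, e⟩
  · exact k g hg h e
  · exact (mul_mem_cancel_right (c.mu_nf (Or.inl hb))).mp (k _ (hg.mul_right (c.zw hb))
      (h.mul_right (c.mfix (Or.inl hb) (by decide +kernel))) e)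

theorem czt {i : G} (hi : Ee z χ t i) (i2 : π i * π i = n1) {g : G} (hg : Commute z g)
    (h : Commute t g) : ∃ e ∈ E1 ξ i, e⁻¹ * g ∈ c.nf := by
  have zx := c.zx (ee 0)
  have tx := cj_fix.mp c.tx0
  have hj := c.ee_cj (Or.inl (cj_fix.mpr zx.symm)) tx hi
  have k : ∀ g, Commute z g → Commute t g → χ g = 0 → ∃ e ∈ E1 ξ i, e⁻¹ * g ∈ c.nf :=
    fun g hg h xg => by
      have k1 : ∀ Y : S, Y ≠ 1 → Y ^ 3 = 1 → ∀ I : S, I * I = n1 → ∀ X : S, ∃ l < 4, ∃ m < 2,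
          ∃ n < 3, (I ^ l * (Y * I * Y⁻¹) ^ m)⁻¹ * X * Y ^ n = 1 := by decide +kernel
      obtain ⟨l, -, m, -, n, -, e⟩ := k1 _ (fun e => c.x0Q (c.toQ zx e (c.x3 zx (c.cube _))))
        (c.p3 zx (c.cube _)) _ i2 (π g)
      have he := c.ee_mul (c.ee_pow hi l) (c.ee_pow hj m)
      have h1 := c.toQ ((he.z.inv_right.mul_right hg).mul_right (zx.pow_right n))
        (by rw [c.mul _ _ (he.z.inv_right.mul_right hg) (zx.pow_right n),
          c.mul _ _ he.z.inv_right hg, c.pinv he.z, c.mul _ _ (hi.z.pow_right l) (hj.z.pow_right m),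
          c.ppow hi.z, c.ppow hj.z, c.pcj zx hi.z, c.ppow zx, e])
        (by rw [c.mulx _ _ (he.z.inv_right.mul_right hg) (zx.pow_right n),
          c.mulx _ _ he.z.inv_right hg, c.xinv he.z, he.x, xg, c.xpow zx, c.x3 zx (c.cube _)]; simp)
      refine ⟨_, mul_mem (pow_mem (subset_closure (by simp)) l)
        (pow_mem (subset_closure (by simp)) m), (mul_mem_cancel_right (pow_mem (c.xi_nf _) n)).mp
        (c.Qp_nf h1 ?_)⟩
      rw [c.swap c.pQ' h1, c.fix_neg c.zt c.pQ' h1 c.tp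
        (cj_fix.mpr ((he.t.inv_right.mul_right h).mul_right (tx.pow_right n))), neg_zero]
  rcases c.split hg with e | ⟨hb, e⟩
  · exact k g hg h e
  · obtain ⟨e, he, h'⟩ := k _ (hg.mul_right (c.zw hb)) (h.mul_right (c.mt ▸
      c.mcomm (ok_p rfl) (Or.inl hb) (by decide +kernel))) e
    rw [← mul_assoc] at h'
    exact ⟨e, he, (mul_mem_cancel_right (c.mu_nf (Or.inl hb))).mp h'⟩

theorem iS {i : G} (hi : Ee z χ t i) {a : SP} (h : ok bo a) (he : ∀ k, a.e k = false)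
    (h3 : a.p 3 = 3) : Commute i (μ a) := by
  have k : ∀ a : SP, (∀ k, a.e k = false) → a.p 3 = 3 → a * a = 1 ∧ a.act vz = vz ∧
      sg 3 * a = a * sg 3 ∨ a = O8.st ∨ a = O8.st⁻¹ := by decide +kernel
  have h1 : Commute i (μ O8.st) := c.q8 i hi.z hi.x hi.t hi.e4 _ c.τQ' (cj_fix.mpr (c.mt ▸
    c.mcomm (ok_p rfl) (ok_ev (by decide +kernel)) (by decide +kernel)))
  rcases k a he h3 with ⟨e1, e2, e3⟩ | rfl | rfl
  · have za : Commute z (μ a) := c.hz ▸ c.mfix h e2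
    refine (cj_fix.mp (c.ee_uniq (c.ee_cj (Or.inl (cj_fix.mpr za.symm))
      (c.mt ▸ c.mcomm (ok_p rfl) h e3) hi) hi ?_)).symm
    rw [c.pcj za hi.z, c.pi_cen za (by rw [← c.mmul h h, e1, c.mone]), mul_inv_cancel_right]
  · exact h1
  · rw [c.minv (ok_ev (by decide +kernel))]; exact h1.inv_right

end Jm

end Cfsg.Agent.H3.O8
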