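import Cfsg.Agent.H3.O8Gen

/-!
# The normalizer of the elementary abelian subgroup of order `3 ^ 4`
-/

set_option autoImplicit false
set_option maxRecDepth 100000
set_option synthInstance.maxSize 100000

namespace Cfsg.Agent.H3.O8

open Subgroup Cfsg.Agent.H3.L43

variable {G : Type*} [Group G]

/-- The change of coordinates. -/
def Lc : V → V := lin ![-1, 0, 0, 1] ![1, -1, 1, 1] ![1, 1, -1, 1] ![0, -1, -1, 0]
/-- The inverse change of coordinates. -/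
def Li : V → V := lin ![1, 1, 1, 0] ![0, -1, 1, 1] ![0, 1, -1, 1] ![-1, 1, 1, 0]
/-- The action of `b` in orthonormal coordinates. -/
def gb : V → V := lin ![1, 2, 1, 1] ![1, 1, 2, 1] ![2, 1, 1, 1] ![2, 2, 2, 1]
/-- The action of `d` in orthonormal coordinates. -/
def gd : V → V := lin ![1, 2, 1, 2] ![1, 1, 2, 2] ![2, 1, 1, 2] ![1, 1, 1, 1]
/-- The action of `q` in orthonormal coordinates. -/
def gq : V → V := lin ![1, 1, 2, 2] ![2, 1, 2, 1] ![1, 1, 1, 1] ![1, 2, 2, 1]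
/-- A signed double transposition. -/
def sρ : SP := ⟨![true, true, false, false], Equiv.swap 0 3 * Equiv.swap 1 2⟩
/-- The sum of the first three coordinates. -/
def sm (v : V) : ZMod 3 := v 0 + v 1 + v 2

theorem lin_add (m0 m1 m2 m3 u v : V) :
    lin m0 m1 m2 m3 (u + v) = lin m0 m1 m2 m3 u + lin m0 m1 m2 m3 v := by
  simp only [lin, Pi.add_apply, add_smul]; abel

/-- The group `J` with coordinates. -/
structure J0 (z : G) (Q : Subgroup G) (π : G → S) (χ : G → ZMod 2) (t : G) (ξ : V → G)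
    (b q : G) : Prop extends Tt z Q π χ t where
  add : ∀ u v, ξ (u + v) = ξ u * ξ v
  inj : ∀ u v, ξ u = ξ v → u = v
  hz : ξ vz = z
  mQ : ∀ v, ξ v ∈ Q ↔ sm v = 0
  cenJ : ∀ g, Commute z g → Commute (ξ (ee 3)) g → Commute (ξ vv) g → ∃ v, g = ξ v
  At : Act ξ t (sg 3).act
  hb : b ∈ Q
  Ab : Act ξ b gb
  Aq : Act ξ q gq

/-- Moreover an involution inverting `J` commutes with the generators. -/
structure Jc (z : G) (Q : Subgroup G) (π : G → S) (χ : G → ZMod 2) (t : G) (ξ : V → G)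
    (s b q : G) : Prop extends J0 z Q π χ t ξ b q where
  s2 : s * s = 1
  As : Act ξ s Neg.neg
  st : Commute s t
  sb : Commute s b
  sq : Commute s q

theorem Bs.toJ0 {z : G} {Q : Subgroup G} {π : G → S} {χ : G → ZMod 2} {t a c y b q : G}
    (B : Bs z Q π χ t a c y b q) : J0 z Q π χ t (fun v => xi z a c y (Lc v)) b q := by
  have M := B.toCm
  have T := B.toTt
  have tc : cj t c = a⁻¹ := by rw [← inv_inv c, ← B.ta, cj_inv, T.tt]
  have LL : ∀ v, Lc (Li v) = v := by decide +kernel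
  have LL' : ∀ v, Li (Lc v) = v := by decide +kernel
  have bz := cj_fix.mpr (T.QC b B.hb).symm
  have k : ∀ g f f', Act (xi z a c y) g f → (∀ v, f (Lc v) = Lc (f' v)) →
      Act (fun v => xi z a c y (Lc v)) g f' := fun g f f' h e v => by rw [h, e]
  have bc : bt z c b ≠ 0 := by
    rw [T.swap B.hb B.hc, T.bt_one (by rw [cj_eq.mp B.bc, mul_assoc])]; decide
  refine ⟨T, fun u v => by rw [Lc, lin_add, M.add], fun u v e => ?_, ?_, fun v => ?_,
    fun g h1 h2 h3 => ?_, k _ _ _ (M.actt T.tz B.ta tc B.ty) (by decide +kernel), B.hb,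
    k _ _ _ (M.actb bz B.ba B.bc B.by') (by decide +kernel), k _ _ _ (M.act (g := q)
      (m0 := ![1, 1, 0, 0]) (m1 := ![0, 1, 0, 0]) (m2 := ![0, 0, 1, 1]) (m3 := ![0, 0, 0, 1])
      (by rw [B.qz]; simp [xi_val, ZMod.val_one]) (by rw [xi1, B.qa])
      (by rw [B.qc]; simp [xi_val, ZMod.val_one]) (by rw [xi3, B.qy])) (by decide +kernel)⟩
  · rw [← LL' u, xi_inj T.toEx M B.ha B.hc B.hb B.a1 B.yQ B.ba B.bc e, LL']
  · rw [show Lc vz = ![1, 0, 0, 0] by decide +kernel, xi0]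
  · have k1 : ∀ v, sm v = (Lc v) 3 := by decide +kernel
    rw [k1, xi, mul_mem_cancel_left (mul_mem (mul_mem (pow_mem T.zQ _) (pow_mem B.ha _))
      (pow_mem B.hc _))]
    generalize Lc v 3 = n
    refine ⟨fun h => ?_, fun h => by rw [h, ZMod.val_zero, pow_zero]; exact Q.one_mem⟩
    have k2 : ∀ n : ZMod 3, n = 0 ∨ n.val = 1 ∨ n.val = 2 := by decide
    rcases k2 n with e | e | e
    · exact e
    · rw [e, pow_one] at h; exact absurd h B.yQ
    · rw [e, pow_two, ← cube_inv M.y3] at h; exact absurd (inv_mem_iff.mp h) B.yQ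
  · have k1 : ∀ u, (∃ k l m : ZMod 3, u = k • ![1, 0, 0, 0] + l • Lc (ee 3) + m • Lc vv) →
        Commute (xi z a c y u) g := by
      rintro _ ⟨k, l, m, rfl⟩
      rw [M.add, M.add, M.smul, M.smul, M.smul, xi0]
      exact ((h1.pow_left _).mul_left (h2.pow_left _)).mul_left (h3.pow_left _)
    obtain ⟨k, l, m, n, e⟩ := T.cen B.ha B.hc B.hb B.a1 (bt_zero.mpr M.ac)
      (bt_zero.mpr (cj_fix.mp B.ba).symm) bc M.zy M.ay M.cy B.yQ h1
      (by simpa only [xi1] using k1 ![0, 1, 0, 0] (by decide +kernel))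
      (by simpa only [xi2] using k1 ![0, 0, 1, 0] (by decide +kernel))
    exact ⟨Li ![k, l, m, n], by rw [LL, e, xi_val]⟩

namespace J0

variable {z : G} {Q : Subgroup G} {π : G → S} {χ : G → ZMod 2} {t : G} {ξ : V → G} {b q : G}
  (c : J0 z Q π χ t ξ b q)
include c

theorem zero : ξ 0 = 1 := by
  have := c.add 0 0
  rwa [add_zero, left_eq_mul] at this

theorem neg (v : V) : ξ (-v) = (ξ v)⁻¹ :=
  eq_inv_of_mul_eq_one_left (by rw [← c.add, neg_add_cancel, c.zero])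

theorem sub (u v : V) : ξ (u - v) = ξ u * (ξ v)⁻¹ := by rw [sub_eq_add_neg, c.add, c.neg]

theorem xc (u v : V) : Commute (ξ u) (ξ v) := by
  rw [Commute, SemiconjBy, ← c.add, ← c.add, add_comm]

theorem smul (k : ZMod 3) (v : V) : ξ (k • v) = ξ v ^ k.val := by
  have : ∀ n : ℕ, ξ (n • v) = ξ v ^ n := fun n => by
    induction n with
    | zero => rw [zero_smul, c.zero, pow_zero]
    | succ n ih => rw [succ_nsmul, c.add, ih, pow_succ]
  have k' : ∀ (k : ZMod 3) (v : V), k • v = k.val • v := by decide +kernel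
  rw [← this, k']

theorem cube (v : V) : ξ v ^ 3 = 1 := by
  have k : ∀ v : V, v + v + v = 0 := by decide +kernel
  rw [pow_three', ← c.add, ← c.add, k, c.zero]

theorem zx (v : V) : Commute z (ξ v) := c.hz ▸ c.xc _ _

theorem mZ {v : V} : ξ v ∈ zpowers z ↔ ∃ k : ZMod 3, v = k • vz := by
  rw [zp c.z3]
  exact exists_congr fun k => by
    rw [← c.hz, ← c.smul]; exact ⟨c.inj _ _, fun h => h ▸ rfl⟩

theorem cJ {g : G} (h : ∀ v, Commute (ξ v) g) : ∃ v, g = ξ v :=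
  c.cenJ g (c.hz ▸ h _) (h _) (h _)

theorem act_id {g : G} (h : Act ξ g id) : ∃ v, g = ξ v :=
  c.cJ fun v => (cj_fix.mp (h v)).symm

theorem act_xi (u : V) : Act ξ (ξ u) id := fun v => cj_fix.mpr (c.xc u v)

theorem act_lin {g : G} {m0 m1 m2 m3 : V} (h0 : cj g (ξ (ee 0)) = ξ m0)
    (h1 : cj g (ξ (ee 1)) = ξ m1) (h2 : cj g (ξ (ee 2)) = ξ m2) (h3 : cj g (ξ (ee 3)) = ξ m3) :
    Act ξ g (lin m0 m1 m2 m3) := fun v => by
  have k : ∀ v, v = lin (ee 0) (ee 1) (ee 2) (ee 3) v := by decide +kernel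
  rw [lin, c.add, c.add, c.add, c.smul, c.smul, c.smul, c.smul, ← h0, ← h1, ← h2, ← h3,
    ← cj_pow, ← cj_pow, ← cj_pow, ← cj_pow, ← cj_mul, ← cj_mul, ← cj_mul, ← c.smul, ← c.smul,
    ← c.smul, ← c.smul, ← c.add, ← c.add, ← c.add]
  exact congrArg (fun v => cj g (ξ v)) (k v)

theorem Ad : Act ξ (cj t b) gd :=
  ((c.At.mul c.Ab).mul (c.At.inv (f' := (sg 3).act) (by decide +kernel))).congr (by decide +kernel)

theorem lift {s g : G} {f f' : V → V} (s2 : s * s = 1) (As : Act ξ s Neg.neg) (h : Act ξ g f)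
    (e : ∀ v, f (f' v) = v) (e' : ∀ v, f' (-f (-v)) = v) :
    Commute s (g * (cj s g)⁻¹ * g) ∧ ∃ v, g * (cj s g)⁻¹ * g = g * ξ v := by
  obtain ⟨v, ev⟩ := c.act_id (g := g⁻¹ * cj s g) (((h.inv e).mul ((As.mul h).mul
    (As.inv (f' := Neg.neg) neg_neg))).congr e')
  exact ⟨cj_fix.mp (fix_coset s2 (ev ▸ c.cube v)), -v, by rw [c.neg, ← ev]; group⟩

theorem toJc : ∃ s b q, Jc z Q π χ t ξ s b q := by
  have Aw := ((c.Ad.mul c.Aq).mul c.Ad).pow 2
  generalize (cj t b * q * cj t b) ^ 2 = w at Aw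
  replace Aw : Act ξ w Neg.neg := Aw.congr (by decide +kernel)
  have k : ∀ s, Act ξ s Neg.neg → ∀ v, s * ξ v * (s * ξ v) = s * s := fun s h v => by
    nth_rewrite 2 [cj_eq.mp (h v)]
    rw [c.neg]; group
  obtain ⟨u, eu⟩ := c.act_id ((Aw.mul Aw).congr neg_neg)
  have A1 : Act ξ (w * w * w) Neg.neg := ((Aw.mul Aw).mul Aw).congr fun v => neg_neg _
  have e1 : w * w * w * (w * w * w) = 1 := by
    rw [← c.cube u, ← eu, pow_three']; simp only [mul_assoc]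
  generalize w * w * w = s1 at A1 e1
  obtain ⟨v, ev⟩ := c.act_id (g := s1⁻¹ * cj t s1) (((A1.inv (f' := Neg.neg) neg_neg).mul
    ((c.At.mul A1).mul (c.At.inv (f' := (sg 3).act) (by decide +kernel)))).congr (by decide +kernel))
  have st := cj_fix.mp (fix_coset c.t2 (ev ▸ c.cube v))
  have es : s1 * (cj t s1)⁻¹ * s1 = s1 * ξ (-v) := by rw [c.neg, ← ev]; group
  rw [es] at st
  have s2 := (k s1 A1 (-v)).trans e1
  have As : Act ξ (s1 * ξ (-v)) Neg.neg := A1.mul (c.act_xi _)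
  generalize s1 * ξ (-v) = s at st s2 As
  obtain ⟨h1, v1, e1⟩ := c.lift s2 As c.Ab (f' := gb ∘ gb) (by decide +kernel) (by decide +kernel)
  obtain ⟨h2, v2, e2⟩ := c.lift s2 As c.Aq (f' := gq ∘ gq) (by decide +kernel) (by decide +kernel)
  have sz : cj s z = z⁻¹ := by rw [← c.hz, As, c.neg]
  exact ⟨s, _, _, ⟨c.toTt, c.add, c.inj, c.hz, c.mQ, c.cenJ, c.At,
    mul_mem (mul_mem c.hb (inv_mem (c.norm' sz c.hb))) c.hb, e1 ▸ c.Ab.mul (c.act_xi _),
    e2 ▸ c.Aq.mul (c.act_xi _)⟩, s2, As, st.symm, h1, h2⟩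

theorem pQ' : ξ (ee 3) ∈ Q := (c.mQ _).mpr (by decide +kernel)
theorem XQ : ξ vv ∈ Q := (c.mQ _).mpr (by decide +kernel)
theorem pZ : ξ (ee 3) ∉ zpowers z := fun h => absurd (c.mZ.mp h) (by decide +kernel)
theorem XZ : ξ vv ∉ zpowers z := fun h => absurd (c.mZ.mp h) (by decide +kernel)
theorem tp : cj t (ξ (ee 3)) = (ξ (ee 3))⁻¹ := by
  rw [c.At, ← c.neg]; congr 1; decide +kernel
theorem tX : cj t (ξ vv) = ξ vv := by rw [c.At]; congr 1; decide +kernel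
theorem tx0 : cj t (ξ (ee 0)) = ξ (ee 0) := by rw [c.At]; congr 1; decide +kernel
theorem x0Q : ξ (ee 0) ∉ Q := fun h => absurd ((c.mQ _).mp h) (by decide +kernel)

theorem bt_act {g : G} {f : V → V} (h : Act ξ g f) {v : V} {k : ZMod 3} (e : f v = k • vz + v) :
    bt z g (ξ v) = k :=
  bt_eq c.z3 c.z1 (by rw [cj_eq.mp (h v), e, c.add, c.smul, c.hz, mul_assoc])

theorem Aτ : Act ξ (b * cj t b)⁻¹ st.act :=
  (c.Ab.mul c.Ad).inv (by decide +kernel)

theorem τQ : (b * cj t b)⁻¹ ∈ Q := inv_mem (mul_mem c.hb (c.norm c.zt c.hb))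

/-- Elements of `Q` commuting with `p` and `X`. -/
theorem lagJ {g : G} (hg : g ∈ Q) (h1 : bt z g (ξ (ee 3)) = 0) (h2 : bt z g (ξ vv) = 0) :
    ∃ v, sm v = 0 ∧ g = ξ v := by
  obtain ⟨v, rfl⟩ := c.cenJ g (c.QC g hg) (bt_zero.mp h1).symm (bt_zero.mp h2).symm
  exact ⟨v, (c.mQ v).mp hg, rfl⟩

/-- An involution outside the kernel of `χ` acting as a transposition. -/
theorem exists_w {g : G} (hg : Commute z g) (xg : χ g ≠ 0) :
    ∃ w, ∃ a : SP, ¬ a.ev ∧ Act ξ w a.act := by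
  have k2 : ∀ a : ZMod 2, a ≠ 0 → a = 1 := by decide
  obtain ⟨w0, z0, w2, t0, x0⟩ : ∃ w, Commute z w ∧ w * w = 1 ∧ Commute t w ∧ χ w = 1 := by
    obtain ⟨k, hk, pk, xk⟩ := c.surj (π g)
    have h1 := hg.mul_right hk.inv_right
    have p1 : π (g * k⁻¹) = 1 := by rw [c.mul _ _ hg hk.inv_right, c.pinv hk, pk, mul_inv_cancel]
    have x1 : χ (g * k⁻¹) = 1 := by
      rw [c.mulx _ _ hg hk.inv_right, c.xinv hk, xk, k2 _ xg, add_zero]
    generalize g * k⁻¹ = g1 at h1 p1 x1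
    have h2 := Ccj c.zt h1
    have p2 : π (cj t g1) = 1 := by rw [c.pcj c.zt h1, p1, mul_one, mul_inv_cancel]
    have x2 : χ (cj t g1) = 1 := by rw [c.xcj c.zt h1, x1]
    have f := fix_coset c.t2 (c.exp _ (c.toQ (h1.inv_right.mul_right h2)
      (by rw [c.mul _ _ h1.inv_right h2, c.pinv h1, p1, p2, inv_one, mul_one])
      (by rw [c.mulx _ _ h1.inv_right h2, c.xinv h1, x1, x2]; rfl)))
    have h3 := (h1.mul_right h2.inv_right).mul_right h1
    have p3 : π (g1 * (cj t g1)⁻¹ * g1) = 1 := by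
      rw [c.mul _ _ (h1.mul_right h2.inv_right) h1, c.mul _ _ h1 h2.inv_right, c.pinv h2, p1, p2,
        inv_one, mul_one, mul_one]
    have x3 : χ (g1 * (cj t g1)⁻¹ * g1) = 1 := by
      rw [c.mulx _ _ (h1.mul_right h2.inv_right) h1, c.mulx _ _ h1 h2.inv_right, c.xinv h2, x1, x2]
      rfl
    generalize g1 * (cj t g1)⁻¹ * g1 = g2 at f h3 p3 x3
    refine ⟨g2 ^ 3, h3.pow_right 3, ?_, (cj_fix.mp f).pow_right 3, by rw [c.xpow h3, x3]; rfl⟩
    rw [← c.exp _ (c.toQ (h3.mul_right h3) (by rw [c.mul _ _ h3 h3, p3, mul_one])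
      (by rw [c.mulx _ _ h3 h3, x3]; rfl)), ← pow_add, ← pow_two, ← pow_mul]
  have k0 : ∀ w, Commute z w → w * w = 1 → ∀ v ∈ Q, bt z (cj w v) v = 0 := fun w h h2 v hv => by
    have := bt_cj w z v (cj w v)
    rw [cj_fix.mpr h.symm, ← mul_cj, h2, one_cj, c.swap (c.norm h hv) hv] at this
    have k : ∀ k : ZMod 3, k = -k → k = 0 := by decide
    exact k _ this
  obtain ⟨w, zw, w2, tw, xw, wp⟩ : ∃ w, Commute z w ∧ w * w = 1 ∧ Commute t w ∧ χ w = 1 ∧
      cj w (ξ (ee 3)) = ξ (ee 3) := by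
    have := c.neg_line c.pQ' c.pZ c.tp (c.norm z0 c.pQ') (by rw [cj_cj_comm t0, c.tp, cj_inv])
      (k0 w0 z0 w2 _ c.pQ')
    rcases (H1.T3.mem_zpowers_three (c.cube _)).mp this with e | e | e
    · exact absurd (cj_inj (e.trans (cj_one w0).symm) ▸ one_mem _) c.pZ
    · exact ⟨w0, z0, w2, t0, x0, e⟩
    · refine ⟨w0 * t, z0.mul_right c.zt, ?_, t0.mul_right (Commute.refl t), ?_, ?_⟩
      · rw [t0.mul_mul_mul_comm, w2, c.t2, mul_one]
      · rw [c.mulx _ _ z0 c.zt, x0, c.xt, add_zero]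
      · rw [mul_cj, c.tp, cj_inv, e, inv_inv]
  have wi : w⁻¹ = w := inv_eq_of_mul_eq_one_left w2
  have ww : ∀ x, cj w (cj w x) = x := fun x => by rw [← mul_cj, w2, one_cj]
  obtain ⟨u, su, eu⟩ := c.lagJ (c.norm zw c.XQ) (by rw [Ex.move zw, wi, wp]; exact bt_zero.mpr (c.xc _ _))
    (k0 w zw w2 _ c.XQ)
  have nJ : ∀ v, ∃ u, cj w (ξ v) = ξ u := fun v => c.cenJ _ (Ccj zw (c.zx v))
    (wp ▸ cj_comm (c.xc _ _)) (by rw [← ww (ξ vv), eu]; exact cj_comm (c.xc _ _))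
  obtain ⟨m0, e0⟩ := nJ (ee 0)
  obtain ⟨m1, e1⟩ := nJ (ee 1)
  have A := c.act_lin e0 e1 (m2 := vz - m0 - m1) (by
    rw [show ee 2 = vz - ee 0 - ee 1 by decide +kernel]
    simp only [c.sub, cj_mul, cj_inv, e0, e1, c.hz, cj_fix.mpr zw.symm]) wp
  have key : ∀ m0 m1 : V, let f := lin m0 m1 (vz - m0 - m1) (ee 3)
      m0 3 = 0 → sm (m0 - ee 0) = 0 → m1 3 = 0 → sm (f vv) = 0 → f (f vv) = vv → f vv ≠ vv →
      f (f (ee 0)) = ee 0 → (∃ k : ZMod 3, f vv + vv = k • vz) ∧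
      (f (st.act (f (st.act (ee 0)))) = ee 0 →
        ∃ a ∈ [sw, st * sw, st * st * sw], ∀ v, f v = a.act v) := by decide +kernel
  have k3 : ∀ v u, cj w (ξ v) = ξ u → v 3 = 0 → u 3 = 0 := fun v u e h => by
    have k : ∀ v : V, v 3 = 0 ↔ (sg 3).act v = v := by decide +kernel
    refine (k u).mpr (c.inj _ _ ?_)
    rw [← c.At, ← e, cj_cj_comm tw, c.At, (k v).mp h]
  obtain ⟨⟨k, ek⟩, h⟩ := key m0 m1 (k3 _ _ e0 (by decide +kernel)) ((c.mQ _).mp (by
      rw [c.sub, ← e0]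
      exact c.toQ ((Ccj zw (c.zx _)).mul_right (c.zx _).inv_right)
        (by rw [c.mul _ _ (Ccj zw (c.zx _)) (c.zx _).inv_right, c.pcj zw (c.zx _),
          c.pi_cen zw w2, mul_inv_cancel_right, c.pinv (c.zx _), mul_inv_cancel])
        (by rw [c.mulx _ _ (Ccj zw (c.zx _)) (c.zx _).inv_right, c.xcj zw (c.zx _),
          c.xinv (c.zx _), c.x3 (c.zx _) (c.cube _), add_zero])))
    (k3 _ _ e1 (by decide +kernel)) ((c.mQ _).mp (A _ ▸ c.norm zw c.XQ))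
    (c.inj _ _ (by rw [← A, ← A, ww])) (fun h => by
      obtain ⟨v, e⟩ := c.cenJ w zw (cj_fix.mp wp).symm (cj_fix.mp (by rw [A, h])).symm
      rw [e, c.x3 (c.zx _) (c.cube _)] at xw
      exact zero_ne_one xw) (c.inj _ _ (by rw [← A, ← A, ww]))
  have hτ := c.norm zw c.τQ
  obtain ⟨v, -, ev⟩ := c.lagJ (mul_mem hτ c.τQ) (by
      rw [c.mull hτ c.τQ c.pQ', Ex.move zw, wi, wp, c.bt_act c.Aτ (k := 0) (by decide +kernel),
        add_zero]) (by
      rw [c.mull hτ c.τQ c.XQ, Ex.move zw, wi, A, eq_sub_of_add_eq ek, c.sub, c.smul, c.hz,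
        c.bt_div c.τQ (pow_mem c.zQ _) c.XQ, c.btZ' (pow_mem (mem_zpowers z) _) c.τQ]
      ring)
  obtain ⟨a, ha, ea⟩ := h (c.inj _ _ (by
    rw [← A, ← c.Aτ, ← A, ← c.Aτ, cj_cj w, ww, ← mul_cj, ev, cj_fix.mpr (c.xc _ _)]))
  have k4 : ∀ a ∈ [sw, st * sw, st * st * sw], ¬ a.ev := by decide +kernel
  exact ⟨w, a, k4 a ha, A.congr ea⟩

end J0

end Cfsg.Agent.H3.O8
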