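import Cfsg.Agent.H7.BG.S1
import Cfsg.Agent.H8.FT
import Cfsg.Agent.H9.FrobNorm
import Cfsg.Agent.H5.CITTI
import Cfsg.Agent.H3.CharInt
import Cfsg.Agent.H3.ZassOdd

/-!
# Groups whose only composite element order is `2 r`: local analysis
-/

set_option autoImplicit false
set_option linter.unusedSectionVars false

namespace Cfsg.Agent.H3

open Subgroup Cfsg.Agent.H7 Cfsg.Agent.H5
open MulAut (conj)
open scoped Pointwise commutatorElement

universe u
variable {G : Type u} [Group G] [Finite G]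

/-- a solvable group with an abelian Sylow `p`-subgroup `S` has `O_{p',p} = O_{p'} S` -/
theorem quo_sylow_eq_core {p : ℕ} [Fact p.Prime] {S L : Subgroup G} (hs : Group.IsSolvable L)
    (hS : IsSylowIn p S L) (hab : IsMulCommutative S) :
    (quo (O[{p}ᶜ] L)).im S = O[{p}] ((quo (O[{p}ᶜ] L)).im L) ∧
      (quo (O[{p}ᶜ] L)).im L ⊓ C[(quo (O[{p}ᶜ] L)).im S] ≤ (quo (O[{p}ᶜ] L)).im S := by
  have h1 := hS.im (f := quo (O[{p}ᶜ] L)) (core_normalIn _ _).2
  have h2 := cent_pcore_le (PHom.isSolvable_im (quo (O[{p}ᶜ] L)) hs) (core_quo_core {p}ᶜ L)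
  have h3 : (quo (O[{p}ᶜ] L)).im S = O[{p}] ((quo (O[{p}ᶜ] L)).im L) :=
    le_antisymm (le_trans (le_inf h1.le (le_cent_of_le_abel (PHom.isMulCommutative_im _ hab) le_rfl
      h1.core_le)) h2) h1.core_le
  exact ⟨h3, h3 ▸ h2⟩

theorem core_sup_norm_of_abel {p : ℕ} [Fact p.Prime] {S L : Subgroup G} (hs : Group.IsSolvable L)
    (hS : IsSylowIn p S L) (hab : IsMulCommutative S) : O[{p}ᶜ] L ⊔ (L ⊓ N[S]) = L := by
  have h0 := core_normalIn {p}ᶜ L
  have h1 : NormalIn (O[{p}ᶜ] L ⊔ S) L := ⟨sup_le h0.1 hS.le, le_norm_sup_of_quo h0.2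
    (hS.le.trans h0.2) (by rw [(quo_sylow_eq_core hs hS hab).1]; exact (core_normalIn _ _).2)⟩
  have h2 := IsSylowIn.frattini h1 (hS.mono le_sup_right h1.1)
  rwa [sup_assoc, sup_eq_right.2 (le_inf hS.le (le_norm_self S))] at h2

theorem le_core_of_abel {p : ℕ} [Fact p.Prime] {S L X : Subgroup G} (hs : Group.IsSolvable L)
    (hS : IsSylowIn p S L) (hab : IsMulCommutative S) (hX : X ≤ L) (hp : IsPi {p}ᶜ X)
    (hn : S ≤ N[X]) : X ≤ O[{p}ᶜ] L := by
  have h0 := core_normalIn {p}ᶜ L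
  obtain ⟨h1, h2⟩ := quo_sylow_eq_core hs hS hab
  have h3 : IsPi {p} ((quo (O[{p}ᶜ] L)).im S) := (hS.isPGroup.im _).isPi_self
  have h4 := (h3.le_cent (hp.im _) (PHom.im_le_norm _ hn) (by
    rw [h1]; exact (PHom.im_mono _ hX).trans (core_normalIn _ _).2))
  have h5 : (quo (O[{p}ᶜ] L)).im X ≤ (quo (O[{p}ᶜ] L)).im S :=
    (le_inf (PHom.im_mono _ hX) (le_cent_symm h4)).trans h2
  rw [← quo_im_eq_bot_iff (hX.trans h0.2)]
  exact (h3.of_le h5).eq_bot (hp.im _)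

theorem mul_pow_mem_coset {D : Subgroup G} {v x : G} (hv : v ∈ D) (hx : x ∈ N[D]) (n : ℕ) :
    (v * x) ^ n * (x ^ n)⁻¹ ∈ D := by
  induction n with
  | zero => simp
  | succ n ih =>
    have : (v * x) ^ (n + 1) * (x ^ (n + 1))⁻¹ = v * (x * ((v * x) ^ n * (x ^ n)⁻¹) * x⁻¹) := by
      rw [pow_succ', pow_succ' x]; group
    rw [this]
    exact mul_mem hv (conj_mem_of_norm hx ih)

theorem isPi_two_compl_iff {X : Subgroup G} : IsPi {2}ᶜ X ↔ Odd (Nat.card X) := by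
  rw [IsPi, PiNat.compl_singleton_iff Nat.prime_two, ← even_iff_two_dvd, Nat.not_even_iff_odd]

theorem sol_of_odd {X : Subgroup G} (h : Odd (Nat.card X)) : Group.IsSolvable X :=
  H9.FT.feitThompson X h

/-- every element has order `1`, a prime or `2 r` -/
structure OC (G : Type u) [Group G] (r : ℕ) : Prop where
  prime : r.Prime
  ne : r ≠ 2
  ord : ∀ g : G, orderOf g = 1 ∨ (orderOf g).Prime ∨ orderOf g = 2 * r

namespace OC

variable {r : ℕ} (h : OC G r) {S : Sylow 2 G} {x y g t : G} {D U V X : Subgroup G}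
include h

theorem odd : Odd r := h.prime.odd_of_ne_two h.ne

theorem prime_of_odd (ho : Odd (orderOf x)) (h1 : x ≠ 1) : (orderOf x).Prime := by
  rcases h.ord x with e | e | e
  · exact absurd (orderOf_eq_one_iff.1 e) h1
  · exact e
  · exact absurd (e ▸ ho) (by simp)

theorem sq_eq_one (hx : TwoEl x) : x * x = 1 := by
  obtain ⟨k, hk⟩ := twoEl_iff_orderOf.1 hx
  rw [← sq, ← orderOf_dvd_iff_pow_eq_one]
  rcases h.ord x with e | e | e
  · simp [e]
  · rw [hk] at e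
    rw [hk, (Nat.Prime.pow_eq_iff e).1 rfl |>.2, pow_one]
  · exact absurd ((Nat.prime_dvd_prime_iff_eq h.prime Nat.prime_two).1
      (h.prime.dvd_of_dvd_pow (hk ▸ e ▸ dvd_mul_left r 2))) h.ne

theorem primes {p q : ℕ} (hp : p.Prime) (hq : q.Prime) (hpq : p ≠ q) (hx : orderOf x = p)
    (hy : orderOf y = q) (hc : x * y = y * x) : (p = 2 ∧ q = r) ∨ (p = r ∧ q = 2) := by
  have h1 : orderOf (x * y) = p * q := by
    rw [← hx, ← hy]
    exact Commute.orderOf_mul_eq_mul_orderOf_of_coprime hc (by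
      rw [hx, hy]; exact (Nat.coprime_primes hp hq).2 hpq)
  rcases h.ord (x * y) with e | e | e
  · rw [h1] at e
    exact absurd (Nat.eq_one_of_mul_eq_one_right e) hp.ne_one
  · rw [h1] at e
    exact absurd e (Nat.not_prime_mul hp.ne_one hq.ne_one)
  · rw [h1] at e
    rcases (Nat.Prime.dvd_mul Nat.prime_two).1 (e ▸ dvd_mul_right 2 r) with h2 | h2
    · have := (Nat.prime_dvd_prime_iff_eq Nat.prime_two hp).1 h2
      subst this
      exact .inl ⟨rfl, by omega⟩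
    · have := (Nat.prime_dvd_prime_iff_eq Nat.prime_two hq).1 h2
      subst this
      exact .inr ⟨by omega, rfl⟩

/-- an element of odd order centralizing an involution is an `r`-element -/
theorem pow_r_of_comm (ht : t ≠ 1) (ht2 : t * t = 1) (ho : Odd (orderOf x)) (hc : x * t = t * x) :
    x ^ r = 1 := by
  by_cases h1 : x = 1
  · simp [h1]
  have h2 := h.prime_of_odd ho h1
  have h3 : orderOf x ≠ 2 := fun e => absurd (e ▸ ho) (by simp)
  rcases h.primes h2 Nat.prime_two h3 rfl (orderOf_eq_two_iff'.2 ⟨ht, ht2⟩) hc with e | e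
  · exact absurd e.1 h3
  · rw [← e.1, pow_orderOf_eq_one]

theorem pow_r_of_pgroup (hD : IsPGroup r D) (hx : x ∈ D) : x ^ r = 1 := by
  have := Fact.mk h.prime
  obtain ⟨k, hk⟩ := hD.orderOf_eq hx
  by_cases h1 : x = 1
  · simp [h1]
  have h2 := h.prime_of_odd (hk ▸ h.odd.pow) h1
  rw [hk] at h2
  rw [← orderOf_dvd_iff_pow_eq_one, hk, (Nat.Prime.pow_eq_iff h2).1 rfl |>.2, pow_one]

theorem orderOf_eq_r (hx : x ^ r = 1) (h1 : x ≠ 1) : orderOf x = r :=
  haveI := Fact.mk h.prime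
  orderOf_eq_prime hx h1

theorem pow_two_r (ht : t ≠ 1) (ht2 : t * t = 1 ∨ t ^ r = 1) (hc : x * t = t * x) :
    x ^ (2 * r) = 1 := by
  rw [← orderOf_dvd_iff_pow_eq_one]
  rcases h.ord x with e | e | e
  · simp [e]
  · by_cases h1 : orderOf x = 2
    · simp [h1]
    by_cases h2 : orderOf x = r
    · simp [h2]
    rcases ht2 with h3 | h3
    · rcases h.primes e Nat.prime_two h1 rfl (orderOf_eq_two_iff'.2 ⟨ht, h3⟩) hc with e | e
      exacts [absurd e.1 h1, absurd e.1 h2]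
    · rcases h.primes e h.prime h2 rfl (h.orderOf_eq_r h3 ht) hc with e | e
      exacts [absurd e.1 h1, absurd e.1 h2]
  · simp [e]

theorem sol_cent1 (ht : t ≠ 1) (ht2 : t * t = 1 ∨ t ^ r = 1) : Group.IsSolvable C₁[t] := by
  set n := Nat.card C₁[t]
  refine isSolvable_of_card_dvd_prime_pow_mul (a := n) (b := n) Nat.prime_two h.prime ?_
  rw [← mul_pow]
  refine (Nat.dvd_pow_self_iff (card_pos' C₁[t]).ne' (by
    have := h.prime.pos; omega)).2 fun p hp => ?_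
  obtain ⟨h1, h2, -⟩ := Nat.mem_primeFactors.1 hp
  obtain ⟨x, hx, e⟩ := exists_orderOf_eq_prime h1 h2
  exact Nat.mem_primeFactors.2 ⟨h1, e ▸ orderOf_dvd_of_pow_eq_one
    (h.pow_two_r ht ht2 (mem_cent1_iff.1 hx)), by have := h.prime.pos; omega⟩

theorem sq_sylow (hx : x ∈ (S : Subgroup G)) : x * x = 1 := h.sq_eq_one (twoEl_of_mem S.2 hx)

theorem inv_sylow (hx : x ∈ (S : Subgroup G)) : x⁻¹ = x :=
  inv_eq_of_mul_eq_one_left (h.sq_sylow hx)

theorem comm_sylow (hx : x ∈ (S : Subgroup G)) (hy : y ∈ (S : Subgroup G)) : x * y = y * x := by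
  rw [← h.inv_sylow (mul_mem hx hy), mul_inv_rev, h.inv_sylow hx, h.inv_sylow hy]

theorem abel (S : Sylow 2 G) : IsMulCommutative (S : Subgroup G) :=
  abel_of_comm fun _ hx _ hy => h.comm_sylow hx hy

theorem odd_of_pgroup (hD : IsPGroup r D) : Odd (Nat.card D) :=
  haveI := Fact.mk h.prime
  hD.odd_card h.odd

theorem mul_pow_eq_one (hD : IsPGroup r D) (hx : x ∈ N[D]) (ho : Odd (orderOf x)) {v : G}
    (hv : v ∈ D) (h1 : x ≠ 1) (hD1 : D ≠ ⊥) : (v * x) ^ orderOf x = 1 ∨ x ∈ D := by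
  have := Fact.mk h.prime
  have h2 := mul_pow_mem_coset hv hx (orderOf x)
  rw [pow_orderOf_eq_one, inv_one, mul_one] at h2
  by_contra! h3
  have h4 : Odd (orderOf (v * x)) := by
    have h5 := card_sup_dvd (A := D) (B := zpowers x) (zpowers_le.2 hx)
    rw [Nat.card_zpowers] at h5
    exact (((h.odd_of_pgroup hD).mul ho).of_dvd_nat h5).of_dvd_nat (orderOf_dvd_card_of_mem
      (mul_mem (mem_sup_left hv) (mem_sup_right (mem_zpowers x))))
  have h5 := h.prime_of_odd h4 (fun e => h3.1 (by rw [e, one_pow]))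
  have h6 : v * x ∈ D := H7.mem_of_pow_mem_of_coprime ((Nat.Prime.coprime_iff_not_dvd h5).2
    fun e => h3.1 (orderOf_dvd_iff_pow_eq_one.1 e)) h2
  exact h3.2 ((mul_mem_cancel_left hv).1 h6)

theorem comm_mem_cent_odd (hD : IsPGroup r D) (hS : (S : Subgroup G) ≤ N[D]) (hx : x ∈ N[D])
    (hxS : x ∈ N[(S : Subgroup G)]) (ho : Odd (orderOf x)) :
    ⁅(S : Subgroup G), zpowers x⁆ ≤ C[D] := by
  have := Fact.mk h.prime
  by_cases h1 : x = 1
  · simp [h1]
  by_cases hD1 : D = ⊥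
  · exact hD1 ▸ le_cent_bot
  have h2 := h.prime_of_odd ho h1
  have h3 : zpowers x ≤ N[(S : Subgroup G)] := zpowers_le.2 hxS
  have h4 : ⁅(S : Subgroup G), zpowers x⁆ ≤ S := comm_le_left h3
  have h5 := coprime_abel_cent_TI h3 (by
    obtain ⟨k, hk⟩ := IsPGroup.iff_card.1 S.2
    rw [hk, Nat.card_zpowers]
    exact (Nat.coprime_two_left.2 ho).pow_left k) (h.abel S)
  rw [le_cent_iff]
  intro a ha v hv
  refine (H9.frob_norm_solvable D ⁅(S : Subgroup G), zpowers x⁆ x (h4.trans hS) hx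
    (right_le_norm_comm _ _ (mem_zpowers x)) (orderOf x) h2.pos (fun i i1 i2 a ha hc => ?_)
    (sol_of_pgroup hD) ?_ (fun v hv => ?_) a ha v hv).symm.eq
  · refine eq_one_of_mem_inf h5 ha ?_
    rw [cent_zpowers, mem_cent1_iff]
    obtain ⟨k, hk⟩ := exists_pow_eq_self_of_coprime (x := x) (n := i)
      ((Nat.coprime_of_lt_prime i1.ne' i2 h2).symm)
    rw [← hk]
    exact (hc.pow_right k).eq
  · obtain ⟨k, hk⟩ := IsPGroup.iff_card.1 (S.2.to_le h4)
    rw [hk]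
    exact (Nat.coprime_two_left.2 (h.odd_of_pgroup hD)).pow_left k
  · rw [pow_orderOf_eq_one]
    rcases h.mul_pow_eq_one hD hx ho hv h1 hD1 with e | e
    · exact e
    · rw [h.orderOf_eq_r (h.pow_r_of_pgroup hD e) h1]
      exact h.pow_r_of_pgroup hD (mul_mem hv e)

/-- decomposition of the elements of `N(S)` -/
theorem exists_decomp (hg : g ∈ N[(S : Subgroup G)]) :
    ∃ s ∈ (S : Subgroup G), ∃ x ∈ zpowers g, Odd (orderOf x) ∧ g = s * x := by
  obtain ⟨a, ha, b, hb, e, -, h1, h2⟩ := exists_pi_decomp {2} g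
  refine ⟨a, ?_, b, hb, ?_, e.symm⟩
  · obtain ⟨k, hk⟩ := (PiNat.singleton_iff Nat.prime_two (orderOf_pos a).ne').1 h1
    exact (twoEl_iff_orderOf.2 ⟨k, hk⟩).mem_sylow
      (Sylow.smul_eq_iff_mem_normalizer.2 (zpowers_le.2 hg ha))
  · rwa [PiNat.compl_singleton_iff Nat.prime_two, ← even_iff_two_dvd, Nat.not_even_iff_odd] at h2

theorem comm_mem_cent (hD : IsPGroup r D) (hS : (S : Subgroup G) ≤ N[D]) (hg : g ∈ N[D])
    (hgS : g ∈ N[(S : Subgroup G)]) {s : G} (hs : s ∈ (S : Subgroup G)) :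
    s * g * s⁻¹ * g⁻¹ ∈ C[D] := by
  obtain ⟨a, ha, x, hx, ho, e⟩ := h.exists_decomp hgS
  have h1 := zpowers_le.2 hgS hx
  have h2 := h.comm_mem_cent_odd hD hS (zpowers_le.2 hg hx) h1 ho (comm_mem hs (mem_zpowers x))
  have h3 := h.comm_sylow ha (conj_mem_of_norm h1 (inv_mem hs))
  have : s * g * s⁻¹ * g⁻¹ = s * x * s⁻¹ * x⁻¹ := by
    rw [e]
    calc s * (a * x) * s⁻¹ * (a * x)⁻¹ = s * (a * (x * s⁻¹ * x⁻¹)) * a⁻¹ := by group
      _ = _ := by rw [h3]; group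
  rwa [this]

theorem sol_norm (hD : IsPGroup r D) (hD1 : D ≠ ⊥) (hS : (S : Subgroup G) ≤ N[D]) :
    Group.IsSolvable N[D] := by
  obtain ⟨d, hd, d1⟩ := exists_ne_one_of_ne_bot hD1
  have h1 : NormalIn C[D] N[D] := ⟨cent_le_norm D, norm_le_norm_cent D⟩
  refine isSolvable_of_quo h1 (sol_of_le (h.sol_cent1 d1 (.inr (h.pow_r_of_pgroup hD hd)))
    (cent_le_cent1 hd)) ?_
  have h2 : IsSylowIn 2 (S : Subgroup G) N[D] := (isSylowIn_top S).mono hS le_top
  have h3 := h2.im (f := quo C[D]) h1.2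
  refine (Burnside_normal_complement h3 ?_).sol (sol_of_odd (isPi_two_compl_iff.1 (isPi_core _ _)))
    (sol_of_pgroup h3.isPGroup)
  rintro z ⟨hz, hz'⟩
  obtain ⟨g, hg, rfl⟩ := (PHom.mem_im_of_le h1.2).1 hz
  have h4 : g ∈ N[C[D] ⊔ S] := le_norm_sup_of_quo (A := zpowers g) (zpowers_le.2 (h1.2 hg))
    (hS.trans h1.2) (by
      rw [PHom.im_zpowers (h1.2 hg)]; exact zpowers_le.2 hz') (mem_zpowers g)
  have h5 : C[D] ⊔ S ≤ N[D] := sup_le h1.1 hS
  have h6 := IsSylowIn.frattini (K := C[D] ⊔ S) (L := N[D] ⊓ N[C[D] ⊔ S])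
    ⟨le_inf h5 (le_norm_self _), inf_le_right⟩ (h2.mono le_sup_right h5)
  have h7 : g ∈ (C[D] ⊔ S) ⊔ (N[D] ⊓ N[C[D] ⊔ S] ⊓ N[(S : Subgroup G)]) := h6.ge ⟨hg, h4⟩
  obtain ⟨k, hk, n, hn, rfl⟩ := (mem_sup_of_norm (inf_le_left.trans inf_le_right)).1 h7
  rw [PHom.map_mul (h1.2 (h5 hk)) (h1.2 hn.1.1)]
  refine mul_mem ?_ ?_
  · have : quo C[D] k ∈ (quo C[D]).im (C[D] ⊔ S) := PHom.apply_mem_im hk
    rw [quo_im_sup_left (hS.trans h1.2)] at this
    exact le_cent_of_abel (PHom.isMulCommutative_im _ (h.abel S)) this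
  · rw [mem_cent_iff]
    intro z hz
    obtain ⟨s, hs, rfl⟩ := (PHom.mem_im_of_le (hS.trans h1.2)).1 hz
    rw [← PHom.map_mul (h1.2 (hS hs)) (h1.2 hn.1.1), ← PHom.map_mul (h1.2 hn.1.1) (h1.2 (hS hs)),
      quo_eq_iff' (h1.2 (mul_mem (hS hs) hn.1.1)) (h1.2 (mul_mem hn.1.1 (hS hs))), mul_inv_rev,
      ← mul_assoc]
    exact h.comm_mem_cent hD hS hn.1.1 hn.2 hs

theorem pgroup_of_odd (hnc : ¬ IsCyclic (S : Subgroup G)) (ho : Odd (Nat.card X))
    (hS : (S : Subgroup G) ≤ N[X]) : IsPGroup r X := by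
  have := Fact.mk h.prime
  refine IsPi.isPGroup (fun p hp hd => ?_) h.prime
  have := Fact.mk hp
  obtain ⟨P, hP, hn⟩ := coprime_Sylow_exists p hS (by
    obtain ⟨k, hk⟩ := IsPGroup.iff_card.1 S.2
    rw [hk]
    exact (Nat.coprime_two_right.2 ho).pow_right k) (sol_of_odd ho)
  obtain ⟨a, ha, a1, h1⟩ := exists_cent1_ne_bot_of_not_cyclic (h.abel S) hnc hn (hP.ne_bot hd)
  obtain ⟨y, hy, y1⟩ := exists_ne_one_of_ne_bot h1
  have h2 := h.pow_r_of_comm a1 (h.sq_sylow ha)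
    (ho.of_dvd_nat (orderOf_dvd_card_of_mem (hP.le hy.1))) (mem_cent1_iff.1 hy.2)
  exact (hP.isPGroup.prime_eq h.prime (h.orderOf_eq_r h2 y1 ▸ orderOf_dvd_card_of_mem hy.1)).symm

end OC

end Cfsg.Agent.H3
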