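import Cfsg.Agent.H3.OC1
import Cfsg.Agent.H5.BSWMain
import Cfsg.Agent.H7.SelfNormCent

/-!
# Groups whose only composite element order is `2 r`: maximal invariant `r`-subgroups
-/

set_option autoImplicit false
set_option linter.unusedSectionVars false

namespace Cfsg.Agent.H3

open Subgroup Cfsg.Agent.H7 Cfsg.Agent.H5
open MulAut (conj)
open scoped Pointwise commutatorElement

universe u v
variable {G : Type u} [Group G] [Finite G]

/-- maximal `S`-invariant `r`-subgroups -/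
def MaxInv (r : ℕ) (S U : Subgroup G) : Prop :=
  (IsPGroup r U ∧ S ≤ N[U]) ∧ ∀ V : Subgroup G, IsPGroup r V ∧ S ≤ N[V] → U ≤ V → V = U

theorem exists_maxInv {r : ℕ} {S D : Subgroup G} (hD : IsPGroup r D) (hS : S ≤ N[D]) :
    ∃ U, D ≤ U ∧ MaxInv r S U :=
  exists_maximal_ge (P := fun V => IsPGroup r V ∧ S ≤ N[V]) ⟨hD, hS⟩

theorem MaxInv.smul {r : ℕ} {S U : Subgroup G} (h : MaxInv r S U) {g : G} (hg : g ∈ N[S]) :
    MaxInv r S (conj g • U) := by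
  refine ⟨⟨h.1.1.conj_smul g, conj_smul_of_norm hg ▸ le_norm_smul h.1.2 g⟩, fun V hV hle => ?_⟩
  rw [← h.2 (conj g⁻¹ • V) ⟨hV.1.conj_smul _, conj_smul_of_norm (inv_mem hg) ▸ le_norm_smul hV.2 g⁻¹⟩
    (conj_smul_le_iff_le_inv.1 hle), H7.conj_smul_inv_smul]

theorem exists_norm_conj {p : ℕ} [Fact p.Prime] {S : Sylow p G}
    (hab : IsMulCommutative (S : Subgroup G)) {x g : G} (hx : x ∈ (S : Subgroup G))
    (hy : g * x * g⁻¹ ∈ (S : Subgroup G)) :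
    ∃ n ∈ N[(S : Subgroup G)], n * x * n⁻¹ = g * x * g⁻¹ := by
  obtain ⟨n, hn, e⟩ := S.conj_eq_normalizer_conj_of_mem x g⁻¹ hx (by rwa [inv_inv])
  exact ⟨n⁻¹, inv_mem hn, by rw [inv_inv] at e ⊢; exact e.symm⟩

/-- focal subgroup argument for an abelian Sylow subgroup of a simple group -/
theorem sylow_le_of_simple [IsSimpleGroup G] (hG : ∃ x y : G, x * y ≠ y * x) {p : ℕ}
    [Fact p.Prime] {S : Sylow p G} (hab : IsMulCommutative (S : Subgroup G)) {M : Subgroup G}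
    (hM : ∀ x ∈ (S : Subgroup G), ∀ n ∈ N[(S : Subgroup G)], x⁻¹ * (n * x * n⁻¹) ∈ M) :
    (S : Subgroup G) ≤ M := fun x hx => by
  refine H7.mem_of_pow_mem_of_coprime ?_ (pow_index_mem_of_simple hG (fun y hy u hu => ?_) hx)
  · obtain ⟨k, hk⟩ := S.2.orderOf_eq hx
    rw [hk]
    exact ((Nat.Prime.coprime_iff_not_dvd Fact.out).2 S.not_dvd_index).pow_left k
  · obtain ⟨n, hn, e⟩ := exists_norm_conj hab hy hu
    exact e ▸ hM y hy n hn

namespace OC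

variable {r : ℕ} (h : OC G r) {S : Sylow 2 G} {x y g t : G} {D U V W X L : Subgroup G}
  (hnc : ¬ IsCyclic (S : Subgroup G))
include h

theorem isPi_of_pgroup (hD : IsPGroup r D) : IsPi {2}ᶜ D :=
  isPi_two_compl_iff.2 (h.odd_of_pgroup hD)

theorem le_core (hs : Group.IsSolvable L) (hS : (S : Subgroup G) ≤ L) (hX : X ≤ L)
    (hp : IsPGroup r X) (hn : (S : Subgroup G) ≤ N[X]) : X ≤ O[{2}ᶜ] L :=
  le_core_of_abel hs ((isSylowIn_top S).mono hS le_top) (h.abel S) hX (h.isPi_of_pgroup hp) hn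

theorem le_cent1 (ht : t ∈ (S : Subgroup G)) : (S : Subgroup G) ≤ C₁[t] :=
  fun _ hx => mem_cent1_iff.2 (h.comm_sylow hx ht)

include hnc

theorem core_inv (hS : (S : Subgroup G) ≤ L) :
    IsPGroup r (O[{2}ᶜ] L) ∧ (S : Subgroup G) ≤ N[O[{2}ᶜ] L] :=
  have := hS.trans (core_normalIn {2}ᶜ L).2
  ⟨h.pgroup_of_odd hnc (isPi_two_compl_iff.1 (isPi_core _ _)) this, this⟩

theorem maxInv_eq (hU : MaxInv r S U) (hV : MaxInv r S V) (h1 : U ⊓ V ≠ ⊥) : U = V := by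
  have := Fact.mk h.prime
  by_contra h2
  obtain ⟨D, ⟨U, V, hU, hV, h1, h2, rfl⟩, h3⟩ := exists_max_card (P := fun D => ∃ U V : Subgroup G,
    MaxInv r S U ∧ MaxInv r S V ∧ U ⊓ V ≠ ⊥ ∧ U ≠ V ∧ D = U ⊓ V) ⟨U, V, hU, hV, h1, h2, rfl⟩
  have h4 := le_norm_inf hU.1.2 hV.1.2
  have h5 := h.sol_norm (hU.1.1.to_le inf_le_left) h1 h4
  obtain ⟨W, h6, hW⟩ := exists_maxInv (h.core_inv hnc h4).1 (h.core_inv hnc h4).2
  have key : ∀ U' : Subgroup G, MaxInv r S U' → U ⊓ V < U' → U' = W := fun U' hU' hlt => by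
    by_contra h7
    have h8 := lt_inf_norm_of_nil (nil_of_pgroup hU'.1.1) hlt
    have h9 : U' ⊓ N[U ⊓ V] ≤ U' ⊓ W := le_inf inf_le_left ((h.le_core h5 h4 inf_le_right
      (hU'.1.1.to_le inf_le_left) (le_norm_inf hU'.1.2 (le_norm_norm h4))).trans h6)
    have h10 := h8.trans_le h9
    exact (card_lt_of_lt h10).not_ge (h3 _ ⟨U', W, hU', hW, ne_bot_of_gt h10, h7, rfl⟩)
  refine h2 ((key U hU (inf_lt_left.2 fun e => h2 (hU.2 V hV.1 e).symm)).trans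
    (key V hV (inf_lt_right.2 fun e => h2 (hV.2 U hU.1 e))).symm)

theorem le_maxInv (hU : MaxInv r S U) (hD : IsPGroup r D) (hS : (S : Subgroup G) ≤ N[D])
    (h1 : D ⊓ U ≠ ⊥) : D ≤ U := by
  obtain ⟨V, h2, hV⟩ := exists_maxInv hD hS
  rwa [h.maxInv_eq hnc hU hV fun e => h1 (inf_eq_bot_mono (inf_comm U V ▸ e) h2 le_rfl)]

theorem core_le_maxInv (hU : MaxInv r S U) (hs : Group.IsSolvable L) (hS : (S : Subgroup G) ≤ L)
    (h1 : U ⊓ L ≠ ⊥) (hn : (S : Subgroup G) ≤ N[U ⊓ L]) : O[{2}ᶜ] L ≤ U :=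
  h.le_maxInv hnc hU (h.core_inv hnc hS).1 (h.core_inv hnc hS).2 fun e => h1 (le_bot_iff.1
    ((le_inf (h.le_core hs hS inf_le_right (hU.1.1.to_le inf_le_left) hn) inf_le_left).trans e.le))

theorem maxInv_eq_of_cent (hU : MaxInv r S U) (hV : MaxInv r S V) (ht : t ∈ (S : Subgroup G))
    (t1 : t ≠ 1) (h1 : U ⊓ C₁[t] ≠ ⊥) (h2 : V ⊓ C₁[t] ≠ ⊥) : U = V := by
  have hs := h.sol_cent1 t1 (.inl (h.sq_sylow ht))
  have h3 := le_norm_cent1 (h.le_cent1 ht)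
  have h4 := h.core_le_maxInv hnc hU hs (h.le_cent1 ht) h1 (le_norm_inf hU.1.2 h3)
  have h5 := h.le_core (X := V ⊓ C₁[t]) hs (h.le_cent1 ht) inf_le_right (hV.1.1.to_le inf_le_left)
    (le_norm_inf hV.1.2 h3)
  exact h.maxInv_eq hnc hU hV fun e => h2 (le_bot_iff.1 ((le_inf (h5.trans h4) inf_le_left).trans
    e.le))

omit hnc in
theorem coprime_sylow (hU : IsPGroup r U) : (Nat.card U).Coprime (Nat.card (S : Subgroup G)) := by
  obtain ⟨k, hk⟩ := IsPGroup.iff_card.1 S.2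
  rw [hk]
  exact (Nat.coprime_two_right.2 (h.odd_of_pgroup hU)).pow_right k

omit hnc in
theorem exists_hyperplane (hU : IsPGroup r U) (hS : (S : Subgroup G) ≤ N[U]) (h1 : U ≠ ⊥) :
    ∃ B ≤ (S : Subgroup G), B.relIndex S ≤ 2 ∧ U ⊓ C[B] ≠ ⊥ := by
  have := Fact.mk h.prime
  by_contra! h2
  refine h1 (le_bot_iff.1 (coprime_abelian_gen_cent (h.abel S) hS (h.coprime_sylow hU)
    (sol_of_pgroup hU) fun B hB hc => (h2 B hB ?_).le))
  have h3 : (S : Subgroup G) ≤ N[B] := le_norm_of_le_abel (h.abel S) le_rfl hB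
  rw [← card_quo h3]
  exact Nat.le_of_dvd two_pos (((Abelem.mk' (h.abel S) fun x hx => by
    rw [sq, h.sq_sylow hx]).im _).card_dvd_of_cyclic hc)

theorem card_eq_four (hU : MaxInv r S U) (hV : MaxInv r S V) (hUV : U ≠ V) :
    Nat.card (S : Subgroup G) = 4 := by
  obtain ⟨B, hB, b1, b2⟩ := h.exists_hyperplane hU.1.1 hU.1.2 fun e =>
    hUV (hU.2 V hV.1 (e ▸ bot_le)).symm
  obtain ⟨B', hB', b3, b4⟩ := h.exists_hyperplane hV.1.1 hV.1.2 fun e =>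
    hUV (hV.2 U hU.1 (e ▸ bot_le))
  have h1 : B ⊓ B' = ⊥ := by
    by_contra h1
    obtain ⟨t, ht, t1⟩ := exists_ne_one_of_ne_bot h1
    exact hUV (h.maxInv_eq_of_cent hnc hU hV (hB ht.1) t1
      (fun e => b2 (inf_eq_bot_mono e le_rfl (cent_le_cent1 ht.1)))
      (fun e => b4 (inf_eq_bot_mono e le_rfl (cent_le_cent1 ht.2))))
  have h2 := relIndex_inf_le (H := B) (K := B') (L := S)
  rw [h1, relIndex_bot_left] at h2
  have h3 : Nat.card (S : Subgroup G) ≤ 4 := h2.trans (Nat.mul_le_mul b1 b3)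
  obtain ⟨k, hk⟩ := IsPGroup.iff_card.1 S.2
  rw [hk] at h3 ⊢
  rcases k with _ | _ | _ | k
  · exact absurd (isCyclic_of_card_dvd_prime (p := 2) (by simp [hk])) hnc
  · exact absurd (isCyclic_of_card_dvd_prime (p := 2) (by simp [hk])) hnc
  · rfl
  · have := Nat.two_pow_pos k
    simp only [pow_succ] at h3
    omega

theorem sylow_le_cent [IsSimpleGroup G] (hG : ∃ x y : G, x * y ≠ y * x) (hW : MaxInv r S W)
    (hu : ∀ U, MaxInv r S U → U = W) : (S : Subgroup G) ≤ C[W] := by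
  refine sylow_le_of_simple hG (h.abel S) fun x hx n hn => ?_
  have := h.comm_mem_cent hW.1.1 hW.1.2 (mem_norm_of_conj_smul_eq (hu _ (hW.smul hn))) hn
    (inv_mem hx)
  rwa [inv_inv, mul_assoc, mul_assoc, ← mul_assoc n] at this

end OC

end Cfsg.Agent.H3
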