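import Cfsg.Agent.H3.OC2

/-!
# Groups whose only composite element order is `2 r`: the case of a four-group
-/

set_option autoImplicit false
set_option linter.unusedSectionVars false

namespace Cfsg.Agent.H3

open Subgroup Cfsg.Agent.H7 Cfsg.Agent.H5
open MulAut (conj)
open scoped Pointwise commutatorElement

universe u v
variable {G : Type u} [Group G] [Finite G]

theorem four_cases {S : Subgroup G} (hc : Nat.card S = 4) {t s x : G} (ht : t ∈ S) (hs : s ∈ S)
    (t1 : t ≠ 1) (s1 : s ≠ 1) (hst : s ≠ t) (t2 : t * t = 1) (hx : x ∈ S) :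
    x = 1 ∨ x = t ∨ x = s ∨ x = s * t := by
  classical
  by_contra! h
  obtain ⟨h1, h2, h3, h4⟩ := h
  have h5 : s * t ≠ 1 := fun e => hst (by
    rw [eq_inv_of_mul_eq_one_left e, inv_eq_of_mul_eq_one_left t2])
  have h6 : s * t ≠ t := by simpa using s1
  have h7 : s * t ≠ s := by simpa using t1
  have h8 := Set.ncard_le_ncard (s := (({x, s * t, s, t, 1} : Finset G) : Set G)) (t := S) (by
    intro y hy
    simp only [Finset.coe_insert, Finset.coe_singleton, Set.mem_insert_iff,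
      Set.mem_singleton_iff] at hy
    rcases hy with rfl | rfl | rfl | rfl | rfl
    exacts [hx, mul_mem hs ht, hs, ht, one_mem _])
  rw [Set.ncard_coe_finset, ← Nat.card_coe_set_eq, show Nat.card (S : Set G) = 4 from hc,
    Finset.card_insert_of_notMem (by simp [h1, h2, h3, h4]),
    Finset.card_insert_of_notMem (by simp [h5, h6, h7]),
    Finset.card_insert_of_notMem (by simp [s1, hst]),
    Finset.card_insert_of_notMem (by simp [t1])] at h8
  simp at h8

theorem conj_ne_one {g x : G} (h : x ≠ 1) : g * x * g⁻¹ ≠ 1 := by simpa using h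

theorem conj_inj {g x y : G} (h : g * x * g⁻¹ = g * y * g⁻¹) : x = y := by simpa using h

namespace OC

variable {r : ℕ} (h : OC G r) {S : Sylow 2 G} {x y g t s : G} {D U V W X L : Subgroup G}
  (hnc : ¬ IsCyclic (S : Subgroup G)) [IsSimpleGroup G] (hG : ∃ x y : G, x * y ≠ y * x)
include h hnc hG

theorem four_conj (hc : Nat.card (S : Subgroup G) = 4) (ht : t ∈ (S : Subgroup G)) (t1 : t ≠ 1)
    (hs : s ∈ (S : Subgroup G)) (s1 : s ≠ 1) : ∃ n ∈ N[(S : Subgroup G)], n * t * n⁻¹ = s := by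
  have key : ∀ t ∈ (S : Subgroup G), t ≠ 1 → ∃ n ∈ N[(S : Subgroup G)], n * t * n⁻¹ ≠ t := by
    intro t ht t1
    by_contra! h1
    refine hnc (cyclic_of_le (cyclic_zpowers t) (sylow_le_of_simple hG (h.abel S) fun x hx n hn => ?_))
    by_cases x1 : x = 1
    · simp [x1]
    by_cases x2 : x = t
    · rw [x2, h1 n hn]; simp
    rcases four_cases hc ht hx t1 x1 x2 (h.sq_sylow ht) (conj_mem_of_norm hn hx) with e | e | e | e
    · exact absurd e (conj_ne_one x1)
    · exact absurd (conj_inj (e.trans (h1 n hn).symm)) x2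
    · simp [e]
    · simp [e]
  by_cases hst : s = t
  · exact ⟨1, one_mem _, by simp [hst]⟩
  obtain ⟨n, hn, e1⟩ := key t ht t1
  obtain ⟨m, hm, e2⟩ := key s hs s1
  rcases four_cases hc ht hs t1 s1 hst (h.sq_sylow ht) (conj_mem_of_norm hn ht) with e | e | e | e
  · exact absurd e (conj_ne_one t1)
  · exact absurd e e1
  · exact ⟨n, hn, e⟩
  rcases four_cases hc ht hs t1 s1 hst (h.sq_sylow ht) (conj_mem_of_norm hm hs) with
    e' | e' | e' | e'
  · exact absurd e' (conj_ne_one s1)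
  · exact ⟨m⁻¹, inv_mem hm, by rw [← e']; group⟩
  · exact absurd e' e2
  · refine ⟨m⁻¹ * n, mul_mem (inv_mem hm) hn, ?_⟩
    calc m⁻¹ * n * t * (m⁻¹ * n)⁻¹ = m⁻¹ * (n * t * n⁻¹) * m := by group
      _ = s := by rw [e, ← e']; group

variable (h2 : ∃ U V : Subgroup G, MaxInv r S U ∧ MaxInv r S V ∧ U ≠ V)
include h2

theorem four_unique (hU : MaxInv r S U) (ht : t ∈ (S : Subgroup G)) (t1 : t ≠ 1)
    (hs : s ∈ (S : Subgroup G)) (s1 : s ≠ 1) (h3 : U ⊓ C₁[t] ≠ ⊥) (h4 : U ⊓ C₁[s] ≠ ⊥) : s = t := by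
  by_contra hst
  obtain ⟨V, hV, hUV⟩ : ∃ V : Subgroup G, MaxInv r S V ∧ U ≠ V := by
    obtain ⟨U', V', h5, h6, h7⟩ := h2
    by_cases e : U = U'
    exacts [⟨V', h6, e ▸ h7⟩, ⟨U', h5, e⟩]
  have hc := h.card_eq_four hnc hU hV hUV
  obtain ⟨a, ha, a1, h5⟩ := exists_cent1_ne_bot_of_not_cyclic (h.abel S) hnc hV.1.2 fun e =>
    hUV (hV.2 U hU.1 (e ▸ bot_le))
  obtain ⟨n, hn, e⟩ := h.four_conj hnc hG hc ht t1 ha a1
  have h6 : ∀ y, U ⊓ C₁[y] ≠ ⊥ → conj n • U ⊓ C₁[n * y * n⁻¹] ≠ ⊥ := fun y hy => by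
    rwa [← conj_smul_cent1, ← conj_smul_inf, Ne, conj_smul_eq_bot]
  have h7 := h.maxInv_eq_of_cent hnc (hU.smul hn) hV ha a1 (e ▸ h6 t h3) h5
  have h8 := h7 ▸ h6 s h4
  have h9 : a = s * t := by
    rcases four_cases hc ht hs t1 s1 hst (h.sq_sylow ht) ha with e' | e' | e' | e'
    · exact absurd e' a1
    · exact absurd (h.maxInv_eq_of_cent hnc hU hV ht t1 h3 (e' ▸ h5)) hUV
    · exact absurd (h.maxInv_eq_of_cent hnc hU hV hs s1 h4 (e' ▸ h5)) hUV
    · exact e'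
  rcases four_cases hc ht hs t1 s1 hst (h.sq_sylow ht) (conj_mem_of_norm hn hs) with
    e' | e' | e' | e'
  · exact absurd e' (conj_ne_one s1)
  · exact hUV (h.maxInv_eq_of_cent hnc hU hV ht t1 h3 (e' ▸ h8))
  · exact hUV (h.maxInv_eq_of_cent hnc hU hV hs s1 h4 (e' ▸ h8))
  · exact hst (conj_inj (e'.trans (h9.symm.trans e.symm)))

theorem exists_bsw : ∃ (U : Subgroup G) (t s : G), IsPGroup r U ∧ U ≠ ⊥ ∧
    Nat.card ↥(U ⊔ zpowers t) = Nat.card U * 2 ∧ BSW (U ⊔ zpowers t) t s := by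
  have := Fact.mk h.prime
  obtain ⟨U, V, hU, hV, hUV⟩ := id h2
  have hc := h.card_eq_four hnc hU hV hUV
  have U1 : U ≠ ⊥ := fun e => hUV (hU.2 V hV.1 (e ▸ bot_le)).symm
  obtain ⟨t, ht, t1, h3⟩ := exists_cent1_ne_bot_of_not_cyclic (h.abel S) hnc hU.1.2 U1
  have t2 := h.sq_sylow ht
  have h4 : U ≤ C₁[t] := coprime_abelian_gen_cent1 (h.abel S) hnc hU.1.2 (h.coprime_sylow hU.1.1)
    (sol_of_pgroup hU.1.1) fun a ha a1 => by
      by_cases e : U ⊓ C₁[a] = ⊥
      · simp [e]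
      · rw [h.four_unique hnc hG h2 hU ht t1 ha a1 h3 e]; exact inf_le_right
  obtain ⟨s, hs, h5⟩ := SetLike.not_le_iff_exists.1 fun e : (S : Subgroup G) ≤ zpowers t =>
    hnc (cyclic_of_le (cyclic_zpowers t) e)
  have s1 : s ≠ 1 := fun e => h5 (e ▸ one_mem _)
  have hst : s ≠ t := fun e => h5 (e ▸ mem_zpowers _)
  have s2 := h.sq_sylow hs
  have h6 : ∀ u ∈ U, s * u * s⁻¹ = u⁻¹ := fun u hu => inverts_of_fpf_involution s2
    (fun u hu => conj_mem_of_norm (hU.1.2 hs) hu) (fun u hu e => by_contra fun u1 => hst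
      (h.four_unique hnc hG h2 hU ht t1 hs s1 h3 (ne_bot_of_mem ⟨hu, mem_cent1_iff.2 e.symm⟩ u1))) hu
  have h7 : ∀ u ∈ U, t * u * t⁻¹ = u := fun u hu => by
    rw [← mem_cent1_iff.1 (h4 hu), mul_inv_cancel_right]
  have h8 : ∀ x ∈ C[(S : Subgroup G)], Odd (orderOf x) → x = 1 := fun x hx ho => by
    by_contra x1
    obtain ⟨W, h8, hW⟩ := exists_maxInv (S := S) (isPGroup_zpowers (k := 1) (by
      rw [pow_one]; exact h.pow_r_of_comm t1 t2 ho (comm_of_mem_cent hx ht).symm))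
      (le_norm_zpowers (le_cent1_iff.2 hx))
    exact hst (h.four_unique hnc hG h2 hW ht t1 hs s1
      (ne_bot_of_mem ⟨h8 (mem_zpowers x), cent_le_cent1 ht hx⟩ x1)
      (ne_bot_of_mem ⟨h8 (mem_zpowers x), cent_le_cent1 hs hx⟩ x1))
  have h9 : ∀ D ≤ U, (S : Subgroup G) ≤ N[D] := fun D hD a ha => mem_norm_of_conj fun d hd => by
    rcases four_cases hc ht hs t1 s1 hst t2 ha with e | e | e | e
    · simpa [e] using hd
    · rwa [e, h7 d (hD hd)]
    · rw [e, h6 d (hD hd)]; exact inv_mem hd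
    · rw [e, show s * t * d * (s * t)⁻¹ = s * (t * d * t⁻¹) * s⁻¹ by group, h7 d (hD hd),
        h6 d (hD hd)]
      exact inv_mem hd
  have h10 : ∀ D ≤ U, D ≠ ⊥ → N[D] ≤ U ⊔ S := fun D hD D1 => by
    have hp := hU.1.1.to_le hD
    have hs' := h.sol_norm hp D1 (h9 D hD)
    rw [← core_sup_norm_of_abel hs' ((isSylowIn_top S).mono (h9 D hD) le_top) (h.abel S)]
    refine sup_le_sup (h.core_le_maxInv hnc hU hs' (h9 D hD) (fun e => D1 (le_bot_iff.1
      ((le_inf hD (le_norm_self D)).trans e.le))) (h9 _ inf_le_left)) fun g hg => ?_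
    obtain ⟨a, ha, x, hx, ho, e⟩ := h.exists_decomp hg.2
    have x1 := zpowers_le.2 hg.1 hx
    have x2 := zpowers_le.2 hg.2 hx
    have k1 : ∀ y ∈ (S : Subgroup G), x * y * x⁻¹ = y ∨ x * y * x⁻¹ = y * t := fun y hy => by
      have k2 := h.comm_mem_cent hp (h9 D hD) x1 x2 (inv_mem hy)
      rw [inv_inv, mul_assoc, mul_assoc, ← mul_assoc x] at k2
      refine or_iff_not_imp_left.2 fun k3 => ?_
      obtain ⟨d, hd, d1⟩ := exists_ne_one_of_ne_bot D1
      rw [← h.four_unique hnc hG h2 hU ht t1 (mul_mem (inv_mem hy) (conj_mem_of_norm x2 hy))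
        (fun e => k3 (inv_mul_eq_one.1 e).symm) h3
        (ne_bot_of_mem ⟨hD hd, mem_cent1_comm.1 (cent_le_cent1 hd k2)⟩ d1), mul_inv_cancel_left]
    have k2 : x * t * x⁻¹ = t := (k1 t ht).resolve_right (t2 ▸ conj_ne_one t1)
    have k3 : x * x = 1 := h8 _ (mem_cent_of_conj_eq fun y hy => by
      rw [show x * x * y * (x * x)⁻¹ = x * (x * y * x⁻¹) * x⁻¹ by group]
      rcases k1 y hy with e | e
      · rw [e, e]
      · rw [e, show x * (y * t) * x⁻¹ = x * y * x⁻¹ * (x * t * x⁻¹) by group, e, k2, mul_assoc, t2,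
          mul_one]) (ho.of_dvd_nat (sq x ▸ orderOf_pow_dvd 2))
    rwa [e, (twoEl_of_sq k3).eq_one_of_odd ho, mul_one]
  have h11 : zpowers t ≤ N[U] := zpowers_le.2 (hU.1.2 ht)
  have h12 : ∀ x ∈ U ⊔ zpowers t, ∃ u ∈ U, x = u ∨ x = u * t := fun x hx => by
    obtain ⟨u, hu, b, hb, rfl⟩ := (mem_sup_of_norm h11).1 hx
    rcases four_cases hc ht hs t1 s1 hst t2 (zpowers_le.2 ht hb) with e | e | e | e
    · exact ⟨u, hu, .inl (by simp [e])⟩
    · exact ⟨u, hu, .inr (by rw [e])⟩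
    · exact absurd (e ▸ hb) h5
    · exact absurd ((mul_mem_cancel_right (mem_zpowers t)).1 (e ▸ hb)) h5
  have h13 : ∀ u ∈ U, u * u = 1 → u = 1 := fun u hu e => (twoEl_of_sq e).eq_one_of_odd
    ((h.odd_of_pgroup hU.1.1).of_dvd_nat (orderOf_dvd_card_of_mem hu))
  have h14 : ∀ u ∈ U, u * t = t * u := fun u hu => mem_cent1_iff.1 (h4 hu)
  have h15 : ∀ x ∈ U ⊔ zpowers t, s * x * s⁻¹ = x⁻¹ := fun x hx => by
    obtain ⟨u, hu, rfl | rfl⟩ := h12 x hx
    · exact h6 _ hu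
    · rw [show s * (u * t) * s⁻¹ = s * u * s⁻¹ * (s * t * s⁻¹) by group, h6 u hu,
        h.comm_sylow hs ht, mul_inv_cancel_right, h14 u hu, mul_inv_rev, h.inv_sylow ht]
  have h16 : ∀ u ∈ U, (u * t) ^ r = t := fun u hu => by
    obtain ⟨k, hk⟩ := h.odd
    rw [(show Commute u t from h14 u hu).mul_pow, h.pow_r_of_pgroup hU.1.1 hu, one_mul, hk,
      pow_succ, pow_mul, sq, t2, one_pow, one_mul]
  have h17 : C₁[t] ≤ U ⊔ S := by
    have hs' := h.sol_cent1 t1 (.inl t2)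
    refine le_trans ?_ (h10 U le_rfl U1)
    rw [← le_antisymm (h.core_le_maxInv hnc hU hs' (h.le_cent1 ht) h3 (h9 _ inf_le_left))
      (h.le_core hs' (h.le_cent1 ht) h4 hU.1.1 hU.1.2)]
    exact (core_normalIn _ _).2
  have hcard : Nat.card ↥(U ⊔ zpowers t) = Nat.card U * 2 := by
    rw [card_sup_of_inf_eq_bot h11 (inf_eq_bot_of_forall fun x hx hx' =>
      h13 x hx (h.sq_sylow (zpowers_le.2 ht hx'))), Nat.card_zpowers,
      orderOf_eq_two_iff'.2 ⟨t1, t2⟩]
  refine ⟨U, t, s, hU.1.1, U1, hcard, ⟨fun x hx y hy => comm_of_inverts' h15 hx hy,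
    mem_sup_right (mem_zpowers t), t1, t2, fun e => ?_, s2, h15, fun g x hx x1 hgx => ?_,
    fun u u1 u2 => ?_, ?_⟩⟩
  · obtain ⟨u, hu, e | e⟩ := h12 s e
    · exact s1 (h13 s (e ▸ hu) s2)
    · have : u = s * t := by rw [e, mul_assoc, t2, mul_one]
      exact hst (by
        rw [e, h13 u hu (this ▸ h.sq_sylow (mul_mem hs ht)), one_mul])
  · have : g ∈ U ⊔ S := by
      obtain ⟨u, hu, e | e⟩ := h12 x hx
      · subst e
        obtain ⟨u', hu', e' | e'⟩ := h12 _ hgx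
        · have k1 : conj g • U ≤ U ⊔ S := by
            refine le_trans ?_ (h10 (zpowers u') (zpowers_le.2 hu') (by
              rw [← e', Ne, zpowers_eq_bot]; exact conj_ne_one x1))
            rw [← e', ← conj_smul_zpowers]
            exact le_norm_smul (le_norm_zpowers fun y hy => mem_cent1_iff.2
              (comm_of_inverts' h6 hy hu)) g
          exact h10 U le_rfl U1 (mem_norm_of_conj_smul_le ((IsSylowIn.le_of_normal (p := r)
            (((hallIn_sup_left (π := {r}) hU.1.1.isPi_self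
              (S.2.isPi_compl h.ne.symm) hU.1.2)).sylow) (sup_le (le_norm_self U) hU.1.2) k1
              (hU.1.1.conj_smul g))))
        · have k1 := h16 u' hu'
          rw [← e', conj_pow, h.pow_r_of_pgroup hU.1.1 hu] at k1
          exact absurd (by simpa using k1.symm) t1
      · subst e
        obtain ⟨u', hu', e' | e'⟩ := h12 _ hgx
        · have k1 := h.pow_r_of_pgroup hU.1.1 hu'
          rw [← e', conj_pow, h16 u hu] at k1
          exact absurd k1 (conj_ne_one t1)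
        · have k1 := h16 u' hu'
          rw [← e', conj_pow, h16 u hu] at k1
          exact h17 (mem_cent1_iff.2 (mul_inv_eq_iff_eq_mul.1 k1))
    obtain ⟨u, hu, b, hb, rfl⟩ := (mem_sup_of_norm hU.1.2).1 this
    have k1 : u ∈ U ⊔ zpowers t := mem_sup_left hu
    have k2 : t ∈ U ⊔ zpowers t := mem_sup_right (mem_zpowers t)
    rcases four_cases hc ht hs t1 s1 hst t2 hb with e | e | e | e
    · exact .inl (by simpa [e] using k1)
    · exact .inl (by rw [e]; exact mul_mem k1 k2)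
    · exact .inr (by rwa [e, mul_assoc, s2, mul_one])
    · exact .inr (by rw [e, h.comm_sylow hs ht, mul_assoc, mul_assoc, s2, mul_one]; exact mul_mem k1 k2)
  · obtain ⟨b, hb⟩ := (twoEl_of_sq u2).exists_sylow
    obtain ⟨g, rfl⟩ := MulAction.exists_smul_eq G S b
    obtain ⟨n, -, e⟩ := h.four_conj hnc hG hc ht t1 (sylow_mem_smul.1 hb)
      (by simpa using conj_ne_one (g := g⁻¹) u1)
    exact isConj_iff.2 ⟨g * n, by
      rw [show g * n * t * (g * n)⁻¹ = g * (n * t * n⁻¹) * g⁻¹ by group, e]; group⟩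
  · have := one_lt_card_of_ne_bot U1
    omega

end OC

end Cfsg.Agent.H3
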