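import Cfsg.Agent.H3.OC2

/-!
# Groups whose only composite element order is `2 r`: odd order groups transitive on an
elementary abelian `2`-group
-/

set_option autoImplicit false
set_option linter.unusedSectionVars false

namespace Cfsg.Agent.H3

open Subgroup Cfsg.Agent.H7 Cfsg.Agent.H5
open MulAut (conj)
open scoped Pointwise commutatorElement

universe u v
variable {G : Type u} [Group G] [Finite G]

theorem relIndex_cent1_eq (Y : Subgroup G) (t : G) :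
    (C₁[t]).relIndex Y = {w | ∃ y ∈ Y, y * t * y⁻¹ = w}.ncard := by
  have : C₁[t] = comap (ConjAct.toConjAct (G := G)).toMonoidHom
      (MulAction.stabilizer (ConjAct G) t) := centralizer_eq_comap_stabilizer t
  rw [this, relIndex_comap, relIndex_stabilizer]
  congr 1
  ext w
  constructor
  · rintro ⟨⟨_, y, hy, rfl⟩, rfl⟩
    exact ⟨y, hy, rfl⟩
  · rintro ⟨y, hy, rfl⟩
    exact ⟨⟨_, y, hy, rfl⟩, rfl⟩

theorem relIndex_cent1_of_trans {V Y : Subgroup G} (hn : Y ≤ N[V]) {t : G} (ht : t ∈ V) (t1 : t ≠ 1)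
    (h : ∀ w ∈ V, w ≠ 1 → ∃ y ∈ Y, y * t * y⁻¹ = w) :
    (C₁[t]).relIndex Y + 1 = Nat.card V := by
  rw [relIndex_cent1_eq, show {w | ∃ y ∈ Y, y * t * y⁻¹ = w} = (V : Set G) \ {1} from
    Set.ext fun w => ⟨fun ⟨y, hy, e⟩ => e ▸ ⟨conj_mem_of_norm (hn hy) ht, by simpa using t1⟩,
      fun hw => h w hw.1 hw.2⟩, Set.ncard_sdiff_singleton_add_one (one_mem V)]
  rfl

/-- a normal abelian subgroup of a group transitive on `V^#` is semiregular -/
theorem semiregular_of_trans {V Y A : Subgroup G} (hn : Y ≤ N[V]) (hf : Y ⊓ C[V] = ⊥)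
    (h : ∀ v ∈ V, v ≠ 1 → ∀ w ∈ V, w ≠ 1 → ∃ y ∈ Y, y * v * y⁻¹ = w) (hA : NormalIn A Y)
    (hab : IsMulCommutative A) : Semiregular V A := by
  have h1 : ∀ v ∈ V, v ≠ 1 → ∀ w ∈ V, w ≠ 1 → A ⊓ C₁[v] ≤ A ⊓ C₁[w] → A ⊓ C₁[v] = A ⊓ C₁[w] := by
    intro v hv v1 w hw w1 hle
    obtain ⟨y, hy, rfl⟩ := h v hv v1 w hw w1
    refine eq_of_le_of_card_eq hle ?_
    conv_rhs => rw [← conj_smul_of_norm (hA.2 hy), ← conj_smul_cent1, ← conj_smul_inf,
      card_conj_smul]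
  have h2 : ∀ v ∈ V, ∀ b ∈ A, A ⊓ C₁[v] ≤ A ⊓ C₁[b * v * b⁻¹ * v⁻¹] := fun v hv b hb c hc =>
    ⟨hc.1, mem_cent1_iff.2 (by
      have e1 := mem_cent1_iff.1 hc.2
      have e2 := comm_of_abel hab hc.1 hb
      exact (((show Commute c b from e2).mul_right (show Commute c v from e1)).mul_right
        (show Commute c b from e2).inv_right).mul_right (show Commute c v from e1).inv_right)⟩
  have h3 : ∀ v ∈ V, v ≠ 1 → ∀ w ∈ V, w ≠ 1 → A ⊓ C₁[v] ≤ C₁[w] := by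
    intro v hv v1 w hw w1 b hb
    by_contra h3
    have h4 : b * w * b⁻¹ * w⁻¹ ≠ 1 := fun e => h3 (mem_cent1_iff.2 (by
      rwa [mul_inv_eq_one, mul_inv_eq_iff_eq_mul] at e))
    have h5 := mul_mem (conj_mem_of_norm (hn (hA.1 hb.1)) hw) (inv_mem hw)
    have h6 : b * (w * v) * b⁻¹ * (w * v)⁻¹ = b * w * b⁻¹ * w⁻¹ := by
      calc b * (w * v) * b⁻¹ * (w * v)⁻¹ = b * w * (v * b⁻¹ * v⁻¹ * b) * b⁻¹ * w⁻¹ := by group
        _ = _ := by
          rw [(show Commute b v from mem_cent1_iff.1 hb.2).symm.inv_right.eq]; group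
    have h7 : w * v ≠ 1 := fun e => h4 (by rw [← h6, e]; group)
    have h8 := h1 _ (mul_mem hw hv) h7 _ h5 h4 (h6 ▸ h2 _ (mul_mem hw hv) b hb.1)
    have h9 := h1 _ hw w1 _ h5 h4 (h2 _ hw b hb.1)
    have h10 : A ⊓ C₁[w] ≤ A ⊓ C₁[v] := fun c hc => ⟨hc.1, mem_cent1_iff.2 (by
      have e1 : Commute c (w * v) := mem_cent1_iff.1 (h8.ge (h9.le hc)).2
      have e2 : Commute c w := mem_cent1_iff.1 hc.2
      simpa using (e2.inv_right.mul_right e1).eq)⟩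
    exact h3 ((h1 _ hw w1 _ hv v1 h10).ge hb).2
  intro b hb b1
  refine inf_eq_bot_of_forall fun v hv hc => by_contra fun v1 => b1 (eq_one_of_mem_inf hf (hA.1 hb)
    (mem_cent_iff.2 fun w hw => ?_))
  by_cases w1 : w = 1
  · simp [w1]
  · exact (mem_cent1_iff.1 (h3 v hv v1 w hw w1 ⟨hb, mem_cent1_comm.1 hc⟩)).symm

namespace OC

variable {r : ℕ} (h : OC G r) {x y g t : G} {V Y A : Subgroup G}
include h

theorem quo (N : Subgroup G) : OC (Quo N) r := by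
  refine ⟨h.prime, h.ne, fun z => ?_⟩
  obtain ⟨x, hx, rfl⟩ := quo_surj N z
  have h1 := PHom.orderOf_dvd (f := H7.quo N) hx
  rcases h.ord x with e | e | e
  · exact .inl (Nat.dvd_one.1 (e ▸ h1))
  · rcases (Nat.dvd_prime e).1 h1 with e' | e'
    exacts [.inl e', .inr (.inl (e' ▸ e))]
  · rw [e] at h1
    rcases (Nat.dvd_mul.1 h1) with ⟨a, b, ha, hb, e'⟩
    rcases (Nat.dvd_prime Nat.prime_two).1 ha with rfl | rfl <;>
      rcases (Nat.dvd_prime h.prime).1 hb with rfl | rfl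
    · exact .inl e'.symm
    · exact .inr (.inl (by rw [← e', one_mul]; exact h.prime))
    · exact .inr (.inl (e' ▸ Nat.prime_two))
    · exact .inr (.inr e'.symm)

theorem eq_of_comm_odd (hx : Odd (orderOf x)) (hy : Odd (orderOf y)) (x1 : x ≠ 1) (y1 : y ≠ 1)
    (hc : x * y = y * x) : orderOf x = orderOf y := by
  by_contra h1
  rcases h.primes (h.prime_of_odd hx x1) (h.prime_of_odd hy y1) h1 rfl rfl hc with e | e
  · exact absurd (e.1 ▸ hx) (by simp)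
  · exact absurd (e.2 ▸ hy) (by simp)

theorem card_prime_of_cyclic (ho : Odd (Nat.card A)) (hc : IsCyclic A) (h1 : A ≠ ⊥) :
    (Nat.card A).Prime := by
  obtain ⟨x, rfl⟩ := exists_zpowers_of_cyclic hc
  rw [Nat.card_zpowers] at ho ⊢
  exact h.prime_of_odd ho fun e => h1 (zpowers_eq_bot.2 e)

/-- the Frobenius group `A ⟨x⟩` cannot act faithfully on `V` when `x` acts fixed-point-freely -/
theorem le_cent_of_fpf (hV : ∀ v ∈ V, v * v = 1) (hA : A ≤ N[V]) (ho : Odd (Nat.card A))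
    (hxV : x ∈ N[V]) (hxA : x ∈ N[A]) (hx : Odd (orderOf x)) (x1 : x ≠ 1)
    (hf : ∀ a ∈ A, a * x = x * a → a = 1) (hf' : ∀ v ∈ V, v * x = x * v → v = 1) : A ≤ C[V] := by
  have h2 := h.prime_of_odd hx x1
  have h3 : IsPGroup 2 V := isPGroup_of_forall fun v hv => ⟨1, by rw [pow_one, sq, hV v hv]⟩
  rw [le_cent_iff]
  intro a ha v hv
  refine (H9.frob_norm_solvable V A x hA hxV hxA (orderOf x) h2.pos (fun i i1 i2 a ha hc => ?_)
    (sol_of_pgroup h3) ?_ (fun v hv => ?_) a ha v hv).symm.eq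
  · obtain ⟨k, hk⟩ := exists_pow_eq_self_of_coprime (x := x) (n := i)
      ((Nat.coprime_of_lt_prime i1.ne' i2 h2).symm)
    exact hf a ha (hk ▸ (hc.pow_right k).eq)
  · obtain ⟨k, hk⟩ := IsPGroup.iff_card.1 h3
    rw [hk]
    exact (Nat.coprime_two_right.2 ho).pow_right k
  · have h4 := mul_pow_mem_coset hv hxV (orderOf x)
    rw [pow_orderOf_eq_one, inv_one, mul_one] at h4
    rw [pow_orderOf_eq_one]
    refine hf' _ h4 ?_
    have hab : ∀ a ∈ V, ∀ b ∈ V, a * b = b * a := fun a ha b hb => by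
      rw [← inv_eq_of_mul_eq_one_left (hV _ (mul_mem ha hb)), mul_inv_rev,
        inv_eq_of_mul_eq_one_left (hV _ ha), inv_eq_of_mul_eq_one_left (hV _ hb)]
    have e1 : Commute ((v * x) ^ orderOf x) (v * x) := (Commute.refl _).pow_left _
    have e2 : Commute ((v * x) ^ orderOf x) v := hab _ h4 _ hv
    simpa using (e2.inv_right.mul_right e1).eq

theorem linear (hV : ∀ v ∈ V, v * v = 1) (V1 : V ≠ ⊥) (hn : Y ≤ N[V]) (hf : Y ⊓ C[V] = ⊥)
    (ho : Odd (Nat.card Y))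
    (ht : ∀ v ∈ V, v ≠ 1 → ∀ w ∈ V, w ≠ 1 → ∃ y ∈ Y, y * v * y⁻¹ = w) (hr : r ∣ Nat.card Y) :
    Nat.card Y = r ∨ ∃ K, NormalIn K Y ∧ (Nat.card K).Prime ∧ Nat.card K ≠ r ∧
      Nat.card V = Nat.card K + 1 ∧ Nat.card Y = Nat.card K * r := by
  have := Fact.mk h.prime
  have oo : ∀ {y}, y ∈ Y → Odd (orderOf y) := fun hy => ho.of_dvd_nat (orderOf_dvd_card_of_mem hy)
  have key : ∀ A, NormalIn A Y → IsMulCommutative A → A ≠ ⊥ → (Nat.card A).Prime :=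
    fun A hA hab A1 => h.card_prime_of_cyclic (odd_of_le ho hA.1)
      ((semiregular_of_trans hn hf ht hA hab).cyclic_of_abel (hA.1.trans hn) V1 hab) A1
  obtain ⟨ρ, hρ, ρ1⟩ := exists_orderOf_eq_prime h.prime hr
  have ρ2 : ρ ≠ 1 := ne_one_of_orderOf_prime (ρ1 ▸ h.prime)
  obtain ⟨A, hA, hm⟩ := exists_minNormal_le (ne_bot_of_mem hρ ρ2) (le_norm_self Y)
  have hab := hm.abel (sol_of_odd (odd_of_le ho hA))
  have h1 := key A ⟨hA, hm.norm⟩ hab hm.ne_bot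
  have h2 : ∀ {a}, a ∈ A → a ≠ 1 → orderOf a = Nat.card A := fun ha a1 =>
    ((Nat.dvd_prime h1).1 (orderOf_dvd_card_of_mem ha)).resolve_left (by simpa using a1)
  have h3 : ∀ x ∈ Y, x ≠ 1 → orderOf x ≠ Nat.card A → ∃ v ∈ V, v * x = x * v ∧ v ≠ 1 := by
    intro x hx x1 hne
    by_contra! h3
    refine hm.ne_bot (le_bot_iff.1 (hf ▸ le_inf hA (h.le_cent_of_fpf hV (hA.trans hn)
      (odd_of_le ho hA) (hn hx) (hm.norm hx) (oo hx) x1 (fun a ha e => by_contra fun a1 => hne ?_) h3)))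
    rw [← h2 ha a1, h.eq_of_comm_odd (oo (hA ha)) (oo hx) a1 x1 e]
  have h4 : ∀ x ∈ Y, x ≠ 1 → orderOf x ≠ r → ∀ v ∈ V, v * x = x * v → v = 1 :=
    fun x hx x1 hne v hv e => by_contra fun v1 =>
      hne (h.orderOf_eq_r (h.pow_r_of_comm v1 (hV v hv) (oo hx) e.symm) x1)
  by_cases h5 : Nat.card A = r
  · left
    have h6 : IsPGroup r Y := isPGroup_of_forall fun x hx => ⟨1, by
      by_cases x1 : x = 1
      · simp [x1]
      by_contra h6
      have h7 : orderOf x ≠ r := fun e => h6 (by rw [pow_one, ← e, pow_orderOf_eq_one])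
      obtain ⟨v, hv, e, v1⟩ := h3 x hx x1 (h5 ▸ h7)
      exact v1 (h4 x hx x1 h7 v hv e)⟩
    obtain ⟨B, hB⟩ := exists_isSCN (nil_of_pgroup h6)
    have h7 := key B hB.normalIn hB.abel (hB.ne_bot (ne_bot_of_mem hρ ρ2))
    have h8 : Y = B := le_antisymm (hB.le_of_cent le_rfl (le_cent_symm
      (hB.normalIn.le_cent_of_card_prime (nil_of_pgroup h6) h7))) hB.le
    exact ((Nat.prime_dvd_prime_iff_eq h.prime (h8 ▸ h7)).1 hr).symm
  right
  obtain ⟨a, ha, a1⟩ := exists_ne_one_of_ne_bot hm.ne_bot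
  have h6 : ∀ x ∈ Y ⊓ C[A], x ≠ 1 → orderOf x = Nat.card A := fun x hx x1 => by
    rw [← h2 ha a1, h.eq_of_comm_odd (oo (hA ha)) (oo hx.1) a1 x1 (comm_of_mem_cent hx.2 ha)]
  have h7 : Y ⊓ C[A] ≤ A := fun x hx => zpowers_le.2 ha (mem_zpowers_of_fpf (H := Y ⊓ C[A]) (K := V)
    (fun x hx v hv => conj_mem_of_norm (hn hx.1) hv)
    (fun x hx v hv e => or_iff_not_imp_left.2 fun x1 => h4 x hx.1 x1 (h6 x hx x1 ▸ h5) v hv e.symm)
    V1 h1 ⟨hA ha, le_cent_of_abel hab ha⟩ hx a1 (pow_card_eq_one_of_mem ha) (by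
      by_cases x1 : x = 1
      · simp [x1]
      · rw [← h6 x hx x1, pow_orderOf_eq_one]) (comm_of_mem_cent hx.2 ha))
  have h8 : Nat.card Y = Nat.card A * r := by
    have k1 := card_inf_mul_relIndex C[A] Y
    rw [inf_comm, le_antisymm h7 (le_inf hA (le_cent_of_abel hab))] at k1
    have k2 := cyclic_quo_cent_of_card_prime h1 rfl hm.norm
    have k3 := card_quo (le_norm_cent hm.norm)
    have k4 : r ∣ (C[A]).relIndex Y := ((Nat.Prime.dvd_mul h.prime).1 (k1 ▸ hr)).resolve_left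
      fun e => h5 ((Nat.prime_dvd_prime_iff_eq h.prime h1).1 e).symm
    have k5 := (h.quo C[A]).card_prime_of_cyclic (PHom.odd_card_im _ ho) k2 (fun e => by
      rw [← k3, e, card_bot] at k4
      exact h.prime.not_dvd_one k4)
    rw [← k1, (Nat.prime_dvd_prime_iff_eq h.prime (k3 ▸ k5)).1 k4]
  refine ⟨A, ⟨hA, hm.norm⟩, h1, h5, ?_, h8⟩
  obtain ⟨v, hv, e, v1⟩ := h3 ρ hρ ρ2 (ρ1 ▸ Ne.symm h5)
  have k1 := relIndex_cent1_of_trans hn hv v1 (ht v hv v1)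
  have k2 := card_inf_mul_relIndex C₁[v] Y
  have k3 := regular_norm_dvd_pred (hA.trans hn) (semiregular_of_trans hn hf ht ⟨hA, hm.norm⟩ hab)
  have k4 : r ∣ Nat.card ↥(C₁[v] ⊓ Y) :=
    ρ1 ▸ orderOf_dvd_card_of_mem (A := C₁[v] ⊓ Y) ⟨mem_cent1_iff.2 e.symm, hρ⟩
  obtain ⟨c, hc⟩ := k4
  rw [← k1, Nat.add_sub_cancel] at k3
  rw [hc, h8, mul_comm (Nat.card A), mul_assoc] at k2
  rw [← k1, Nat.dvd_antisymm k3 (Dvd.intro_left c (Nat.eq_of_mul_eq_mul_left h.prime.pos k2))]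

end OC

end Cfsg.Agent.H3
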