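import Cfsg.Agent.H3.OC4
import Cfsg.Agent.H5.PHFT

/-!
# Groups whose only composite element order is `2 r`: the strongly embedded case, I
-/

set_option autoImplicit false
set_option linter.unusedSectionVars false

namespace Cfsg.Agent.H3

open Subgroup Cfsg.Agent.H7 Cfsg.Agent.H5 MulAction
open MulAut (conj)
open scoped Pointwise commutatorElement

universe u v
variable {G : Type u} [Group G] [Finite G]

theorem fix_iff {p : ℕ} {a : Sylow p G} {g : G} : g • a = a ↔ g ∈ N[(a : Subgroup G)] :=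
  Sylow.smul_eq_iff_mem_normalizer

theorem eq_one_of_inv_odd {y : G} (ho : Odd (orderOf y)) (h : y = y⁻¹) : y = 1 :=
  (twoEl_of_sq (mul_eq_one_iff_eq_inv.2 h)).eq_one_of_odd ho

/-- an element of odd order normalizing a Sylow `2`-subgroup `a` is not inverted in `N(a)` -/
theorem eq_one_of_inverted {a : Sylow 2 G} {g k : G} (hg : g • a = a) (hk : k • a = a)
    (ho : Odd (orderOf k)) (h4 : g * k * g⁻¹ = k⁻¹) : k = 1 := by
  obtain ⟨_, ⟨m, rfl⟩, h6⟩ := exists_odd_twoEl_pow g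
  have h7 : g ^ (2 * m + 1) * k * (g ^ (2 * m + 1))⁻¹ = k⁻¹ := by
    have : Commute (g * g) k := by
      rw [Commute, SemiconjBy, ← mul_inv_eq_iff_eq_mul]
      calc g * g * k * (g * g)⁻¹ = g * (g * k * g⁻¹) * g⁻¹ := by group
        _ = g * k⁻¹ * g⁻¹ := by rw [h4]
        _ = (g * k * g⁻¹)⁻¹ := by group
        _ = k := by rw [h4, inv_inv]
    rw [pow_succ', pow_mul, sq, mul_assoc g, (this.pow_left m).eq, ← h4]
    group
  have h8 : g ^ (2 * m + 1) ∈ a := h6.mem_sylow (pow_mem (show g ∈ stabilizer G a from hg) _)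
  have h9 : k * g ^ (2 * m + 1) * k⁻¹ ∈ a := hk ▸ sylow_conj_mem_smul.2 h8
  have h10 : k * k ∈ a := by
    have := mul_mem h9 (inv_mem h8)
    rwa [show k * g ^ (2 * m + 1) * k⁻¹ * (g ^ (2 * m + 1))⁻¹ =
      k * (g ^ (2 * m + 1) * k * (g ^ (2 * m + 1))⁻¹)⁻¹ by group, h7, inv_inv] at this
  exact (twoEl_of_mem a.2 h10).of_sq.eq_one_of_odd ho

/-- the hypotheses of the strongly embedded case -/
structure SE (G : Type u) [Group G] (r : ℕ) : Prop extends OC G r where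
  simple : IsSimpleGroup G
  nonab : ∃ x y : G, x * y ≠ y * x
  nc : ∀ S : Sylow 2 G, ¬ IsCyclic (S : Subgroup G)
  uniq : ∀ (S : Sylow 2 G) (U V : Subgroup G), MaxInv r S U → MaxInv r S V → U = V

namespace SE

variable {r : ℕ} (h : SE G r) {a b c : Sylow 2 G} {x y g t u v w : G} {D W L : Subgroup G}
include h

theorem le_cent (hW : MaxInv r a W) : W ≤ C[(a : Subgroup G)] :=
  haveI := h.simple
  le_cent_symm (h.sylow_le_cent (h.nc a) h.nonab hW fun _ hU => h.uniq a _ _ hU hW)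

theorem le_norm (hs : Group.IsSolvable L) (ha : (a : Subgroup G) ≤ L) : L ≤ N[(a : Subgroup G)] := by
  obtain ⟨W, h1, hW⟩ := exists_maxInv (h.core_inv (h.nc a) ha).1 (h.core_inv (h.nc a) ha).2
  rw [← core_sup_norm_of_abel hs ((isSylowIn_top a).mono ha le_top) (h.abel a)]
  exact sup_le (h1.trans ((h.le_cent hW).trans (cent_le_norm _))) inf_le_right

theorem exists_invol (a : Sylow 2 G) : ∃ t ∈ (a : Subgroup G), t ≠ 1 :=
  exists_ne_one_of_ne_bot (ne_bot_of_not_cyclic (h.nc a))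

theorem exists_invol_ne (t : G) : ∃ s ∈ (a : Subgroup G), s ≠ 1 ∧ s ≠ t := by
  obtain ⟨s, hs, h5⟩ := SetLike.not_le_iff_exists.1 fun e : (a : Subgroup G) ≤ zpowers t =>
    h.nc a (cyclic_of_le (cyclic_zpowers t) e)
  exact ⟨s, hs, fun e => h5 (e ▸ one_mem _), fun e => h5 (e ▸ mem_zpowers _)⟩

theorem fix_of_comm (hx : x ∈ C[(a : Subgroup G)]) (x1 : x ≠ 1) (hg : g * x = x * g) :
    g • a = a := by
  obtain ⟨t, ht, t1⟩ := h.exists_invol a
  have h1 := h.pow_two_r t1 (.inl (h.sq_sylow ht)) (comm_of_mem_cent hx ht).symm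
  rw [fix_iff]
  by_cases h2 : x ^ r = 1
  · exact h.le_norm (h.sol_cent1 x1 (.inr h2)) (le_cent1_iff.2 hx) (mem_cent1_iff.2 hg)
  · refine h.le_norm (h.sol_cent1 h2 (.inl ?_)) (le_cent1_iff.2 (pow_mem hx r))
      (mem_cent1_iff.2 ((show Commute g x from hg).pow_right r).eq)
    rwa [← pow_add, ← two_mul]

theorem fix_of_comm' (ht : t ∈ (a : Subgroup G)) (t1 : t ≠ 1) (hg : g * t = t * g) : g • a = a :=
  h.fix_of_comm (le_cent_of_abel (h.abel a) ht) t1 hg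

theorem eq_of_cent (ha : x ∈ C[(a : Subgroup G)]) (hb : x ∈ C[(b : Subgroup G)]) (x1 : x ≠ 1) :
    a = b := Sylow.ext (a.3 b.2 fun _ hs => (twoEl_of_mem a.2 hs).mem_sylow
      (h.fix_of_comm hb x1 (comm_of_mem_cent ha hs))).symm

theorem sylTI : SylTI G := fun a b _ ha hb x1 =>
  h.eq_of_cent (le_cent_of_abel (h.abel a) ha) (le_cent_of_abel (h.abel b) hb) x1

theorem odd_mul (hab : a ≠ b) (hu : u ∈ (a : Subgroup G)) (u1 : u ≠ 1) (hv : v ∈ (b : Subgroup G))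
    (v1 : v ≠ 1) : Odd (orderOf (u * v)) ∧ ∃ k : ℕ, (u * v) ^ k * v * ((u * v) ^ k)⁻¹ = u := by
  refine (conj_or_central (h.sq_sylow hu) (h.sq_sylow hv)).resolve_right ?_
  rintro ⟨k, k1, k2, k3, k4⟩
  exact hab (h.sylTI a b _ ((twoEl_of_sq k2).mem_sylow (h.fix_of_comm' hu u1 k3))
    ((twoEl_of_sq k2).mem_sylow (h.fix_of_comm' hv v1 k4)) k1)

/-- an element of odd order inverted by an involution centralizes no involution -/
theorem inv0 (u1 : u ≠ 1) (u2 : u * u = 1) (t1 : t ≠ 1) (t2 : t * t = 1) (ho : Odd (orderOf y))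
    (hu : u * y * u⁻¹ = y⁻¹) (ht : y * t = t * y) : y = 1 := by
  obtain ⟨a, ha⟩ := (twoEl_of_sq t2).exists_sylow
  obtain ⟨b, hb⟩ := (twoEl_of_sq u2).exists_sylow
  by_cases hab : a = b
  · exact eq_one_of_inverted (smul_sylow_of_mem (hab ▸ hb)) (h.fix_of_comm' ha t1 ht) ho hu
  obtain ⟨-, k, hk⟩ := h.odd_mul hab ha t1 hb u1
  have h1 : ∀ z, z = y ∨ z = y⁻¹ → t * z * t⁻¹ = z ∧ u * z * u⁻¹ = z⁻¹ := by
    have : t * y * t⁻¹ = y := by rw [← ht, mul_inv_cancel_right]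
    rintro z (rfl | rfl)
    · exact ⟨this, hu⟩
    · rw [← conj_inv, ← conj_inv, this, hu]; exact ⟨rfl, rfl⟩
  have h2 : ∀ k : ℕ, ((t * u) ^ k)⁻¹ * y * (t * u) ^ k = y ∨
      ((t * u) ^ k)⁻¹ * y * (t * u) ^ k = y⁻¹ := fun k => by
    induction k with
    | zero => simp
    | succ k ih =>
      have e : ((t * u) ^ (k + 1))⁻¹ * y * (t * u) ^ (k + 1) =
          u * (t * (((t * u) ^ k)⁻¹ * y * (t * u) ^ k) * t⁻¹) * u⁻¹ := by
        rw [pow_succ, mul_inv_rev, mul_inv_rev, inv_eq_of_mul_eq_one_left u2,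
          inv_eq_of_mul_eq_one_left t2]
        group
      rw [e, (h1 _ ih).1, (h1 _ ih).2]
      rcases ih with e | e <;> simp [e]
  refine eq_one_of_inv_odd ho ?_
  calc y = t * y * t⁻¹ := (h1 y (.inl rfl)).1.symm
    _ = (t * u) ^ k * (u * (((t * u) ^ k)⁻¹ * y * (t * u) ^ k) * u⁻¹) * ((t * u) ^ k)⁻¹ := by
      conv_lhs => rw [← hk]
      group
    _ = y⁻¹ := by rw [(h1 _ (h2 k)).2]; group

theorem exists_swap (hab : a ≠ b) (hu : u ∈ (a : Subgroup G)) (u1 : u ≠ 1)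
    (hv : v ∈ (b : Subgroup G)) (v1 : v ≠ 1) :
    ∃ w, w ≠ 1 ∧ w * w = 1 ∧ w • a = b ∧ w • b = a ∧ w * v * w⁻¹ = u := by
  obtain ⟨-, k, hk⟩ := h.odd_mul hab hu u1 hv v1
  have u2 := h.sq_sylow hu
  have v2 := h.sq_sylow hv
  have h1 : (u * v) ^ k * v * v * ((u * v) ^ k * v)⁻¹ = u := Eq.trans (by group) hk
  have h2 : v * (u * v) * v⁻¹ = (u * v)⁻¹ := by
    rw [mul_inv_rev, inv_eq_of_mul_eq_one_left u2, inv_eq_of_mul_eq_one_left v2,
      mul_assoc, mul_assoc, v2, mul_one]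
  have h3 := h.sylTI _ _ u (h1 ▸ sylow_conj_mem_smul.2 hv) hu u1
  have h4 : (u * v) ^ k * v * ((u * v) ^ k * v) = 1 := by
    calc (u * v) ^ k * v * ((u * v) ^ k * v) = (u * v) ^ k * (v * (u * v) ^ k * v⁻¹) * (v * v) := by
          group
      _ = 1 := by rw [← conj_pow, h2, v2, inv_pow]; simp
  exact ⟨_, fun e => hab (by rw [← h3, e, one_smul]), h4, by rw [← h3, smul_smul, h4, one_smul],
    h3, h1⟩

theorem odd_of_fix (hab : a ≠ b) (ha : x • a = a) (hb : x • b = b) : Odd (orderOf x) := by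
  obtain ⟨m, hm, h1⟩ := exists_odd_twoEl_pow x
  exact hm.of_dvd_nat (orderOf_dvd_of_pow_eq_one (h.sylTI.eq_one_of_fix hab h1
    (pow_mem (show x ∈ stabilizer G a from ha) m) (pow_mem (show x ∈ stabilizer G b from hb) m)))

theorem exists_inverted (hab : a ≠ b) : ∃ u j : G, u ≠ 1 ∧ u * u = 1 ∧ u • a = b ∧ u • b = a ∧
    j ≠ 1 ∧ j • a = a ∧ j • b = b ∧ u * j * u⁻¹ = j⁻¹ := by
  obtain ⟨t, ht, t1⟩ := h.exists_invol a
  obtain ⟨s, hs, s1, hst⟩ := h.exists_invol_ne (a := a) t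
  obtain ⟨v, hv, v1⟩ := h.exists_invol b
  obtain ⟨w, w1, w2, w3, w4, w5⟩ := h.exists_swap hab ht t1 hv v1
  obtain ⟨z, -, z2, z3, z4, z5⟩ := h.exists_swap hab hs s1 hv v1
  refine ⟨w, w * z, w1, w2, w3, w4, fun e => hst ?_, by rw [mul_smul, z3, w4],
    by rw [mul_smul, z4, w3], ?_⟩
  · rw [← z5, ← w5, (eq_inv_of_mul_eq_one_left e).trans (inv_eq_of_mul_eq_one_left z2)]
  · rw [← mul_assoc, w2, one_mul, mul_inv_rev, inv_eq_of_mul_eq_one_left z2]

theorem exists_ne (a : Sylow 2 G) : ∃ b, a ≠ b := by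
  by_contra! e
  have := h.simple
  have : Subsingleton (Sylow 2 G) := ⟨fun b c => (e b).symm.trans (e c)⟩
  exact ne_bot_of_not_cyclic (h.nc a) (noSolv_of_simple h.nonab _ a.normal_of_subsingleton
    (sol_of_pgroup a.2))

theorem trans (ht : t ∈ (a : Subgroup G)) (t1 : t ≠ 1) (hu : u ∈ (a : Subgroup G)) (u1 : u ≠ 1) :
    ∃ n ∈ N[(a : Subgroup G)], n * t * n⁻¹ = u := by
  obtain ⟨b, hab⟩ := h.exists_ne a
  obtain ⟨v, hv, v1⟩ := h.exists_invol b
  obtain ⟨w, -, w2, -, w4, w5⟩ := h.exists_swap hab ht t1 hv v1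
  obtain ⟨z, -, -, -, z4, z5⟩ := h.exists_swap hab hu u1 hv v1
  exact ⟨z * w⁻¹, fix_iff.1 (by rw [mul_smul, inv_smul_eq_iff.2 w4.symm, z4]), by
    rw [← w5, ← z5]; group⟩

theorem mem_of_odd (hW : MaxInv r a W) (hx : x ∈ C[(a : Subgroup G)]) (ho : Odd (orderOf x)) :
    x ∈ W := by
  obtain ⟨t, ht, t1⟩ := h.exists_invol a
  obtain ⟨U, h1, hU⟩ := exists_maxInv (S := a) (isPGroup_zpowers (k := 1) (by
    rw [pow_one]; exact h.pow_r_of_comm t1 (h.sq_sylow ht) ho (comm_of_mem_cent hx ht).symm))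
    (le_norm_zpowers (le_cent1_iff.2 hx))
  exact h.uniq a _ _ hU hW ▸ h1 (mem_zpowers x)

theorem cent_eq (hW : MaxInv r a W) : C[(a : Subgroup G)] = (a : Subgroup G) ⊔ W := by
  refine le_antisymm (fun g hg => ?_) (sup_le (le_cent_of_abel (h.abel a)) (h.le_cent hW))
  obtain ⟨s, hs, x, hx, ho, e⟩ := h.exists_decomp (cent_le_norm _ hg)
  exact e ▸ mul_mem (mem_sup_left hs) (mem_sup_right (h.mem_of_odd hW (zpowers_le.2 hg hx) ho))

theorem norm_le_norm (hW : MaxInv r a W) : N[(a : Subgroup G)] ≤ N[W] := fun _ hn =>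
  mem_norm_of_conj_smul_eq (h.uniq a _ _ (hW.smul hn) hW)

theorem ph_or : PH (fun a : Sylow 2 G => C[(a : Subgroup G)]) ∨
    ∃ a : Sylow 2 G, r ∣ (C[(a : Subgroup G)]).relIndex N[(a : Subgroup G)] := by
  have := Fact.mk h.prime
  refine or_iff_not_imp_right.2 fun h1 => ⟨fun a => le_cent_of_abel (h.abel a),
    fun hx => fix_iff.2 (cent_le_norm _ hx), fun {a x} hx g => ?_, fun {a x g} hx x1 hg => ?_,
    h.eq_of_cent⟩
  · rw [Sylow.coe_subgroup_smul, ← conj_smul_cent]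
    exact conj_mem_conj_smul.2 hx
  · have h2 := h.fix_of_comm hx x1 hg
    obtain ⟨t, ht, t1⟩ := h.exists_invol a
    have h3 := h.pow_two_r t1 (.inl (h.sq_sylow ht)) (comm_of_mem_cent hx ht).symm
    have h4 : g ^ (2 * r) = 1 := by
      by_cases h2 : x ^ r = 1
      · exact h.pow_two_r x1 (.inr h2) hg
      · exact h.pow_two_r h2 (.inl (by rwa [← pow_add, ← two_mul]))
          ((show Commute g x from hg).pow_right r).eq
    by_contra h5
    refine h1 ⟨a, dvd_relIndex_of_notMem_pow_mem (norm_le_norm_cent _) (fix_iff.1 h2) h5 ?_⟩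
    exact le_cent_of_abel (h.abel a) ((twoEl_of_sq (by rwa [← pow_add, ← two_mul])).mem_sylow
      (pow_mem (show g ∈ stabilizer G a from h2) r))

theorem not_ph (hex : ∃ x : G, orderOf x = 2 * r)
    (h1 : PH (fun a : Sylow 2 G => C[(a : Subgroup G)])) : False := by
  have := h.simple
  obtain ⟨x, hx⟩ := hex
  have h2 : orderOf (x ^ r) = 2 := by
    rw [orderOf_pow_of_dvd h.prime.ne_zero (hx ▸ dvd_mul_left r 2), hx,
      Nat.mul_div_cancel _ h.prime.pos]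
  obtain ⟨t1, t2⟩ := orderOf_eq_two_iff'.1 h2
  obtain ⟨a, ha⟩ := (twoEl_of_sq t2).exists_sylow
  have h3 := orderOf_dvd_card_of_mem (h1.cent (h1.le a ha) t1 ((Commute.refl x).pow_right r).eq)
  rw [hx] at h3
  have hs := noSolv_of_simple h.nonab
  have h4 : ∃ n, Nat.card C[(a : Subgroup G)] = 2 ^ n := by
    rcases (h1.main (even_of_noSolv hs) hs (oddCore_of_noSolv hs) a).2 with ⟨F, _, _, e, -⟩ | e
    · exact e ▸ card_field_two_pow F (e ▸ even_iff_two_dvd.2 ((dvd_mul_right 2 r).trans h3))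
    · exact IsPGroup.iff_card.1 e.1
  obtain ⟨n, hn⟩ := h4
  exact h.ne ((Nat.prime_dvd_prime_iff_eq h.prime Nat.prime_two).1
    (h.prime.dvd_of_dvd_pow (hn ▸ (dvd_mul_left r 2).trans h3)))

theorem case_a (hex : ∃ x : G, orderOf x = 2 * r)
    (h1 : (C[(a : Subgroup G)]).relIndex N[(a : Subgroup G)] = r) : False := by
  have := Fact.mk h.prime
  have h2 : ∀ c : Sylow 2 G, (C[(c : Subgroup G)]).relIndex N[(c : Subgroup G)] = r := fun c => by
    obtain ⟨g, rfl⟩ := exists_smul_eq G a c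
    rw [Sylow.coe_subgroup_smul, ← conj_smul_cent, ← conj_smul_norm, relIndex_conj_smul, h1]
  have h3 : ∀ c : Sylow 2 G, ∀ t ∈ (c : Subgroup G), t ≠ 1 → C₁[t] = C[(c : Subgroup G)] := by
    intro c t ht t1
    refine (eq_or_eq_of_relIndex_prime (cent_le_cent1 ht) (fun g hg => fix_iff.1
      (h.fix_of_comm' ht t1 (mem_cent1_iff.1 hg))) (h2 c ▸ h.prime)).resolve_right fun e => ?_
    obtain ⟨s, hs, s1, hst⟩ := h.exists_invol_ne (a := c) t
    obtain ⟨n, hn, e'⟩ := h.trans ht t1 hs s1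
    exact hst (by rw [← e', mem_cent1_iff.1 (e.ge hn), mul_inv_cancel_right])
  obtain ⟨x, hx⟩ := hex
  have h4 : orderOf (x ^ r) = 2 := by
    rw [orderOf_pow_of_dvd h.prime.ne_zero (hx ▸ dvd_mul_left r 2), hx,
      Nat.mul_div_cancel _ h.prime.pos]
  have h5 : orderOf (x ^ 2) = r := by
    rw [orderOf_pow_of_dvd two_ne_zero (hx ▸ dvd_mul_right 2 r), hx,
      Nat.mul_div_cancel_left _ two_pos]
  obtain ⟨t1, t2⟩ := orderOf_eq_two_iff'.1 h4
  obtain ⟨a, ha⟩ := (twoEl_of_sq t2).exists_sylow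
  obtain ⟨W, -, hW⟩ := exists_maxInv (S := (a : Subgroup G)) (IsPGroup.of_bot (p := r)) le_norm_bot
  have h6 : x ^ 2 ∈ W := h.mem_of_odd hW ((h3 a _ ha t1).le (mem_cent1_iff.2
    ((Commute.refl x).pow_pow 2 r).eq)) (h5 ▸ h.odd)
  obtain ⟨b, hab⟩ := h.exists_ne a
  obtain ⟨u, j, u1, u2, -, -, j1, j2, j3, j4⟩ := h.exists_inverted hab
  have j5 := h.odd_of_fix hab j2 j3
  have j6 : j ^ r = 1 := by
    by_contra e
    have k1 := pow_relIndex_mem_of_norm (norm_le_norm_cent _) (fix_iff.1 j2)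
    rw [h2] at k1
    exact j1 (h.inv0 u1 u2 t1 t2 j5 j4 (comm_of_mem_cent (H7.mem_of_pow_mem_of_coprime
      ((Nat.Prime.coprime_iff_not_dvd (h.prime_of_odd j5 j1)).2 fun e' =>
        e (orderOf_dvd_iff_pow_eq_one.1 e')) k1) ha).symm)
  have j7 : zpowers j ≤ N[W] := zpowers_le.2 (h.norm_le_norm hW (fix_iff.1 j2))
  obtain ⟨z, hz, z1, z2⟩ := exists_mem_center_pgroup (hW.1.1.sup_of_norm
    (isPGroup_zpowers (k := 1) (by rwa [pow_one])) j7) (NormalIn.sup_left j7)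
    (ne_bot_of_mem h6 (ne_one_of_orderOf_prime (h5 ▸ h.prime)))
  obtain ⟨c, hc⟩ := (twoEl_of_sq u2).exists_sylow
  refine ne_one_of_orderOf_prime (z2 ▸ h.prime) (h.inv0 u1 u2 t1 t2 (z2 ▸ h.odd)
    (inverts_of_fpf_involution (H := C₁[j]) u2 (fun y hy => ?_) (fun y hy e => ?_)
    (cent_le_cent1 (mem_sup_right (mem_zpowers j)) z1)) (comm_of_mem_cent (h.le_cent hW hz) ha).symm)
  · have : j = u * j⁻¹ * u⁻¹ := by rw [← conj_inv, j4, inv_inv]
    rw [this, ← conj_smul_cent1]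
    exact conj_mem_conj_smul.2 (mem_cent1_iff.2
      (show Commute y j from mem_cent1_iff.1 hy).inv_right.eq)
  · by_contra y1
    exact j1 (eq_one_of_inverted (smul_sylow_of_mem hc) (h.fix_of_comm ((h3 c u hc u1).le
      (mem_cent1_iff.2 e.symm)) y1 (mem_cent1_iff.1 hy).symm) j5 j4)

end SE

end Cfsg.Agent.H3
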