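import Cfsg.Agent.H3.OC5
import Cfsg.Agent.H3.OC3
import Cfsg.Agent.H7.BG.S3a

/-!
# Groups whose only composite element order is `2 r`: the strongly embedded case, II
-/

set_option autoImplicit false
set_option linter.unusedSectionVars false

namespace Cfsg.Agent.H3

open Subgroup Cfsg.Agent.H7 Cfsg.Agent.H5 MulAction
open MulAut (conj)
open scoped Pointwise commutatorElement

universe u v
variable {G : Type u} [Group G] [Finite G]

/-- evaluation of the transfer at one element -/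
theorem transfer_eq_pow_of {H : Subgroup G} {A : Type*} [CommGroup A] (φ : H →* A) {x : G}
    (hx : x ∈ H) (h : ∀ (k : ℕ) (g : G) (hg : g⁻¹ * x ^ k * g ∈ H), φ ⟨_, hg⟩ = φ ⟨x, hx⟩ ^ k) :
    φ.transfer x = φ ⟨x, hx⟩ ^ H.index := by
  have : Fintype (Quotient (orbitRel (zpowers x) (G ⧸ H))) := Fintype.ofFinite _
  rw [index_eq_sum_minimalPeriod H x, ← Finset.prod_pow_eq_pow_sum,
    MonoidHom.transfer_eq_prod_quotient_orbitRel_zpowers_quot]
  exact Finset.prod_congr rfl fun _ _ => h _ _ _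

theorem relIndex_stab {Ω : Type*} [MulAction G Ω] (H : Subgroup G) (x : Ω) :
    Nat.card ↥(stabilizer G x ⊓ H) * {y | ∃ g ∈ H, g • x = y}.ncard = Nat.card H := by
  rw [← card_inf_mul_relIndex (stabilizer G x) H, relIndex_stabilizer]
  congr 2
  exact Set.ext fun y => ⟨fun ⟨g, hg, e⟩ => ⟨⟨g, hg⟩, e⟩, fun ⟨g, e⟩ => ⟨g, g.2, e⟩⟩

namespace SE

variable {r : ℕ} (h : SE G r) {a b c : Sylow 2 G} {x y g t u v w : G} {D W L : Subgroup G}
include h

theorem structure_or (h1 : r ∣ (C[(a : Subgroup G)]).relIndex N[(a : Subgroup G)]) :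
    (C[(a : Subgroup G)]).relIndex N[(a : Subgroup G)] = r ∨ ∃ (l : ℕ) (T : Subgroup G),
      l.Prime ∧ l ≠ r ∧ l ≠ 2 ∧ Nat.card (a : Subgroup G) = l + 1 ∧ NormalIn T N[(a : Subgroup G)] ∧
      Nat.card T = (l + 1) * l ∧ Nat.card N[(a : Subgroup G)] = (l + 1) * l * r := by
  have := Fact.mk h.prime
  obtain ⟨W, -, hW⟩ := exists_maxInv (S := (a : Subgroup G)) (IsPGroup.of_bot (p := r)) le_norm_bot
  obtain ⟨X, hX, h2⟩ := (isSylowIn_top a).exists_sdprod_norm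
  rw [top_inf_eq] at hX
  have h3 := h.norm_le_norm hW
  have h4 : NormalIn W N[(a : Subgroup G)] := ⟨(h.le_cent hW).trans (cent_le_norm _), h3⟩
  have h5 : W ≤ X := (hX.hall_right (IsPi.compl_compl.2 a.2.isPi_self) h2).normalIn_le h4
    (h.isPi_of_pgroup hW.1.1)
  have h6 : X ≤ N[W] := hX.le_right.trans h3
  have h7 : W ⊓ a = ⊥ := (h.isPi_of_pgroup hW.1.1).inf_pgroup a.2
  have h8 := card_quo_mul (N := W) (A := X) ⟨h5, h6⟩
  have h9 := card_quo_of_inf hW.1.2 h7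
  have h10 : (C[(a : Subgroup G)]).relIndex N[(a : Subgroup G)] = Nat.card ((quo W).im X) := by
    have k1 := card_mul_relIndex (cent_le_norm (a : Subgroup G))
    rw [hX.card, ← h8] at k1
    nth_rewrite 1 [h.cent_eq hW, card_sup_of_inf_eq_bot h4.1 (inf_comm W a ▸ h7)] at k1
    rw [mul_assoc] at k1
    exact Nat.eq_of_mul_eq_mul_left (card_pos' W) (Nat.eq_of_mul_eq_mul_left (card_pos' _) k1)
  have ho := isPi_two_compl_iff.1 h2
  rw [h10] at h1 ⊢
  refine ((h.quo W).linear (V := (quo W).im a) (fun v hv => ?_) (fun e => ?_)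
    (PHom.im_le_norm _ hX.norm) ?_ (PHom.odd_card_im _ ho) (fun v hv v1 w hw w1 => ?_) h1).imp id ?_
  · obtain ⟨s, hs, rfl⟩ := (PHom.mem_im_of_le hW.1.2).1 hv
    rw [← PHom.map_mul (hW.1.2 hs) (hW.1.2 hs), h.sq_sylow hs, PHom.map_one]
  · rw [e, card_bot] at h9
    exact ne_bot_of_not_cyclic (h.nc a) (eq_bot_iff_card'.2 h9.symm)
  · refine inf_eq_bot_of_forall fun z hz hc => ?_
    obtain ⟨x, hx, rfl⟩ := (PHom.mem_im_of_le h6).1 hz
    have k1 : ⁅zpowers x, (a : Subgroup G)⁆ ≤ W := (quo_le_cent_iff (zpowers_le.2 (h6 hx)) hW.1.2).1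
      (by rw [PHom.im_zpowers (h6 hx)]; exact zpowers_le.2 hc)
    have k2 : ⁅zpowers x, (a : Subgroup G)⁆ = ⊥ := le_bot_iff.1 (h7 ▸ le_inf k1
      (comm_le_right (zpowers_le.2 (hX.norm hx))))
    exact (quo_eq_one_iff (h6 hx)).2 (h.mem_of_odd hW (comm_eq_bot_iff.1 k2 (mem_zpowers x))
      (ho.of_dvd_nat (orderOf_dvd_card_of_mem hx)))
  · obtain ⟨s, hs, rfl⟩ := (PHom.mem_im_of_le hW.1.2).1 hv
    obtain ⟨s', hs', rfl⟩ := (PHom.mem_im_of_le hW.1.2).1 hw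
    obtain ⟨n, hn, e⟩ := h.trans hs (fun e => v1 (by rw [e, PHom.map_one])) hs'
      (fun e => w1 (by rw [e, PHom.map_one]))
    obtain ⟨y, hy, z, hz, rfl⟩ := hX.mem_iff'.1 hn
    refine ⟨quo W y, PHom.apply_mem_im hy, ?_⟩
    rw [← PHom.map_conj (h6 hy) (hW.1.2 hs), ← e, mul_assoc y z, h.comm_sylow hz hs]
    congr 1
    group
  rintro ⟨K, k1, k2, k3, k4, k5⟩
  have k6 := k1.quo_pre ⟨h5, h6⟩
  have k7 := card_quo_pre W K
  set l := Nat.card K
  have := Fact.mk k2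
  have l2 : l ≠ 2 := fun e => by
    have : Odd l := odd_of_le (PHom.odd_card_im _ ho) k1.1
    rw [e] at this
    exact absurd this (by decide)
  have k8 : W = ⊥ := by
    by_contra W1
    obtain ⟨P, hP⟩ := exists_isSylowIn (p := l) ((quo W).pre K)
    have p1 : ¬ l ∣ Nat.card W := fun e => k3 (hW.1.1.prime_eq k2 e)
    have p2 : Nat.card P = l := by
      rw [hP.card_eq_pow, k7, Nat.factorization_mul (card_pos' W).ne' k2.ne_zero]
      simp [Nat.factorization_eq_zero_of_not_dvd p1, k2.factorization_self]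
    have p3 : r ∣ Nat.card ↥(X ⊓ N[P]) := by
      have q1 := relIndex_sup_of_norm (A := (quo W).pre K) (B := X ⊓ N[P]) (inf_le_left.trans k6.2)
      have q2 := card_mul_relIndex k6.1
      rw [IsSylowIn.frattini k6 hP] at q1
      rw [k7, ← h8, k5, ← mul_assoc] at q2
      rw [← Nat.eq_of_mul_eq_mul_left (Nat.mul_pos (card_pos' W) k2.pos) q2, q1]
      exact relIndex_dvd_card' _ _
    obtain ⟨ρ, hρ, ρ1⟩ := exists_orderOf_eq_prime h.prime p3
    have p4 : ∀ z ∈ P, z ≠ 1 → orderOf z = l := fun z hz z1 =>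
      ((Nat.dvd_prime k2).1 (p2 ▸ orderOf_dvd_card_of_mem hz)).resolve_left (by simpa using z1)
    have p5 : ∀ z ∈ P, ∀ y, y ≠ 1 → y ^ r = 1 → z * y = y * z → z = 1 := fun z hz y y1 y2 e => by
      by_contra z1
      have := h.orderOf_eq_r y2 y1
      exact k3 (by rw [← p4 z hz z1, h.eq_of_comm_odd (p4 z hz z1 ▸ k2.odd_of_ne_two l2)
        (this ▸ h.odd) z1 y1 e, this])
    obtain ⟨w, hw, w1⟩ := exists_ne_one_of_ne_bot W1
    obtain ⟨z, hz, z1⟩ := exists_ne_one_of_ne_bot (ne_bot_of_card_prime (p2 ▸ k2 : (Nat.card P).Prime))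
    refine z1 (p5 z hz w w1 (h.pow_r_of_pgroup hW.1.1 hw) (H9.frob_norm_solvable W P ρ
      (hP.le.trans (k6.1.trans h6)) (h6 hρ.1) hρ.2 r h.prime.pos (fun i i1 i2 y hy hc =>
        p5 y hy (ρ ^ i) (pow_ne_one_of_lt_orderOf i1.ne' (ρ1 ▸ i2))
        (by rw [← pow_mul, mul_comm, pow_mul, ← ρ1, pow_orderOf_eq_one, one_pow]) hc.eq)
      (sol_of_pgroup hW.1.1) (p2 ▸ (Nat.Prime.coprime_iff_not_dvd k2).2 p1) (fun v hv => ?_)
      z hz w hw).eq)
    have q1 : ρ ^ r = 1 := by rw [← ρ1, pow_orderOf_eq_one]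
    rw [q1]
    exact h.pow_r_of_pgroup (hW.1.1.sup_of_norm (isPGroup_zpowers (k := 1) (by rwa [pow_one]))
      (zpowers_le.2 (h6 hρ.1))) (mul_mem (mem_sup_left hv) (mem_sup_right (mem_zpowers ρ)))
  have k9 : Nat.card W = 1 := eq_bot_iff_card'.1 k8
  rw [k9, one_mul] at k7 h8
  have k10 : Nat.card (a : Subgroup G) = l + 1 := h9 ▸ k4
  refine ⟨l, a ⊔ (quo W).pre K, k2, k3, l2, k10, ⟨sup_le hX.le_left (k6.1.trans hX.le_right), ?_⟩,
    ?_, ?_⟩
  · rw [← hX.sup]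
    exact sup_le (le_norm_of_le le_sup_left) (le_norm_sup hX.norm k6.2)
  · rw [card_sup_of_inf_eq_bot (k6.1.trans hX.norm) (inf_eq_bot_mono hX.inf le_rfl k6.1), k7, k10]
  · rw [hX.card, ← h8, k5, k10, mul_assoc]

section caseB

variable {l : ℕ} {T : Subgroup G} (hl : l.Prime) (lr : l ≠ r) (l2 : l ≠ 2)
  (hc : Nat.card (a : Subgroup G) = l + 1) (hT : NormalIn T N[(a : Subgroup G)])
  (hTc : Nat.card T = (l + 1) * l) (hM : Nat.card N[(a : Subgroup G)] = (l + 1) * l * r)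
include hl lr l2 hc hT hTc hM

theorem b_mem (ha : x • a = a) (hx : orderOf x = l) : x ∈ T := by
  have h1 := card_mul_relIndex hT.1
  rw [hTc, hM] at h1
  have h2 := pow_relIndex_mem_of_norm hT.2 (fix_iff.1 ha)
  rw [Nat.eq_of_mul_eq_mul_left (Nat.mul_pos l.succ_pos hl.pos) h1] at h2
  exact H7.mem_of_pow_mem_of_coprime (hx ▸ (Nat.coprime_primes hl h.prime).2 lr) h2

theorem b_odd {n : ℕ} (ho : Odd n) {m : ℕ} (hn : n ∣ (l + 1) * m) : n ∣ m := by
  obtain ⟨k, hk⟩ := IsPGroup.iff_card.1 a.2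
  rw [← hc, hk] at hn
  exact ((Nat.coprime_two_right.2 ho).pow_right k).dvd_of_dvd_mul_left hn

theorem b_odd_card (hab : a ≠ b) (hD : D ≤ stabilizer G a ⊓ stabilizer G b) :
    Odd (Nat.card D) := isPi_two_compl_iff.1 (IsPi.of_forall fun x hx => by
  rw [PiNat.compl_singleton_iff Nat.prime_two, ← even_iff_two_dvd, Nat.not_even_iff_odd]
  exact h.odd_of_fix hab (hD hx).1 (hD hx).2)

theorem b_zpowers (hab : b ≠ c) (hx : orderOf x = l) (hy : orderOf y = l) (x1 : x • b = b)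
    (x2 : x • c = c) (y1 : y • b = b) (y2 : y • c = c) : y ∈ zpowers x := by
  obtain ⟨g, rfl⟩ := exists_smul_eq G a b
  obtain ⟨c, rfl⟩ := (toPerm g).surjective c
  simp only [toPerm_apply] at *
  have k : ∀ {z : G} {d : Sylow 2 G}, z • g • d = g • d → (g⁻¹ * z * g) • d = d := fun e => by
    rw [mul_smul, mul_smul, e, inv_smul_smul]
  have k' : ∀ z : G, orderOf (g⁻¹ * z * g) = orderOf z := fun z => by
    simpa using orderOf_conj' g⁻¹ z
  have h1 : a ≠ c := fun e => hab (e ▸ rfl)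
  have h2 := h.b_odd hl lr l2 hc hT hTc hM (h.b_odd_card hl lr l2 hc hT hTc hM h1 inf_le_right)
    (hTc ▸ card_dvd_of_le (inf_le_left : T ⊓ (stabilizer G a ⊓ stabilizer G c) ≤ T))
  have h3 : zpowers (g⁻¹ * x * g) = T ⊓ (stabilizer G a ⊓ stabilizer G c) :=
    eq_of_le_of_card_le (zpowers_le.2 ⟨h.b_mem hl lr l2 hc hT hTc hM (k x1) ((k' x).trans hx),
      k x1, k x2⟩) (by rw [Nat.card_zpowers, k', hx]; exact Nat.le_of_dvd hl.pos h2)
  obtain ⟨n, hn⟩ := h3.ge ⟨h.b_mem hl lr l2 hc hT hTc hM (k y1) ((k' y).trans hy), k y1, k y2⟩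
  refine ⟨n, ?_⟩
  have : g⁻¹ * x ^ n * g = g⁻¹ * y * g := by
    rw [← hn]; simpa using (conj_zpow (a := g⁻¹) (b := x) (i := n)).symm
  simpa using this

theorem b_fixed (hex : ∃ x : G, orderOf x = 2 * r) (hb : x • b = b) (hx : orderOf x = r) :
    ∃ t ∈ (b : Subgroup G), t ≠ 1 ∧ x * t = t * x := by
  have := Fact.mk h.prime
  obtain ⟨z, hz⟩ := hex
  have h4 : orderOf (z ^ r) = 2 := by
    rw [orderOf_pow_of_dvd h.prime.ne_zero (hz ▸ dvd_mul_left r 2), hz,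
      Nat.mul_div_cancel _ h.prime.pos]
  have h5 : orderOf (z ^ 2) = r := by
    rw [orderOf_pow_of_dvd two_ne_zero (hz ▸ dvd_mul_right 2 r), hz,
      Nat.mul_div_cancel_left _ two_pos]
  obtain ⟨t1, t2⟩ := orderOf_eq_two_iff'.1 h4
  have h6 : z ^ 2 * z ^ r = z ^ r * z ^ 2 := ((Commute.refl z).pow_pow 2 r).eq
  generalize z ^ 2 = y, z ^ r = t at *
  obtain ⟨c, ht⟩ := (twoEl_of_sq t2).exists_sylow
  have h7 : ∀ d : Sylow 2 G, Nat.card N[(d : Subgroup G)] = (l + 1) * l * r := fun d => by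
    obtain ⟨g, rfl⟩ := exists_smul_eq G a d
    rw [Sylow.coe_subgroup_smul, ← conj_smul_norm, card_conj_smul, hM]
  have h8 : ∀ (d : Sylow 2 G) (y : G), y • d = d → orderOf y = r →
      IsSylowIn r (zpowers y) N[(d : Subgroup G)] := fun d y y1 y2 => by
    refine ⟨zpowers_le.2 (fix_iff.1 y1), isPGroup_of_card_prime (by rw [Nat.card_zpowers, y2]), ?_⟩
    have k1 := card_mul_relIndex (zpowers_le.2 (fix_iff.1 y1))
    rw [h7, Nat.card_zpowers, y2, mul_comm r] at k1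
    rw [Nat.eq_of_mul_eq_mul_right h.prime.pos k1]
    exact fun e => lr ((Nat.prime_dvd_prime_iff_eq h.prime hl).1
      (h.b_odd hl lr l2 hc hT hTc hM h.odd e)).symm
  obtain ⟨g, rfl⟩ := exists_smul_eq G c b
  obtain ⟨n, hn, e⟩ := ((h8 c y (h.fix_of_comm' ht t1 h6) h5).smul g).exists_conj
    (by rw [conj_smul_norm]; exact h8 _ x hb hx)
  rw [conj_smul_norm] at hn
  refine ⟨n * (g * t * g⁻¹) * n⁻¹, conj_mem_of_norm hn (sylow_conj_mem_smul.2 ht),
    conj_ne_one (conj_ne_one t1), mem_cent1_iff.1 ?_⟩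
  rw [← conj_smul_cent1, ← conj_smul_cent1]
  exact conj_smul_mono n (conj_smul_mono g (zpowers_le.2 (mem_cent1_iff.2 h6)))
    (e.ge (mem_zpowers x))

theorem b_inverted (hex : ∃ x : G, orderOf x = 2 * r) (hbc : b ≠ c) : ∃ u j : G, u ≠ 1 ∧
    u * u = 1 ∧ u • b = c ∧ u • c = b ∧ orderOf j = l ∧ j • b = b ∧ j • c = c ∧
    ∀ k, orderOf k = l → k • b = b → k • c = c → u * k * u⁻¹ = k⁻¹ := by
  obtain ⟨u, j, u1, u2, u3, u4, j1, j2, j3, j4⟩ := h.exists_inverted hbc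
  have j5 := h.odd_of_fix hbc j2 j3
  have j6 := h.prime_of_odd j5 j1
  have j7 : orderOf j = l := by
    obtain ⟨g, rfl⟩ := exists_smul_eq G a b
    have k1 := orderOf_dvd_card_of_mem (fix_iff.1 j2)
    rw [Sylow.coe_subgroup_smul, ← conj_smul_norm, card_conj_smul, hM, mul_assoc] at k1
    rcases (Nat.Prime.dvd_mul j6).1 (h.b_odd hl lr l2 hc hT hTc hM j5 k1) with e | e
    · exact (Nat.prime_dvd_prime_iff_eq j6 hl).1 e
    · obtain ⟨t, ht, t1, e'⟩ := h.b_fixed hl lr l2 hc hT hTc hM hex j2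
        ((Nat.prime_dvd_prime_iff_eq j6 h.prime).1 e)
      exact absurd (h.inv0 u1 u2 t1 (h.sq_sylow ht) j5 j4 e') j1
  refine ⟨u, j, u1, u2, u3, u4, j7, j2, j3, fun k k1 k2 k3 => ?_⟩
  obtain ⟨n, rfl⟩ := h.b_zpowers hl lr l2 hc hT hTc hM hbc j7 k1 j2 j3 k2 k3
  rw [← conj_zpow, j4, inv_zpow]

theorem b_three (hex : ∃ x : G, orderOf x = 2 * r) {d e : Sylow 2 G} {k : G} (hk : orderOf k = l)
    (hcd : c ≠ d) (hce : c ≠ e) (k1 : k • c = c) (k2 : k • d = d) (k3 : k • e = e) : d = e := by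
  by_contra hde
  obtain ⟨x, -, -, -, x1, -, -, -, -, h1⟩ := h.b_inverted hl lr l2 hc hT hTc hM hex hcd
  obtain ⟨y, -, -, -, -, y1, -, -, -, h2⟩ := h.b_inverted hl lr l2 hc hT hTc hM hex hce
  obtain ⟨z, -, -, -, z1, -, -, -, -, h3⟩ := h.b_inverted hl lr l2 hc hT hTc hM hex hde
  refine ne_one_of_orderOf_prime (hk ▸ hl) (eq_one_of_inverted (g := x * y * z)
    (by rw [mul_smul, mul_smul, z1, y1, x1]) k2 (hk ▸ hl.odd_of_ne_two l2) ?_)
  calc x * y * z * k * (x * y * z)⁻¹ = x * (y * (z * k * z⁻¹)⁻¹ * y⁻¹)⁻¹ * x⁻¹ := by group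
    _ = k⁻¹ := by rw [h3 k hk k2 k3, inv_inv, h2 k hk k1 k3, inv_inv, h1 k hk k1 k2]

theorem b_trans (hex : ∃ x : G, orderOf x = 2 * r) (hab : a ≠ b) (hac : a ≠ c) :
    ∃ s ∈ (a : Subgroup G), s • b = c := by
  have := Fact.mk hl
  obtain ⟨-, j, -, -, -, -, j1, j2, j3, -⟩ := h.b_inverted hl lr l2 hc hT hTc hM hex hab
  obtain ⟨-, k, -, -, -, -, k1, k2, k3, -⟩ := h.b_inverted hl lr l2 hc hT hTc hM hex hac
  have h1 : ∀ y : G, y • a = a → orderOf y = l → IsSylowIn l (zpowers y) T := fun y y1 y2 => by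
    have y3 := zpowers_le.2 (h.b_mem hl lr l2 hc hT hTc hM y1 y2)
    refine ⟨y3, isPGroup_of_card_prime (by rw [Nat.card_zpowers, y2]), ?_⟩
    have k1 := card_mul_relIndex y3
    rw [hTc, Nat.card_zpowers, y2, mul_comm l] at k1
    rw [Nat.eq_of_mul_eq_mul_right hl.pos k1]
    exact fun e => hl.not_dvd_one ((Nat.dvd_add_right dvd_rfl).1 e)
  have h2 : zpowers j ≤ N[(a : Subgroup G)] := zpowers_le.2 (fix_iff.1 j2)
  have h3 : (a : Subgroup G) ≤ T := ((isSylowIn_top a).mono (le_norm_self _) le_top).inf_normal hT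
    |>.eq_bot_iff.not.1 |> fun _ => by
      have k1 := ((isSylowIn_top a).mono (le_norm_self _) le_top).inf_normal hT
      refine inf_eq_left.1 (eq_of_le_of_card_le inf_le_left (Nat.le_of_dvd (card_pos' _) ?_))
      obtain ⟨m, hm⟩ := IsPGroup.iff_card.1 a.2
      rw [hm, k1.pow_dvd_card_iff, ← hm, hc, hTc]
      exact dvd_mul_right _ _
  have h4 : (a : Subgroup G) ⊔ zpowers j = T := eq_of_le_of_card_eq (sup_le h3 (h1 j j2 j1).le) (by
    rw [card_sup_of_inf_eq_bot h2 (inf_eq_bot_of_coprime' (by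
      rw [hc, Nat.card_zpowers, j1]; simp)), hc, Nat.card_zpowers, j1, hTc])
  obtain ⟨g, hg, e⟩ := (h1 j j2 j1).exists_conj (h1 k k2 k1)
  obtain ⟨s, hs, y, hy, rfl⟩ := (mem_sup_of_norm h2).1 (h4.ge hg)
  rw [← conj_smul_smul, conj_smul_of_mem hy, conj_smul_zpowers] at e
  have h5 : s * j * s⁻¹ ∈ stabilizer G c := zpowers_le.2 (show k ∈ stabilizer G c from k3)
    (e.le (mem_zpowers _))
  have h6 := smul_sylow_of_mem hs
  refine ⟨s, hs, h.b_three hl lr l2 hc hT hTc hM hex ((orderOf_conj' s j).trans j1)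
    (fun e => hab (smul_left_cancel s (h6.trans e))) hac ?_ ?_ h5⟩
  · rw [mul_smul, mul_smul, inv_smul_eq_iff.2 h6.symm, j2, h6]
  · rw [mul_smul, mul_smul, inv_smul_smul, j3]

theorem b_card (hex : ∃ x : G, orderOf x = 2 * r) (hab : a ≠ b) :
    {y | ∃ g ∈ N[(a : Subgroup G)], g • b = y}.ncard = l + 1 ∧ Nat.card (Sylow 2 G) = l + 2 := by
  have h1 := relIndex_stab (a : Subgroup G) b
  rw [inf_eq_bot_of_forall fun x hx hx' => h.sylTI.eq_one_of_fix hab (twoEl_of_mem a.2 hx')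
    (smul_sylow_of_mem hx') hx, card_bot, one_mul, hc] at h1
  have h2 : ∀ H, (a : Subgroup G) ≤ H → H ≤ N[(a : Subgroup G)] →
      {y | ∃ g ∈ H, g • b = y} = Set.univ \ {a} := fun H k1 k2 => Set.ext fun y =>
    ⟨fun ⟨g, hg, e⟩ => ⟨trivial, fun e' => hab (smul_left_cancel g
      ((fix_iff.2 (k2 hg)).trans (e.trans e').symm))⟩, fun hy =>
      let ⟨s, hs, e⟩ := h.b_trans hl lr l2 hc hT hTc hM hex hab (Ne.symm hy.2); ⟨s, k1 hs, e⟩⟩
  rw [h2 _ le_rfl (le_norm_self _)] at h1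
  rw [h2 _ (le_norm_self _) le_rfl, ← Set.ncard_univ,
    ← Set.ncard_sdiff_singleton_add_one (Set.mem_univ a), h1]
  exact ⟨rfl, rfl⟩

theorem case_b (hex : ∃ x : G, orderOf x = 2 * r) : False := by
  classical
  have := Fact.mk h.prime
  have := h.simple
  obtain ⟨b, hab⟩ := h.exists_ne a
  obtain ⟨u, j, u1, u2, u3, u4, j1, j2, j3, j4⟩ := h.b_inverted hl lr l2 hc hT hTc hM hex hab
  obtain ⟨c1, c2⟩ := h.b_card hl lr l2 hc hT hTc hM hex hab
  set D := stabilizer G a ⊓ stabilizer G b with hD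
  have d1 : D ≤ N[(a : Subgroup G)] := fun x hx => fix_iff.1 hx.1
  have d2 : Nat.card D = l * r := by
    have k1 := relIndex_stab N[(a : Subgroup G)] b
    rw [c1, hM, show stabilizer G b ⊓ N[(a : Subgroup G)] = D from
      Subgroup.ext fun x => ⟨fun hx => ⟨fix_iff.2 hx.2, hx.1⟩, fun hx => ⟨hx.2, d1 hx⟩⟩,
      mul_comm, mul_assoc] at k1
    exact Nat.eq_of_mul_eq_mul_left l.succ_pos k1
  have d3 := h.b_odd_card hl lr l2 hc hT hTc hM hab (le_refl D)
  have d4 : zpowers u ≤ N[D] := zpowers_le.2 (mem_norm_of_conj fun x hx =>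
    swap_conj_mem_stab u3 u4 hx)
  obtain ⟨R, hR, d5⟩ := coprime_Sylow_exists r d4 (by
    rw [Nat.card_zpowers, orderOf_eq_two_iff'.2 ⟨u1, u2⟩]; exact Nat.coprime_two_right.2 d3)
    (sol_of_odd d3)
  have d6 : Nat.card R = r := by
    rw [hR.card_eq_pow, d2, Nat.factorization_mul hl.ne_zero h.prime.ne_zero]
    simp [Nat.factorization_eq_zero_of_not_dvd (fun e => lr
      ((Nat.prime_dvd_prime_iff_eq h.prime hl).1 e).symm), h.prime.factorization_self]
  obtain ⟨ρ, hρ, ρ1⟩ := exists_orderOf_eq_prime h.prime d6.symm.dvd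
  have ρ2 : ρ ≠ 1 := ne_one_of_orderOf_prime (ρ1 ▸ h.prime)
  have ρ3 : zpowers ρ = R := zpowers_eq_of_card_prime (d6 ▸ h.prime) hρ ρ2
  have ρa : ρ • a = a := (hR.le hρ).1
  have ρb : ρ • b = b := (hR.le hρ).2
  obtain ⟨t, ht, t1, t3⟩ := h.b_fixed hl lr l2 hc hT hTc hM hex ρa ρ1
  have t2 := h.sq_sylow ht
  have ρ4 : u * ρ = ρ * u := by
    have k1 := conj_mem_of_norm (d5 (mem_zpowers u)) hρ
    have k2 := mul_mem hρ (inv_mem k1)
    have k3 := h.inv0 u1 u2 t1 t2 (d3.of_dvd_nat (orderOf_dvd_card_of_mem (hR.le k2))) (by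
      rw [mul_inv_rev ρ (u * ρ * u⁻¹)⁻¹, inv_inv]
      calc u * (ρ * (u * ρ * u⁻¹)⁻¹) * u⁻¹ = u * ρ * u⁻¹ * (u * u) * ρ⁻¹ * (u * u)⁻¹ := by group
        _ = _ := by rw [u2]; group)
      (mem_cent1_iff.1 (zpowers_le.2 (mem_cent1_iff.2 t3) (ρ3.ge k2)))
    rw [mul_inv_eq_one] at k3
    exact mul_inv_eq_iff_eq_mul.1 k3.symm
  have j5 : ∀ k ∈ zpowers j, k ≠ 1 → orderOf k = l := fun k hk k1 =>
    ((Nat.dvd_prime hl).1 (j1 ▸ orderOf_dvd_of_mem_zpowers hk)).resolve_left (by simpa using k1)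
  have j6 : ∀ k ∈ zpowers j, ∀ s ∈ (a : Subgroup G), s ≠ 1 → k * s = s * k → k = 1 :=
    fun k hk s hs s1 e => by_contra fun k1 => lr (by
      rw [← j5 k hk k1, h.orderOf_eq_r (h.pow_r_of_comm s1 (h.sq_sylow hs)
        (j5 k hk k1 ▸ hl.odd_of_ne_two l2) e) k1])
  have j7 : D ≤ N[zpowers j] := le_norm_closure (s := {j}) (by
      rintro g hg _ rfl
      rw [← zpowers_eq_closure]
      exact h.b_zpowers hl lr l2 hc hT hTc hM hab j1 ((orderOf_conj' _ _).trans j1) j2 j3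
        (mul_mem (mul_mem hg ⟨j2, j3⟩) (inv_mem hg)).1
        (mul_mem (mul_mem hg ⟨j2, j3⟩) (inv_mem hg)).2) |>.trans (by rw [← zpowers_eq_closure])
  have j8 : ∀ k ∈ zpowers j, ∀ y ∈ R, y ≠ 1 → k * y = y * k → k = 1 := fun k hk y hy y1 e =>
    by_contra fun k1 => lr (by
      have := h.orderOf_eq_r (h.pow_r_of_pgroup hR.isPGroup hy) y1
      rw [← j5 k hk k1, h.eq_of_comm_odd (j5 k hk k1 ▸ hl.odd_of_ne_two l2) (this ▸ h.odd) k1 y1 e,
        this])
  have jD : zpowers j ≤ D := zpowers_le.2 ⟨j2, j3⟩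
  have t4 : ∀ s ∈ (a : Subgroup G), s ≠ 1 → ρ * s = s * ρ → s = t := fun s hs s1 e => by
    have k1 : {w | ∃ y ∈ zpowers j, y * t * y⁻¹ = w} = (a : Set G) \ {1} := by
      refine Set.eq_of_subset_of_ncard_le (fun w ⟨y, hy, e⟩ => e ▸
        ⟨conj_mem_of_norm (d1 (jD hy)) ht, conj_ne_one t1⟩) ?_
      have k2 := Set.ncard_sdiff_singleton_add_one (one_mem (a : Subgroup G))
      rw [← relIndex_cent1_eq, relIndex_of_inf_eq_bot (inf_eq_bot_of_forall fun k hk hk' =>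
        j6 k hk' t ht t1 (mem_cent1_iff.1 hk)), Nat.card_zpowers, j1]
      exact (Nat.succ_injective (k2.trans hc)).le
    obtain ⟨k, hk, rfl⟩ := k1.ge ⟨hs, s1⟩
    have k2 := j6 _ (mul_mem (inv_mem hk) (conj_mem_of_norm (j7 (hR.le hρ)) hk)) t ht t1 (by
      calc k⁻¹ * (ρ * k * ρ⁻¹) * t = k⁻¹ * ρ * k * (ρ⁻¹ * (t * ρ)) * ρ⁻¹ := by group
        _ = k⁻¹ * (ρ * (k * t * k⁻¹)) * k * ρ⁻¹ := by rw [← t3]; group
        _ = _ := by rw [e]; group)
    rw [j8 k hk ρ hρ ρ2 (by rw [inv_mul_eq_one] at k2; exact eq_mul_inv_iff_mul_eq.1 k2)]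
    group
  have tb : t • b ≠ b := fun e => t1 (h.sylTI.eq_one_of_fix hab (twoEl_of_sq t2)
    (smul_sylow_of_mem ht) e)
  have ta : t • b ≠ a := fun e => hab (smul_left_cancel t ((smul_sylow_of_mem ht).trans e.symm))
  have f1 : ∀ c : Sylow 2 G, ρ • c = c → c = a ∨ c = b ∨ c = t • b := fun c e => by
    refine or_iff_not_imp_left.2 fun k1 => ?_
    obtain ⟨s, hs, rfl⟩ := h.b_trans hl lr l2 hc hT hTc hM hex hab (Ne.symm k1)
    have k2 := mul_mem (inv_mem hs) (conj_mem_of_norm (fix_iff.1 ρa) hs)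
    have k3 := h.sylTI.eq_one_of_fix hab (twoEl_of_mem a.2 k2) (smul_sylow_of_mem k2) (by
      rw [mul_smul, mul_smul, mul_smul, inv_smul_eq_iff.2 ρb.symm, e, inv_smul_smul])
    by_cases s1 : s = 1
    · exact .inl (by rw [s1, one_smul])
    · rw [t4 s hs s1 (by rw [inv_mul_eq_one] at k3; exact (eq_mul_inv_iff_mul_eq.1 k3).symm)]
      exact .inr rfl
  have r3 : r = 3 := by
    obtain ⟨c, hc'⟩ := (twoEl_of_sq u2).exists_sylow
    have k1 : a ≠ c := fun e => hab ((smul_sylow_of_mem (e ▸ hc')).symm.trans u3)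
    have k2 := (h.odd_mul k1 ht t1 hc' u1).1
    have k3 : (t * u) • a = t • b := by rw [mul_smul, u3]
    have k4 : orderOf (t * u) = r := ρ1 ▸ h.eq_of_comm_odd k2 (ρ1 ▸ h.odd)
      (fun e => ta (by rw [← k3, e, one_smul])) ρ2 (by rw [mul_assoc, ρ4, ← mul_assoc, ← t3, mul_assoc])
    have k5 : u • t • b = t • b := by
      rcases f1 (u • t • b) (by rw [smul_smul, ← ρ4, mul_smul, smul_smul ρ, t3, mul_smul, ρb]) with
        e | e | e
      · exact absurd (smul_left_cancel u (e.trans u4.symm)) tb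
      · exact absurd (smul_left_cancel u (e.trans u3.symm)) ta
      · exact e
    have k6 : (t * u) ^ 3 ∈ stabilizer G a := by
      rw [mem_stabilizer_iff, pow_succ, pow_two, mul_smul, mul_smul, k3, mul_smul, mul_smul t u, k5,
        smul_smul t t, t2, one_smul, u4, smul_sylow_of_mem ht]
    by_contra e
    exact ta (k3 ▸ H7.mem_of_pow_mem_of_coprime
      (k4 ▸ (Nat.coprime_primes h.prime Nat.prime_three).2 e) k6)
  subst r3
  have l7 : l = 7 := by
    have k1 := (Frobenius_Wielandt_fixpoint (FrobIn.mk' (hR.le.trans j7) (zpowers_eq_bot.not.2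
      (ne_one_of_orderOf_prime (j1 ▸ hl))) (ne_bot_of_mem hρ ρ2) fun y hy y1 =>
        inf_eq_bot_of_forall fun k hk hk' => j8 k hk y hy y1 (mem_cent1_iff.1 hk'))
      (M := a) ((sup_le jD hR.le).trans d1) (by
        obtain ⟨m, hm⟩ := IsPGroup.iff_card.1 a.2
        rw [hm]
        exact (Nat.coprime_two_left.2 (odd_of_le d3 (sup_le jD hR.le))).pow_left m)
      (sol_of_pgroup a.2)).2.2 (inf_eq_bot_of_forall fun s hs hs' => by_contra fun s1 =>
        ne_one_of_orderOf_prime (j1 ▸ hl) (j6 j (mem_zpowers j) s hs s1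
          (comm_of_mem_cent hs' (mem_zpowers j))))
    rw [hc, d6, show (a : Subgroup G) ⊓ C[R] = zpowers t from le_antisymm (fun s hs => by
      by_cases s1 : s = 1
      · simp [s1]
      · rw [t4 s hs.1 s1 (comm_of_mem_cent hs.2 hρ)]; exact mem_zpowers t)
      (zpowers_le.2 ⟨ht, by rw [← ρ3, cent_zpowers]; exact mem_cent1_iff.2 t3.symm⟩),
      Nat.card_zpowers, orderOf_eq_two_iff'.2 ⟨t1, t2⟩] at k1
    omega
  subst l7
  have g1 : Nat.card G = 3 ^ 3 * 56 := by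
    have := a.card_eq_index_normalizer
    rw [← N[(a : Subgroup G)].card_mul_index, hM, a.coe_coe, ← this, c2]
    norm_num
  obtain ⟨P, p1, hP⟩ := exists_isSylowIn_ge hR.isPGroup le_top
  have p2 : Nat.card P = 3 ^ 3 := by
    rw [hP.card_eq_pow, card_top, g1, Nat.factorization_mul (by simp) (by simp),
      Nat.factorization_pow]
    simp [Nat.factorization_eq_zero_of_not_dvd (show ¬ 3 ∣ 56 by decide),
      Nat.prime_three.factorization_self]
  have p3 : stabilizer G a ⊓ P = R := by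
    refine (IsSylowIn.eq_of_le (H := N[(a : Subgroup G)]) ⟨hR.le.trans d1, hR.isPGroup, ?_⟩
      (hP.isPGroup.to_le inf_le_right) (le_inf (hR.le.trans inf_le_left) p1)
      fun x hx => fix_iff.1 hx.1)
    have k1 := card_mul_relIndex (hR.le.trans d1)
    rw [hM, d6] at k1
    omega
  have p4 : ∀ c : Sylow 2 G, ∃ y ∈ P, y • a = c := fun c => by
    have k1 := relIndex_stab P a
    rw [p3, p2, d6] at k1
    exact (Set.eq_of_subset_of_ncard_le (Set.subset_univ {y | ∃ g ∈ P, g • a = y})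
      (by rw [Set.ncard_univ, c2]; omega)).ge trivial
  have p5 : ∀ g, g⁻¹ * ρ * g ∈ P → ∃ y ∈ P, g⁻¹ * ρ * g = y * ρ * y⁻¹ := fun g hg => by
    obtain ⟨y, hy, e⟩ := p4 (g⁻¹ • a)
    have k1 : (y⁻¹ * g⁻¹) • a = a := by rw [mul_smul, ← e, inv_smul_smul]
    have k0 : y⁻¹ * g⁻¹ ∈ stabilizer G a := k1
    have k2 : y⁻¹ * g⁻¹ * ρ * (y⁻¹ * g⁻¹)⁻¹ ∈ R := p3.le ⟨(stabilizer G a).mul_mem
      ((stabilizer G a).mul_mem k0 ρa) ((stabilizer G a).inv_mem k0), by
      simpa [mul_assoc] using mul_mem (mul_mem (inv_mem hy) hg) hy⟩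
    rw [← ρ3, mem_zpowers_iff_mem_range_orderOf, ρ1] at k2
    obtain ⟨i, hi, k2⟩ := Finset.mem_image.1 k2
    rw [Finset.mem_range] at hi
    interval_cases i
    · exact absurd (k2.symm.trans (pow_zero ρ)) (conj_ne_one ρ2)
    · refine ⟨y, hy, ?_⟩
      rw [pow_one] at k2
      conv_rhs => rw [k2]
      group
    · exact absurd (eq_one_of_inverted k1 ρa (ρ1 ▸ h.odd) (k2.symm.trans (eq_inv_of_mul_eq_one_left
        (by rw [← pow_succ]; exact orderOf_dvd_iff_pow_eq_one.1 ρ1.dvd)))) ρ2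
  have p6 := transfer_eq_pow_of (Abelianization.of (G := P)) (p1 hρ) fun k g hg => by
    by_cases k1 : ρ ^ k = 1
    · rw [← map_pow]
      congr 1
      exact Subtype.ext (by simp [k1])
    · obtain ⟨y, hy, e⟩ := p5 g (by
        have := zpowers_eq_of_card_prime (d6 ▸ h.prime) (pow_mem hρ k) k1
        have k2 : conj g⁻¹ • R ≤ P := by
          rw [← this, conj_smul_zpowers, inv_inv]; exact zpowers_le.2 hg
        simpa using k2 (conj_mem_conj_smul.2 hρ))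
      have : (⟨_, hg⟩ : P) = ⟨y, hy⟩ * ⟨ρ, p1 hρ⟩ ^ k * ⟨y, hy⟩⁻¹ := Subtype.ext (by
        simpa [e] using (conj_pow (a := g⁻¹) (b := ρ) (i := k)).symm)
      rw [this, map_mul, map_mul, map_inv, map_pow, mul_inv_cancel_comm]
  have p7 : P.index = 56 := by
    have := P.card_mul_index
    rw [p2, g1] at this
    omega
  rw [map_eq_one_of_simple h.nonab _ mul_comm, p7, ← map_pow, eq_comm, ← MonoidHom.mem_ker,
    Abelianization.ker_of] at p6
  have p8 : ρ ∈ ⁅P, P⁆ := H7.mem_of_pow_mem_of_coprime (n := 56) (by rw [ρ1]; decide)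
    (P.map_subtype_commutator.le ⟨_, p6, rfl⟩)
  have p9 : ⁅P, P⁆ ≤ Z[P] := by
    rw [← quo_comm_iff (NormalIn.center P).2]
    refine abel_of_card_dvd_sq (p := 3) ?_
    have k1 := card_quo_mul (NormalIn.center P)
    obtain ⟨m, hm⟩ := (hP.isPGroup.to_le inf_le_left).dvd_card
      (center_ne_bot_of_nil (nil_of_pgroup hP.isPGroup) (ne_bot_of_mem (p1 hρ) ρ2))
    rw [hm, p2] at k1
    exact Dvd.intro_left m (by linarith)
  have p10 : (Set.univ : Set (Sylow 2 G)) ⊆ {a, b, t • b} := fun c _ => f1 c (by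
    obtain ⟨y, hy, rfl⟩ := p4 c
    rw [smul_smul, ← comm_of_mem_cent (p9 p8).2 hy, mul_smul, ρa])
  have p11 := (Set.ncard_le_ncard p10).trans (Set.ncard_insert_le _ _)
  have p12 := Set.ncard_insert_le b {t • b}
  rw [Set.ncard_univ, c2] at p11
  rw [Set.ncard_singleton] at p12
  omega

end caseB

theorem false_of_order (hex : ∃ x : G, orderOf x = 2 * r) : False := by
  rcases h.ph_or with h1 | ⟨a, h1⟩
  · exact h.not_ph hex h1
  rcases h.structure_or h1 with h2 | ⟨l, T, k1, k2, k3, k4, k5, k6, k7⟩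
  · exact h.case_a hex h2
  · exact h.case_b k1 k2 k3 k4 k5 k6 k7 hex

end SE

end Cfsg.Agent.H3
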