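import Cfsg.Agent.H3.OC6
import Cfsg.Agent.H5.CITMain
import Cfsg.Agent.H2.CITIdent
import Cfsg.Agent.H2.SzLie
import Cfsg.Agent.H2.SzGraph
import Cfsg.Agent.H6.PGL2
import Cfsg.Agent.H3.PSL2Card
import Cfsg.Agent.S0330
import Cfsg.Agent.S0333

/-!
# Simple groups with at most one composite element order
-/

set_option autoImplicit false
set_option linter.unusedSectionVars false

namespace Cfsg.Agent.H3

open Subgroup Cfsg.Agent.H7 Cfsg.Agent.H5

universe u v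

theorem exists_field_of_primePow {q : ℕ} (h : IsPrimePow q) :
    ∃ (F : Type) (_ : Field F) (_ : Fintype F), Fintype.card F = q := by
  obtain ⟨p, k, hp, hk, rfl⟩ := (isPrimePow_nat_iff q).1 h
  have := Fact.mk hp
  have := Fintype.ofFinite (GaloisField p k)
  exact ⟨GaloisField p k, inferInstance, this, by
    rw [← Nat.card_eq_fintype_card, GaloisField.card p k hk.ne']⟩

/-- at most one composite number -/
def OneComp (s : Set ℕ) : Prop := {n : ℕ | n ∈ s ∧ 1 < n ∧ ¬ n.Prime}.Subsingleton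

theorem OneComp.prime {s : Set ℕ} (h : OneComp s) {m n : ℕ} (hm : m ∈ s) (m1 : 1 < m)
    (m2 : ¬ m.Prime) (hn : n ∈ s) (n1 : 1 < n) (hne : n ≠ m) : n.Prime :=
  by_contra fun e => hne (h ⟨hn, n1, e⟩ ⟨hm, m1, m2⟩)

variable {G : Type u} [Group G] [Finite G]

theorem OC.psl2 [IsSimpleGroup G] (hG : ∃ x y : G, x * y ≠ y * x) {r : ℕ} (h : OC G r)
    (hex : ∃ x : G, orderOf x = 2 * r) : ∃ (F : Type) (_ : Field F) (_ : Fintype F),
      Nonempty (G ≃* Matrix.ProjectiveSpecialLinearGroup (Fin 2) F) := by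
  have hnc : ∀ S : Sylow 2 G, ¬ IsCyclic (S : Subgroup G) := fun S hc => by
    have h1 : (S : Subgroup G) ≠ ⊥ :=
      Sylow.ne_bot_of_dvd_card S (even_of_noSolv (noSolv_of_simple hG)).two_dvd
    have h2 := (Abelem.mk' (h.abel S) fun x hx => by rw [sq, h.sq_sylow hx]).card_of_cyclic hc h1
    refine not_normalizer_le_centralizer (fun e => ?_) S h1 ?_
    · obtain ⟨x, y, hxy⟩ := hG
      exact hxy (e.is_comm.comm x y)
    · exact relIndex_eq_one'.1 (Nat.dvd_one.1 (relIndex_cent_prime_dvd Nat.prime_two h2 le_rfl))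
  by_cases h1 : ∃ S : Sylow 2 G, ∃ U V : Subgroup G, MaxInv r S U ∧ MaxInv r S V ∧ U ≠ V
  · obtain ⟨S, h1⟩ := h1
    obtain ⟨U, t, s, -, -, -, h2⟩ := h.exists_bsw (hnc S) hG h1
    obtain ⟨q, h3, -, h4⟩ := h2.psl2
    obtain ⟨F, _, _, h5⟩ := exists_field_of_primePow h3
    exact ⟨F, _, ‹_›, h4 F (Nat.card_eq_fintype_card.trans h5)⟩
  · exact (SE.false_of_order ⟨h, ‹_›, hG, hnc, fun S U V hU hV => by_contra fun e =>
      h1 ⟨S, U, V, hU, hV, e⟩⟩ hex).elim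

theorem orderOf_eq_four {x : G} (h1 : x ^ 2 ≠ 1) (h2 : x ^ 4 = 1) : orderOf x = 4 :=
  orderOf_eq_prime_pow (p := 2) (n := 1) h1 h2

theorem sz_eight {m : ℕ} (hm : 1 ≤ m) {F : Type} [Field F] [Fintype F]
    (hF : Fintype.card F = 2 ^ (2 * m + 1)) (e : G ≃* Lie.Sz F (2 ^ (m + 1)))
    (h : OneComp (Set.range (orderOf : G → ℕ))) : m = 1 ∧ ∃ x : G, orderOf x = 4 := by
  have : H2.SzField F m := ⟨hm, hF⟩
  rw [H6.spec_eq_of_mulEquiv (e.trans (H2.szEquiv F m).symm)] at h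
  obtain ⟨P⟩ : Nonempty (Sylow 2 (Sz F m)) := inferInstance
  have h1 := (S0330.result hm hF P).2.1
  obtain ⟨x, hx⟩ : ∃ x : P, x ^ 2 ≠ 1 := by
    by_contra! e
    exact absurd (h1 ▸ Monoid.exponent_dvd_of_forall_pow_eq_one e) (by decide)
  have h2 : orderOf (x : Sz F m) = 4 := by
    rw [orderOf_coe]
    have : Finite P := Nat.finite_of_card_ne_zero (by rw [(S0330.result hm hF P).1]; positivity)
    exact orderOf_eq_four hx (Monoid.exponent_dvd_iff_forall_pow_eq_one.1 h1.dvd x)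
  refine ⟨?_, (e.trans (H2.szEquiv F m).symm).symm x, by rw [MulEquiv.orderOf_eq, h2]⟩
  have h3 : ∀ k ∈ ({2 ^ (2 * m + 1) + 2 ^ (m + 1) + 1, 2 ^ (2 * m + 1) - 2 ^ (m + 1) + 1} : Set ℕ),
      k ∈ Set.range (orderOf : Sz F m → ℕ) := fun k hk => by
    obtain ⟨U, h3, h4, -⟩ := S0333.result hm hF k hk
    obtain ⟨y, rfl⟩ := exists_zpowers_of_cyclic h3
    exact ⟨y, by rw [← h4, Nat.card_zpowers]⟩
  obtain ⟨n, rfl⟩ := Nat.exists_eq_add_of_le' hm
  have h4 : 2 ^ (2 * (n + 1) + 1) = 8 * (2 ^ n * 2 ^ n) := by ring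
  have h5 : 2 ^ (n + 1 + 1) = 4 * 2 ^ n := by ring
  have h6 := H2.two_pow_odd_mod (n + 1)
  have h7 : n = 0 ∨ 2 ≤ 2 ^ n := (Nat.eq_zero_or_pos n).imp id fun h => Nat.le_self_pow h.ne' 2
  rw [h4, h5] at h3
  rw [h4] at h6
  refine h7.elim (fun e => by rw [e]) fun h7 => ?_
  generalize 2 ^ n = c at *
  obtain ⟨d, hd⟩ : ∃ d, 8 * (c * c) = 4 * c + d := ⟨8 * (c * c) - 4 * c, by
    rw [Nat.add_sub_cancel']; nlinarith⟩
  have h8 : 24 ≤ d := by nlinarith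
  have k1 := h.prime ⟨_, h2⟩ (by decide) (by decide) (h3 _ (.inl rfl)) (by omega) (by omega)
  have k2 := h.prime ⟨_, h2⟩ (by decide) (by decide) (h3 _ (.inr rfl)) (by omega) (by omega)
  have k3 : (8 * (c * c) + 4 * c + 1) * (8 * (c * c) - 4 * c + 1) = (8 * (c * c)) ^ 2 + 1 := by
    rw [show 8 * (c * c) - 4 * c = d by omega]
    nlinarith
  have k4 : 5 ∣ (8 * (c * c)) ^ 2 + 1 := by
    generalize 8 * (c * c) = q at h6
    have : q % 5 = 2 ∨ q % 5 = 3 := by omega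
    rw [Nat.dvd_iff_mod_eq_zero, Nat.add_mod, Nat.pow_mod]
    rcases this with e | e <;> rw [e]
  rcases (Nat.Prime.dvd_mul Nat.prime_five).1 (k3 ▸ k4) with e | e
  · have := (Nat.prime_dvd_prime_iff_eq Nat.prime_five k1).1 e
    omega
  · have := (Nat.prime_dvd_prime_iff_eq Nat.prime_five k2).1 e
    omega

theorem oneComp_cases [IsSimpleGroup G] (hG : ∃ x y : G, x * y ≠ y * x)
    (h : OneComp (Set.range (orderOf : G → ℕ))) :
    (∃ (F : Type) (_ : Field F) (_ : Fintype F),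
      Nonempty (G ≃* Matrix.ProjectiveSpecialLinearGroup (Fin 2) F)) ∨
    ((∃ x : G, orderOf x = 4) ∧ ((Nat.card G = 20160 ∧ ∃ (F : Type) (_ : Field F) (_ : Fintype F),
      Fintype.card F = 4 ∧ Nonempty (G ≃* Matrix.ProjectiveSpecialLinearGroup (Fin 3) F)) ∨
      (Nat.card G = 29120 ∧ ∃ (F : Type) (_ : Field F) (_ : Fintype F), Fintype.card F = 8 ∧
        Nonempty (G ≃* ↥(Cfsg.Lie.Sz F 4))))) := by
  have hs := noSolv_of_simple hG
  by_cases h1 : ∃ r : ℕ, r.Prime ∧ 2 ≠ r ∧ ∃ y : G, orderOf y = 2 * r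
  · obtain ⟨r, hr, r2, y, hy⟩ := h1
    refine .inl (OC.psl2 hG ⟨hr, r2.symm, fun g => or_iff_not_imp_left.2 fun g1 =>
      or_iff_not_imp_right.2 fun g2 => h.prime ⟨y, hy⟩ (by have := hr.two_le; omega)
        (Nat.not_prime_mul (by decide) hr.ne_one) ⟨g, rfl⟩ ?_ g2⟩ ⟨y, hy⟩)
    have := orderOf_pos g
    omega
  have hC : IsCIT G := H2.isCIT_of_primeGraph fun s hs s2 e => h1 ⟨s, hs, s2, e⟩
  have hns : ¬ Group.IsSolvable G := fun e =>
    let ⟨x, y, hxy⟩ := hG; hxy (IsSimpleGroup.comm_iff_isSolvable.2 e x y)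
  by_cases hT : SylTI G
  · rcases H2.ti_ident.{0, u} hC hT (even_of_noSolv hs) hns with ⟨n, n1, -, h2⟩ | ⟨m, m1, h2, h3⟩
    · obtain ⟨F, _, _, h5⟩ := exists_field_of_primePow
        (Nat.prime_two.isPrimePow.pow (by omega : n ≠ 0))
      exact .inl ⟨F, _, ‹_›, h2 F h5⟩
    · obtain ⟨F, _, _, h5⟩ := exists_field_of_primePow
        (Nat.prime_two.isPrimePow.pow (by omega : 2 * m + 1 ≠ 0))
      obtain ⟨e⟩ := h3 F h5
      obtain ⟨rfl, h4⟩ := sz_eight m1 h5 e h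
      exact .inr ⟨h4, .inr ⟨h2, F, _, _, h5, ⟨e⟩⟩⟩
  have := (pCore_isPGroup 2 G).isNilpotent
  rcases cit_main.{0, u} hC (hs _ inferInstance inferInstance) with
    h2 | ⟨⟨N, hN⟩, -⟩ | ⟨q, n, -, -, h2, -, -, h3⟩ | h2
  · exact absurd h2 hT
  · rcases (N.normal_of_index_eq_two hN).eq_bot_or_eq_top with e | e
    · rw [e, index_bot] at hN
      exact absurd (isSolvable_of_card_dvd_prime_pow_mul (a := 1) (b := 0) Nat.prime_two
        Nat.prime_two (by simp [hN])) hns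
    · simp [e] at hN
  · obtain ⟨F, _, _, h5⟩ := exists_field_of_primePow (q := q) (h2.elim (fun e => e ▸
      Nat.prime_three.isPrimePow.pow two_ne_zero) Nat.Prime.isPrimePow)
    exact .inl ⟨F, _, ‹_›, h3 F (Nat.card_eq_fintype_card.trans h5)⟩
  refine .inr ⟨?_, .inl h2⟩
  by_contra! h3
  have h4 : ∀ x : G, TwoEl x → x * x = 1 := fun x hx => by
    obtain ⟨k, hk⟩ := twoEl_iff_orderOf.1 hx
    rcases k with _ | _ | k
    · rw [orderOf_eq_one_iff.1 hk, mul_one]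
    · rw [← sq]; exact orderOf_dvd_iff_pow_eq_one.1 hk.dvd
    · obtain ⟨y, hy⟩ := H6.mem_spec_of_dvd (g := x) (d := 4) (hk ▸ ⟨2 ^ k, by ring⟩)
      exact absurd hy (h3 y)
  have h5 : ∀ (S : Sylow 2 G), ∀ u ∈ S, u ≠ 1 → C₁[u] = S := fun S u hu u1 =>
    S.3 (hC.isPGroup_centralizer (twoEl_of_mem S.2 hu) u1) fun x hx => mem_cent1_iff.2 (by
      rw [← inv_eq_of_mul_eq_one_left (h4 _ (twoEl_of_mem S.2 (mul_mem hx hu))), mul_inv_rev,
        inv_eq_of_mul_eq_one_left (h4 _ (twoEl_of_mem S.2 hx)),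
        inv_eq_of_mul_eq_one_left (h4 _ (twoEl_of_mem S.2 hu))])
  exact hT fun S S' u hu hu' u1 => Sylow.ext ((h5 S u hu u1).symm.trans (h5 S' u hu' u1))

theorem oneComp_arith {p n q : ℕ} (hp : p.Prime) (hq : q = p ^ n) (h4 : 4 ≤ q) {s : Set ℕ}
    (h : OneComp s) (ha : ∀ x, x ∣ (q - 1) / Nat.gcd (q - 1) 2 → x ∈ s)
    (hb : ∀ x, x ∣ (q + 1) / Nat.gcd (q + 1) 2 → x ∈ s) :
    q = 4 ∨ (q = 5 ∨ q = 7 ∨ q = 8 ∨ q = 9 ∨ q = 11 ∨ q = 13 ∨ q = 16) ∨
    (∃ n r s : ℕ, r.Prime ∧ s.Prime ∧ 3 ^ n - 1 = 2 * r ∧ 3 ^ n + 1 = 4 * s ∧ q = 3 ^ n) ∨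
    (∃ n r : ℕ, (2 ^ n - 1).Prime ∧ r.Prime ∧ 2 ^ n + 1 = 3 * r ∧ q = 2 ^ n) := by
  have np : ∀ {a b : ℕ}, 1 < a → 1 < b → ¬ (a * b).Prime := fun h1 h2 =>
    Nat.not_prime_mul h1.ne' h2.ne'
  rcases hp.eq_two_or_odd' with rfl | ho
  · obtain ⟨n, rfl⟩ : ∃ k, n = k + 1 := Nat.exists_eq_succ_of_ne_zero (by rintro rfl; omega)
    have h1 : q = 2 * 2 ^ n := by rw [hq, pow_succ']
    rw [(Nat.coprime_two_right.2 (show Odd (q - 1) from ⟨2 ^ n - 1, by omega⟩)).gcd_eq_one,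
      Nat.div_one] at ha
    rw [(Nat.coprime_two_right.2 (show Odd (q + 1) from ⟨2 ^ n, by omega⟩)).gcd_eq_one,
      Nat.div_one] at hb
    rcases Nat.even_or_odd' n with ⟨m, rfl | rfl⟩
    · have h2 := H2.two_pow_odd_mod m
      rw [← hq] at h2
      obtain ⟨r, hr⟩ : 3 ∣ q + 1 := by omega
      have h3 : ¬ (q + 1).Prime := hr ▸ np (by decide) (by omega)
      exact .inr (.inr (.inr ⟨_, r, hq ▸ h.prime (hb _ dvd_rfl) (by omega) h3 (ha _ dvd_rfl)
        (by omega) (by omega), h.prime (hb _ dvd_rfl) (by omega) h3 (hb _ (Dvd.intro_left 3 hr.symm))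
        (by omega) (by omega), hq ▸ hr, hq⟩))
    · have h2 : q = 2 ^ (m + 1) * 2 ^ (m + 1) := by rw [hq]; ring
      have h3 : 2 ^ (m + 1) % 3 = 1 ∨ 2 ^ (m + 1) % 3 = 2 := by
        have : ¬ 3 ∣ 2 ^ (m + 1) := fun e => absurd (Nat.prime_three.dvd_of_dvd_pow e) (by decide)
        omega
      rcases m with _ | _ | m
      · exact .inl h2
      · exact .inr (.inl (by omega))
      have h5 : 8 ≤ 2 ^ (m + 1 + 1 + 1) := by have := Nat.two_pow_pos m; simp only [pow_succ]; omega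
      generalize 2 ^ (m + 1 + 1 + 1) = c at h2 h3 h5
      obtain ⟨c, rfl⟩ : ∃ d, c = d + 1 := ⟨c - 1, by omega⟩
      have h6 : q - 1 = c * (c + 2) := by rw [h2]; exact Nat.sub_eq_of_eq_add (by ring)
      have h7 : ¬ (q - 1).Prime := h6 ▸ np (by omega) (by omega)
      have h8 : c + 2 < q - 1 := by rw [h6]; nlinarith
      have k1 := h.prime (ha _ dvd_rfl) (by omega) h7 (ha c (Dvd.intro _ h6.symm)) (by omega)
        (by omega)
      have k2 := h.prime (ha _ dvd_rfl) (by omega) h7 (ha (c + 2) (Dvd.intro_left _ h6.symm))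
        (by omega) (by omega)
      rcases h3 with e | e
      · have := (Nat.prime_dvd_prime_iff_eq Nat.prime_three k1).1 (by omega)
        omega
      · have := (Nat.prime_dvd_prime_iff_eq Nat.prime_three k2).1 (by omega)
        omega
  obtain ⟨a, h1⟩ : Odd q := hq ▸ ho.pow
  rw [show q - 1 = a * 2 by omega, Nat.gcd_mul_left_left, Nat.mul_div_cancel _ two_pos] at ha
  rw [show q + 1 = (a + 1) * 2 by omega, Nat.gcd_mul_left_left, Nat.mul_div_cancel _ two_pos] at hb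
  have h3 : 3 ∣ q → q = 3 ^ n := fun e => by
    rw [hq, (Nat.prime_dvd_prime_iff_eq Nat.prime_three hp).1
      (Nat.prime_three.dvd_of_dvd_pow (hq ▸ e))]
  rcases Nat.even_or_odd' a with ⟨b, rfl | rfl⟩
  · by_cases b1 : b ≤ 3
    · exact .inr (.inl (by omega))
    have h5 : ¬ (2 * b).Prime := np (by decide) (by omega)
    have k1 := h.prime (ha _ dvd_rfl) (by omega) h5 (ha b (dvd_mul_left b 2)) (by omega) (by omega)
    have k2 := h.prime (ha _ dvd_rfl) (by omega) h5 (hb _ dvd_rfl) (by omega) (by omega)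
    have k3 : ¬ 3 ∣ b := fun e => by
      have := (Nat.prime_dvd_prime_iff_eq Nat.prime_three k1).1 e; omega
    have k4 : ¬ 3 ∣ 2 * b + 1 := fun e => by
      have := (Nat.prime_dvd_prime_iff_eq Nat.prime_three k2).1 e; omega
    have k5 := h3 (by
      rcases (by omega : b % 3 = 0 ∨ b % 3 = 1 ∨ b % 3 = 2) with e | e | e <;> omega)
    have k6 := k1.eq_two_or_odd
    have k7 : 3 ^ n % 8 = 1 ∨ 3 ^ n % 8 = 3 := by
      rcases Nat.even_or_odd' n with ⟨m, rfl | rfl⟩ <;> simp [pow_succ, pow_mul, Nat.mul_mod,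
        Nat.pow_mod]
    omega
  · by_cases b1 : b ≤ 2
    · exact .inr (.inl (by omega))
    rw [show 2 * b + 1 + 1 = 2 * (b + 1) by ring] at hb
    have h5 : ¬ (2 * (b + 1)).Prime := np (by decide) (by omega)
    have k1 := h.prime (hb _ dvd_rfl) (by omega) h5 (hb _ (dvd_mul_left _ 2)) (by omega) (by omega)
    have k2 := h.prime (hb _ dvd_rfl) (by omega) h5 (ha _ dvd_rfl) (by omega) (by omega)
    have k3 : ¬ 3 ∣ b + 1 := fun e => by
      have := (Nat.prime_dvd_prime_iff_eq Nat.prime_three k1).1 e; omega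
    have k4 : ¬ 3 ∣ 2 * b + 1 := fun e => by
      have := (Nat.prime_dvd_prime_iff_eq Nat.prime_three k2).1 e; omega
    have k5 := h3 (by
      rcases (by omega : b % 3 = 0 ∨ b % 3 = 1 ∨ b % 3 = 2) with e | e | e <;> omega)
    exact .inr (.inr (.inl ⟨n, _, _, k2, k1, by omega, by omega, k5⟩))

theorem oneComp_psl2 [IsSimpleGroup G] (hG : ∃ x y : G, x * y ≠ y * x)
    (h : OneComp (Set.range (orderOf : G → ℕ))) {F : Type*} [Field F] [Fintype F]
    (e : G ≃* Matrix.ProjectiveSpecialLinearGroup (Fin 2) F) {q : ℕ} (hq : Fintype.card F = q) :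
    q = 4 ∨ (q = 5 ∨ q = 7 ∨ q = 8 ∨ q = 9 ∨ q = 11 ∨ q = 13 ∨ q = 16) ∨
    (∃ n r s : ℕ, r.Prime ∧ s.Prime ∧ 3 ^ n - 1 = 2 * r ∧ 3 ^ n + 1 = 4 * s ∧ q = 3 ^ n) ∨
    (∃ n r : ℕ, (2 ^ n - 1).Prime ∧ r.Prime ∧ 2 ^ n + 1 = 3 * r ∧ q = 2 ^ n) := by
  obtain ⟨p, _, n, hp, h1⟩ := FiniteField.card' F
  rw [H6.spec_eq_of_mulEquiv e, H6.spec_psl2, hq] at h
  refine oneComp_arith hp (hq ▸ h1) ?_ h (fun x hx => .inr (.inl hx)) fun x hx => .inr (.inr hx)
  by_contra! h2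
  have h3 := card_psl2_mul F
  have h4 := Fintype.one_lt_card (α := F)
  rw [← Nat.card_congr e.toEquiv, hq] at h3
  obtain ⟨x, y, hxy⟩ := hG
  refine hxy (IsSimpleGroup.comm_iff_isSolvable.2 (isSolvable_of_card_dvd_prime_pow_mul (a := 3)
    (b := 1) Nat.prime_two Nat.prime_three ((Dvd.intro _ h3).trans ?_)) x y)
  rw [hq] at h4
  interval_cases q <;> decide

end Cfsg.Agent.H3
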