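import Mathlib

/-!
# Arithmetic for groups of order dividing `p²(p⁴-1)/2`
-/

set_option autoImplicit false

namespace Cfsg.Agent.H3.Sq

theorem eq_of_dvd_sq_add_one {p s : ℕ} (hp : 2 ≤ p) (hs : 1 ≤ s) (h : 1 + s * p ∣ p ^ 2 + 1) :
    s = p := by
  obtain ⟨c, hc⟩ := h
  have h1 : (p : ℤ) ∣ (c : ℤ) - 1 := by
    refine ⟨p - s * c, ?_⟩
    have : (p : ℤ) ^ 2 + 1 = (1 + s * p) * c := by exact_mod_cast hc
    linear_combination -this
  obtain ⟨l, hl⟩ := h1
  have hc' : (p : ℤ) ^ 2 + 1 = (1 + s * p) * (1 + p * l) := by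
    have : (p : ℤ) ^ 2 + 1 = (1 + s * p) * c := by exact_mod_cast hc
    rw [this]; congr 1; linarith
  have hp' : (2 : ℤ) ≤ p := by exact_mod_cast hp
  have hs' : (1 : ℤ) ≤ s := by exact_mod_cast hs
  have h2 : (p : ℤ) = s + l + s * l * p := by
    apply mul_left_cancel₀ (show (p : ℤ) ≠ 0 by omega)
    linear_combination hc'
  have hl0 : 0 ≤ l := by
    by_contra hn
    have : (0 : ℤ) ≤ c := Int.natCast_nonneg c
    nlinarith
  rcases hl0.eq_or_lt with h0 | h0
  · rw [← h0] at h2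
    omega
  · exfalso
    have : (1 : ℤ) ≤ s * l := by nlinarith
    nlinarith

theorem odd_of_seven {p : ℕ} (hp : p.Prime) (h7 : 7 ≤ p) : ∃ t, p = 2 * t + 1 :=
  hp.odd_of_ne_two (by omega)

theorem pow_four_sub {p : ℕ} (h : 1 ≤ p) : p ^ 4 - 1 = (p - 1) * (p + 1) * (p ^ 2 + 1) := by
  obtain ⟨t, rfl⟩ : ∃ t, p = t + 1 := ⟨p - 1, by omega⟩
  rw [Nat.add_sub_cancel]
  apply Nat.sub_eq_of_eq_add
  ring

theorem two_pow_dvd {i a b : ℕ} (ha : Odd a) (h : 2 ^ i ∣ a * b) : 2 ^ i ∣ b :=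
  Nat.Coprime.dvd_of_dvd_mul_left ((Nat.coprime_two_left.mpr ha).pow_left i) h

/-- A prime power `≡ 1 (mod p)` whose double divides `p⁴ - 1` is `p + 1`, a power of two. -/
theorem mersenne {p r i k : ℕ} (hp : p.Prime) (h7 : 7 ≤ p) (hr : r.Prime) (hk : 1 ≤ k)
    (he : r ^ i = 1 + k * p) (hd : 2 * r ^ i ∣ p ^ 4 - 1) : r = 2 ∧ k = 1 := by
  obtain ⟨t, ht⟩ := odd_of_seven hp h7
  rw [pow_four_sub (by omega)] at hd
  have e1 : p - 1 = 2 * t := by omega
  have e2 : p + 1 = 2 * (t + 1) := by omega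
  have e3 : p ^ 2 + 1 = 2 * (2 * t * (t + 1) + 1) := by rw [ht]; ring
  have hkp : p ≤ k * p := Nat.le_mul_of_pos_left p hk
  rcases hr.eq_two_or_odd' with rfl | ho
  · refine ⟨rfl, ?_⟩
    rw [e1, e2, e3] at hd
    have h1 : 2 ^ i ∣ (2 * t * (t + 1) + 1) * (4 * (t * (t + 1))) := by
      refine Nat.dvd_of_mul_dvd_mul_left two_pos (hd.trans (Dvd.intro_left 1 ?_))
      ring
    have h2 := two_pow_dvd ⟨t * (t + 1), by ring⟩ h1
    have h3 : 2 ^ i ≤ 4 * (t + 1) := by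
      rcases Nat.even_or_odd t with h | h
      · have h4 : 2 ^ i ∣ (t + 1) * (4 * t) := by convert h2 using 1; ring
        have := Nat.le_of_dvd (by omega) (two_pow_dvd h.add_one h4)
        omega
      · have h4 : 2 ^ i ∣ t * (4 * (t + 1)) := by convert h2 using 1; ring
        exact Nat.le_of_dvd (by omega) (two_pow_dvd h h4)
    have hk2 : k ≤ 2 := by
      by_contra hn
      have : 3 * p ≤ k * p := Nat.mul_le_mul_right p (by omega)
      omega
    have hi : i ≠ 0 := by rintro rfl; omega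
    have h5 : 2 ∣ 2 ^ i := dvd_pow_self 2 hi
    interval_cases k
    · rfl
    · omega
  · exfalso
    have hodd : Odd (r ^ i) := ho.pow
    have hd' : r ^ i ∣ (p - 1) * (p + 1) * (p ^ 2 + 1) := (Dvd.intro_left 2 rfl).trans hd
    have hr2 : ¬ r ∣ 2 := fun h => by
      have := (Nat.prime_dvd_prime_iff_eq hr Nat.prime_two).mp h
      rw [this] at ho
      exact absurd ho (by decide)
    have hcop : ∀ {a : ℕ}, ¬ r ∣ a → Nat.Coprime (r ^ i) a := fun h =>
      Nat.Coprime.pow_left i ((Nat.Prime.coprime_iff_not_dvd hr).mpr h)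
    by_cases h1 : r ∣ p ^ 2 + 1
    · have h2 : ¬ r ∣ (p - 1) * (p + 1) := fun h => hr2 (by
        have e : p ^ 2 + 1 = (p - 1) * (p + 1) + 2 := by rw [e1, e2, e3]; ring
        rw [e] at h1
        exact (Nat.dvd_add_right h).mp h1)
      have h3 := (hcop h2).dvd_of_dvd_mul_left hd'
      rw [he] at h3
      have h4 := eq_of_dvd_sq_add_one (by omega) hk h3
      rw [he, h4, ht] at hodd
      obtain ⟨c, hc⟩ := hodd
      have : 1 + (2 * t + 1) * (2 * t + 1) = 2 * (2 * t * (t + 1) + 1) := by ring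
      omega
    · have h2 := (hcop h1).dvd_of_dvd_mul_right hd'
      have h3 : r ^ i ∣ p - 1 ∨ r ^ i ∣ p + 1 := by
        by_cases h4 : r ∣ p - 1
        · left
          refine (hcop fun h => hr2 ?_).dvd_of_dvd_mul_right h2
          have e : p + 1 = (p - 1) + 2 := by omega
          rw [e] at h
          exact (Nat.dvd_add_right h4).mp h
        · exact Or.inr ((hcop h4).dvd_of_dvd_mul_left h2)
      obtain ⟨c, hc⟩ := hodd
      rcases h3 with h | h
      · have := Nat.le_of_dvd (by omega) h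
        omega
      · have h5 := Nat.le_of_dvd (by omega) h
        omega

theorem sylow_two_bound {p i l : ℕ} (h7 : 7 ≤ p) (hl : p + 1 = 2 ^ l)
    (hd : 2 * 2 ^ i ∣ p ^ 4 - 1) : 2 ^ i ∣ 2 * (p + 1) := by
  have h3 : 2 ≤ l := by
    by_contra hn
    have : l ≤ 1 := by omega
    interval_cases l <;> omega
  obtain ⟨s, hs⟩ : 4 ∣ p + 1 := hl ▸ pow_dvd_pow 2 h3
  obtain ⟨u, rfl⟩ : ∃ u, s = u + 1 := ⟨s - 1, by omega⟩
  obtain rfl : p = 4 * u + 3 := by omega
  rw [pow_four_sub (by omega)] at hd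
  have h1 : 2 ^ i ∣ ((2 * u + 1) * (2 * (4 * u * u + 6 * u + 2) + 1)) * (2 * (4 * u + 3 + 1)) := by
    refine Nat.dvd_of_mul_dvd_mul_left two_pos (hd.trans (Dvd.intro_left 1 ?_))
    rw [show 4 * u + 3 - 1 = 4 * u + 2 by omega]
    ring
  exact two_pow_dvd (Odd.mul ⟨u, rfl⟩ ⟨_, rfl⟩) h1

theorem jform {p a b v : ℕ} (hp : 2 ≤ p) (hb : 1 ≤ b)
    (h : (1 + a * p + b * p ^ 2) * v + 1 = p ^ 4) :
    ∃ j, v + 1 = j * p ∧ 1 ≤ j ∧ j ≤ p ∧ (j = p → a = 0 ∧ b = 1) ∧ ∃ s, a = j + s * p ∨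
      (a = 0 ∧ j = p) := by
  have h1 : p ∣ v + 1 := by
    have : p ^ 4 = p * (a * v + b * p * v) + (v + 1) := by rw [← h]; ring
    exact (Nat.dvd_add_right (Dvd.intro _ rfl)).mp (this ▸ dvd_pow_self p (by norm_num))
  obtain ⟨j, hj⟩ := h1
  have hj1 : 1 ≤ j := by
    rcases j with _ | j
    · omega
    · omega
  have hpp : 4 ≤ p ^ 2 := by nlinarith
  have hbp : p ^ 2 ≤ b * p ^ 2 := Nat.le_mul_of_pos_left _ hb
  have hjp : j ≤ p := by
    by_contra hn
    have h2 : p * (p + 1) ≤ p * j := Nat.mul_le_mul_left p (by omega)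
    have h3 : p ^ 2 ≤ v := by nlinarith
    have h4 : (1 + p ^ 2) * p ^ 2 ≤ (1 + a * p + b * p ^ 2) * v :=
      Nat.mul_le_mul (by omega) h3
    nlinarith
  have hjeq : j = p → a = 0 ∧ b = 1 := by
    rintro rfl
    have h2 : (1 + a * j + b * j ^ 2) * v = (j ^ 2 + 1) * v := by
      have : j ^ 4 = (j ^ 2 + 1) * v + 1 := by
        have e : v = j * j - 1 := by omega
        have e' : j * j = (j * j - 1) + 1 := by nlinarith
        rw [e]
        generalize j * j - 1 = z at e'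
        have : j ^ 4 = (j * j) * (j * j) := by ring
        rw [this, sq, e']; ring
      omega
    have hv : 0 < v := by nlinarith
    have h3 := Nat.eq_of_mul_eq_mul_right hv h2
    have h4 : a * j = 0 := by omega
    have h5 : b * j ^ 2 = 1 * j ^ 2 := by omega
    exact ⟨(Nat.mul_eq_zero.mp h4).resolve_right (by omega),
      Nat.eq_of_mul_eq_mul_right (by omega) h5⟩
  refine ⟨j, by rw [hj, mul_comm], hj1, hjp, hjeq, ?_⟩
  have h2 : (p : ℤ) ∣ (a : ℤ) - j := by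
    have h' : ((1 + a * p + b * p ^ 2) * v + 1 : ℤ) = p ^ 4 := by exact_mod_cast h
    have hj' : (v + 1 : ℤ) = p * j := by exact_mod_cast hj
    refine ⟨a * j - b + b * j * p - p ^ 2, ?_⟩
    apply mul_left_cancel₀ (show (p : ℤ) ≠ 0 by omega)
    have hv : (v : ℤ) = p * j - 1 := by linarith
    rw [hv] at h'
    linear_combination -h'
  obtain ⟨s, hs⟩ := h2
  rcases le_or_gt 0 s with h0 | h0
  · obtain ⟨s, rfl⟩ := Int.eq_ofNat_of_zero_le h0
    refine ⟨s, Or.inl ?_⟩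
    have : (a : ℤ) = j + s * p := by linarith
    exact_mod_cast this
  · refine ⟨0, Or.inr ?_⟩
    have : (p : ℤ) * s ≤ -p := by nlinarith
    omega

theorem caseII {p k d N j s w y v : ℕ} (h7 : 7 ≤ p) (hk : 2 ≤ k) (hN : N * v + 1 = p ^ 4)
    (hv : v + 1 = j * p) (hj : 1 ≤ j) (ha : k + d = j + s * p)
    (hy : y * (1 + k * p) = N * w) (h2 : 2 * (y * (1 + k * p)) < p ^ 4) (hyp : p ^ 2 ≤ y)
    (hw : 1 ≤ w) (hyw : w * (d * p) < y) (hwk : w * k ≤ k + d) : False := by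
  have hp4 : p ^ 4 = p ^ 2 * p ^ 2 := by ring
  have hpos : 0 < p ^ 2 := by positivity
  have h3 : 2 * k < p := by
    have h4 : p ^ 2 * (2 * (1 + k * p)) < p ^ 2 * p ^ 2 := by
      have := Nat.mul_le_mul_right (1 + k * p) hyp
      nlinarith
    have h5 := Nat.lt_of_mul_lt_mul_left h4
    by_contra hn
    have : p * p ≤ 2 * k * p := Nat.mul_le_mul_right p (by omega)
    nlinarith
  have hvp : p - 1 ≤ v := by
    have : p ≤ j * p := Nat.le_mul_of_pos_left p hj
    omega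
  have hv0 : 0 < v := by omega
  have e1 : y * (1 + k * p) * v + w = p ^ 4 * w := by rw [hy, ← hN]; ring
  have h4 : k * j ≤ w := by
    have h5 : p ^ 2 * ((1 + k * p) * v) < p ^ 2 * (p ^ 2 * w) := by
      have := Nat.mul_le_mul_right ((1 + k * p) * v) hyp
      nlinarith
    have h6 := Nat.lt_of_mul_lt_mul_left h5
    have h7' : p * (k * v) < p * (p * w) := by nlinarith
    have h8 := Nat.lt_of_mul_lt_mul_left h7'
    by_contra hn
    have h9 : p * (w + 1) ≤ p * (k * j) := Nat.mul_le_mul_left p (by omega)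
    have : k * (v + 1) = p * (k * j) := by rw [hv]; ring
    nlinarith
  have hs : 1 ≤ s := by
    rcases s with _ | s
    · exfalso
      have : k * j * k ≤ w * k := Nat.mul_le_mul_right k h4
      have : 2 * j * 2 ≤ k * j * k := Nat.mul_le_mul (Nat.mul_le_mul_right j hk) hk
      omega
    · omega
  have hd : p + 1 ≤ k + d := by
    have : p ≤ s * p := Nat.le_mul_of_pos_left p hs
    omega
  have h5 : d * k * v < p ^ 2 := by
    have h6 : w * (d * p) * ((1 + k * p) * v) < y * ((1 + k * p) * v) :=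
      Nat.mul_lt_mul_of_pos_right hyw (by positivity)
    have h7' : w * (p ^ 2 * (d * k * v)) < w * (p ^ 2 * p ^ 2) := by
      have : w * (p ^ 2 * (d * k * v)) ≤ w * (d * p) * ((1 + k * p) * v) := by
        have : w * (d * p) * ((1 + k * p) * v) = w * (p ^ 2 * (d * k * v)) + w * (d * p) * v := by
          ring
        omega
      nlinarith
    exact Nat.lt_of_mul_lt_mul_left (Nat.lt_of_mul_lt_mul_left h7')
  have h6 : 2 * (p - 1) ≤ d * k := by
    obtain ⟨k', rfl⟩ : ∃ k', k = k' + 2 := ⟨k - 2, by omega⟩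
    obtain ⟨d', rfl⟩ : ∃ d', d = d' + 2 := ⟨d - 2, by omega⟩
    have : (d' + 2) * (k' + 2) = d' * k' + 2 * d' + 2 * k' + 4 := by ring
    omega
  have h7' : 2 * (p - 1) * (p - 1) ≤ d * k * v := Nat.mul_le_mul h6 hvp
  obtain ⟨t, rfl⟩ : ∃ t, p = t + 1 := ⟨p - 1, by omega⟩
  rw [Nat.add_sub_cancel] at h7'
  nlinarith

theorem caseI {p k d j s v : ℕ} (h7 : 7 ≤ p) (hk : 2 ≤ k) (hd : 2 ≤ d)
    (hN : (1 + k * p) * (1 + d * p) * v + 1 = p ^ 4) (hv : v + 1 = j * p) (hj : 1 ≤ j)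
    (ha : k + d = j + s * p) : False := by
  have hvp : p - 1 ≤ v := by
    have : p ≤ j * p := Nat.le_mul_of_pos_left p hj
    omega
  have hq : 2 * (k + d) ≤ k * d + 4 := by
    obtain ⟨k', rfl⟩ : ∃ k', k = k' + 2 := ⟨k - 2, by omega⟩
    obtain ⟨d', rfl⟩ : ∃ d', d = d' + 2 := ⟨d - 2, by omega⟩
    nlinarith [Nat.zero_le (k' * d')]
  rcases s with _ | s
  · have hj' : j = k + d := by omega
    have h' : ((1 + k * p) * (1 + d * p) * v + 1 : ℤ) = p ^ 4 := by exact_mod_cast hN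
    have hv' : (v : ℤ) = (k + d) * p - 1 := by
      have : (v + 1 : ℤ) = j * p := by exact_mod_cast hv
      rw [hj'] at this
      push_cast at this
      linarith
    rw [hv'] at h'
    have hp0 : (0 : ℤ) < p := by omega
    have h1 : ((k + d) ^ 2 - k * d : ℤ) = p * (p - k * d * (k + d)) := by
      apply mul_left_cancel₀ (show (p : ℤ) ^ 2 ≠ 0 by positivity)
      linear_combination h'
    have hk' : (2 : ℤ) ≤ k := by exact_mod_cast hk
    have hd' : (2 : ℤ) ≤ d := by exact_mod_cast hd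
    have hq' : (k + d : ℤ) ≤ k * d := by nlinarith
    have h2 : (0 : ℤ) < (k + d) ^ 2 - k * d := by nlinarith
    have h3 : (0 : ℤ) < p - k * d * (k + d) := by
      by_contra hn
      nlinarith
    have h4 : (p : ℤ) ≤ (k + d) ^ 2 - k * d := by nlinarith
    nlinarith
  · have h1 : p + 1 ≤ k + d := by
      have : p ≤ (s + 1) * p := Nat.le_mul_of_pos_left p (by omega)
      omega
    have h2 : p ^ 2 * (k * d * v) < p ^ 2 * p ^ 2 := by
      have : (1 + k * p) * (1 + d * p) * v = p ^ 2 * (k * d * v) + (1 + k * p + d * p) * v := by ring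
      have e : p ^ 4 = p ^ 2 * p ^ 2 := by ring
      omega
    have h3 := Nat.lt_of_mul_lt_mul_left h2
    have h4 : 2 * (p - 1) * (p - 1) ≤ k * d * v := Nat.mul_le_mul (by omega) hvp
    obtain ⟨t, rfl⟩ : ∃ t, p = t + 1 := ⟨p - 1, by omega⟩
    rw [Nat.add_sub_cancel] at h4
    nlinarith

theorem j_eq_one {p j v : ℕ} (h7 : 7 ≤ p) (hv : v + 1 = j * p) (hj : 1 ≤ j) (hjp : j < p)
    (h : p - 1 ∣ v) : j = 1 := by
  obtain ⟨t, rfl⟩ : ∃ t, p = t + 1 := ⟨p - 1, by omega⟩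
  rw [Nat.add_sub_cancel] at h
  obtain ⟨i, rfl⟩ : ∃ i, j = i + 1 := ⟨j - 1, by omega⟩
  have e : v = t * (i + 1) + i := by nlinarith
  rw [e] at h
  have h1 := (Nat.dvd_add_right (Dvd.intro _ rfl)).mp h
  have := Nat.eq_zero_of_dvd_of_lt h1 (by omega)
  omega

end Cfsg.Agent.H3.Sq
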