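import Mathlib
import Cfsg.Agent.H3.GroupUtil
import Cfsg.Agent.H3.FrobCount
import Cfsg.Agent.H3.Frobenius
import Cfsg.Agent.H3.PPart
import Cfsg.Agent.H3.Zass
import Cfsg.Agent.H3.PSL2Card
import Cfsg.Agent.H7.SylowIn
import Cfsg.Agent.H7.MinNormal
import Cfsg.Agent.H9.SimpleSection
import Cfsg.Agent.H9.ZassClass

/-!
# Small tools: subgroups of prime order, parity of permutations, Zassenhaus groups of degree `p + 1`
-/

set_option autoImplicit false

namespace Cfsg.Agent.H3.Sq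

open Subgroup MulAction

variable {G : Type*} [Group G]

theorem pow_commute_of_norm [Finite G] {p : ℕ} (hp : p.Prime) {Y : Subgroup G} (hY : Nat.card Y = p)
    {d : G} (hd : d ∈ normalizer (Y : Set G)) : d ^ (p - 1) ∈ centralizer (Y : Set G) := by
  have : Fact p.Prime := ⟨hp⟩
  have : IsCyclic Y := isCyclic_of_prime_card hY
  have h1 : Y.normalizerMonoidHom (⟨d, hd⟩ ^ (p - 1)) = 1 := by
    rw [map_pow, ← Nat.totient_prime hp, ← hY, ← IsCyclic.card_mulAut, pow_card_eq_one']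
  have h2 : (⟨d, hd⟩ : normalizer (Y : Set G)) ^ (p - 1) ∈ Y.normalizerMonoidHom.ker := h1
  rw [normalizerMonoidHom_ker, mem_subgroupOf] at h2
  exact h2

theorem mem_centralizer_of_norm [Finite G] {p : ℕ} (hp : p.Prime) {Y : Subgroup G}
    (hY : Nat.card Y = p) {d : G} (hd : d ∈ normalizer (Y : Set G)) (h : IsPElt p d) :
    d ∈ centralizer (Y : Set G) := by
  refine mem_of_pow_mem_of_coprime (n := p - 1) ?_ (pow_commute_of_norm hp hY hd)
  obtain ⟨k, hk⟩ := h
  refine Nat.Coprime.coprime_dvd_right (orderOf_dvd_of_pow_eq_one hk) (Nat.Coprime.pow_right _ ?_)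
  have := hp.one_lt
  exact (Nat.coprime_self_sub_left (by omega)).mpr (by simp)

theorem dvd_card_of_inv {T : Type*} [MulAction G T] (P : Subgroup G) (S : Finset T)
    (hS : ∀ g ∈ P, ∀ t ∈ S, g • t ∈ S) {d : ℕ} (hd : ∀ t ∈ S, d ∣ (stabilizer G t).relIndex P) :
    d ∣ S.card := by
  classical
  refine dvd_card_of_fibers S (fun t => (Quotient.mk (orbitRel P T) t)) (fun b hb => ?_)
  have : ((S.filter fun x => Quotient.mk (orbitRel P T) x = Quotient.mk (orbitRel P T) b :
      Finset T) : Set T) = orbit P b := by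
    ext x
    simp only [Finset.coe_filter, Set.mem_ofPred_eq, Quotient.eq]
    refine ⟨fun h => h.2, fun h => ⟨?_, h⟩⟩
    obtain ⟨g, rfl⟩ := h
    exact hS g g.2 b hb
  rw [← Set.ncard_coe_finset, this, ← H7.relIndex_stabilizer]
  exact hd b hb

theorem exists_index_two_of_sign {Ω : Type*} [Fintype Ω] [DecidableEq Ω] (f : G →* Equiv.Perm Ω)
    {g : G} (hg : Equiv.Perm.sign (f g) = -1) : ∃ H : Subgroup G, H.index = 2 := by
  refine ⟨(Equiv.Perm.sign.comp f).ker, ?_⟩
  rw [index_ker, show (Equiv.Perm.sign.comp f).range = ⊤ from ?_, card_top, Nat.card_eq_fintype_card,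
    Fintype.card_units_int]
  rw [eq_top_iff]
  intro u _
  rcases Int.units_eq_one_or u with rfl | rfl
  · exact one_mem _
  · exact ⟨g, hg⟩

theorem sign_of_fix {Ω : Type*} [Fintype Ω] [DecidableEq Ω] {σ : Equiv.Perm Ω} (h : σ ^ 2 = 1)
    {k : ℕ} (hk : Odd k) (hc : Nat.card Ω = Nat.card {x // σ x = x} + 2 * k) :
    Equiv.Perm.sign σ = -1 := by
  rw [Equiv.Perm.sign_of_pow_two_eq_one h]
  have : Fintype.card (Function.fixedPoints σ) = Nat.card {x // σ x = x} := by
    rw [← Nat.card_eq_fintype_card]; rfl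
  rw [this, ← Nat.card_eq_fintype_card, hc, Nat.add_sub_cancel_left, Nat.mul_div_cancel_left _ two_pos,
    hk.neg_one_pow]

theorem exists_index_two [Finite G] {k : ℕ} (hk : Odd k) (hG : Nat.card G = 2 * k) :
    ∃ H : Subgroup G, H.index = 2 := by
  classical
  have := Fintype.ofFinite G
  obtain ⟨t, ht⟩ := exists_prime_orderOf_dvd_card' (G := G) 2 (hG ▸ Dvd.intro _ rfl)
  refine exists_index_two_of_sign (toPermHom G G) (g := t) (sign_of_fix ?_ hk ?_)
  · rw [← map_pow, ← ht, pow_orderOf_eq_one, map_one]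
  · have : IsEmpty {x // toPermHom G G t x = x} := ⟨fun ⟨x, hx⟩ => by
      have : t = 1 := by simpa using hx
      rw [this] at ht
      simp at ht⟩
    rw [hG, Nat.card_of_isEmpty, zero_add]

theorem card_cases {p : ℕ} (hp : p.Prime) {H P : Subgroup G} (h : H ≤ P) (hP : Nat.card P = p ^ 2) :
    Nat.card H = 1 ∨ Nat.card H = p ∨ Nat.card H = p ^ 2 := by
  obtain ⟨i, hi, e⟩ := (Nat.dvd_prime_pow hp).mp (hP ▸ card_dvd_of_le h)
  interval_cases i <;> simp [e]

theorem eq_of_lt_line [Finite G] {p : ℕ} (hp : p.Prime) {X H P : Subgroup G} (hX : Nat.card X = p)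
    (h1 : X ≤ H) (h : H ≤ P) (hP : Nat.card P = p ^ 2) {x : G} (hx : x ∈ H) (hx' : x ∉ X) :
    H = P := by
  have h2 : Nat.card X ≤ Nat.card H := card_le_of_le h1
  have := hp.one_lt
  rcases card_cases hp h hP with e | e | e
  · omega
  · exact absurd (H7.eq_of_le_of_card_le h1 (by omega) ▸ hx) hx'
  · exact H7.eq_of_le_of_card_le h (by omega)

theorem card_eq_of_ne [Finite G] {p : ℕ} (hp : p.Prime) {H P : Subgroup G} (h : H ≤ P)
    (hP : Nat.card P = p ^ 2) (h1 : H ≠ ⊥) (h2 : H ≠ P) : Nat.card H = p := by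
  rcases card_cases hp h hP with e | e | e
  · exact absurd (card_eq_one.mp e) h1
  · exact e
  · exact absurd (H7.eq_of_le_of_card_le h (by omega)) h2

theorem inf_eq_bot_of_ne [Finite G] {p : ℕ} (hp : p.Prime) {X Y : Subgroup G} (hX : Nat.card X = p)
    (hY : Nat.card Y = p) (h : X ≠ Y) : X ⊓ Y = ⊥ := by
  rcases (Nat.dvd_prime hp).mp (hX ▸ card_dvd_of_le (inf_le_left : X ⊓ Y ≤ X)) with e | e
  · exact card_eq_one.mp e
  · exact absurd ((H7.eq_of_le_of_card_le (inf_le_left : X ⊓ Y ≤ X) (by omega)).symm.trans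
      (H7.eq_of_le_of_card_le (inf_le_right : X ⊓ Y ≤ Y) (by omega))) h

theorem eq_of_mem_lines [Finite G] {p : ℕ} (hp : p.Prime) {X Y : Subgroup G} (hX : Nat.card X = p)
    (hY : Nat.card Y = p) {x : G} (h1 : x ∈ X) (h2 : x ∈ Y) (h : x ≠ 1) : X = Y := by
  by_contra hn
  have : x ∈ X ⊓ Y := ⟨h1, h2⟩
  rw [inf_eq_bot_of_ne hp hX hY hn] at this
  exact h this

theorem exists_ne_one_of_card [Finite G] {X : Subgroup G} (h : 1 < Nat.card X) : ∃ x ∈ X, x ≠ 1 := by
  by_contra hn
  push Not at hn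
  have : X = ⊥ := eq_bot_iff.mpr hn
  rw [this, card_bot] at h
  omega

theorem comm_of_card {p : ℕ} [Fact p.Prime] {P : Subgroup G} (hP : Nat.card P = p ^ 2) {x y : G}
    (hx : x ∈ P) (hy : y ∈ P) : x * y = y * x := by
  have := IsPGroup.isMulCommutative_of_card_eq_prime_sq hP
  exact congrArg Subtype.val (this.is_comm.comm ⟨x, hx⟩ ⟨y, hy⟩)

theorem le_centralizer_of_card {p : ℕ} [Fact p.Prime] {X P : Subgroup G} (hP : Nat.card P = p ^ 2)
    (hX : X ≤ P) : P ≤ centralizer (X : Set G) :=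
  fun _ hy _ hx => comm_of_card hP (hX hx) hy

/-- Zassenhaus-type groups of degree `p + 1`. -/
theorem zs_prime [Finite G] {Ω : Type*} [MulAction G Ω] (Z : Zs G Ω) {p : ℕ} (hp : p.Prime)
    (h5 : 5 ≤ p) (hΩ : Nat.card Ω = p + 1) :
    (p + 1) * p * (p - 1) ∣ 2 * Nat.card G ∨
      ∃ V : Subgroup G, V.Normal ∧ Nat.card V = p + 1 ∧ IsPGroup 2 V := by
  have : Finite Ω := Nat.finite_of_card_ne_zero (by omega)
  have : Nontrivial Ω := Finite.one_lt_card_iff_nontrivial.mp (by omega)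
  obtain ⟨a, b, hab⟩ := exists_pair_ne Ω
  have hodd := hp.odd_of_ne_two (by omega)
  by_cases hreg : ∃ N : Subgroup G, N.Normal ∧ IsPretransitive N Ω ∧ ∀ a : Ω, stabilizer N a = ⊥
  · obtain ⟨N, h1, h2, h3⟩ := hreg
    right
    have hc : Nat.card N = p + 1 := (card_eq_of_regular a (h3 a)).trans hΩ
    obtain ⟨r, hr, h4, -⟩ := elementary_abelian_of_regular_normal Z.isTwo h3
    have : Fact r.Prime := ⟨hr⟩
    obtain ⟨i, hi⟩ := h4.exists_card_eq
    have : 2 ∣ r ^ i := by rw [← hi, hc]; exact hodd.add_one.two_dvd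
    obtain rfl := (Nat.prime_dvd_prime_iff_eq Nat.prime_two hr).mp (Nat.prime_two.dvd_of_dvd_pow this)
    exact ⟨N, h1, hc, h4⟩
  left
  have hroot : Nat.card (Z.root a) = p := by have := Z.card_root hab; omega
  have hfa : FaithfulSMul G Ω := ⟨fun {g g'} hg => by
    have : Fintype Ω := Fintype.ofFinite Ω
    obtain ⟨x, y, z, h1, h2, h3⟩ := Fintype.two_lt_card_iff.mp
      (show 2 < Fintype.card Ω by rw [← Nat.card_eq_fintype_card]; omega)
    have e : ∀ c : Ω, (g⁻¹ * g') • c = c := fun c => by rw [mul_smul, ← hg c, inv_smul_smul]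
    exact inv_mul_eq_one.mp (Z.three _ x y z h1 h3 h2 (e x) (e y) (e z))⟩
  have hZ : Cfsg.IsZassenhausGroup G Ω := by
    refine ⟨hfa, Z.isTwo, Z.three, ?_, fun N h1 h2 => ?_⟩
    · by_contra hn
      have := Z.isPretransitive
      obtain ⟨K, h1, -, h2, h3⟩ := exists_frobeniusKernel_action (G := G) (Ω := Ω)
        (fun g c d hcd hc hd => by_contra fun h => hn ⟨g, h, c, d, hcd, hc, hd⟩) a
      refine hreg ⟨K, h1, h3, fun c => eq_bot_iff.mpr fun k hk => ?_⟩
      exact Subtype.ext (((h2 k).mp k.2).resolve_right fun h => h c hk)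
    · by_contra hn
      push Not at hn
      exact hreg ⟨N, h1, h2, hn⟩
  have : Nontrivial G := by
    obtain ⟨g, h1, h2⟩ := Z.two hab hab.symm
    exact ⟨g, 1, fun h => hab (by rw [h, one_smul] at h1; exact h1)⟩
  obtain ⟨M, hM⟩ := H7.exists_isMinNormal G
  have := hM.normal
  have hZM := isZassenhaus_of_normal hZ M hM.ne_bot
  have hrM : Nat.card ((Zs.of_isZassenhaus hZM).root a) = p := by
    have := (Zs.of_isZassenhaus hZM).card_root hab; omega
  have hs : IsSimpleGroup M := by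
    refine H9.isSimpleGroup_of_minimal_normal M (fun L h1 h2 => ?_) hp
      (hrM ▸ card_subgroup_dvd_card _) (fun h => ?_)
    · by_cases h : L = ⊥
      · exact Or.inl h
      · exact Or.inr (hM.eq_of_le h1 h h2)
    · have h1 := h.trans (card_subgroup_dvd_card M)
      have h2 := Z.card_stab_dvd hab
      rw [Z.card_eq hab, hroot, mul_assoc, mul_left_comm, sq] at h1
      rw [hroot] at h2
      rcases (Nat.Prime.dvd_mul hp).mp (Nat.dvd_of_mul_dvd_mul_left hp.pos h1) with h3 | h3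
      · have := Nat.le_of_dvd one_pos ((Nat.dvd_add_right dvd_rfl).mp h3)
        omega
      · have := Nat.le_of_dvd (by omega) (h3.trans h2)
        omega
  rcases H9.psl_or_two_of_isZassenhaus hZM a with ⟨F, _, _, h1, ⟨e⟩⟩ | ⟨h1, -⟩
  · have h2 := card_psl2_mul F
    rw [h1, hrM, ← Nat.card_congr e.toEquiv] at h2
    have h3 : Nat.gcd (p - 1) 2 = 2 := by
      obtain ⟨t, rfl⟩ := hodd
      simp
    rw [h3] at h2
    rw [show (p + 1) * p * (p - 1) = 2 * Nat.card M by rw [mul_comm 2, h2]; ring]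
    exact Nat.mul_dvd_mul_left 2 (card_subgroup_dvd_card M)
  · exfalso
    obtain ⟨i, hi⟩ := h1.exists_card_eq
    rw [hrM] at hi
    have := (Nat.prime_dvd_prime_iff_eq hp Nat.prime_two).mp (hp.dvd_of_dvd_pow hi.dvd)
    omega

theorem zs_cyclic [Finite G] {Ω : Type*} [MulAction G Ω] (Z : Zs G Ω) {p : ℕ} (hp : p.Prime)
    (hΩ : Nat.card Ω = p + 1) {a b : Ω} (hab : a ≠ b) :
    IsCyclic (stabilizer G a ⊓ stabilizer G b : Subgroup G) := by
  have : Fact p.Prime := ⟨hp⟩
  have hroot : Nat.card (Z.root a) = p := by have := Z.card_root hab; omega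
  have : IsCyclic (Z.root a) := isCyclic_of_prime_card hroot
  have hle : (stabilizer G a ⊓ stabilizer G b : Subgroup G) ≤ normalizer (Z.root a : Set G) := by
    intro g hg
    refine mem_normalizer_fintype (fun k hk => Z.conj_mem_root_of_fix hk hg.1)
  have hcyc : IsCyclic (MulAut (Z.root a)) := by
    have e := IsCyclic.mulAutMulEquiv (Z.root a)
    rw [hroot] at e
    exact isCyclic_of_injective e.toMonoidHom e.injective
  refine isCyclic_of_injective ((Z.root a).normalizerMonoidHom.comp (inclusion hle)) ?_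
  rw [injective_iff_map_eq_one]
  intro g hg
  have h1 : inclusion hle g ∈ (Z.root a).normalizerMonoidHom.ker := hg
  rw [normalizerMonoidHom_ker, mem_subgroupOf] at h1
  obtain ⟨k, hk, hk1⟩ := exists_ne_one_of_card (X := Z.root a) (by rw [hroot]; exact hp.one_lt)
  exact Subtype.ext ((Z.eq_one_of_commute_root hab g.2.1 g.2.2 hk (h1 k hk).symm).resolve_right hk1)

end Cfsg.Agent.H3.Sq
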