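import Mathlib
import Cfsg.Agent.H3.SqUtil
import Cfsg.Agent.H3.SqArith
import Cfsg.Agent.H7.Components
import Cfsg.Agent.H8.FT

/-!
# Groups of order dividing `p²(p⁴-1)/2` with self-centralizing Sylow `p`-subgroups
-/

set_option autoImplicit false
set_option linter.unusedSectionVars false

namespace Cfsg.Agent.H3.Sq

open Subgroup MulAction Pointwise

variable {G : Type*} [Group G]

/-- `G` with the conjugation action. -/
def Cj (G : Type*) := G

instance instMulActionCj : MulAction G (Cj G) :=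
  MulAction.compHom G (MulAut.conj : G →* MulAut G)

theorem stabilizer_cj (x : G) : stabilizer G (show Cj G from x) = centralizer {x} := by
  ext g
  rw [mem_centralizer_singleton_iff]
  exact mul_inv_eq_iff_eq_mul (G := G)

theorem ncard_conj (H : Subgroup G) (x : G) :
    {y | ∃ g ∈ H, g * x * g⁻¹ = y}.ncard = (centralizer {x}).relIndex H := by
  rw [← stabilizer_cj, H7.relIndex_stabilizer]
  congr 1
  ext y
  exact ⟨fun ⟨g, hg, e⟩ => ⟨⟨g, hg⟩, e⟩, fun ⟨g, e⟩ => ⟨g, g.2, e⟩⟩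

theorem dvd_card_conj (P : Subgroup G) (S : Finset G) (hS : ∀ g ∈ P, ∀ t ∈ S, g * t * g⁻¹ ∈ S)
    {d : ℕ} (hd : ∀ t ∈ S, d ∣ (centralizer {t}).relIndex P) : d ∣ S.card :=
  dvd_card_of_inv (T := Cj G) P S hS (fun t ht => by rw [stabilizer_cj (G := G) t]; exact hd t ht)

theorem dvd_relIndex_of_not_le {p : ℕ} (hp : p.Prime) {H P : Subgroup G} {k : ℕ}
    (hP : Nat.card P = p ^ k) (h : ¬ P ≤ H) : p ∣ H.relIndex P := by
  obtain ⟨i, -, e⟩ := (Nat.dvd_prime_pow hp).mp (hP ▸ relIndex_dvd_card H P)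
  rcases i with _ | i
  · exact absurd (relIndex_eq_one.mp e) h
  · exact e ▸ dvd_pow_self p (by omega)

theorem conj_mem_of_norm {W : Subgroup G} {g v : G} (hg : g ∈ normalizer (W : Set G)) (hv : v ∈ W) :
    g * v * g⁻¹ ∈ W := (mem_normalizer_iff.mp hg v).mp hv

/-- The hypothesis. -/
structure SqH (p n : ℕ) (G : Type*) [Group G] : Prop where
  seven : 7 ≤ p
  card : Nat.card G = p ^ 2 * n
  dvd : 2 * n ∣ p ^ 4 - 1
  cent : ∀ P : Subgroup G, Nat.card P = p ^ 2 → centralizer (P : Set G) ≤ P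
  core : ∀ N : Subgroup G, N.Normal → IsPGroup p N → N = ⊥

namespace SqH

variable [Finite G] {p n : ℕ} [hp : Fact p.Prime] (h : SqH p n G)
include h

omit [Finite G] in
theorem not_dvd : ¬ p ∣ n := fun hd => by
  have h1 : p ∣ p ^ 4 - 1 := (hd.mul_left 2).trans h.dvd
  have h2 : 1 ≤ p ^ 4 := Nat.one_le_pow _ _ hp.out.pos
  have h3 := Nat.dvd_sub (dvd_pow_self p (show 4 ≠ 0 by norm_num)) h1
  rw [show p ^ 4 - (p ^ 4 - 1) = 1 by omega] at h3
  exact hp.out.one_lt.ne' (Nat.dvd_one.mp h3)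

omit [Finite G] in
theorem exists_eq : ∃ c, 0 < c ∧ 2 * n * c + 1 = p ^ 4 := by
  obtain ⟨c, hc⟩ := h.dvd
  have h2 : 1 < p ^ 4 := Nat.one_lt_pow (by norm_num) hp.out.one_lt
  refine ⟨c, Nat.pos_of_ne_zero ?_, by omega⟩
  rintro rfl
  omega

omit [Finite G] in
theorem odd : Odd p := hp.out.odd_of_ne_two (by have := h.seven; omega)

theorem isSylowIn {P H : Subgroup G} (hP : Nat.card P = p ^ 2) (hPH : P ≤ H) :
    H7.IsSylowIn p P H := by
  refine ⟨hPH, IsPGroup.of_card hP, fun hd => h.not_dvd (hd.trans ?_)⟩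
  have h1 := card_subgroup_dvd_card H
  rw [← H7.card_mul_relIndex hPH, hP, h.card] at h1
  exact Nat.dvd_of_mul_dvd_mul_left (pow_pos hp.out.pos 2) h1

theorem card_sylow (P : Sylow p G) : Nat.card P = p ^ 2 := by
  obtain ⟨Q, hQ⟩ := Sylow.exists_subgroup_card_pow_prime p (G := G) (n := 2)
    (h.card ▸ Dvd.intro _ rfl)
  exact ((H7.isSylowIn_top P).card_eq (h.isSylowIn hQ le_top)).trans hQ

theorem exists_sylow {P : Subgroup G} (hP : Nat.card P = p ^ 2) : ∃ Q : Sylow p G, Q.1 = P :=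
  ⟨⟨P, IsPGroup.of_card hP, fun hQ hle => (h.isSylowIn hP le_top).eq_of_le hQ hle le_top⟩, rfl⟩

theorem mem_of_norm {P : Subgroup G} (hP : Nat.card P = p ^ 2) {x : G} (hx : IsPElt p x)
    (hn : x ∈ normalizer (P : Set G)) : x ∈ P := by
  obtain ⟨Q, rfl⟩ := h.exists_sylow hP
  have : x ∈ zpowers x ⊓ normalizer (Q : Set G) := ⟨mem_zpowers x, hn⟩
  rw [hx.isPGroup_zpowers.inf_normalizer_sylow] at this
  exact this.2

omit [Finite G] hp in
theorem eq_one_of_cent {P : Subgroup G} (hP : Nat.card P = p ^ 2) {v : G} (hv : IsPReg p v)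
    (hc : P ≤ centralizer {v}) : v = 1 :=
  (IsPElt.of_mem (IsPGroup.of_card hP) (h.cent P hP fun x hx =>
    mem_centralizer_singleton_iff.mp (hc hx))).eq_one hv

theorem dvd_of_coprime {W : Subgroup G} (hc : (Nat.card W).Coprime p) : Nat.card W ∣ n :=
  (hc.pow_right 2).dvd_of_dvd_mul_left (h.card ▸ card_subgroup_dvd_card W)

variable {W P : Subgroup G} (hc : (Nat.card W).Coprime p) (hP : Nat.card P = p ^ 2)
  (hPW : P ≤ normalizer (W : Set G))
include hc hP hPW

theorem card_mod : ∃ k, Nat.card W = 1 + k * p := by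
  classical
  have := Fintype.ofFinite G
  have h1 : p ∣ (Finset.univ.filter (fun v => v ∈ W ∧ v ≠ 1)).card := by
    refine dvd_card_conj P _ (fun g hg t ht => ?_) (fun t ht => ?_)
    · simp only [Finset.mem_filter, Finset.mem_univ, true_and] at ht ⊢
      exact ⟨conj_mem_of_norm (hPW hg) ht.1, by simpa using ht.2⟩
    · simp only [Finset.mem_filter, Finset.mem_univ, true_and] at ht
      exact dvd_relIndex_of_not_le hp.out hP
        (fun hh => ht.2 (h.eq_one_of_cent hP (IsPReg.of_mem hc ht.1) hh))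
  obtain ⟨k, hk⟩ := h1
  refine ⟨k, ?_⟩
  have h2 : Finset.univ.filter (fun v => v ∈ W) =
      insert 1 (Finset.univ.filter (fun v => v ∈ W ∧ v ≠ 1)) := by
    ext v
    by_cases hv : v = 1 <;> simp [hv]
  rw [Nat.card_eq_fintype_card, Fintype.card_subtype, h2, Finset.card_insert_of_notMem (by simp), hk]
  ring

theorem lemM (hW : W ≠ ⊥) : Nat.card W = p + 1 ∧ IsPGroup 2 W := by
  have key : ∀ r : ℕ, r.Prime → r ∣ Nat.card W → r = 2 ∧ ∃ R ≤ W, IsPGroup r R ∧
      ¬ r ∣ R.relIndex W ∧ Nat.card R = p + 1 := by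
    intro r hr hd
    have : Fact r.Prime := ⟨hr⟩
    obtain ⟨Q, hQ⟩ := exists_sylow_normalized (IsPGroup.of_card hP) hPW
      ((Nat.Prime.coprime_iff_not_dvd hp.out).mp hc.symm) r
    obtain ⟨h1, h2, h3⟩ := H7.isSylowIn_map_subtype Q
    have hc' := Nat.Coprime.coprime_dvd_left (card_dvd_of_le h1) hc
    obtain ⟨k, hk⟩ := h.card_mod hc' hP hQ
    obtain ⟨i, hi⟩ := h2.exists_card_eq
    have hk1 : 1 ≤ k := by
      rcases k with _ | k
      · rw [← H7.card_mul_relIndex h1, hk] at hd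
        exact absurd (by simpa using hd) h3
      · omega
    obtain ⟨e1, e2⟩ := mersenne hp.out h.seven hr hk1 (hi.symm.trans hk)
      ((Nat.mul_dvd_mul_left 2 (hi ▸ h.dvd_of_coprime hc')).trans h.dvd)
    exact ⟨e1, _, h1, h2, h3, by rw [hk, e2]; ring⟩
  obtain ⟨r, hr, hd⟩ := Nat.exists_prime_and_dvd (mt card_eq_one.mp hW)
  obtain ⟨rfl, R, h1, h2, h3, h4⟩ := key r hr hd
  have h5 : R.relIndex W = 1 := by
    by_contra hn
    obtain ⟨s, hs, hsd⟩ := Nat.exists_prime_and_dvd hn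
    exact h3 ((key s hs (hsd.trans (relIndex_dvd_card R W))).1 ▸ hsd)
  obtain rfl := le_antisymm h1 (relIndex_eq_one.mp h5)
  exact ⟨h4, h2⟩

theorem trans {v v' : G} (hv : v ∈ W) (hv1 : v ≠ 1) (hv' : v' ∈ W) (hv1' : v' ≠ 1) :
    (centralizer {v}).relIndex P = p ∧ ∃ g ∈ P, g * v * g⁻¹ = v' := by
  have hW : W ≠ ⊥ := fun e => hv1 (by rwa [e] at hv)
  have h1 := ncard_conj P v
  have h2 := dvd_relIndex_of_not_le hp.out hP
    (fun hh => hv1 (h.eq_one_of_cent hP (IsPReg.of_mem hc hv) hh))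
  have h3 : {y | ∃ g ∈ P, g * v * g⁻¹ = y} ⊆ (W : Set G) \ {1} := by
    rintro _ ⟨g, hg, rfl⟩
    exact ⟨conj_mem_of_norm (hPW hg) hv, by simpa using hv1⟩
  have h4 : ((W : Set G) \ {1}).ncard = p := by
    rw [Set.ncard_sdiff_singleton_of_mem W.one_mem]
    have : (W : Set G).ncard = p + 1 := (h.lemM hc hP hPW hW).1
    omega
  have h5 := Nat.le_of_dvd (Nat.pos_of_ne_zero (H7.relIndex_ne_zero' _ _)) h2
  have h6 := Set.eq_of_subset_of_ncard_le h3 (by omega)
  refine ⟨by rw [← h1, h6, h4], ?_⟩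
  have : v' ∈ (W : Set G) \ {1} := ⟨hv', hv1'⟩
  rwa [← h6] at this

theorem cent_of_fix {v x : G} (hv : v ∈ W) (hv1 : v ≠ 1) (hx : x ∈ P) (e : x * v = v * x) :
    x ∈ centralizer (W : Set G) := by
  intro w hw
  by_cases hw1 : w = 1
  · simp [hw1]
  obtain ⟨-, g, hg, rfl⟩ := h.trans hc hP hPW hv hv1 hw hw1
  have := comm_of_card hP hx hg
  calc g * v * g⁻¹ * x = g * (v * x) * g⁻¹ := by
        rw [mul_assoc (g * v), ← show x * g⁻¹ = g⁻¹ * x from comm_of_card hP hx (P.inv_mem hg)]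
        group
    _ = x * (g * v * g⁻¹) := by rw [← e, ← mul_assoc, ← this]; group

theorem card_cent (hW : W ≠ ⊥) : Nat.card (centralizer (W : Set G) ⊓ P : Subgroup G) = p := by
  obtain ⟨v, hv, hv1⟩ := exists_ne_one_of_card (one_lt_card_iff_ne_bot _ |>.mpr hW)
  have h1 := (h.trans hc hP hPW hv hv1 hv hv1).1
  have h2 : centralizer (W : Set G) ⊓ P = centralizer {v} ⊓ P := by
    refine le_antisymm (inf_le_inf_right _ (centralizer_le (by simpa using hv))) fun x hx => ⟨?_, hx.2⟩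
    exact h.cent_of_fix hc hP hPW hv hv1 hx.2 (mem_centralizer_singleton_iff.mp hx.1)
  have h3 := H7.card_mul_relIndex (inf_le_right : centralizer {v} ⊓ P ≤ P)
  rw [inf_relIndex_right, h1, hP, sq] at h3
  rw [h2]
  exact Nat.eq_of_mul_eq_mul_right hp.out.pos h3

theorem elem_ab {v : G} (hv : v ∈ W) : v * v = 1 ∧ ∀ w ∈ W, v * w = w * v := by
  by_cases hv1 : v = 1
  · simp [hv1]
  have hW : W ≠ ⊥ := fun e => hv1 (by rwa [e] at hv)
  have h2 := (h.lemM hc hP hPW hW).2
  obtain ⟨z, hz, hz1, hzc⟩ := exists_center_of_isPGroup Nat.prime_two hW h2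
  obtain ⟨t, ht, hto⟩ := exists_orderOf_eq_mem Nat.prime_two (H := W) (by
    rw [(h.lemM hc hP hPW hW).1]; exact h.odd.add_one.two_dvd)
  constructor
  · obtain ⟨-, g, -, rfl⟩ := h.trans hc hP hPW ht (ne_one_of_orderOf_prime (hto ▸ Nat.prime_two)) hv hv1
    have : t * t = 1 := by rw [← sq, ← hto, pow_orderOf_eq_one]
    calc g * t * g⁻¹ * (g * t * g⁻¹) = g * (t * t) * g⁻¹ := by group
      _ = 1 := by rw [this]; group
  · obtain ⟨-, g, hg, rfl⟩ := h.trans hc hP hPW hz hz1 hv hv1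
    intro w hw
    have := hzc _ (conj_mem_of_norm (hPW (P.inv_mem hg)) hw)
    calc g * z * g⁻¹ * w = g * (z * (g⁻¹ * w * g⁻¹⁻¹)) * g⁻¹ := by group
      _ = w * (g * z * g⁻¹) := by rw [this]; group

theorem card_two_dvd (hW : W ≠ ⊥) {S : Subgroup G} (hS : IsPGroup 2 S) : Nat.card S ∣ 2 * (p + 1) := by
  obtain ⟨h1, h2⟩ := h.lemM hc hP hPW hW
  obtain ⟨l, hl⟩ := h2.exists_card_eq
  obtain ⟨i, hi⟩ := hS.exists_card_eq
  rw [hi]
  refine sylow_two_bound h.seven (h1.symm.trans hl) ((Nat.mul_dvd_mul_left 2 ?_).trans h.dvd)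
  rw [← hi]
  refine h.dvd_of_coprime ?_
  rw [hi]
  exact (Nat.coprime_two_left.mpr h.odd).pow_left i

omit hc hP hPW in
theorem normal_eq_bot (h2 : ∀ H : Subgroup G, H.index ≠ 2) (K : Subgroup G) [K.Normal]
    (hc : (Nat.card K).Coprime p) : K = ⊥ := by
  by_contra hK
  obtain ⟨P⟩ : Nonempty (Sylow p G) := inferInstance
  have hP := h.card_sylow P
  have hN : ∀ (K : Subgroup G) [K.Normal], (P : Subgroup G) ≤ normalizer (K : Set G) :=
    fun K _ => by rw [normalizer_eq_top]; exact le_top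
  obtain ⟨h3, h4⟩ := h.lemM hc hP (hN K) hK
  obtain ⟨S⟩ : Nonempty (Sylow 2 G) := inferInstance
  have hKS : K ≤ S := by
    have := h4.inf_normalizer_sylow
    obtain ⟨T, hT⟩ := h4.exists_le_sylow
    obtain ⟨g, rfl⟩ := exists_smul_eq G T S
    rw [Sylow.coe_subgroup_smul, ← H7.conj_smul_of_normal g K]
    exact pointwise_smul_le_pointwise_smul_iff.mpr hT
  have h5 := h.card_two_dvd hc hP (hN K) hK S.2
  rw [← H7.card_mul_relIndex hKS, h3, mul_comm 2] at h5
  have h6 := Nat.dvd_of_mul_dvd_mul_left (by omega) h5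
  have h7 := relIndex_mul_index hKS
  have h8 : Odd (S : Subgroup G).index := Nat.odd_iff.mpr (by have := S.not_dvd_index; omega)
  rcases (Nat.dvd_prime Nat.prime_two).mp h6 with e | e
  · rw [e, one_mul] at h7
    have hs1 : Group.IsSolvable (G ⧸ K) := H9.FT.feitThompson _ (by rwa [← index_eq_card, ← h7])
    have hs2 : Group.IsSolvable K := by
      have := h4.isNilpotent
      infer_instance
    have hs : Group.IsSolvable G := Group.isSolvable_of_ker_le_range K.subtype (QuotientGroup.mk' K) (by simp)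
    have hF : fittingSubgroup G ≤ K := by
      rw [H7.fittingSubgroup_eq_iSup]
      refine iSup_le fun ⟨r, hr⟩ => ?_
      change pCore r G ≤ K
      have hr' := Nat.prime_of_mem_primeFactors hr
      have : Fact r.Prime := ⟨hr'⟩
      have hn := (H7.pCore_characteristic r G)
      by_cases e1 : pCore r G = ⊥
      · simp [e1]
      by_cases e2 : r = p
      · subst e2
        exact absurd (h.core _ inferInstance (H7.pCore_isPGroup r G)) e1
      obtain ⟨i, hi⟩ := (H7.pCore_isPGroup r G).exists_card_eq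
      have hc' : (Nat.card (pCore r G)).Coprime p := by
        rw [hi]; exact ((Nat.coprime_primes hr' hp.out).mpr e2).pow_left i
      obtain ⟨h9, h10⟩ := h.lemM hc' hP (hN _) e1
      have h11 : (Nat.card (pCore r G ⊔ K : Subgroup G)).Coprime p :=
        Nat.Coprime.coprime_dvd_left (H7.card_sup_dvd_of_normal _ _) (hc'.mul_left hc)
      have h12 := (h.lemM h11 hP (hN _) (fun e => e1 (eq_bot_iff.mpr (e ▸ le_sup_left)))).1
      exact le_sup_left.trans (H7.eq_of_le_of_card_le le_sup_right (by omega)).ge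
    obtain ⟨x, hx, hx1⟩ := exists_ne_one_of_card (X := centralizer (K : Set G) ⊓ P)
      (by rw [h.card_cent hc hP (hN K) hK]; exact hp.out.one_lt)
    exact hx1 ((IsPElt.of_mem P.2 hx.2).eq_one (IsPReg.of_mem hc (hF
      (H7.centralizer_fittingSubgroup_le G (centralizer_le hF hx.1)))))
  · obtain ⟨H, hH⟩ := exists_index_two (G := G ⧸ K) h8 (by rw [← index_eq_card, ← h7, e])
    exact h2 _ ((index_comap_of_surjective H (QuotientGroup.mk'_surjective K)).trans hH)

omit hc hP hPW in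
theorem brodkey (P : Sylow p G) : ∃ Q : Sylow p G, (Q : Subgroup G) ⊓ P = ⊥ := by
  by_contra hn
  push Not at hn
  have hall : ∀ Q R : Sylow p G, (Q : Subgroup G) ⊓ R ≠ ⊥ := by
    intro Q R e
    obtain ⟨g, rfl⟩ := exists_smul_eq G R P
    apply hn (g • Q)
    rw [Sylow.coe_subgroup_smul, Sylow.coe_subgroup_smul, ← smul_inf, e, smul_bot]
  have hP := h.card_sylow P
  have hpp : 1 < p ^ 2 := Nat.one_lt_pow (by norm_num) hp.out.one_lt
  have key : ∀ D : Subgroup G, (∀ R : Sylow p G, D ≤ R) → D = ⊥ := by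
    intro D hD
    rw [eq_bot_iff, ← h.core (P : Subgroup G).normalCore inferInstance (P.2.to_le (normalCore_le _))]
    intro x hx g
    have := hD (g⁻¹ • P) hx
    rw [Sylow.coe_subgroup_smul, H7.mem_conj_smul] at this
    simpa using this
  by_cases hQ : ∀ Q : Sylow p G, Q = P
  · have := key P (fun R => by rw [hQ R])
    rw [this, card_bot] at hP
    omega
  push Not at hQ
  obtain ⟨Q, hQ⟩ := hQ
  refine hn Q (key _ fun R => ?_)
  set D := (Q : Subgroup G) ⊓ P
  have hD : Nat.card D = p := card_eq_of_ne hp.out inf_le_right hP (hn Q) (fun e => hQ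
    (Sylow.ext (H7.eq_of_le_of_card_le (e ▸ inf_le_left) (by rw [hP, h.card_sylow])).symm))
  have h1 : (P : Subgroup G) ≤ centralizer (D : Set G) := le_centralizer_of_card hP inf_le_right
  have h2 : (Q : Subgroup G) ≤ centralizer (D : Set G) :=
    le_centralizer_of_card (h.card_sylow Q) inf_le_left
  obtain ⟨g, hg, h3⟩ := (h.isSylowIn hP h1).exists_le_conj (P := R ⊓ centralizer (D : Set G))
    (R.2.to_le inf_le_left) inf_le_right
  have h4 : MulAut.conj g • D = D :=
    H7.conj_smul_eq_iff_mem_normalizer.mpr (centralizer_le_normalizer _ hg)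
  have h5 : (R : Subgroup G) ⊓ (g • Q : Sylow p G) ≤ D := by
    intro x hx
    rw [← h4, smul_inf]
    refine ⟨hx.2, h3 ⟨hx.1, ?_⟩⟩
    have : x ∈ MulAut.conj g • (Q : Subgroup G) := hx.2
    rw [H7.mem_conj_smul] at this
    have h6 := mul_mem (mul_mem hg (h2 this)) (inv_mem hg)
    simpa [mul_assoc] using h6
  obtain ⟨x, hx, hx1⟩ := exists_ne_one_of_card (one_lt_card_iff_ne_bot _ |>.mpr (hall R (g • Q)))
  rw [← zpowers_eq_of_prime_card (hD ▸ hp.out) (h5 hx) hx1]
  exact zpowers_le_of_mem hx.1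

end SqH

end Cfsg.Agent.H3.Sq
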