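import Mathlib
import Cfsg.Agent.H3.SqBasic
import Cfsg.Agent.H3.Sylow17

/-!
# Centralizers of subgroups of order `p`
-/

set_option autoImplicit false
set_option linter.unusedSectionVars false

namespace Cfsg.Agent.H3.Sq

open Subgroup MulAction Pointwise

variable {G : Type*} [Group G]

/-- The centralizer of `X` has a non-trivial normal `p'`-subgroup. -/
def Mer (p : ℕ) (X : Subgroup G) : Prop :=
  ∃ W : Subgroup G, W ≠ ⊥ ∧ (Nat.card W).Coprime p ∧ W ≤ centralizer (X : Set G) ∧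
    centralizer (X : Set G) ≤ normalizer (W : Set G)

/-- The number of Sylow subgroups containing `X`. -/
noncomputable def uu (p : ℕ) (X : Subgroup G) : ℕ := {Q : Sylow p G | X ≤ Q}.ncard

theorem le_normalizer_map {H : Subgroup G} (W : Subgroup H) [hW : W.Normal] :
    H ≤ normalizer (W.map H.subtype : Set G) := (H7.NormalIn.map_subtype hW).le_normalizer

theorem eq_of_not_mer [Finite G] {p : ℕ} [hp : Fact p.Prime] {X T : Subgroup G} (hX : Nat.card X = p)
    (hM : ¬ Mer p X) (h1 : X ≤ T) (h2 : T ≤ centralizer (X : Set G))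
    (h3 : centralizer (X : Set G) ≤ normalizer (T : Set G)) (h4 : ¬ p ^ 2 ∣ Nat.card T) :
    Nat.card T = p := by
  have hc : ∀ x ∈ X.subgroupOf T, ∀ t : T, x * t = t * x := fun x hx t =>
    Subtype.ext (h2 t.2 x hx)
  have : (X.subgroupOf T).Normal := ⟨fun x hx t => by rw [← hc x hx t]; simpa using hx⟩
  have hXT : Nat.card (X.subgroupOf T) = p := by
    rw [Nat.card_congr (subgroupOfEquivOfLe h1).toEquiv, hX]
  have hi : ¬ p ∣ (X.subgroupOf T).index := fun hd => h4 (by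
    rw [← (X.subgroupOf T).card_mul_index, hXT, sq]; exact Nat.mul_dvd_mul_left p hd)
  obtain ⟨D, hD⟩ := exists_right_complement'_of_coprime (N := X.subgroupOf T)
    (by rw [hXT]; exact (Nat.Prime.coprime_iff_not_dvd hp.out).mpr hi)
  have hDn : D.Normal := by
    rw [← normalizer_eq_top_iff, eq_top_iff, ← hD.sup_eq_top]
    refine sup_le (fun x hx => mem_normalizer_fintype fun d hd => ?_) le_normalizer
    rw [hc x hx d]; simpa using hd
  have hDc : Nat.card D = (X.subgroupOf T).index := hD.symm.index_eq_card.symm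
  have hDi : D.index = p := hD.index_eq_card.trans hXT
  by_cases hb : D = ⊥
  · rw [← hDi, hb, index_bot]
  exfalso
  refine hM ⟨D.map T.subtype, fun e => hb ((map_eq_bot_iff_of_injective D T.subtype_injective).mp e),
    ?_, (map_subtype_le D).trans h2, fun g hg => mem_normalizer_fintype ?_⟩
  · rw [card_map_of_injective T.subtype_injective, hDc]
    exact ((Nat.Prime.coprime_iff_not_dvd hp.out).mpr hi).symm
  · rintro _ ⟨d, hd, rfl⟩
    have h5 : IsPReg p d := IsPReg.of_mem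
      (by rw [hDc]; exact ((Nat.Prime.coprime_iff_not_dvd hp.out).mpr hi).symm) hd
    refine ⟨⟨g * d * g⁻¹, conj_mem_of_norm (h3 hg) d.2⟩, mem_of_coprime_orderOf_index ?_, rfl⟩
    rw [hDi]
    exact isPReg_coe.mp ((isPReg_coe.mpr h5).conj g)

namespace SqH

variable [Finite G] {p n : ℕ} [hp : Fact p.Prime] (h : SqH p n G)
include h

theorem uu_eq {P : Sylow p G} {X H : Subgroup G} (hXP : X ≤ P) (h1 : centralizer (X : Set G) ≤ H)
    (h2 : H ≤ normalizer (X : Set G)) : uu p X = (normalizer (P : Set G)).relIndex H := by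
  rw [← Sylow.stabilizer_eq_normalizer, H7.relIndex_stabilizer, uu]
  congr 1
  ext Q
  constructor
  · intro hQ
    obtain ⟨g, hg, e⟩ := (h.isSylowIn (h.card_sylow P) (le_centralizer_of_card (h.card_sylow P) hXP)
      ).exists_conj (h.isSylowIn (h.card_sylow Q) (le_centralizer_of_card (h.card_sylow Q) hQ))
    exact ⟨⟨g, h1 hg⟩, Sylow.ext e⟩
  · rintro ⟨g, rfl⟩
    change X ≤ MulAut.conj (g : G) • (P : Subgroup G)
    rw [← H7.conj_smul_eq_iff_mem_normalizer.mpr (h2 g.2)]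
    exact pointwise_smul_le_pointwise_smul_iff.mpr hXP

theorem card_eq_uu {P : Sylow p G} {X H : Subgroup G} (hXP : X ≤ P) (h1 : centralizer (X : Set G) ≤ H)
    (h2 : H ≤ normalizer (X : Set G)) :
    Nat.card H = uu p X * Nat.card (normalizer (P : Set G) ⊓ H : Subgroup G) := by
  rw [h.uu_eq hXP h1 h2, ← inf_relIndex_right, mul_comm, H7.card_mul_relIndex inf_le_right]

theorem card_sylow_cent {P : Sylow p G} {X : Subgroup G} (hXP : X ≤ P) :
    Nat.card (Sylow p (centralizer (X : Set G))) = uu p X := by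
  have hPH := le_centralizer_of_card (h.card_sylow P) hXP
  rw [h.uu_eq hXP le_rfl (centralizer_le_normalizer _), (P.subtype hPH).card_eq_index_normalizer,
    relIndex]
  exact congrArg index (subgroupOf_normalizer_eq hPH).symm

theorem typeN {P : Sylow p G} {X : Subgroup G} (hX : Nat.card X = p) (hXP : X ≤ P)
    (hu : uu p X = p + 1) (hM : ¬ Mer p X) {e : ℕ}
    (he : Nat.card (normalizer (P : Set G) ⊓ centralizer (X : Set G) : Subgroup G) = p ^ 2 * e) :
    p - 1 ∣ 2 * e := by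
  have h7 := h.seven
  have hH := h.card_eq_uu hXP le_rfl (centralizer_le_normalizer _)
  rw [hu, he] at hH
  have hS := (h.card_sylow_cent hXP).trans hu
  have hXH : X ≤ centralizer (X : Set G) := hXP.trans (le_centralizer_of_card (h.card_sylow P) hXP)
  set H := centralizer (X : Set G)
  have Z := zs_range_sylow hS
  let f : H →* (toPermHom H (Sylow p H)).range := (toPermHom H (Sylow p H)).rangeRestrict
  have hf : Function.Surjective f := MonoidHom.rangeRestrict_surjective _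
  have : Nontrivial (Sylow p H) := Finite.one_lt_card_iff_nontrivial.mp (by omega)
  obtain ⟨a, b, hab⟩ := exists_pair_ne (Sylow p H)
  have hr : Nat.card (Z.root a) = p := by have := Z.card_root hab; omega
  have h1 := Z.card_eq hab
  rw [hr] at h1
  have hpe : ¬ p ∣ (p + 1) * e := fun hd => h.not_dvd (hd.trans (by
    have := card_subgroup_dvd_card H
    rw [hH, h.card, mul_left_comm] at this
    exact Nat.dvd_of_mul_dvd_mul_left (by positivity) this))
  have key : ∀ V : Subgroup (toPermHom H (Sylow p H)).range, V.Normal → ¬ p ∣ Nat.card V →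
      Nat.card (V.comap f) = p := by
    intro V hV hd
    rw [← card_map_of_injective H.subtype_injective]
    refine eq_of_not_mer hX hM (fun x hx => ⟨⟨x, hXH hx⟩, ?_, rfl⟩) (map_subtype_le _)
      (le_normalizer_map _) (fun hd' => ?_)
    · have : f ⟨x, hXH hx⟩ = 1 := by
        refine Subtype.ext (Equiv.ext fun T => Sylow.smul_eq_iff_mem_normalizer.mpr ?_)
        refine mem_normalizer_fintype fun t ht => ?_
        have : (⟨x, hXH hx⟩ : H) * t = t * ⟨x, hXH hx⟩ := Subtype.ext (t.2 x hx)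
        rw [this]; simpa using ht
      change f _ ∈ V
      rw [this]; exact one_mem _
    · rw [card_map_of_injective H.subtype_injective] at hd'
      have h2 := (V.comap f).card_mul_index
      rw [index_comap_of_surjective V hf, hH] at h2
      have h3 : p ∣ V.index := by
        have := V.card_mul_index
        rw [h1] at this
        exact ((Nat.Prime.dvd_mul hp.out).mp (this ▸ (Dvd.intro_left _ rfl).mul_right _)).resolve_left hd
      apply hpe
      refine Nat.dvd_of_mul_dvd_mul_left (show 0 < p ^ 2 by positivity) ?_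
      rw [← mul_left_comm, ← h2]
      exact Nat.mul_dvd_mul hd' h3
  have h2 := key ⊥ inferInstance (by rw [card_bot]; exact hp.out.not_dvd_one)
  have h3 := (comap f ⊥).card_mul_index
  rw [index_comap_of_surjective ⊥ hf, index_bot, h2, hH] at h3
  rcases zs_prime Z hp.out (by omega) hS with h4 | ⟨V, h4, h5, -⟩
  · refine Nat.dvd_of_mul_dvd_mul_left (show 0 < p * ((p + 1) * p) by positivity) ?_
    rw [show p * ((p + 1) * p) * (2 * e) = 2 * ((p + 1) * (p ^ 2 * e)) by ring, ← h3, mul_assoc,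
      mul_left_comm 2]
    exact Nat.mul_dvd_mul_left p h4
  · exfalso
    have h6 := key V h4 (by
      rw [h5]; exact fun hd => hp.out.not_dvd_one ((Nat.dvd_add_right dvd_rfl).mp hd))
    have h8 := (V.comap f).card_mul_index
    rw [index_comap_of_surjective V hf, h6, hH, ← h3, ← V.card_mul_index, h5] at h8
    have := Nat.eq_of_mul_eq_mul_left hp.out.pos h8
    have := Nat.pos_of_ne_zero V.index_ne_zero_of_finite
    nlinarith

theorem burnside {P : Sylow p G} {X : Subgroup G} (hXP : X ≤ P) (hu : 1 < uu p X)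
    (he : normalizer (P : Set G) ⊓ centralizer (X : Set G) ≤ P) : Mer p X ∧ uu p X = p + 1 := by
  have hP := h.card_sylow P
  have hPH := le_centralizer_of_card hP hXP
  have hH := h.card_eq_uu hXP le_rfl (centralizer_le_normalizer _)
  rw [le_antisymm he (le_inf le_normalizer hPH), hP] at hH
  set H := centralizer (X : Set G)
  have h1 : normalizer (P.subtype hPH : Set H) ≤ centralizer (P.subtype hPH : Set H) := by
    intro g hg y hy
    have h2 : g ∈ (normalizer (P : Set G)).subgroupOf H := (subgroupOf_normalizer_eq hPH).ge hg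
    exact Subtype.ext (comm_of_card hP hy (he ⟨h2, g.2⟩))
  have h2 := MonoidHom.ker_transferSylow_isComplement' (P.subtype hPH) h1
  set W := (MonoidHom.transferSylow (P.subtype hPH) h1).ker
  have h3 : Nat.card W = uu p X := by
    have := h2.card_mul_card
    rw [Sylow.coe_subtype, Nat.card_congr (subgroupOfEquivOfLe hPH).toEquiv, hP, hH] at this
    exact Nat.eq_of_mul_eq_mul_right (pow_pos hp.out.pos 2) this
  have h4 : Nat.card (W.map H.subtype) = uu p X := by
    rw [card_map_of_injective H.subtype_injective, h3]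
  have h5 : (Nat.card (W.map H.subtype)).Coprime p := by
    rw [card_map_of_injective H.subtype_injective, ← h2.index_eq_card]
    exact ((Nat.Prime.coprime_iff_not_dvd hp.out).mpr (P.subtype hPH).not_dvd_index).symm
  have h6 : W.map H.subtype ≠ ⊥ := by
    rw [← one_lt_card_iff_ne_bot, h4]; exact hu
  exact ⟨⟨_, h6, h5, map_subtype_le _, le_normalizer_map _⟩,
    h4.symm.trans (h.lemM h5 hP (hPH.trans (le_normalizer_map _)) h6).1⟩

section
variable {W P : Subgroup G} (hc : (Nat.card W).Coprime p) (hP : Nat.card P = p ^ 2)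
  (hPW : P ≤ normalizer (W : Set G)) (hW : W ≠ ⊥)
include hc hP hPW hW

theorem cent_of_inv {τ : G} (h1 : τ ∈ normalizer (W : Set G)) (h2 : τ ∈ normalizer (P : Set G))
    (h3 : τ * τ ∈ W) : τ ∈ centralizer (W : Set G) := by
  classical
  have hE := fun v (hv : v ∈ W) => h.elem_ab hc hP hPW hv
  have hfix : ∀ v ∈ W, τ * (v * (τ * v * τ⁻¹)) * τ⁻¹ = v * (τ * v * τ⁻¹) := by
    intro v hv
    have e1 := (hE _ h3).2 v hv
    have e2 := (hE v hv).2 _ (conj_mem_of_norm h1 hv)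
    calc τ * (v * (τ * v * τ⁻¹)) * τ⁻¹ = τ * v * τ⁻¹ * ((τ * τ * v) * (τ * τ)⁻¹) := by group
      _ = v * (τ * v * τ⁻¹) := by rw [e1, e2]; group
  have hex : ∀ s : Finset G, s.card ≤ 4 → ∃ v ∈ W, v ∉ s := by
    intro s hs
    by_contra hn
    push Not at hn
    have := Set.ncard_le_ncard (show (W : Set G) ⊆ s from hn)
    have e : (W : Set G).ncard = p + 1 := (h.lemM hc hP hPW hW).1
    rw [Set.ncard_coe_finset] at this
    have := h.seven
    omega
  have h4 : ∃ v ∈ W, ∃ v' ∈ W, v ≠ 1 ∧ v' ≠ 1 ∧ v ≠ v' ∧ τ * v * τ⁻¹ = v ∧ τ * v' * τ⁻¹ = v' := by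
    by_contra hn
    obtain ⟨v₀, hv₀, h5⟩ : ∃ v₀ ∈ W, ∀ v ∈ W, τ * v * τ⁻¹ = v → v = 1 ∨ v = v₀ := by
      by_cases h6 : ∃ v₀ ∈ W, v₀ ≠ 1 ∧ τ * v₀ * τ⁻¹ = v₀
      · obtain ⟨v₀, h6, h7, h8⟩ := h6
        refine ⟨v₀, h6, fun v hv e => ?_⟩
        by_contra h9
        rw [not_or] at h9
        exact hn ⟨v, hv, v₀, h6, h9.1, h7, h9.2, e, h8⟩
      · exact ⟨1, one_mem _, fun v hv e => Or.inl (by_contra fun h7 => h6 ⟨v, hv, h7, e⟩)⟩
    have h6 : ∀ v ∈ W, v ≠ 1 → v ≠ v₀ → τ * v * τ⁻¹ = v * v₀ := by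
      intro v hv e1 e2
      have e3 : v⁻¹ = v := inv_eq_of_mul_eq_one_right (hE v hv).1
      rcases h5 _ (mul_mem hv (conj_mem_of_norm h1 hv)) (hfix v hv) with e | e
      · exact absurd (h5 v hv ((eq_inv_of_mul_eq_one_right e).trans e3)) (not_or.mpr ⟨e1, e2⟩)
      · rw [← e, ← mul_assoc, (hE v hv).1, one_mul]
    obtain ⟨v, hv, h7⟩ := hex {1, v₀} (Finset.card_le_two.trans (by norm_num))
    obtain ⟨v', hv', h8⟩ := hex {1, v₀, v, v * v₀} Finset.card_le_four
    simp only [Finset.mem_insert, Finset.mem_singleton, not_or] at h7 h8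
    have e1 := h6 v hv h7.1 h7.2
    have e2 := h6 v' hv' h8.1 h8.2.1
    have e3 := h6 _ (mul_mem hv hv') (fun e => h8.2.2.1 ((eq_inv_of_mul_eq_one_right e).trans
      (inv_eq_of_mul_eq_one_right (hE v hv).1))) (fun e => h8.2.2.2 (by
        rw [← e, ← mul_assoc, (hE v hv).1, one_mul]))
    have e4 : v * v' * v₀ = v * v₀ * (v' * v₀) := by rw [← e1, ← e2, ← e3]; group
    have e5 : v₀ = 1 := by
      rw [mul_assoc v v₀, ← mul_assoc v₀, (hE v₀ hv₀).2 v' hv', mul_assoc v', (hE v₀ hv₀).1] at e4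
      simpa using e4
    rw [e5, mul_one] at e1
    exact absurd (h5 v hv e1) (not_or.mpr h7)
  obtain ⟨v, hv, v', hv', hv1, hv1', hne, e1, e2⟩ := h4
  obtain ⟨-, x, hx, rfl⟩ := h.trans hc hP hPW hv hv1 hv' hv1'
  have hx' := conj_mem_of_norm h2 hx
  have h5 : x⁻¹ * (τ * x * τ⁻¹) ∈ centralizer (W : Set G) := by
    refine h.cent_of_fix hc hP hPW hv hv1 (mul_mem (inv_mem hx) hx') ?_
    calc x⁻¹ * (τ * x * τ⁻¹) * v = x⁻¹ * (τ * x * τ⁻¹) * (τ * v * τ⁻¹) := by rw [e1]
      _ = x⁻¹ * (τ * (x * v * x⁻¹) * τ⁻¹) * (τ * x * τ⁻¹) := by group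
      _ = v * (x⁻¹ * (τ * x * τ⁻¹)) := by rw [e2]; group
  let F : Subgroup G := W ⊓ centralizer {τ}
  have h6 : normalizer (F : Set G) ⊓ P = P := by
    refine eq_of_lt_line hp.out (h.card_cent hc hP hPW hW) (fun y hy => ⟨?_, hy.2⟩) inf_le_right hP
      (x := x) ⟨mem_normalizer_fintype fun w hw => ⟨conj_mem_of_norm (hPW hx) hw.1, ?_⟩, hx⟩
      (fun hh => hne ?_)
    · refine mem_normalizer_fintype fun w hw => ?_
      rw [← hy.1 w hw.1]; simpa using hw
    · have e3 := mem_centralizer_singleton_iff.mp hw.2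
      have e4 := h5 w hw.1
      refine mem_centralizer_singleton_iff.mpr ?_
      calc x * w * x⁻¹ * τ = x * (w * (x⁻¹ * (τ * x * τ⁻¹))) * τ * x⁻¹ := by group
        _ = τ * x * τ⁻¹ * (w * τ) * x⁻¹ := by rw [e4]; group
        _ = τ * (x * w * x⁻¹) := by rw [e3]; group
    · rw [← hh.1 v hv]; group
  intro w hw
  by_cases hw1 : w = 1
  · simp [hw1]
  obtain ⟨-, g, hg, rfl⟩ := h.trans hc hP hPW hv hv1 hw hw1
  have hvF : v ∈ F := ⟨hv, mem_centralizer_singleton_iff.mpr (mul_inv_eq_iff_eq_mul.mp e1).symm⟩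
  exact mem_centralizer_singleton_iff.mp (conj_mem_of_norm (h6.ge hg).1 hvF).2

theorem le_cent {S : Subgroup G} (hS : Nat.card S = 2 * (p + 1)) (hS2 : IsPGroup 2 S) (hWS : W ≤ S) :
    S ≤ centralizer (W : Set G) := by
  have hcW := (h.lemM hc hP hPW hW).1
  have hi : ∀ T : Subgroup G, Nat.card T = 2 * (p + 1) → W ≤ T → (W.subgroupOf T).index = 2 := by
    intro T hT hWT
    have := H7.card_mul_relIndex hWT
    rw [hcW, hT, mul_comm 2] at this
    exact Nat.eq_of_mul_eq_mul_left (by omega) this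
  have hSN : S ≤ normalizer (W : Set G) :=
    (H7.NormalIn.iff_subgroupOf.mpr ⟨hWS, normal_of_index_eq_two (hi S hS hWS)⟩).le_normalizer
  set N := normalizer (W : Set G)
  have hSyl : H7.IsSylowIn 2 S N := by
    obtain ⟨T, h1, h2⟩ := H7.exists_isSylowIn_ge hS2 hSN
    have := Nat.le_of_dvd (by omega) (h.card_two_dvd hc hP hPW hW h2.2.1)
    rwa [H7.eq_of_le_of_card_le h1 (by omega)]
  have hk : Odd (S.relIndex N) := Nat.odd_iff.mpr (by have := hSyl.2.2; omega)
  have : (W.subgroupOf N).Normal := normal_in_normalizer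
  obtain ⟨M, hM⟩ := exists_index_two (G := N ⧸ W.subgroupOf N) hk (by
    rw [← index_eq_card, ← relIndex, ← relIndex_mul_relIndex W S N hWS hSN, relIndex, hi S hS hWS])
  let N₂ := M.comap (QuotientGroup.mk' (W.subgroupOf N))
  have hN₂ : N₂.index = 2 := (index_comap_of_surjective M (QuotientGroup.mk'_surjective _)).trans hM
  have := normal_of_index_eq_two hN₂
  have hodd : ∀ y : N, IsPReg 2 y → y ∈ N₂ := fun y hy => mem_of_coprime_orderOf_index (hN₂ ▸ hy)
  obtain ⟨P', hP'⟩ := (h.isSylowIn hP hPW).exists_sylow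
  have h1 := Sylow.normalizer_sup_eq_top' P' (N := N₂) (fun y hy =>
    hodd y ((IsPElt.of_mem P'.2 hy).isPReg (Nat.coprime_two_right.mpr h.odd)))
  obtain ⟨τ₀, h2, h3⟩ : ∃ τ₀ ∈ normalizer (P' : Set N), τ₀ ∉ N₂ := by
    by_contra hn
    push Not at hn
    rw [sup_eq_right.mpr hn] at h1
    rw [h1, index_top] at hN₂
    omega
  have h4 : pPart 2 τ₀ ∉ N₂ := fun hh =>
    h3 (pPart_mul_pReg 2 τ₀ ▸ mul_mem hh (hodd _ (isPReg_pReg τ₀)))
  have h5 : ((pPart 2 τ₀ : N) : G) ∈ normalizer (P : Set G) := by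
    have h6 : pPart 2 τ₀ ∈ normalizer (P.subgroupOf N : Set N) := hP' ▸ pPart_mem h2
    rwa [← subgroupOf_normalizer_eq hPW] at h6
  have h6 : IsPElt 2 ((pPart 2 τ₀ : N) : G) := isPElt_coe.mpr (isPElt_pPart τ₀)
  have h7 : ((pPart 2 τ₀ : N) : G) ∉ W := fun hh => h4 (by
    change QuotientGroup.mk' _ _ ∈ M
    rw [QuotientGroup.mk'_apply, (QuotientGroup.eq_one_iff (N := W.subgroupOf N) _).mpr hh]
    exact one_mem _)
  have h8 := (pPart 2 τ₀).2
  generalize ((pPart 2 τ₀ : N) : G) = τ at h5 h6 h7 h8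
  obtain ⟨g, hg, h9⟩ := hSyl.exists_le_conj h6.isPGroup_zpowers (zpowers_le_of_mem h8)
  have hτ := h9 (mem_zpowers τ)
  have hWg : W ≤ MulAut.conj g • S := by
    rw [← H7.conj_smul_eq_iff_mem_normalizer.mpr hg]
    exact pointwise_smul_le_pointwise_smul_iff.mpr hWS
  have hi' := hi _ ((H7.card_conj_smul g S).trans hS) hWg
  have h10 := h.cent_of_inv hc hP hPW hW h8 h5 (mul_self_mem_of_index_two hi' ⟨τ, hτ⟩)
  have hWc : W ≤ centralizer (W : Set G) := fun v hv w hw => ((h.elem_ab hc hP hPW hv).2 w hw).symm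
  have h11 : MulAut.conj g • S ≤ centralizer (W : Set G) := by
    intro s hs
    by_cases hsW : s ∈ W
    · exact hWc hsW
    · have := (mul_mem_iff_of_index_two hi' (a := ⟨s, hs⟩) (b := ⟨τ, hτ⟩)).mpr (iff_of_false hsW h7)
      exact (mul_mem_cancel_right h10).mp (hWc this)
  intro s hs
  have h12 := conj_mem_of_norm (H7.normalizer_le_normalizer_centralizer W (inv_mem hg))
    (h11 (H7.conj_mem_conj_smul.mpr hs))
  simpa [mul_assoc] using h12

theorem exists_R {S : Subgroup G} (hS : Nat.card S = 2 * (p + 1)) (hS2 : IsPGroup 2 S) (hWS : W ≤ S) :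
    ∃ R : Subgroup G, H7.IsSylowIn p R (normalizer (S : Set G)) ∧ R ≤ normalizer (W : Set G) ∧
      ∀ v ∈ W, v ≠ 1 → ∀ w ∈ W, w ≠ 1 → ∃ g ∈ R, g * v * g⁻¹ = w := by
  have hSC := h.le_cent hc hP hPW hW hS hS2 hWS
  have hSyl : H7.IsSylowIn 2 S (centralizer (W : Set G)) := by
    obtain ⟨T, h1, h2⟩ := H7.exists_isSylowIn_ge hS2 hSC
    have := Nat.le_of_dvd (by omega) (h.card_two_dvd hc hP hPW hW h2.2.1)
    rwa [H7.eq_of_le_of_card_le h1 (by omega)]
  have h4 : ((W : Set G) \ {1}).ncard = p := by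
    rw [Set.ncard_sdiff_singleton_of_mem W.one_mem]
    have : (W : Set G).ncard = p + 1 := (h.lemM hc hP hPW hW).1
    omega
  obtain ⟨R, hR⟩ := H7.exists_isSylowIn (p := p) (normalizer (S : Set G) ⊓ normalizer (W : Set G))
  have hsub : ∀ {T : Subgroup G}, T ≤ normalizer (W : Set G) → ∀ v ∈ W, v ≠ 1 →
      {y | ∃ g ∈ T, g * v * g⁻¹ = y} ⊆ (W : Set G) \ {1} := by
    rintro T hT v hv hv1 _ ⟨g, hg, rfl⟩
    exact ⟨conj_mem_of_norm (hT hg) hv, by simpa using hv1⟩
  have h5 : ∀ v ∈ W, v ≠ 1 → ¬ R ≤ centralizer {v} := by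
    intro v hv hv1 hh
    have h6 := ncard_conj (normalizer (S : Set G) ⊓ normalizer (W : Set G)) v
    rw [Set.Subset.antisymm (hsub inf_le_right v hv hv1), h4] at h6
    · exact hR.2.2 (h6 ▸ relIndex_dvd_of_le_left _ hh)
    rintro w ⟨hw, hw1⟩
    obtain ⟨-, g, hg, rfl⟩ := h.trans hc hP hPW hv hv1 hw hw1
    have h7 : MulAut.conj g • centralizer (W : Set G) = centralizer (W : Set G) :=
      H7.conj_smul_eq_iff_mem_normalizer.mpr (H7.normalizer_le_normalizer_centralizer W (hPW hg))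
    obtain ⟨c, hc', e⟩ := (h7 ▸ hSyl.smul g).exists_conj hSyl
    refine ⟨c * g, ⟨H7.conj_smul_eq_iff_mem_normalizer.mp (by rw [map_mul, mul_smul, e]),
      mul_mem (centralizer_le_normalizer _ hc') (hPW hg)⟩, ?_⟩
    calc c * g * v * (c * g)⁻¹ = c * (g * v * g⁻¹) * c⁻¹ := by group
      _ = g * v * g⁻¹ := by rw [← hc' _ hw]; group
  have h6 : ∀ T : Subgroup G, IsPGroup p T → T ≤ normalizer (S : Set G) → Nat.card T ∣ p := by
    intro T h7 h8
    obtain ⟨Q, hQ⟩ := h7.exists_le_sylow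
    rcases card_cases hp.out hQ (h.card_sylow Q) with e | e | e
    · simp [e]
    · simp [e]
    · have h9 : (Nat.card S).Coprime p := by
        obtain ⟨i, hi⟩ := hS2.exists_card_eq
        rw [hi]; exact (Nat.coprime_two_left.mpr h.odd).pow_left i
      have := (h.lemM h9 e h8 (fun e' => hW (eq_bot_iff.mpr (e' ▸ hWS)))).1
      omega
  obtain ⟨v₀, hv₀, hv₀'⟩ := exists_ne_one_of_card (one_lt_card_iff_ne_bot _ |>.mpr hW)
  have h7 : Nat.card R = p := ((Nat.dvd_prime hp.out).mp (h6 R hR.2.1 (hR.1.trans inf_le_left))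
    ).resolve_left fun e => h5 v₀ hv₀ hv₀' (card_eq_one.mp e ▸ bot_le)
  refine ⟨R, ?_, hR.1.trans inf_le_right, fun v hv hv1 w hw hw1 => ?_⟩
  · obtain ⟨T, h1, h2⟩ := H7.exists_isSylowIn_ge hR.2.1 (hR.1.trans inf_le_left)
    have := Nat.le_of_dvd hp.out.pos (h6 T h2.2.1 h2.1)
    rwa [H7.eq_of_le_of_card_le h1 (by omega)]
  · have h8 := Nat.le_of_dvd (Nat.pos_of_ne_zero (H7.relIndex_ne_zero' _ _))
      (dvd_relIndex_of_not_le hp.out (h7.trans (pow_one p).symm) (h5 v hv hv1))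
    have h9 := Set.eq_of_subset_of_ncard_le (hsub (hR.1.trans inf_le_right) v hv hv1)
      (by rw [ncard_conj]; omega)
    have : w ∈ (W : Set G) \ {1} := ⟨hw, hw1⟩
    rwa [← h9] at this

end

theorem conj_W {W₁ W₂ P₁ P₂ : Subgroup G} (hc₁ : (Nat.card W₁).Coprime p) (hP₁ : Nat.card P₁ = p ^ 2)
    (hPW₁ : P₁ ≤ normalizer (W₁ : Set G)) (hW₁ : W₁ ≠ ⊥) (hc₂ : (Nat.card W₂).Coprime p)
    (hP₂ : Nat.card P₂ = p ^ 2) (hPW₂ : P₂ ≤ normalizer (W₂ : Set G)) (hW₂ : W₂ ≠ ⊥) :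
    ∃ g : G, MulAut.conj g • W₁ = W₂ := by
  obtain ⟨e₁, t₁⟩ := h.lemM hc₁ hP₁ hPW₁ hW₁
  obtain ⟨e₂, t₂⟩ := h.lemM hc₂ hP₂ hPW₂ hW₂
  obtain ⟨S, hS, hSyl⟩ := H7.exists_isSylowIn_ge t₂ (le_top : W₂ ≤ ⊤)
  obtain ⟨g, -, hg⟩ := hSyl.exists_le_conj t₁ le_top
  have hsm : ∀ g : G, MulAut.conj g • P₁ ≤ normalizer (MulAut.conj g • W₁ : Subgroup G) := by
    intro g x hx
    rw [H7.mem_conj_smul] at hx
    have := H7.conj_smul_eq_iff_mem_normalizer.mpr (hPW₁ hx)
    rw [← H7.conj_smul_eq_iff_mem_normalizer, ← mul_smul, ← map_mul,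
      show x * g = g * (g⁻¹ * x * g) by group, map_mul, mul_smul, this]
  have hg' : MulAut.conj g⁻¹ • W₁ ≤ S := by
    have := (pointwise_smul_le_pointwise_smul_iff (a := MulAut.conj g⁻¹)).mpr hg
    rwa [← mul_smul, ← map_mul, inv_mul_cancel, map_one, one_smul] at this
  have h1 := h.card_two_dvd hc₂ hP₂ hPW₂ hW₂ hSyl.2.1
  have h2 := H7.card_mul_relIndex hS
  rw [← h2, e₂, mul_comm 2] at h1
  rcases (Nat.dvd_prime Nat.prime_two).mp (Nat.dvd_of_mul_dvd_mul_left (by omega) h1) with e | e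
  · rw [e, mul_one] at h2
    exact ⟨g⁻¹, (H7.eq_of_le_of_card_le hg' (by rw [H7.card_conj_smul]; omega)).trans
      (H7.eq_of_le_of_card_le hS h2.ge).symm⟩
  rw [e, e₂, mul_comm] at h2
  obtain ⟨R₁, a₁, b₁, -⟩ := h.exists_R (by rwa [H7.card_conj_smul])
    ((H7.card_conj_smul g⁻¹ P₁).trans hP₁) (hsm g⁻¹)
    (by rw [← one_lt_card_iff_ne_bot, H7.card_conj_smul]; have := h.seven; omega) h2.symm hSyl.2.1 hg'
  obtain ⟨R₂, a₂, -, c₂⟩ := h.exists_R hc₂ hP₂ hPW₂ hW₂ h2.symm hSyl.2.1 hS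
  obtain ⟨c, hc, ec⟩ := a₁.exists_conj a₂
  refine ⟨c * g⁻¹, ?_⟩
  rw [map_mul, mul_smul]
  have h3 : Nat.card (MulAut.conj g⁻¹ • W₁ : Subgroup G) = p + 1 := by rwa [H7.card_conj_smul]
  generalize MulAut.conj g⁻¹ • W₁ = W at hg' b₁ h3
  have h4 : MulAut.conj c • W ≤ S := by
    rw [← H7.conj_smul_eq_iff_mem_normalizer.mpr hc]
    exact pointwise_smul_le_pointwise_smul_iff.mpr hg'
  have h5 : R₂ ≤ normalizer (MulAut.conj c • W : Subgroup G) := by
    rw [← ec]
    intro x hx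
    rw [H7.mem_conj_smul] at hx
    have := H7.conj_smul_eq_iff_mem_normalizer.mpr (b₁ hx)
    rw [← H7.conj_smul_eq_iff_mem_normalizer, ← mul_smul, ← map_mul,
      show x * c = c * (c⁻¹ * x * c) by group, map_mul, mul_smul, this]
  have h6 : Nat.card (MulAut.conj c • W : Subgroup G) = p + 1 := by rwa [H7.card_conj_smul]
  generalize MulAut.conj c • W = V at h4 h5 h6
  obtain ⟨v, hv, hv1⟩ := exists_ne_one_of_card (X := W₂ ⊓ V) (by
    have h7 := H7.card_mul_relIndex (inf_le_right : W₂ ⊓ V ≤ V)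
    have h8 := relIndex_le_of_le_right (H := W₂) h4 (H7.relIndex_ne_zero' _ _)
    rw [inf_relIndex_right, h6] at h7
    rw [e] at h8
    have := h.seven
    nlinarith)
  refine (H7.eq_of_le_of_card_le (fun w hw => ?_) (by omega)).symm
  by_cases hw1 : w = 1
  · exact hw1 ▸ one_mem _
  obtain ⟨y, hy, rfl⟩ := c₂ v hv.1 hv1 w hw hw1
  exact conj_mem_of_norm (h5 hy) hv.2

theorem conj_mer {P X₁ X₂ : Subgroup G} (hP : Nat.card P = p ^ 2) (h₁ : Nat.card X₁ = p)
    (h₂ : Nat.card X₂ = p) (l₁ : X₁ ≤ P) (l₂ : X₂ ≤ P) (m₁ : Mer p X₁) (m₂ : Mer p X₂) :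
    ∃ g : G, MulAut.conj g • X₁ = X₂ := by
  obtain ⟨W₁, a₁, b₁, c₁, d₁⟩ := m₁
  obtain ⟨W₂, a₂, b₂, c₂, d₂⟩ := m₂
  have e₁ := (le_centralizer_of_card hP l₁).trans d₁
  have e₂ := (le_centralizer_of_card hP l₂).trans d₂
  obtain ⟨g, hg⟩ := h.conj_W b₁ hP e₁ a₁ b₂ hP e₂ a₂
  have h1 : MulAut.conj g • P ≤ normalizer (W₂ : Set G) := by
    intro x hx
    rw [H7.mem_conj_smul] at hx
    have := H7.conj_smul_eq_iff_mem_normalizer.mpr (e₁ hx)
    rw [← H7.conj_smul_eq_iff_mem_normalizer, ← hg, ← mul_smul, ← map_mul,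
      show x * g = g * (g⁻¹ * x * g) by group, map_mul, mul_smul, this]
  obtain ⟨c, hc, ec⟩ := (h.isSylowIn ((H7.card_conj_smul g P).trans hP) h1).exists_conj
    (h.isSylowIn hP e₂)
  refine ⟨c * g, ?_⟩
  have h2 : X₂ = centralizer (W₂ : Set G) ⊓ P :=
    H7.eq_of_le_of_card_le (le_inf (le_centralizer_iff.mp c₂) l₂) (by rw [h.card_cent b₂ hP e₂ a₂, h₂])
  refine H7.eq_of_le_of_card_le ?_ (by rw [H7.card_conj_smul, h₁, h₂])
  rw [h2]
  intro x hx
  refine ⟨fun w hw => ?_, ?_⟩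
  · have h3 : w ∈ MulAut.conj (c * g) • W₁ := by
      rwa [map_mul, mul_smul, hg, H7.conj_smul_eq_iff_mem_normalizer.mpr hc]
    rw [H7.mem_conj_smul] at hx h3
    have := c₁ h3 _ hx
    calc w * x = (c * g) * ((c * g)⁻¹ * w * (c * g) * ((c * g)⁻¹ * x * (c * g))) * (c * g)⁻¹ := by
          group
      _ = x * w := by rw [← this]; group
  · rw [← ec, ← mul_smul, ← map_mul]
    exact pointwise_smul_le_pointwise_smul_iff.mpr l₁ hx

end SqH

end Cfsg.Agent.H3.Sq
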