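import Mathlib
import Cfsg.Agent.H3.SqLine

/-!
# Actions of degree `p² + 1` with a subgroup regular on all points but one
-/

set_option autoImplicit false
set_option linter.unusedSectionVars false

namespace Cfsg.Agent.H3.Sq

open Subgroup MulAction Pointwise

variable {G : Type*} [Group G] {Ω : Type*} [MulAction G Ω]

/-- `P` fixes `a` and is regular on the remaining `p²` points. -/
structure TT (p : ℕ) (P : Subgroup G) (a : Ω) : Prop where
  pre : IsPretransitive G Ω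
  card : Nat.card Ω = p ^ 2 + 1
  cardP : Nat.card P = p ^ 2
  fix : ∀ x ∈ P, x • a = a
  free : ∀ x ∈ P, ∀ b, b ≠ a → x • b = b → x = 1

theorem exists_fix_of_isPGroup {r : ℕ} (hr : r.Prime) {R : Subgroup G} (hR : IsPGroup r R) (S : Set Ω)
    (hS : ∀ g ∈ R, ∀ x ∈ S, g • x ∈ S) (hd : ¬ r ∣ S.ncard) : ∃ x ∈ S, ∀ g ∈ R, g • x = x := by
  classical
  have : Fact r.Prime := ⟨hr⟩
  have hf : S.Finite := Set.finite_of_ncard_ne_zero (fun e => hd (e ▸ dvd_zero r))
  by_contra hn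
  push Not at hn
  apply hd
  rw [Set.ncard_eq_toFinset_card S hf]
  refine dvd_card_of_inv R _ (by simpa using hS) (fun t ht => ?_)
  obtain ⟨g, hg, e⟩ := hn t (by simpa using ht)
  have : Finite (orbit R t) := (hf.subset (by
    rintro _ ⟨g, rfl⟩; exact hS g g.2 t (by simpa using ht))).to_subtype
  obtain ⟨i, hi⟩ := hR.card_orbit t
  rw [H7.relIndex_stabilizer, ← Nat.card_coe_set_eq, hi]
  rcases i with _ | i
  · exfalso
    have h1 := (Nat.card_eq_one_iff_unique.mp hi).1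
    exact e (congrArg Subtype.val (h1.elim ⟨_, mem_orbit t (⟨g, hg⟩ : R)⟩ ⟨t, mem_orbit_self t⟩))
  · exact dvd_pow_self r (by omega)

namespace TT

variable [Finite G] {p : ℕ} {P : Subgroup G} {a : Ω} (T : TT p P a)
include T

theorem finite : Finite Ω := Nat.finite_of_card_ne_zero (by rw [T.card]; omega)

theorem ncard_ne : {b | b ≠ a}.ncard = p ^ 2 := by
  have := T.finite
  have h1 := Set.ncard_add_ncard_compl ({a} : Set Ω)
  rw [Set.ncard_singleton, T.card] at h1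
  have : ({b | b ≠ a} : Set Ω) = {a}ᶜ := rfl
  rw [this]; omega

theorem smul_ne {x : G} (hx : x • a = a) {b : Ω} (hb : b ≠ a) : x • b ≠ a := fun e =>
  hb (smul_left_cancel x (e.trans hx.symm))

theorem trans {b c : Ω} (hb : b ≠ a) (hc : c ≠ a) : ∃ x ∈ P, x • b = c := by
  have := T.finite
  have h1 : stabilizer G b ⊓ P = ⊥ := eq_bot_iff.mpr fun x hx => T.free x hx.2 b hb hx.1
  have h2 := H7.relIndex_stabilizer P b
  rw [← inf_relIndex_right, h1, relIndex_bot_left, T.cardP] at h2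
  have h3 : orbit P b = {b | b ≠ a} := Set.eq_of_subset_of_ncard_le
    (by rintro _ ⟨x, rfl⟩; exact T.smul_ne (T.fix x x.2) hb) (by rw [T.ncard_ne, h2])
  obtain ⟨x, hx⟩ : c ∈ orbit P b := h3 ▸ hc
  exact ⟨x, x.2, hx⟩

theorem smul (g : G) : TT p (MulAut.conj g • P) (g • a) := by
  refine ⟨T.pre, T.card, (H7.card_conj_smul g P).trans T.cardP, fun x hx => ?_, fun x hx b hb e => ?_⟩
  · have := T.fix _ (H7.mem_conj_smul.mp hx)
    rwa [mul_smul, mul_smul, inv_smul_eq_iff] at this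
  · have := T.free _ (H7.mem_conj_smul.mp hx) (g⁻¹ • b) (fun h => hb (inv_smul_eq_iff.mp h))
      (by rw [mul_smul, mul_smul, smul_inv_smul, e])
    calc x = g * (g⁻¹ * x * g) * g⁻¹ := by group
      _ = 1 := by rw [this]; group

theorem exists_at (b : Ω) : ∃ Q : Subgroup G, TT p Q b := by
  have := T.pre
  obtain ⟨g, rfl⟩ := exists_smul_eq G a b
  exact ⟨_, T.smul g⟩

theorem two {b c d e : Ω} (h1 : b ≠ c) (h2 : d ≠ e) : ∃ g : G, g • b = d ∧ g • c = e := by
  have := T.pre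
  obtain ⟨g, rfl⟩ := exists_smul_eq G b d
  obtain ⟨Q, TQ⟩ := T.exists_at (g • b)
  obtain ⟨x, hx, e1⟩ := TQ.trans (b := g • c) (fun h => h1 (smul_left_cancel g h).symm) h2.symm
  exact ⟨x * g, by rw [mul_smul, TQ.fix x hx], by rw [mul_smul, e1]⟩

theorem index_stab {b c : Ω} (hbc : b ≠ c) :
    (stabilizer G b ⊓ stabilizer G c).index = (p ^ 2 + 1) * p ^ 2 := by
  have := T.pre
  obtain ⟨Q, TQ⟩ := T.exists_at b
  rw [← relIndex_mul_index (inf_le_left : stabilizer G b ⊓ stabilizer G c ≤ _), inf_relIndex_left,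
    index_stabilizer_of_transitive, T.card, H7.relIndex_stabilizer, ← TQ.ncard_ne, mul_comm]
  congr 2
  ext d
  refine ⟨?_, fun hd => ?_⟩
  · rintro ⟨x, rfl⟩; exact TQ.smul_ne x.2 hbc.symm
  · obtain ⟨x, hx, e⟩ := TQ.trans hbc.symm hd
    exact ⟨⟨x, TQ.fix x hx⟩, e⟩

variable [hp : Fact p.Prime]

theorem exists_ne : ∃ b, b ≠ a := by
  have h1 : {b | b ≠ a}.ncard ≠ 0 := by rw [T.ncard_ne]; exact pow_ne_zero 2 hp.out.ne_zero
  exact Set.nonempty_of_ncard_ne_zero h1

theorem faithful {n : ℕ} (h : SqH p n G) (h2 : ∀ H : Subgroup G, H.index ≠ 2) {g : G}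
    (hg : ∀ b : Ω, g • b = b) : g = 1 := by
  have h1 : (toPermHom G Ω).ker = ⊥ := by
    refine h.normal_eq_bot h2 _ ((Nat.Prime.coprime_iff_not_dvd hp.out).mpr fun hd => ?_).symm
    obtain ⟨x, hx, ho⟩ := exists_orderOf_eq_mem hp.out hd
    obtain ⟨Q, rfl⟩ := h.exists_sylow T.cardP
    obtain ⟨g, hg⟩ := IsPElt.exists_conj_mem (show IsPElt p x from ⟨1, by
      rw [pow_one, ← ho, pow_orderOf_eq_one]⟩) Q
    obtain ⟨b, hb⟩ := T.exists_ne
    have := T.free _ hg b hb (Equiv.congr_fun ((MonoidHom.normal_ker _).conj_mem x hx g) b)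
    exact ne_one_of_orderOf_prime (ho ▸ hp.out) (by simpa using this)
  have : g ∈ (toPermHom G Ω).ker := Equiv.ext hg
  rwa [h1] at this

theorem exists_fix {r : ℕ} (hr : r.Prime) (hrp : r ≠ p) {R : Subgroup G} (hR : IsPGroup r R)
    (h1 : ∀ g ∈ R, g • a = a) : ∃ b, b ≠ a ∧ ∀ g ∈ R, g • b = b :=
  exists_fix_of_isPGroup hr hR {b | b ≠ a} (fun g hg _ hx => T.smul_ne (h1 g hg) hx) (by
    rw [T.ncard_ne]
    exact fun hd => hrp ((Nat.prime_dvd_prime_iff_eq hr hp.out).mp (hr.dvd_of_dvd_pow hd)))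

theorem fix_all {r : ℕ} (hr : r.Prime) (hrp : r ≠ p) {R : Subgroup G} (hR : IsPGroup r R)
    (h1 : ∀ g ∈ R, g • a = a) (h2 : P ≤ normalizer (R : Set G)) {g : G} (hg : g ∈ R) (c : Ω) :
    g • c = c := by
  obtain ⟨b, hb, h3⟩ := T.exists_fix hr hrp hR h1
  by_cases hc : c = a
  · exact hc ▸ h1 g hg
  obtain ⟨x, hx, rfl⟩ := T.trans hb hc
  have := h3 _ (conj_mem_of_norm (h2 (inv_mem hx)) hg)
  rwa [inv_inv, mul_smul, mul_smul, inv_smul_eq_iff] at this

theorem fix_all_of_cent {X : Subgroup G} (hX : Nat.card X = p) (hXP : X ≤ P)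
    (h1 : stabilizer G a ≤ centralizer (X : Set G)) {b : Ω} (hb : b ≠ a) {g : G} (ha : g • a = a)
    (hg : g • b = b) (c : Ω) : g • c = c := by
  classical
  have := T.finite
  have := Fintype.ofFinite Ω
  set L := stabilizer G a ⊓ stabilizer G b
  let F : Set Ω := {c | ∀ g ∈ L, g • c = c}
  have h2 : orbit (normalizer (L : Set G)) a = F := by
    ext c
    constructor
    · rintro ⟨u, rfl⟩ g hg
      have : ((u : G)⁻¹ * g * (u : G)⁻¹⁻¹) • a = a := (conj_mem_of_norm (inv_mem u.2) hg).1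
      rwa [inv_inv, mul_smul, mul_smul, inv_smul_eq_iff] at this
    · intro hc
      obtain ⟨d, hd, hdc⟩ : ∃ d ∈ F, c ≠ d := by
        by_cases e : c = a
        · exact ⟨b, fun g hg => hg.2, e ▸ hb.symm⟩
        · exact ⟨a, fun g hg => hg.1, e⟩
      obtain ⟨u, e1, e2⟩ := T.two hb.symm hdc
      refine ⟨⟨u, inv_mem_iff.mp (mem_normalizer_fintype fun g hg => ⟨?_, ?_⟩)⟩, e1⟩
      · change (u⁻¹ * g * u⁻¹⁻¹) • a = a
        rw [inv_inv, mul_smul, mul_smul, e1, hc g hg, inv_smul_eq_iff, e1]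
      · change (u⁻¹ * g * u⁻¹⁻¹) • b = b
        rw [inv_inv, mul_smul, mul_smul, e2, hd g hg, inv_smul_eq_iff, e2]
  have h3 : F.ncard ∣ (p ^ 2 + 1) * p ^ 2 := by
    rw [← h2, ← H7.relIndex_stabilizer, ← T.index_stab hb.symm]
    exact (relIndex_dvd_of_le_left _ inf_le_left).trans (relIndex_dvd_index_of_le le_normalizer)
  have h4 : p ∣ (Finset.univ.filter (fun c => c ∈ F ∧ c ≠ a)).card := by
    refine dvd_card_of_inv X _ (fun x hx c hc => ?_) (fun c hc => ?_)
    · simp only [Finset.mem_filter, Finset.mem_univ, true_and] at hc ⊢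
      refine ⟨fun g hg => ?_, T.smul_ne (T.fix x (hXP hx)) hc.2⟩
      rw [← mul_smul, ← h1 hg.1 x hx, mul_smul, hc.1 g hg]
    · simp only [Finset.mem_filter, Finset.mem_univ, true_and] at hc
      refine dvd_relIndex_of_not_le hp.out (hX.trans (pow_one p).symm) (fun hh => ?_)
      obtain ⟨x, hx, hx1⟩ := exists_ne_one_of_card (X := X) (hX ▸ hp.out.one_lt)
      exact hx1 (T.free x (hXP hx) c hc.2 (hh hx))
  obtain ⟨s, hs⟩ := h4
  have h5 : F.ncard = 1 + s * p := by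
    have : F = ↑(insert a (Finset.univ.filter (fun c => c ∈ F ∧ c ≠ a))) := by
      ext c
      by_cases e : c = a
      · have : a ∈ F := fun g hg => hg.1
        simp [e, this]
      · simp [e]
    rw [this, Set.ncard_coe_finset, Finset.card_insert_of_notMem (by simp), hs]
    ring
  have h6 : 1 ≤ s := by
    rcases s with _ | s
    · rw [mul_zero, Finset.card_eq_zero, Finset.filter_eq_empty_iff] at hs
      exact absurd ⟨fun g hg => hg.2, hb⟩ (hs (Finset.mem_univ b))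
    · omega
  rw [h5] at h3
  have h7 := eq_of_dvd_sq_add_one hp.out.two_le h6 (Nat.Coprime.dvd_of_dvd_mul_right
    (Nat.Coprime.pow_right 2 (by simp)) h3)
  have h8 : F = Set.univ := Set.eq_of_subset_of_ncard_le (Set.subset_univ _)
    (by rw [Set.ncard_univ, T.card, h5, h7]; nlinarith)
  exact (h8.ge (Set.mem_univ c)) g ⟨ha, hg⟩

end TT

end Cfsg.Agent.H3.Sq
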