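import Mathlib
import Cfsg.Agent.H3.SqTT

/-!
# Counting Sylow subgroups and subgroups of order `p`
-/

set_option autoImplicit false
set_option linter.unusedSectionVars false

namespace Cfsg.Agent.H3.Sq

open Subgroup MulAction Pointwise

variable {G : Type*} [Group G]

/-- Subgroups with the conjugation action. -/
def Sb (G : Type*) [Group G] := Subgroup G

instance instMulActionSb : MulAction G (Sb G) :=
  MulAction.compHom (Subgroup G) (MulAut.conj : G →* MulAut G)

theorem stabilizer_sb (X : Subgroup G) : stabilizer G (show Sb G from X) = normalizer (X : Set G) := by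
  ext g
  exact H7.conj_smul_eq_iff_mem_normalizer

theorem conj_le_conj {X Y : Subgroup G} (g : G) : MulAut.conj g • X ≤ MulAut.conj g • Y ↔ X ≤ Y :=
  pointwise_smul_le_pointwise_smul_iff

theorem conj_conj (g g' : G) (X : Subgroup G) :
    MulAut.conj g • MulAut.conj g' • X = MulAut.conj (g * g') • X := by
  rw [map_mul, mul_smul]

theorem conj_inv_conj (g : G) (X : Subgroup G) : MulAut.conj g⁻¹ • MulAut.conj g • X = X := by
  rw [conj_conj, inv_mul_cancel, map_one, one_smul]

theorem centralizer_conj (g : G) (X : Subgroup G) :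
    centralizer (MulAut.conj g • X : Subgroup G) = MulAut.conj g • centralizer (X : Set G) := by
  ext y
  rw [H7.mem_conj_smul]
  constructor
  · intro h x hx
    have := h _ (H7.conj_mem_conj_smul.mpr hx)
    calc x * (g⁻¹ * y * g) = g⁻¹ * (g * x * g⁻¹ * y) * g := by group
      _ = g⁻¹ * y * g * x := by rw [this]; group
  · intro h x hx
    have := h _ (H7.mem_conj_smul.mp hx)
    calc x * y = g * (g⁻¹ * x * g * (g⁻¹ * y * g)) * g⁻¹ := by group
      _ = y * x := by rw [this]; group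

theorem uu_smul (p : ℕ) (g : G) (X : Subgroup G) : uu p (MulAut.conj g • X) = uu p X := by
  unfold uu
  rw [← Set.ncard_smul_set g {Q : Sylow p G | X ≤ Q}]
  congr 1
  ext Q
  rw [Set.mem_smul_set_iff_inv_smul_mem, Set.mem_ofPred_eq, Set.mem_ofPred_eq,
    Sylow.coe_subgroup_smul, ← conj_le_conj g⁻¹, conj_inv_conj]

variable [Finite G]

/-- The conjugacy class of a subgroup. -/
noncomputable def cls (X : Subgroup G) : Finset (Subgroup G) :=
  (Set.toFinite {Y : Subgroup G | ∃ g : G, MulAut.conj g • X = Y}).toFinset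

theorem mem_cls {X Y : Subgroup G} : Y ∈ cls X ↔ ∃ g : G, MulAut.conj g • X = Y :=
  Set.Finite.mem_toFinset _

theorem self_mem_cls (X : Subgroup G) : X ∈ cls X := mem_cls.mpr ⟨1, by simp⟩

theorem smul_mem_cls {X Y : Subgroup G} (h : Y ∈ cls X) (g : G) : MulAut.conj g • Y ∈ cls X := by
  obtain ⟨g', rfl⟩ := mem_cls.mp h
  exact mem_cls.mpr ⟨g * g', (conj_conj _ _ _).symm⟩

theorem card_of_mem_cls {X Y : Subgroup G} (h : Y ∈ cls X) : Nat.card Y = Nat.card X := by
  obtain ⟨g, rfl⟩ := mem_cls.mp h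
  exact H7.card_conj_smul g X

theorem uu_of_mem_cls (p : ℕ) {X Y : Subgroup G} (h : Y ∈ cls X) : uu p Y = uu p X := by
  obtain ⟨g, rfl⟩ := mem_cls.mp h
  exact uu_smul p g X

theorem card_cls (X : Subgroup G) : (cls X).card = (normalizer (X : Set G)).index := by
  rw [← stabilizer_sb, index_stabilizer, ← Set.ncard_coe_finset, cls, Set.Finite.coe_toFinset]
  rfl

open Classical in
/-- The conjugates of `X` inside `P`. -/
noncomputable def clP (X P : Subgroup G) : Finset (Subgroup G) := (cls X).filter (· ≤ P)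

theorem mem_clP {X P Y : Subgroup G} : Y ∈ clP X P ↔ Y ∈ cls X ∧ Y ≤ P := by
  classical
  exact Finset.mem_filter

theorem card_clP_smul (X P : Subgroup G) (g : G) :
    (clP X (MulAut.conj g • P)).card = (clP X P).card := by
  refine Finset.card_nbij' (fun Y => MulAut.conj g⁻¹ • Y) (fun Y => MulAut.conj g • Y) ?_ ?_ ?_ ?_
  · intro Y hY
    obtain ⟨h1, h2⟩ := mem_clP.mp hY
    exact mem_clP.mpr ⟨smul_mem_cls h1 _, conj_inv_conj g P ▸ (conj_le_conj g⁻¹).mpr h2⟩
  · intro Y hY
    obtain ⟨h1, h2⟩ := mem_clP.mp hY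
    exact mem_clP.mpr ⟨smul_mem_cls h1 _, (conj_le_conj g).mpr h2⟩
  · intro Y _
    simp
  · intro Y _
    exact conj_inv_conj g Y

/-- The subgroups of order `p` of `P`. -/
noncomputable def lines (p : ℕ) (P : Subgroup G) : Finset (Subgroup G) :=
  (Set.toFinite {X : Subgroup G | X ≤ P ∧ Nat.card X = p}).toFinset

theorem mem_lines {p : ℕ} {P X : Subgroup G} : X ∈ lines p P ↔ X ≤ P ∧ Nat.card X = p :=
  Set.Finite.mem_toFinset _

theorem clP_subset {p : ℕ} {X P : Subgroup G} (hX : Nat.card X = p) : clP X P ⊆ lines p P :=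
  fun _ hY => mem_lines.mpr ⟨(mem_clP.mp hY).2, (card_of_mem_cls (mem_clP.mp hY).1).trans hX⟩

theorem card_lines {p : ℕ} (hp : p.Prime) {P : Subgroup G} (hP : Nat.card P = p ^ 2) :
    (lines p P).card ≤ p + 1 := by
  classical
  have := Fintype.ofFinite G
  have hc : ∀ X : Subgroup G, (Finset.univ.filter (fun v => v ∈ X ∧ v ≠ 1)).card + 1 = Nat.card X := by
    intro X
    have h2 : Finset.univ.filter (fun v => v ∈ X) =
        insert 1 (Finset.univ.filter (fun v => v ∈ X ∧ v ≠ 1)) := by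
      ext v
      by_cases hv : v = 1 <;> simp [hv]
    rw [Nat.card_eq_fintype_card, Fintype.card_subtype, h2, Finset.card_insert_of_notMem (by simp)]
  have h1 := Finset.card_mul_le_card_mul (fun (X : Subgroup G) (v : G) => v ∈ X) (s := lines p P)
    (t := Finset.univ.filter (fun v => v ∈ P ∧ v ≠ 1)) (m := p - 1) (n := 1) (fun X hX => by
      obtain ⟨h1, h2⟩ := mem_lines.mp hX
      have := hc X
      rw [show Finset.bipartiteAbove (fun (X : Subgroup G) (v : G) => v ∈ X)
        (Finset.univ.filter (fun v => v ∈ P ∧ v ≠ 1)) X =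
        Finset.univ.filter (fun v => v ∈ X ∧ v ≠ 1) from ?_]
      · omega
      · ext v
        simp only [Finset.mem_bipartiteAbove, Finset.mem_filter, Finset.mem_univ, true_and]
        exact ⟨fun h => ⟨h.2, h.1.2⟩, fun h => ⟨⟨h1 h.1, h.2⟩, h.1⟩⟩)
    (fun v hv => Finset.card_le_one.mpr fun X hX Y hY => by
      simp only [Finset.mem_bipartiteBelow, Finset.mem_filter, Finset.mem_univ, true_and] at hv hX hY
      exact eq_of_mem_lines hp (mem_lines.mp hX.1).2 (mem_lines.mp hY.1).2 hX.2 hY.2 hv.2)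
  have h2 := hc P
  have := hp.two_le
  obtain ⟨t, rfl⟩ : ∃ t, p = t + 1 := ⟨p - 1, by omega⟩
  rw [Nat.add_sub_cancel] at h1
  refine Nat.le_of_mul_le_mul_right (c := t) ?_ (by omega)
  nlinarith

/-- The Sylow subgroups other than `P` meeting `P` in a member of `T`. -/
noncomputable def meet {p : ℕ} (P : Sylow p G) (T : Finset (Subgroup G)) : Finset (Sylow p G) :=
  (Set.toFinite {Q : Sylow p G | Q ≠ P ∧ (Q : Subgroup G) ⊓ P ∈ T}).toFinset

theorem mem_meet {p : ℕ} {P Q : Sylow p G} {T : Finset (Subgroup G)} :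
    Q ∈ meet P T ↔ Q ≠ P ∧ (Q : Subgroup G) ⊓ P ∈ T := Set.Finite.mem_toFinset _

/-- Conjugates of `X` outside `P` commuting with a non-trivial element of `P`. -/
noncomputable def s1 (X P : Subgroup G) : Finset (Subgroup G) :=
  (Set.toFinite {Y | Y ∈ cls X ∧ ¬ Y ≤ P ∧ centralizer (Y : Set G) ⊓ P ≠ ⊥}).toFinset

theorem mem_s1 {X P Y : Subgroup G} :
    Y ∈ s1 X P ↔ Y ∈ cls X ∧ ¬ Y ≤ P ∧ centralizer (Y : Set G) ⊓ P ≠ ⊥ := Set.Finite.mem_toFinset _

namespace SqH

variable {p n : ℕ} [hp : Fact p.Prime] (h : SqH p n G)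
include h

theorem sylow_eq {P Q : Sylow p G} (hle : (P : Subgroup G) ≤ Q) : P = Q :=
  Sylow.ext (H7.eq_of_le_of_card_le hle (by rw [h.card_sylow, h.card_sylow]))

theorem inf_mem_lines {P Q : Sylow p G} (h1 : Q ≠ P) (h2 : (Q : Subgroup G) ⊓ P ≠ ⊥) :
    (Q : Subgroup G) ⊓ P ∈ lines p (P : Subgroup G) :=
  mem_lines.mpr ⟨inf_le_right, card_eq_of_ne hp.out inf_le_right (h.card_sylow P) h2
    (fun e => h1 (h.sylow_eq (e ▸ inf_le_left)).symm)⟩

theorem inf_eq_of_le {P Q : Sylow p G} (h1 : Q ≠ P) {X : Subgroup G} (hX : X ∈ lines p (P : Subgroup G))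
    (h2 : X ≤ Q) : (Q : Subgroup G) ⊓ P = X := by
  obtain ⟨h3, h4⟩ := mem_lines.mp hX
  have h5 : X ≤ (Q : Subgroup G) ⊓ P := le_inf h2 h3
  have h6 := (mem_lines.mp (h.inf_mem_lines h1 (fun e => by
    rw [e, le_bot_iff] at h5
    rw [h5, card_bot] at h4
    exact hp.out.one_lt.ne h4))).2
  exact (H7.eq_of_le_of_card_le h5 (by omega)).symm

theorem card_fiber {P : Sylow p G} {X : Subgroup G} (hX : X ∈ lines p (P : Subgroup G)) :
    (meet P {X}).card + 1 = uu p X := by
  classical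
  have : {Q : Sylow p G | X ≤ Q} = ↑(insert P (meet P {X})) := by
    ext Q
    simp only [Set.mem_ofPred_eq, Finset.coe_insert, Set.mem_insert_iff, Finset.mem_coe, mem_meet,
      Finset.mem_singleton]
    refine ⟨fun hQ => ?_, ?_⟩
    · by_cases e : Q = P
      · exact Or.inl e
      · exact Or.inr ⟨e, h.inf_eq_of_le e hX hQ⟩
    · rintro (rfl | ⟨-, e⟩)
      · exact (mem_lines.mp hX).1
      · exact e ▸ inf_le_left
  rw [uu, this, Set.ncard_coe_finset, Finset.card_insert_of_notMem (by simp [mem_meet])]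

theorem card_meet {P : Sylow p G} {T : Finset (Subgroup G)} (hT : T ⊆ lines p (P : Subgroup G)) :
    (meet P T).card = ∑ X ∈ T, (uu p X - 1) := by
  classical
  rw [Finset.card_eq_sum_card_fiberwise (f := fun Q : Sylow p G => (Q : Subgroup G) ⊓ P) (t := T)
    (fun Q hQ => (mem_meet.mp hQ).2)]
  refine Finset.sum_congr rfl fun X hX => ?_
  rw [← h.card_fiber (hT hX), Nat.add_sub_cancel]
  congr 1
  ext Q
  simp only [Finset.mem_filter, mem_meet, Finset.mem_singleton]
  exact ⟨fun h => ⟨h.1.1, h.2⟩, fun h => ⟨⟨h.1, h.2 ▸ hX⟩, h.2⟩⟩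

theorem stab_inf (P Q : Sylow p G) : stabilizer G Q ⊓ P = (Q : Subgroup G) ⊓ P := by
  rw [Sylow.stabilizer_eq_normalizer]
  exact le_antisymm (fun x hx => ⟨h.mem_of_norm (h.card_sylow Q) (IsPElt.of_mem P.2 hx.2) hx.1, hx.2⟩)
    (inf_le_inf_right _ le_normalizer)

theorem smul_inf_self {P : Sylow p G} {g : G} (hg : g ∈ (P : Subgroup G)) (Q : Sylow p G) :
    ((g • Q : Sylow p G) : Subgroup G) ⊓ P = (Q : Subgroup G) ⊓ P := by
  ext x
  simp only [mem_inf, Sylow.coe_subgroup_smul, H7.mem_conj_smul]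
  refine and_congr_left fun hx => ?_
  rw [mul_assoc, comm_of_card (h.card_sylow P) hx hg, inv_mul_cancel_left]

theorem smul_ne_self {P Q : Sylow p G} {g : G} (hg : g ∈ (P : Subgroup G)) (hQ : Q ≠ P) :
    g • Q ≠ P := fun e => hQ (smul_left_cancel g (e.trans (sylow_smul_self hg).symm))

theorem uu_form {P : Sylow p G} {X : Subgroup G} (hX : X ∈ lines p (P : Subgroup G)) :
    ∃ k, uu p X = 1 + k * p := by
  obtain ⟨k, hk⟩ : p ∣ (meet P {X}).card := by
    refine dvd_card_of_inv (P : Subgroup G) _ (fun g hg Q hQ => ?_) (fun Q hQ => ?_)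
    · rw [mem_meet] at hQ ⊢
      exact ⟨h.smul_ne_self hg hQ.1, h.smul_inf_self hg Q ▸ hQ.2⟩
    · refine dvd_relIndex_of_not_le hp.out (h.card_sylow P) fun hh => (mem_meet.mp hQ).1 ?_
      exact (h.sylow_eq ((le_inf hh le_rfl).trans ((h.stab_inf P Q).le.trans inf_le_left))).symm
  exact ⟨k, by rw [← h.card_fiber hX, hk]; ring⟩

theorem sylow_count (P : Sylow p G) : ∃ b, 1 ≤ b ∧
    Nat.card (Sylow p G) = 1 + (meet P (lines p (P : Subgroup G))).card + b * p ^ 2 := by
  classical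
  have := Fintype.ofFinite (Sylow p G)
  have hpp : 1 < p ^ 2 := Nat.one_lt_pow (by norm_num) hp.out.one_lt
  have hP : (P : Subgroup G) ⊓ P ≠ ⊥ := by
    rw [inf_idem, ← one_lt_card_iff_ne_bot, h.card_sylow]; exact hpp
  obtain ⟨b, hb⟩ : p ^ 2 ∣ (Finset.univ.filter (fun Q : Sylow p G => (Q : Subgroup G) ⊓ P = ⊥)).card := by
    refine dvd_card_of_inv (P : Subgroup G) _ (fun g hg Q hQ => ?_) (fun Q hQ => ?_)
    · simp only [Finset.mem_filter, Finset.mem_univ, true_and] at hQ ⊢
      rwa [h.smul_inf_self hg]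
    · simp only [Finset.mem_filter, Finset.mem_univ, true_and] at hQ
      rw [← inf_relIndex_right, h.stab_inf, hQ, relIndex_bot_left, h.card_sylow]
  refine ⟨b, ?_, ?_⟩
  · obtain ⟨Q, hQ⟩ := h.brodkey P
    rcases b with _ | b
    · rw [mul_zero, Finset.card_eq_zero, Finset.filter_eq_empty_iff] at hb
      exact absurd hQ (hb (Finset.mem_univ Q))
    · omega
  · rw [Nat.card_eq_fintype_card, ← Finset.card_univ, ← Finset.card_filter_add_card_filter_not
      (fun Q : Sylow p G => (Q : Subgroup G) ⊓ P = ⊥), hb]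
    have : Finset.univ.filter (fun Q : Sylow p G => ¬ (Q : Subgroup G) ⊓ P = ⊥) =
        insert P (meet P (lines p (P : Subgroup G))) := by
      ext Q
      simp only [Finset.mem_filter, Finset.mem_univ, true_and, Finset.mem_insert, mem_meet]
      refine ⟨fun hQ => ?_, ?_⟩
      · by_cases e : Q = P
        · exact Or.inl e
        · exact Or.inr ⟨e, h.inf_mem_lines e hQ⟩
      · rintro (rfl | ⟨-, e⟩)
        · exact hP
        · rw [← ne_eq, ← one_lt_card_iff_ne_bot, (mem_lines.mp e).2]; exact hp.out.one_lt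
    rw [this, Finset.card_insert_of_notMem (by simp [mem_meet])]
    ring

theorem card_clP (X : Subgroup G) (P Q : Sylow p G) :
    (clP X (Q : Subgroup G)).card = (clP X (P : Subgroup G)).card := by
  obtain ⟨g, rfl⟩ := exists_smul_eq G P Q
  exact card_clP_smul X P g

theorem cls_mul_uu (X : Subgroup G) (P : Sylow p G) :
    (cls X).card * uu p X = Nat.card (Sylow p G) * (clP X (P : Subgroup G)).card := by
  classical
  have := Fintype.ofFinite (Sylow p G)
  rw [Nat.card_eq_fintype_card, ← Finset.card_univ]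
  refine Finset.card_mul_eq_card_mul (fun (Y : Subgroup G) (Q : Sylow p G) => Y ≤ Q) (fun Y hY => ?_)
    (fun Q _ => ?_)
  · rw [← uu_of_mem_cls p hY, uu, ← Set.ncard_coe_finset]
    congr 1
    ext Q
    simp
  · rw [← h.card_clP X P Q]
    congr 1

theorem norm_inf {X : Subgroup G} (hX : Nat.card X = p) (P : Sylow p G) :
    normalizer (X : Set G) ⊓ P = centralizer (X : Set G) ⊓ P :=
  le_antisymm (fun _ hx => ⟨mem_centralizer_of_norm hp.out hX hx.1 (IsPElt.of_mem P.2 hx.2), hx.2⟩)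
    (inf_le_inf_right _ (centralizer_le_normalizer _))

theorem cls_count {X : Subgroup G} (hX : Nat.card X = p) (P : Sylow p G) : ∃ b,
    (cls X).card = (clP X (P : Subgroup G)).card + (s1 X (P : Subgroup G)).card + b * p ^ 2 := by
  classical
  have hP := h.card_sylow P
  have hpp : 1 < p ^ 2 := Nat.one_lt_pow (by norm_num) hp.out.one_lt
  obtain ⟨b, hb⟩ : p ^ 2 ∣ ((cls X).filter
      (fun Y : Subgroup G => centralizer (Y : Set G) ⊓ P = ⊥)).card := by
    refine dvd_card_of_inv (T := Sb G) (P : Subgroup G) _ (fun g hg Y hY => ?_) (fun Y hY => ?_)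
    · obtain ⟨h1, h2⟩ := Finset.mem_filter.mp hY
      refine Finset.mem_filter.mpr ⟨smul_mem_cls h1 g, ?_⟩
      change centralizer (MulAut.conj g • (show Subgroup G from Y) : Subgroup G) ⊓ (P : Subgroup G) = ⊥
      rw [centralizer_conj, ← H7.conj_smul_of_mem hg, ← smul_inf, h2, smul_bot]
    · obtain ⟨h1, h2⟩ := Finset.mem_filter.mp hY
      rw [stabilizer_sb (G := G) Y, ← inf_relIndex_right,
        h.norm_inf ((card_of_mem_cls h1).trans hX), h2, relIndex_bot_left, hP]
  refine ⟨b, ?_⟩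
  rw [← Finset.card_filter_add_card_filter_not
    (fun Y : Subgroup G => centralizer (Y : Set G) ⊓ P = ⊥), hb,
    ← Finset.card_filter_add_card_filter_not (s := (cls X).filter
      (fun Y : Subgroup G => ¬ centralizer (Y : Set G) ⊓ P = ⊥)) (fun Y : Subgroup G => Y ≤ P)]
  have e1 : ((cls X).filter (fun Y : Subgroup G => ¬ centralizer (Y : Set G) ⊓ P = ⊥)).filter
      (fun Y : Subgroup G => Y ≤ P) = clP X P := by
    ext Y
    simp only [Finset.mem_filter, mem_clP]
    refine ⟨fun h => ⟨h.1.1, h.2⟩, fun h' => ⟨⟨h'.1, ?_⟩, h'.2⟩⟩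
    rw [inf_eq_right.mpr (le_centralizer_of_card hP h'.2), ← ne_eq, ← one_lt_card_iff_ne_bot, hP]
    exact hpp
  have e2 : ((cls X).filter (fun Y : Subgroup G => ¬ centralizer (Y : Set G) ⊓ P = ⊥)).filter
      (fun Y : Subgroup G => ¬ Y ≤ P) = s1 X P := by
    ext Y
    simp only [Finset.mem_filter, mem_s1]
    tauto
  rw [e1, e2]
  ring

theorem exists_sylow_of_cent {Y Z : Subgroup G} (hY : Nat.card Y = p) (hZ : IsPGroup p Z)
    (h1 : Z ≤ centralizer (Y : Set G)) : ∃ Q : Sylow p G, Y ≤ Q ∧ Z ≤ Q := by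
  obtain ⟨Q, hQ⟩ := ((IsPGroup.of_card (hY.trans (pow_one p).symm)).to_sup_of_normal_left' hZ
    (h1.trans (centralizer_le_normalizer _))).exists_le_sylow
  exact ⟨Q, le_sup_left.trans hQ, le_sup_right.trans hQ⟩

theorem s1_count {X : Subgroup G} (hX : Nat.card X = p) (P : Sylow p G) :
    (s1 X (P : Subgroup G)).card + (clP X (P : Subgroup G)).card * (uu p X - 1) =
      (clP X (P : Subgroup G)).card * (meet P (lines p (P : Subgroup G))).card := by
  classical
  have hP := h.card_sylow P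
  have h1 : (meet P (clP X (P : Subgroup G))).card = (clP X (P : Subgroup G)).card * (uu p X - 1) := by
    rw [h.card_meet (clP_subset hX), Finset.sum_congr rfl
      (fun Y hY => by rw [uu_of_mem_cls p (mem_clP.mp hY).1]), Finset.sum_const, smul_eq_mul]
  have h2 := Finset.sum_card_bipartiteAbove_eq_sum_card_bipartiteBelow
    (fun (Y : Subgroup G) (Q : Sylow p G) => Y ≤ Q) (s := s1 X (P : Subgroup G))
    (t := meet P (lines p (P : Subgroup G)))
  rw [Finset.sum_congr rfl (g := fun _ => 1) (fun Y hY => ?_), Finset.sum_const, smul_eq_mul,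
    mul_one] at h2
  · rw [h2, ← h1, mul_comm, ← smul_eq_mul, ← Finset.sum_const]
    have h3 : meet P (clP X (P : Subgroup G)) = (meet P (lines p (P : Subgroup G))).filter
        (fun Q : Sylow p G => (Q : Subgroup G) ⊓ P ∈ cls X) := by
      ext Q
      simp only [Finset.mem_filter, mem_meet, mem_clP]
      exact ⟨fun h' => ⟨⟨h'.1, clP_subset hX (mem_clP.mpr h'.2)⟩, h'.2.1⟩,
        fun h' => ⟨h'.1.1, h'.2, inf_le_right⟩⟩
    rw [h3, Finset.card_filter, ← Finset.sum_add_distrib]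
    refine Finset.sum_congr rfl fun Q hQ => ?_
    obtain ⟨h4, h5⟩ := mem_meet.mp hQ
    have h6 : Finset.bipartiteBelow (fun (Y : Subgroup G) (Q : Sylow p G) => Y ≤ Q)
        (s1 X (P : Subgroup G)) Q = (clP X (Q : Subgroup G)).erase ((Q : Subgroup G) ⊓ P) := by
      ext Y
      simp only [Finset.mem_bipartiteBelow, mem_s1, Finset.mem_erase, mem_clP]
      refine ⟨fun h' => ⟨fun e => h'.1.2.1 (e ▸ inf_le_right), h'.1.1, h'.2⟩,
        fun h' => ⟨⟨h'.2.1, fun hle => h'.1 ?_, fun e => ?_⟩, h'.2.2⟩⟩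
      · exact (h.inf_eq_of_le h4 (mem_lines.mpr ⟨hle, (card_of_mem_cls h'.2.1).trans hX⟩) h'.2.2).symm
      · have h7 : (Q : Subgroup G) ⊓ P ≤ centralizer (Y : Set G) ⊓ P :=
          inf_le_inf_right _ (le_centralizer_of_card (h.card_sylow Q) h'.2.2)
        have h8 := (mem_lines.mp h5).2
        rw [e, le_bot_iff] at h7
        rw [h7, card_bot] at h8
        exact hp.out.one_lt.ne h8
    rw [h6, ← h.card_clP X P Q]
    split_ifs with e
    · exact Finset.card_erase_add_one (mem_clP.mpr ⟨e, inf_le_left⟩)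
    · rw [Finset.erase_eq_of_notMem (fun e' => e (mem_clP.mp e').1), add_zero]
  · obtain ⟨h3, h4, h5⟩ := mem_s1.mp hY
    have hY' := (card_of_mem_cls h3).trans hX
    obtain ⟨Q, h6, h7⟩ := h.exists_sylow_of_cent hY' (P.2.to_le inf_le_right)
      (inf_le_left : centralizer (Y : Set G) ⊓ P ≤ _)
    have hl : centralizer (Y : Set G) ⊓ P ∈ lines p (P : Subgroup G) :=
      mem_lines.mpr ⟨inf_le_right, card_eq_of_ne hp.out inf_le_right hP h5 fun e =>
        h4 ((le_centralizer_iff.mp (e ▸ inf_le_left)).trans (h.cent P hP))⟩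
    have hQ : Q ≠ P := fun e => h4 (e ▸ h6)
    refine Finset.card_eq_one.mpr ⟨Q, ?_⟩
    ext R
    simp only [Finset.mem_bipartiteAbove, mem_meet, Finset.mem_singleton]
    refine ⟨fun ⟨⟨h8, h9⟩, h10⟩ => ?_, ?_⟩
    · have e1 : (R : Subgroup G) ⊓ P = centralizer (Y : Set G) ⊓ P := H7.eq_of_le_of_card_le
        (inf_le_inf_right _ (le_centralizer_of_card (h.card_sylow R) h10))
        (by rw [(mem_lines.mp h9).2, (mem_lines.mp hl).2])
      by_contra hn
      have e2 := h.inf_eq_of_le hn (mem_lines.mpr ⟨h6, hY'⟩) h10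
      have e3 := h.inf_eq_of_le hn (mem_lines.mpr ⟨h7, (mem_lines.mp hl).2⟩) (e1 ▸ inf_le_left)
      exact h4 (e2.symm.trans e3 ▸ inf_le_right)
    · rintro rfl
      exact ⟨⟨hQ, (h.inf_eq_of_le hQ hl h7).symm ▸ hl⟩, h6⟩

end SqH

end Cfsg.Agent.H3.Sq
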