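import Mathlib
import Cfsg.Agent.H3.SqCount

/-!
# Every subgroup of order `p` lies in at most `p + 1` Sylow subgroups
-/

set_option autoImplicit false
set_option linter.unusedSectionVars false

namespace Cfsg.Agent.H3.Sq

open Subgroup MulAction Pointwise

variable {G : Type*} [Group G] [Finite G]

theorem sup_eq_of_ne {p : ℕ} (hp : p.Prime) {X Y P : Subgroup G} (hP : Nat.card P = p ^ 2)
    (hX : X ∈ lines p P) (hY : Y ∈ lines p P) (hne : X ≠ Y) : X ⊔ Y = P := by
  obtain ⟨h1, h2⟩ := mem_lines.mp hX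
  obtain ⟨h3, h4⟩ := mem_lines.mp hY
  obtain ⟨y, hy, hy'⟩ : ∃ y ∈ Y, y ∉ X := by
    by_contra hn
    push Not at hn
    exact hne (H7.eq_of_le_of_card_le hn (by omega)).symm
  exact eq_of_lt_line hp h2 le_sup_left (sup_le h1 h3) hP (mem_sup_right hy) hy'

theorem exists_card_eq {p : ℕ} {P H : Subgroup G} (hP : Nat.card P = p ^ 2) (h : P ≤ H) :
    ∃ e, Nat.card H = p ^ 2 * e := hP ▸ card_dvd_of_le h

theorem exists_conj_of_relIndex {H X : Subgroup G}
    (h : (normalizer (X : Set G)).index ≤ (normalizer (X : Set G)).relIndex H) (g : G) :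
    ∃ c ∈ H, MulAut.conj c • X = MulAut.conj g • X := by
  rw [← stabilizer_sb, index_stabilizer, H7.relIndex_stabilizer] at h
  have h1 : orbit H (show Sb G from X) ⊆ orbit G (show Sb G from X) := by
    rintro _ ⟨c, rfl⟩
    exact ⟨c, rfl⟩
  have : Finite (Sb G) := inferInstanceAs (Finite (Subgroup G))
  obtain ⟨c, hc⟩ : (g • (show Sb G from X)) ∈ orbit H (show Sb G from X) := by
    rw [Set.eq_of_subset_of_ncard_le h1 h]; exact mem_orbit _ g
  exact ⟨c, c.2, hc⟩

namespace SqH

variable {p n : ℕ} [hp : Fact p.Prime] (h : SqH p n G)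
include h

theorem exists_m (P : Sylow p G) :
    ∃ m, Nat.card (normalizer (P : Set G)) = p ^ 2 * m ∧ Nat.card (Sylow p G) * m = n := by
  obtain ⟨m, hm⟩ := exists_card_eq (h.card_sylow P) (le_normalizer (H := (P : Subgroup G)))
  refine ⟨m, hm, ?_⟩
  have h1 := (normalizer (P : Set G)).card_mul_index
  rw [← P.card_eq_index_normalizer, h.card] at h1
  have h2 : Nat.card (normalizer (P : Set G)) = p ^ 2 * m := hm
  rw [h2, mul_assoc] at h1
  rw [mul_comm]
  exact Nat.eq_of_mul_eq_mul_left (pow_pos hp.out.pos 2) h1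

theorem uu_pos {P : Sylow p G} {X : Subgroup G} (hX : X ∈ lines p (P : Subgroup G)) : 0 < uu p X := by
  rw [← h.card_fiber hX]; omega

theorem inf_cent_le {P : Sylow p G} {X Y : Subgroup G} (hX : X ∈ lines p (P : Subgroup G))
    (hY : Y ∈ lines p (P : Subgroup G)) (hne : X ≠ Y) :
    centralizer (X : Set G) ⊓ centralizer (Y : Set G) ≤ P := by
  refine le_trans ?_ (h.cent P (h.card_sylow P))
  rw [le_centralizer_iff, ← sup_eq_of_ne hp.out (h.card_sylow P) hX hY hne]
  exact sup_le (le_centralizer_iff.mp inf_le_left) (le_centralizer_iff.mp inf_le_right)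

variable {P : Sylow p G} {m : ℕ} (hm : Nat.card (normalizer (P : Set G)) = p ^ 2 * m)
  (hn : Nat.card (Sylow p G) * m = n)

include hn in
theorem line_data {X : Subgroup G} (hX : X ∈ lines p (P : Subgroup G)) :
    ∃ r, Nat.card (normalizer (P : Set G) ⊓ normalizer (X : Set G) : Subgroup G) = p ^ 2 * r ∧
      (clP X (P : Subgroup G)).card * r = m ∧ (cls X).card * uu p X * r = n := by
  obtain ⟨h1, h2⟩ := mem_lines.mp hX
  have hP := h.card_sylow P
  obtain ⟨r, hr⟩ := exists_card_eq hP (H := normalizer (P : Set G) ⊓ normalizer (X : Set G))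
    (le_inf le_normalizer ((le_centralizer_of_card hP h1).trans (centralizer_le_normalizer _)))
  have h3 := h.card_eq_uu h1 (centralizer_le_normalizer _) le_rfl
  have h4 := (normalizer (X : Set G)).card_mul_index
  rw [h3, hr, ← card_cls, h.card] at h4
  have h5 : (cls X).card * uu p X * r = n :=
    Nat.eq_of_mul_eq_mul_left (pow_pos hp.out.pos 2) (by rw [← h4]; ring)
  refine ⟨r, hr, ?_, h5⟩
  rw [h.cls_mul_uu X P, ← hn, mul_assoc] at h5
  exact Nat.eq_of_mul_eq_mul_left Nat.card_pos h5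

include hm hn in
theorem typeN_data {X : Subgroup G} (hX : X ∈ lines p (P : Subgroup G)) (hu : uu p X = p + 1)
    (hM : ¬ Mer p X) {c j : ℕ} (hc : 0 < c) (hv : 2 * m * c + 1 = j * p) (hj : 1 ≤ j) (hjp : j < p) :
    j = 1 ∧ 2 * m + 1 = p ∧ normalizer (P : Set G) ≤ centralizer (X : Set G) := by
  obtain ⟨h1, h2⟩ := mem_lines.mp hX
  have hP := h.card_sylow P
  obtain ⟨e, he⟩ := exists_card_eq hP (H := normalizer (P : Set G) ⊓ centralizer (X : Set G))
    (le_inf le_normalizer (le_centralizer_of_card hP h1))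
  have h3 := h.typeN h2 h1 hu hM he
  have h4 : e ∣ m := by
    have := card_dvd_of_le (inf_le_left : normalizer (P : Set G) ⊓ centralizer (X : Set G) ≤ _)
    rw [he, hm] at this
    exact Nat.dvd_of_mul_dvd_mul_left (pow_pos hp.out.pos 2) this
  have h5 : p - 1 ∣ 2 * m := h3.trans (Nat.mul_dvd_mul_left 2 h4)
  have h6 := j_eq_one h.seven hv hj hjp (h5.mul_right c)
  have hm0 : 0 < m := Nat.pos_of_ne_zero (by
    rintro rfl
    exact (Nat.card_pos (α := normalizer (P : Set G))).ne' hm)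
  have he0 : 0 < e := Nat.pos_of_dvd_of_pos h4 hm0
  have h7 := Nat.le_of_dvd (by omega) h3
  have h8 := Nat.le_of_dvd hm0 h4
  have h9 : 2 * m ≤ 2 * m * c := Nat.le_mul_of_pos_right _ hc
  subst h6
  refine ⟨rfl, by omega, inf_eq_left.mp (H7.eq_of_le_of_card_le inf_le_left ?_)⟩
  rw [hm, he]
  exact Nat.mul_le_mul_left _ (by omega)

theorem sum_le {T : Finset (Subgroup G)} (hT : T ⊆ lines p (P : Subgroup G)) :
    ∑ X ∈ T, (uu p X - 1) ≤ (meet P (lines p (P : Subgroup G))).card := by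
  rw [h.card_meet subset_rfl]
  exact Finset.sum_le_sum_of_subset hT

theorem sum_clP (X : Subgroup G) :
    ∑ Y ∈ clP X (P : Subgroup G), (uu p Y - 1) = (clP X (P : Subgroup G)).card * (uu p X - 1) := by
  rw [Finset.sum_congr rfl (fun Y hY => by rw [uu_of_mem_cls p (mem_clP.mp hY).1]),
    Finset.sum_const, smul_eq_mul]

theorem exists_a (P : Sylow p G) : ∃ a, (meet P (lines p (P : Subgroup G))).card = a * p := by
  rw [h.card_meet subset_rfl]
  obtain ⟨a, ha⟩ : p ∣ ∑ X ∈ lines p (P : Subgroup G), (uu p X - 1) :=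
    Finset.dvd_sum fun X hX => by
      obtain ⟨k, hk⟩ := h.uu_form hX
      exact ⟨k, by rw [hk, Nat.add_sub_cancel_left, mul_comm]⟩
  exact ⟨a, by rw [ha, mul_comm]⟩

theorem not_mer_of_le (h2 : ∀ H : Subgroup G, H.index ≠ 2) {X Y : Subgroup G}
    (hX : X ∈ lines p (P : Subgroup G)) (hY : Y ∈ lines p (P : Subgroup G)) (hne : X ≠ Y)
    (hle : X ≤ (centralizer (Y : Set G)).normalCore) : ¬ Mer p Y := by
  rintro ⟨W, hW, hc, h3, h4⟩
  set T := (centralizer (Y : Set G)).normalCore
  have hP := h.card_sylow P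
  have hT : T ≤ normalizer (W : Set G) := (normalCore_le _).trans h4
  have hPW : (P : Subgroup G) ≤ normalizer (W : Set G) :=
    (le_centralizer_of_card hP (mem_lines.mp hY).1).trans h4
  have hcp : ∀ K : Subgroup G, IsPGroup 2 K → (Nat.card K).Coprime p := fun K hK => by
    obtain ⟨i, hi⟩ := hK.exists_card_eq
    rw [hi]
    exact Nat.Coprime.pow_left _ ((Nat.coprime_primes Nat.prime_two hp.out).mpr
      (by have := h.seven; omega))
  have h5 : W ⊓ T ≠ ⊥ := fun e => hW (by
    have h6 : W ≤ centralizer (X : Set G) := fun w hw x hx => by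
      have : x * w * x⁻¹ * w⁻¹ ∈ W ⊓ T := by
        refine mem_inf.mpr ⟨mul_mem (conj_mem_of_norm (hT (hle hx)) hw) (inv_mem hw), ?_⟩
        have hxT : x ∈ T := hle hx
        have := mul_mem hxT (Normal.conj_mem inferInstance _ (inv_mem hxT) w)
        simpa [mul_assoc] using this
      rw [e, mem_bot, mul_inv_eq_one, mul_inv_eq_iff_eq_mul] at this
      exact this
    have h7 : W ≤ P := (le_inf h6 h3).trans (h.inf_cent_le hX hY hne)
    have h8 := card_dvd_of_le h7
    rw [hP] at h8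
    exact card_eq_one.mp (Nat.Coprime.eq_one_of_dvd (hc.pow_right 2) h8))
  have h6 := h.lemM hc hP hPW hW
  have h7 := h.lemM (W := W ⊓ T) (Nat.Coprime.coprime_dvd_left (card_dvd_of_le inf_le_left) hc) hP
    (fun g hg => mem_normalizer_fintype fun w hw =>
      ⟨conj_mem_of_norm (hPW hg) hw.1, Normal.conj_mem inferInstance _ hw.2 g⟩) h5
  have h8 : W ≤ T := inf_eq_left.mp (H7.eq_of_le_of_card_le inf_le_left (by omega))
  have h9 := ((H7.NormalIn.subnormalIn ⟨h8, hT⟩).trans
    (H7.NormalIn.of_normal T).subnormalIn).le_pCoreIn h6.2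
  rw [H7.pCoreIn_top, h.normal_eq_bot h2 _ (hcp _ (H7.pCore_isPGroup 2 G)), le_bot_iff] at h9
  exact hW h9

theorem claimA (h2 : ∀ H : Subgroup G, H.index ≠ 2) {X : Subgroup G}
    (hX : X ∈ lines p (P : Subgroup G)) : uu p X = 1 ∨ uu p X = p + 1 := by
  classical
  obtain ⟨k, hk⟩ := h.uu_form hX
  by_contra hcon
  have hk2 : 2 ≤ k := by
    rcases k with _ | _ | k
    · exact absurd (Or.inl (by omega)) hcon
    · exact absurd (Or.inr (by omega)) hcon
    · omega
  have h7 := h.seven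
  have hP := h.card_sylow P
  obtain ⟨m, hm, hn⟩ := h.exists_m P
  obtain ⟨c, hc, hpc⟩ := h.exists_eq
  obtain ⟨b, hb, hN⟩ := h.sylow_count P
  obtain ⟨a, ha⟩ := h.exists_a P
  set N := Nat.card (Sylow p G) with hNdef
  have hNv : N * (2 * m * c) + 1 = p ^ 4 := by rw [← hpc, ← hn]; ring
  obtain ⟨j, hv, hj, hjp, hj', s, hs⟩ := jform (p := p) (a := a) (v := 2 * m * c) (by omega) hb
    (by rw [← ha, ← hN]; exact hNv)
  obtain ⟨r, hr, hwr, hyr⟩ := h.line_data hn hX
  have hXp := (mem_lines.mp hX).2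
  have hw1 : X ∈ clP X (P : Subgroup G) := mem_clP.mpr ⟨self_mem_cls X, (mem_lines.mp hX).1⟩
  have hw : 1 ≤ (clP X (P : Subgroup G)).card := Finset.card_pos.mpr ⟨X, hw1⟩
  have hwk := h.sum_le (P := P) (clP_subset hXp)
  rw [h.sum_clP, ha, hk, Nat.add_sub_cancel_left, ← mul_assoc] at hwk
  have hwk' := Nat.le_of_mul_le_mul_right hwk hp.out.pos
  obtain ⟨b', hb'⟩ := h.cls_count hXp P
  have hs1 := h.s1_count hXp P
  have hy := h.cls_mul_uu X P
  set w := (clP X (P : Subgroup G)).card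
  set y := (cls X).card
  obtain ⟨d, rfl⟩ : ∃ d, a = k + d := ⟨a - k, by
    have : k ≤ w * k := Nat.le_mul_of_pos_left _ hw
    omega⟩
  have hs' : k + d = j + s * p := by omega
  have hjp' : j < p := by omega
  rw [ha, hk, Nat.add_sub_cancel_left] at hs1
  have hs2 : (s1 X (P : Subgroup G)).card = w * (d * p) := by
    rw [add_mul, mul_add] at hs1; omega
  rw [hk] at hy hyr
  rcases Nat.eq_zero_or_pos b' with rfl | hb0
  swap
  · have hr0 : 0 < r := Nat.pos_of_ne_zero (by
      rintro rfl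
      exact (Nat.card_pos (α := (normalizer (P : Set G) ⊓ normalizer (X : Set G) : Subgroup G))).ne' hr)
    refine caseII h7 hk2 hNv hv hj hs' hy ?_ ?_ hw (by omega) hwk'
    · have e1 : y * (1 + k * p) ≤ n := hyr ▸ Nat.le_mul_of_pos_right _ hr0
      have e2 : 2 * n ≤ 2 * n * c := Nat.le_mul_of_pos_right _ hc
      omega
    · have : p ^ 2 ≤ b' * p ^ 2 := Nat.le_mul_of_pos_left _ hb0
      omega
  have hN2 : N = (1 + k * p) * (1 + d * p) := by
    refine Nat.eq_of_mul_eq_mul_right hw ?_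
    rw [← hy, hb', hs2]; ring
  have hd : d = 1 := by
    rcases d with _ | _ | d
    · exfalso
      have : p ^ 2 ≤ b * p ^ 2 := Nat.le_mul_of_pos_left _ hb
      have : 0 < p ^ 2 := pow_pos hp.out.pos 2
      rw [ha] at hN
      simp only [add_zero, zero_mul, mul_one] at hN hN2
      omega
    · rfl
    · exact (caseI h7 hk2 (by omega) (hN2 ▸ hNv) hv hj hs').elim
  subst hd
  have hsum : ∑ Y ∈ (lines p (P : Subgroup G)).erase X, (uu p Y - 1) = p := by
    have := Finset.add_sum_erase _ (fun Y => uu p Y - 1) hX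
    rw [← h.card_meet subset_rfl, ha, hk, Nat.add_sub_cancel_left, add_mul] at this
    omega
  obtain ⟨Y, hY, hY0⟩ := Finset.exists_ne_zero_of_sum_ne_zero (hsum.trans_ne hp.out.ne_zero)
  obtain ⟨hYX, hY⟩ := Finset.mem_erase.mp hY
  have hYp := (mem_lines.mp hY).2
  have hY1 : Y ∈ clP Y (P : Subgroup G) := mem_clP.mpr ⟨self_mem_cls Y, (mem_lines.mp hY).1⟩
  have hsub : uu p Y - 1 ≤ p := (Finset.single_le_sum (f := fun Y => uu p Y - 1)
    (fun _ _ => Nat.zero_le _) (Finset.mem_erase.mpr ⟨hYX, hY⟩)).trans hsum.le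
  have huY : uu p Y = p + 1 := by
    obtain ⟨k', hk'⟩ := h.uu_form hY
    rcases k' with _ | _ | k'
    · omega
    · omega
    · rw [hk', add_mul, add_mul] at hsub; omega
  have hkp : 2 * p ≤ k * p := Nat.mul_le_mul_right p hk2
  have hw2 : (clP Y (P : Subgroup G)).card = 1 := by
    have h1 : clP Y (P : Subgroup G) ⊆ (lines p (P : Subgroup G)).erase X := fun Z hZ =>
      Finset.mem_erase.mpr ⟨fun e => by
        have := uu_of_mem_cls p (mem_clP.mp hZ).1
        rw [e] at this
        omega, clP_subset hYp hZ⟩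
    have h3 := Finset.sum_le_sum_of_subset (f := fun Y => uu p Y - 1) h1
    rw [hsum, h.sum_clP, huY, Nat.add_sub_cancel] at h3
    have h4 : 1 ≤ (clP Y (P : Subgroup G)).card := Finset.card_pos.mpr ⟨Y, hY1⟩
    have h5 : (clP Y (P : Subgroup G)).card ≤ 1 :=
      Nat.le_of_mul_le_mul_right (by omega) hp.out.pos
    omega
  by_cases hM : Mer p Y
  swap
  · obtain ⟨-, -, h3⟩ := h.typeN_data hm hn hY huY hM hc hv hj hjp'
    have := (h.burnside (mem_lines.mp hX).1 (by omega)
      ((le_inf inf_le_right (inf_le_left.trans h3)).trans (h.inf_cent_le hX hY hYX.symm))).2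
    omega
  refine h.not_mer_of_le h2 hX hY hYX.symm ?_ hM
  have hy2 := h.cls_mul_uu Y P
  rw [hw2, huY, mul_one, ← hNdef, hN2, one_mul, add_comm 1 p] at hy2
  have hy3 := Nat.eq_of_mul_eq_mul_right (by omega) hy2
  have hYX' : Y ≤ centralizer (X : Set G) :=
    (mem_lines.mp hY).1.trans (le_centralizer_of_card hP (mem_lines.mp hX).1)
  have hidx : (normalizer (Y : Set G)).index ≤
      (normalizer (Y : Set G)).relIndex (centralizer (X : Set G)) := by
    rw [← card_cls, hy3, ← hk, h.uu_eq (mem_lines.mp hX).1 le_rfl (centralizer_le_normalizer _),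
      ← inf_relIndex_right (normalizer (Y : Set G))]
    refine Nat.le_of_dvd (Nat.pos_of_ne_zero index_ne_zero_of_finite) (relIndex_dvd_of_le_left _ ?_)
    intro g hg
    have e := sup_eq_of_ne hp.out hP hX hY hYX.symm
    change g ∈ normalizer ((P : Subgroup G) : Set G)
    rw [← H7.conj_smul_eq_iff_mem_normalizer, ← e, smul_sup,
      H7.conj_smul_eq_iff_mem_normalizer.mpr hg.1,
      H7.conj_smul_eq_iff_mem_normalizer.mpr (centralizer_le_normalizer _ hg.2)]
  intro x hx g
  obtain ⟨c, hc, e⟩ := exists_conj_of_relIndex hidx g⁻¹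
  have h3 : MulAut.conj g⁻¹ • Y ≤ centralizer (X : Set G) := by
    rw [← e, ← H7.conj_smul_of_mem hc]
    exact (conj_le_conj c).mpr hYX'
  have h4 := le_centralizer_iff.mp h3 hx
  rw [centralizer_conj, H7.mem_conj_smul, inv_inv] at h4
  exact h4

end SqH

end Cfsg.Agent.H3.Sq
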