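import Mathlib
import Cfsg.Agent.H3.SqA

/-!
# The Sylow subgroups intersect trivially
-/

set_option autoImplicit false
set_option linter.unusedSectionVars false

namespace Cfsg.Agent.H3.Sq

open Subgroup MulAction Pointwise

variable {G : Type*} [Group G] [Finite G]

namespace SqH

variable {p n : ℕ} [hp : Fact p.Prime] (h : SqH p n G)
include h

theorem tt_line {P : Sylow p G} {X : Subgroup G} (hX : X ∈ lines p (P : Subgroup G))
    (hy : (cls X).card = p ^ 2 + 1) (hw : (clP X (P : Subgroup G)).card = 1)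
    (hs : (s1 X (P : Subgroup G)).card = 0) :
    TT p (P : Subgroup G) (⟨X, mem_orbit_self _⟩ : orbit G (show Sb G from X)) := by
  obtain ⟨h1, h2⟩ := mem_lines.mp hX
  have hP := h.card_sylow P
  refine ⟨inferInstance, ?_, hP, fun x hx => Subtype.ext ?_, fun x hx b hb e => ?_⟩
  · rw [Nat.card_coe_set_eq, ← index_stabilizer, stabilizer_sb, ← card_cls, hy]
  · exact H7.conj_smul_eq_iff_mem_normalizer.mpr
      (centralizer_le_normalizer _ (le_centralizer_of_card hP h1 hx))
  · by_contra hx1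
    have h3 : (show Subgroup G from b.1) ∈ cls X := mem_cls.mpr b.2
    have h4 : x ∈ normalizer ((show Subgroup G from b.1) : Set G) ⊓ P :=
      ⟨H7.conj_smul_eq_iff_mem_normalizer.mp (congrArg Subtype.val e), hx⟩
    rw [h.norm_inf ((card_of_mem_cls h3).trans h2)] at h4
    have h5 : (show Subgroup G from b.1) ∈ s1 X (P : Subgroup G) :=
      mem_s1.mpr ⟨h3, fun hle => hb (Subtype.ext (Finset.card_le_one.mp hw.le _
        (mem_clP.mpr ⟨h3, hle⟩) _ (mem_clP.mpr ⟨self_mem_cls X, h1⟩))),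
        fun e' => hx1 (mem_bot.mp (e' ▸ h4))⟩
    rw [Finset.card_eq_zero.mp hs] at h5
    exact Finset.notMem_empty _ h5

theorem claimB (h2 : ∀ H : Subgroup G, H.index ≠ 2) (P : Sylow p G) :
    (meet P (lines p (P : Subgroup G))).card = 0 := by
  classical
  have h7 := h.seven
  have hP := h.card_sylow P
  obtain ⟨m, hm, hn⟩ := h.exists_m P
  obtain ⟨c, hc, hpc⟩ := h.exists_eq
  obtain ⟨b, hb, hN⟩ := h.sylow_count P
  set L := (lines p (P : Subgroup G)).filter (fun X => uu p X = p + 1) with hL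
  have ha : (meet P (lines p (P : Subgroup G))).card = L.card * p := by
    rw [h.card_meet subset_rfl, ← smul_eq_mul, ← Finset.sum_const, Finset.sum_filter]
    refine Finset.sum_congr rfl fun X hX => ?_
    split_ifs with e
    · omega
    · have := h.claimA h2 hX
      omega
  have hL1 : L.card ≤ p + 1 := (Finset.card_filter_le _ _).trans (card_lines hp.out hP)
  set N := Nat.card (Sylow p G) with hNdef
  have hNv : N * (2 * m * c) + 1 = p ^ 4 := by rw [← hpc, ← hn]; ring
  obtain ⟨j, hv, hj, hjp, hj', s, hs⟩ := jform (p := p) (a := L.card) (v := 2 * m * c) (by omega) hb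
    (by rw [← ha, ← hN]; exact hNv)
  by_contra hA
  have hL0 : L.card ≠ 0 := fun e => hA (by rw [ha, e, zero_mul])
  have hjp' : j < p := by omega
  have hs' : L.card = j ∨ (L.card = p + 1 ∧ j = 1) := by
    rcases s with _ | _ | s
    · omega
    · omega
    · rw [add_mul, add_mul] at hs; omega
  have hsub : ∀ X ∈ L, clP X (P : Subgroup G) ⊆ L := fun X hX Y hY => by
    obtain ⟨h3, h4⟩ := Finset.mem_filter.mp hX
    exact Finset.mem_filter.mpr ⟨clP_subset (mem_lines.mp h3).2 hY,
      (uu_of_mem_cls p (mem_clP.mp hY).1).trans h4⟩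
  have hconj : ∀ X ∈ L, ∀ Y ∈ L, Mer p X → Mer p Y → Y ∈ clP X (P : Subgroup G) :=
    fun X hX Y hY h3 h4 => by
      obtain ⟨h5, h6⟩ := mem_lines.mp (Finset.mem_filter.mp hX).1
      obtain ⟨h8, h9⟩ := mem_lines.mp (Finset.mem_filter.mp hY).1
      exact mem_clP.mpr ⟨mem_cls.mpr (h.conj_mer hP h6 h9 h5 h8 h3 h4), h8⟩
  have hm0 : 0 < m := Nat.pos_of_ne_zero (by
    rintro rfl
    exact (Nat.card_pos (α := normalizer (P : Set G))).ne' hm)
  have key : L.card = 1 ∧ j = 1 := by
    by_cases hM : ∀ X ∈ L, Mer p X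
    · obtain ⟨X, hX⟩ := Finset.card_pos.mp (Nat.pos_of_ne_zero hL0)
      have h3 : clP X (P : Subgroup G) = L :=
        (hsub X hX).antisymm fun Y hY => hconj X hX Y hY (hM X hX) (hM Y hY)
      obtain ⟨r, -, hr, -⟩ := h.line_data hn (Finset.mem_filter.mp hX).1
      rw [h3] at hr
      have h4 : L.card ∣ 2 * m * c := ((Dvd.intro _ hr).mul_left 2).mul_right c
      rcases hs' with e | ⟨e, rfl⟩
      · have h5 : j ∣ 1 := (Nat.dvd_add_right (e ▸ h4)).mp (hv ▸ Dvd.intro _ rfl)
        have := Nat.dvd_one.mp h5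
        omega
      · have := Nat.le_of_dvd (by positivity) h4
        omega
    · push Not at hM
      obtain ⟨X, hX, hM⟩ := hM
      obtain ⟨hX1, hX2⟩ := Finset.mem_filter.mp hX
      obtain ⟨rfl, h3, h4⟩ := h.typeN_data hm hn hX1 hX2 hM hc hv hj hjp'
      refine ⟨?_, rfl⟩
      by_contra hne
      have h5 : (L.erase X).card = p := by rw [Finset.card_erase_of_mem hX]; omega
      have h6 : ∀ Y ∈ L.erase X, Mer p Y := fun Y hY => by
        obtain ⟨h8, h9⟩ := Finset.mem_erase.mp hY
        obtain ⟨h10, h11⟩ := Finset.mem_filter.mp h9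
        exact (h.burnside (mem_lines.mp h10).1 (by omega)
          ((le_inf (inf_le_left.trans h4) inf_le_right).trans (h.inf_cent_le hX1 h10 h8.symm))).1
      obtain ⟨Y, hY⟩ := Finset.card_pos.mp (by omega : 0 < (L.erase X).card)
      have hY' := Finset.mem_of_mem_erase hY
      have h8 := Finset.card_le_card (s := L.erase X) (t := clP Y (P : Subgroup G))
        fun Z hZ => hconj Y hY' Z (Finset.mem_of_mem_erase hZ) (h6 Y hY) (h6 Z hZ)
      obtain ⟨r, -, hr, -⟩ := h.line_data hn (Finset.mem_filter.mp hY').1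
      have := Nat.le_of_dvd hm0 (Dvd.intro _ hr)
      omega
  obtain ⟨hL2, rfl⟩ := key
  obtain ⟨X, hX⟩ := Finset.card_pos.mp (Nat.pos_of_ne_zero hL0)
  obtain ⟨hX1, hX2⟩ := Finset.mem_filter.mp hX
  obtain ⟨hXP, hXp⟩ := mem_lines.mp hX1
  have hw : (clP X (P : Subgroup G)).card = 1 := le_antisymm
    (hL2 ▸ Finset.card_le_card (hsub X hX))
    (Finset.card_pos.mpr ⟨X, mem_clP.mpr ⟨self_mem_cls X, hXP⟩⟩)
  have hs1 := h.s1_count hXp P
  rw [hw, ha, hL2, hX2] at hs1
  have hN2 : N = (p ^ 2 + 1) * (p + 1) := by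
    refine Nat.eq_of_mul_eq_mul_right (show 0 < p - 1 by omega) ?_
    have e1 := pow_four_sub (p := p) (by omega)
    have e2 : 2 * m * c = p - 1 := by omega
    rw [e2] at hNv
    have e3 : N * (p - 1) = p ^ 4 - 1 := by omega
    rw [e3, e1]; ring
  have hy := h.cls_mul_uu X P
  rw [hw, hX2, mul_one, ← hNdef, hN2] at hy
  have T := h.tt_line hX1 (Nat.eq_of_mul_eq_mul_right (by omega) hy) hw (by omega)
  have hst : stabilizer G (⟨X, mem_orbit_self _⟩ : orbit G (show Sb G from X)) =
      normalizer (X : Set G) := by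
    rw [← stabilizer_sb]
    ext g
    exact Subtype.ext_iff
  by_cases hM : Mer p X
  · obtain ⟨W, hW, hc, h3, h4⟩ := hM
    have hPW : (P : Subgroup G) ≤ normalizer (W : Set G) := (le_centralizer_of_card hP hXP).trans h4
    refine hW (eq_bot_iff.mpr fun g hg => T.faithful h h2 (T.fix_all Nat.prime_two (by omega)
      (h.lemM hc hP hPW hW).2 (fun g hg => ?_) hPW hg))
    rw [← mem_stabilizer_iff, hst]
    exact centralizer_le_normalizer _ (h3 hg)
  · obtain ⟨-, -, h4⟩ := h.typeN_data hm hn hX1 hX2 hM hc hv hj hjp'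
    have h5 : centralizer (X : Set G) = normalizer (X : Set G) :=
      H7.eq_of_le_of_card_le (centralizer_le_normalizer _) (by
        rw [h.card_eq_uu hXP (centralizer_le_normalizer _) le_rfl,
          h.card_eq_uu hXP le_rfl (centralizer_le_normalizer _), inf_eq_left.mpr h4,
          inf_eq_left.mpr (h4.trans (centralizer_le_normalizer _))])
    obtain ⟨b, hb⟩ := T.exists_ne
    have h6 := T.index_stab hb.symm
    rw [show stabilizer G _ ⊓ stabilizer G b = ⊥ from eq_bot_iff.mpr fun g hg => T.faithful h h2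
      (T.fix_all_of_cent hXp hXP (by rw [hst, h5]) hb hg.1 hg.2), index_bot, h.card, ← hn, hN2,
      mul_comm] at h6
    have h8 := Nat.eq_of_mul_eq_mul_right (pow_pos hp.out.pos 2) h6
    rw [mul_assoc] at h8
    have h9 := Nat.eq_of_mul_eq_mul_left (by positivity) (h8.trans (mul_one _).symm)
    have := Nat.le_of_dvd one_pos (Dvd.intro _ h9)
    omega

theorem tt_sylow (h2 : ∀ H : Subgroup G, H.index ≠ 2) (P : Sylow p G) : TT p (P : Subgroup G) P := by
  have hA := h.claimB h2 P
  refine ⟨inferInstance, ?_, h.card_sylow P, fun x hx => sylow_smul_self hx, fun x hx Q hQ e => ?_⟩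
  · obtain ⟨m, hm, hn⟩ := h.exists_m P
    obtain ⟨c, hc, hpc⟩ := h.exists_eq
    obtain ⟨b, hb, hN⟩ := h.sylow_count P
    have h7 := h.seven
    rw [hA] at hN
    obtain ⟨j, hv, hj, hjp, hj', s, hs⟩ := jform (p := p) (a := 0) (v := 2 * m * c) (by omega) hb
      (by rw [zero_mul, ← hN, ← hpc, ← hn]; ring)
    obtain ⟨-, rfl⟩ := hj' (by omega)
    omega
  · have h3 : x ∈ stabilizer G Q ⊓ P := ⟨e, hx⟩
    rw [h.stab_inf] at h3
    by_contra hx1
    have h4 : Q ∈ meet P (lines p (P : Subgroup G)) :=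
      mem_meet.mpr ⟨hQ, h.inf_mem_lines hQ fun e' => hx1 (mem_bot.mp (e' ▸ h3))⟩
    rw [Finset.card_eq_zero.mp hA] at h4
    exact Finset.notMem_empty _ h4

end SqH

end Cfsg.Agent.H3.Sq
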