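import Mathlib
import Cfsg.Agent.H3.SqB

/-!
# Doubly transitive groups of degree `p² + 1`: involutions with two fixed points
-/

set_option autoImplicit false
set_option linter.unusedSectionVars false

namespace Cfsg.Agent.H3.Sq

open Subgroup MulAction Pointwise

variable {G : Type*} [Group G] {Ω : Type*} [MulAction G Ω]

theorem two_of_stab (h3 : ∀ a b : Ω, ∃ c, c ≠ a ∧ c ≠ b)
    (h : ∀ c a b : Ω, a ≠ c → b ≠ c → ∃ g : G, g • c = c ∧ g • a = b) {a b c d : Ω} (hab : a ≠ b)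
    (hcd : c ≠ d) : ∃ g : G, g • a = c ∧ g • b = d := by
  obtain ⟨e, h1, h2⟩ := h3 a c
  obtain ⟨g, -, hg⟩ := h e a c h1.symm h2.symm
  obtain ⟨k, h4, h5⟩ := h c (g • b) d (fun e' => hab (smul_left_cancel g (hg.trans e'.symm))) hcd.symm
  exact ⟨k * g, by rw [mul_smul, hg, h4], by rw [mul_smul, h5]⟩

theorem smul_mem_fixedBy {g c : G} (hc : c ∈ centralizer ({g} : Set G)) {a : Ω} (ha : g • a = a) :
    g • c • a = c • a := by
  rw [← mul_smul, ← mem_centralizer_singleton_iff.mp hc, mul_smul, ha]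

instance instFixAction (g : G) : MulAction (centralizer ({g} : Set G)) (fixedBy Ω g) where
  smul c a := ⟨(c : G) • a.1, smul_mem_fixedBy c.2 a.2⟩
  one_smul a := Subtype.ext (one_smul G a.1)
  mul_smul c d a := Subtype.ext (mul_smul (c : G) (d : G) a.1)

theorem fix_smul_val {g : G} (c : centralizer ({g} : Set G)) (a : fixedBy Ω g) :
    (c • a).1 = (c : G) • a.1 := rfl

/-- The elements of an abelian subgroup inverted by `t`. -/
def invSub {P : Subgroup G} (hc : ∀ x ∈ P, ∀ y ∈ P, x * y = y * x) (t : G) : Subgroup G where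
  carrier := {y | y ∈ P ∧ t * y * t⁻¹ = y⁻¹}
  one_mem' := ⟨one_mem _, by simp⟩
  mul_mem' {x y} hx hy := ⟨mul_mem hx.1 hy.1, by
    rw [hc x hx.1 y hy.1, mul_inv_rev, ← hx.2, ← hy.2, ← hc x hx.1 y hy.1]; group⟩
  inv_mem' {x} hx := ⟨inv_mem hx.1, by
    rw [show t * x⁻¹ * t⁻¹ = (t * x * t⁻¹)⁻¹ by group, hx.2]⟩

theorem isPGroup_zpowers_of_pow {r : ℕ} (hr : r.Prime) {g : G} (hg : g ^ r = 1) :
    IsPGroup r (zpowers g) := by
  rintro ⟨_, n, rfl⟩
  exact ⟨1, Subtype.ext (by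
    change (g ^ n) ^ r ^ 1 = 1
    rw [pow_one, ← zpow_natCast, ← zpow_mul, mul_comm, zpow_mul, zpow_natCast, hg, one_zpow])⟩

/-- The hypothesis on the action. -/
structure TI (p : ℕ) (S : Ω → Subgroup G) : Prop where
  tt : ∀ a, TT p (S a) a
  norm : ∀ a g, g • a = a → g ∈ normalizer (S a : Set G)
  cent : ∀ a, centralizer (S a : Set G) ≤ S a
  noidx : ∀ H : Subgroup G, H.index ≠ 2
  seven : 7 ≤ p

namespace TI

variable [Finite G] {p : ℕ} [hp : Fact p.Prime] {S : Ω → Subgroup G} (T : TI p S)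
include T

theorem comm {a : Ω} : ∀ x ∈ S a, ∀ y ∈ S a, x * y = y * x := fun _ hx _ hy =>
  comm_of_card (T.tt a).cardP hx hy

theorem conj_mem {a : Ω} {g x : G} (hg : g • a = a) (hx : x ∈ S a) : g * x * g⁻¹ ∈ S a :=
  conj_mem_of_norm (T.norm a g hg) hx

theorem eq_one_of_sq {a : Ω} {x : G} (hx : x ∈ S a) (h : x * x = 1) : x = 1 := by
  have h1 := orderOf_dvd_natCard (⟨x, hx⟩ : S a)
  rw [(T.tt a).cardP, ← orderOf_coe] at h1
  have h2 : orderOf x ∣ 2 := orderOf_dvd_of_pow_eq_one (by rw [sq, h])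
  exact orderOf_eq_one_iff.mp (Nat.eq_one_of_dvd_coprimes (Nat.Coprime.pow_right 2
    ((Nat.coprime_primes Nat.prime_two hp.out).mpr (by have := T.seven; omega))) h2 h1)

theorem comm_of_fix {a b : Ω} (hb : b ≠ a) {g x : G} (ha : g • a = a) (hg : g • b = b) (hx : x ∈ S a)
    (h : g • x • b = x • b) : x ∈ centralizer ({g} : Set G) := by
  have := (T.tt a).free _ (mul_mem (inv_mem hx) (T.conj_mem ha hx)) b hb (by
    rw [mul_smul, mul_smul, mul_smul, inv_smul_eq_iff.mpr hg.symm, h, inv_smul_smul])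
  rw [mem_centralizer_singleton_iff]
  rw [inv_mul_eq_one, eq_mul_inv_iff_mul_eq] at this
  exact this

theorem fix_trans {a b c : Ω} (hb : b ≠ a) (hc : c ≠ a) {g : G} (ha : g • a = a) (hg : g • b = b)
    (h : g • c = c) : ∃ x ∈ centralizer ({g} : Set G) ⊓ S a, x • b = c := by
  obtain ⟨x, hx, rfl⟩ := (T.tt a).trans hb hc
  exact ⟨x, ⟨T.comm_of_fix hb ha hg hx h, hx⟩, rfl⟩

theorem eq_one_of_cent {a b : Ω} (hb : b ≠ a) {g : G} (hg : g • b = b)
    (h : S a ≤ centralizer ({g} : Set G)) : g = 1 :=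
  (T.tt a).free g (T.cent a fun x hx => mem_centralizer_singleton_iff.mp (h hx)) b hb hg

theorem faithful (a : Ω) {g : G} (hg : ∀ b : Ω, g • b = b) : g = 1 := by
  obtain ⟨b, hb⟩ := (T.tt a).exists_ne
  exact T.eq_one_of_cent hb (hg b) fun x hx => T.comm_of_fix hb (hg a) (hg b) hx (hg _)

theorem card_fix {a b : Ω} (hb : b ≠ a) {g : G} (ha : g • a = a) (hg : g • b = b) :
    (fixedBy Ω g).ncard = Nat.card (centralizer ({g} : Set G) ⊓ S a : Subgroup G) + 1 := by
  have := (T.tt a).finite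
  set X := centralizer ({g} : Set G) ⊓ S a
  have h1 : stabilizer G b ⊓ X = ⊥ := eq_bot_iff.mpr fun x hx => (T.tt a).free x hx.2.2 b hb hx.1
  have h2 := H7.relIndex_stabilizer X b
  rw [← inf_relIndex_right, h1, relIndex_bot_left] at h2
  have h3 : fixedBy Ω g = insert a (orbit X b) := by
    ext c
    refine ⟨fun hc => ?_, ?_⟩
    · by_cases e : c = a
      · exact Or.inl e
      · obtain ⟨x, hx, e'⟩ := T.fix_trans hb e ha hg hc
        exact Or.inr ⟨⟨x, hx⟩, e'⟩
    · rintro (rfl | ⟨x, rfl⟩)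
      · exact ha
      · exact smul_mem_fixedBy x.2.1 hg
  rw [h3, Set.ncard_insert_of_notMem, h2]
  rintro ⟨x, hx⟩
  exact (T.tt a).smul_ne ((T.tt a).fix x x.2.2) hb hx

theorem card_cent {a b : Ω} (hb : b ≠ a) {g : G} (hg : g • b = b) (h1 : g ≠ 1)
    (h2 : centralizer ({g} : Set G) ⊓ S a ≠ ⊥) :
    Nat.card (centralizer ({g} : Set G) ⊓ S a : Subgroup G) = p :=
  card_eq_of_ne hp.out inf_le_right (T.tt a).cardP h2
    fun e => h1 (T.eq_one_of_cent hb hg (e ▸ inf_le_left))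

theorem exists_fix {r : ℕ} (hr : r.Prime) (hrp : r ≠ p) {g : G} (hg : g ^ r = 1) {a : Ω}
    (ha : g • a = a) : ∃ b, b ≠ a ∧ g • b = b := by
  obtain ⟨b, h1, h2⟩ := (T.tt a).exists_fix hr hrp (isPGroup_zpowers_of_pow hr hg)
    (fun x hx => (zpowers_le_of_mem (H := stabilizer G a) ha) hx)
  exact ⟨b, h1, h2 g (mem_zpowers g)⟩

theorem even_of_inv (a : Ω) {t : G} (ht : t * t = 1) {k : ℕ}
    (hk : p ^ 2 + 1 = (fixedBy Ω t).ncard + 2 * k) : Even k := by
  classical
  have := (T.tt a).finite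
  have := Fintype.ofFinite Ω
  by_contra ho
  obtain ⟨H, hH⟩ := exists_index_two_of_sign (toPermHom G Ω) (g := t) (sign_of_fix
    (by rw [← map_pow, sq, ht, map_one]) (Nat.not_even_iff_odd.mp ho) (by
      rw [(T.tt a).card, hk, ← Nat.card_coe_set_eq]; rfl))
  exact T.noidx H hH

theorem inv_fix (a : Ω) {t : G} (ht : t * t = 1) : ∃ b c : Ω, c ≠ b ∧ t • b = b ∧ t • c = c := by
  obtain ⟨b, hb⟩ : (fixedBy Ω t).Nonempty := by
    by_contra hn
    obtain ⟨s, hs⟩ := odd_of_seven hp.out T.seven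
    have := T.even_of_inv a ht (k := 2 * (s * s + s) + 1) (by
      rw [Set.not_nonempty_iff_eq_empty.mp hn, Set.ncard_empty, hs]; ring)
    exact Nat.not_even_iff_odd.mpr (odd_two_mul_add_one _) this
  obtain ⟨c, h1, h2⟩ := T.exists_fix Nat.prime_two (by have := T.seven; omega) (by rw [sq, ht]) hb
  exact ⟨b, c, h1, hb, h2⟩

theorem inverts {a : Ω} {t x : G} (ht : t * t = 1) (ha : t • a = a) (hx : x ∈ S a)
    (h : x * (t * x * t⁻¹) ∈ centralizer ({t} : Set G) → x * (t * x * t⁻¹) = 1) :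
    t * x * t⁻¹ = x⁻¹ := by
  refine (inv_eq_of_mul_eq_one_right (h ?_)).symm
  have h1 := T.comm x hx _ (T.conj_mem ha hx)
  have e : t⁻¹ = t := inv_eq_of_mul_eq_one_right ht
  rw [mem_centralizer_singleton_iff]
  rw [e] at h1 ⊢
  calc x * (t * x * t) * t = x * t * x * (t * t) := by group
    _ = (t * t) * x * t * x := by rw [ht]; group
    _ = t * (t * x * t * x) := by group
    _ = _ := by rw [h1]

theorem card_stab {n : ℕ} (hG : Nat.card G = p ^ 2 * n) {a b : Ω} (hab : a ≠ b) :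
    Nat.card (stabilizer G a ⊓ stabilizer G b : Subgroup G) * (p ^ 2 + 1) = n := by
  have h1 := (stabilizer G a ⊓ stabilizer G b : Subgroup G).card_mul_index
  rw [(T.tt a).index_stab hab, hG, ← mul_assoc, mul_comm] at h1
  exact Nat.eq_of_mul_eq_mul_left (pow_pos hp.out.pos 2) h1

theorem exists_good {t : G} {e : Ω} (ht : t * t = 1) (he : t • e = e)
    (h : centralizer ({t} : Set G) ⊓ S e = ⊥) {a b c : Ω} (ha : a ≠ c) (hb : b ≠ c) :
    ∃ u : G, u • c = c ∧ u • a = b ∧ u * u = 1 ∧ (fixedBy Ω u).ncard = 2 := by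
  have h7 := T.seven
  have := (T.tt e).pre
  obtain ⟨f, hf, hf'⟩ := T.exists_fix Nat.prime_two (by omega) (by rw [sq, ht]) he
  have h1 := T.card_fix hf he hf'
  rw [h, card_bot] at h1
  obtain ⟨g, rfl⟩ := exists_smul_eq G e c
  set t' := g * t * g⁻¹
  have h2 : t' * t' = 1 := by
    rw [show t' * t' = g * (t * t) * g⁻¹ by simp only [t']; group, ht]; group
  have h3 : t' • g • e = g • e := by rw [mul_smul, mul_smul, inv_smul_smul, he]
  have h4 : t' • g • f = g • f := by rw [mul_smul, mul_smul, inv_smul_smul, hf']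
  have h5 := T.card_fix (fun e' => hf (smul_left_cancel g e')) h3 h4
  rw [← smul_fixedBy, Set.ncard_smul_set, h1, add_left_inj, eq_comm, card_eq_one] at h5
  obtain ⟨x, hx, h6⟩ := (T.tt _).trans ((T.tt _).smul_ne h3 ha) hb
  have h8 : t' * x * t'⁻¹ = x⁻¹ := T.inverts h2 h3 hx fun hc =>
    mem_bot.mp (h5 ▸ mem_inf.mpr ⟨hc, mul_mem hx (T.conj_mem h3 hx)⟩)
  have h9 : x * t' * (x * t') = 1 := by
    calc x * t' * (x * t') = x * (t' * x * t'⁻¹) * (t' * t') := by group
      _ = 1 := by rw [h8, h2]; group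
  have h10 : (x * t') • g • e = g • e := by rw [mul_smul, h3, (T.tt _).fix x hx]
  refine ⟨x * t', h10, by rw [mul_smul, h6], h9, ?_⟩
  obtain ⟨d, hd, hd'⟩ := T.exists_fix Nat.prime_two (by omega) (by rw [sq, h9]) h10
  rw [T.card_fix hd h10 hd', show centralizer ({x * t'} : Set G) ⊓ S (g • e) = ⊥ from ?_, card_bot]
  rw [eq_bot_iff, ← h5]
  intro y hy
  refine mem_inf.mpr ⟨?_, hy.2⟩
  have := mem_centralizer_singleton_iff.mp hy.1
  rw [← mul_assoc, T.comm y hy.2 x hx, mul_assoc, mul_assoc, mul_right_inj] at this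
  exact mem_centralizer_singleton_iff.mpr this

theorem swap_good {n : ℕ} (hG : Nat.card G = p ^ 2 * n) (hn : 2 * n ∣ p ^ 4 - 1) {t : G} {e : Ω}
    (ht : t * t = 1) (he : t • e = e) (h : centralizer ({t} : Set G) ⊓ S e = ⊥) {a b : Ω}
    (hab : a ≠ b) : 2 * n + 1 = p ^ 4 ∧
      ∀ σ : G, σ • a = b → σ • b = a → σ * σ = 1 ∧ (fixedBy Ω σ).ncard = 2 := by
  classical
  have h7 := T.seven
  have := (T.tt a).finite
  have := Fintype.ofFinite Ω
  have := Fintype.ofFinite G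
  have h1 := T.card_stab hG hab
  set m := Nat.card (stabilizer G a ⊓ stabilizer G b : Subgroup G) with hm
  have hpp : 1 < p ^ 2 := Nat.one_lt_pow (by norm_num) hp.out.one_lt
  have h4 : p ^ 4 - 1 = (p ^ 2 - 1) * (p ^ 2 + 1) := by
    rw [mul_comm, ← Nat.sq_sub_sq, ← pow_mul, one_pow]
  have h2 : 2 * m ≤ p ^ 2 - 1 := by
    rw [← h1, ← mul_assoc, h4] at hn
    exact Nat.le_of_dvd (by omega) (Nat.dvd_of_mul_dvd_mul_right (by omega) hn)
  set A := Finset.univ.filter (fun σ : G => σ • a = b ∧ σ • b = a)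
  set B := A.filter (fun σ : G => σ * σ = 1 ∧ (fixedBy Ω σ).ncard = 2)
  have h3 : A.card ≤ m := by
    obtain ⟨σ, e1, e2⟩ := (T.tt a).two hab hab.symm
    rw [hm, Nat.card_eq_fintype_card, Fintype.card_subtype]
    refine Finset.card_le_card_of_injOn (fun τ => σ * τ) (fun τ hτ => ?_)
      (fun _ _ _ _ e => mul_left_cancel e)
    obtain ⟨e3, e4⟩ := (Finset.mem_filter.mp hτ).2
    refine Finset.mem_filter.mpr ⟨Finset.mem_univ _, ?_, ?_⟩
    · change (σ * τ) • a = a
      rw [mul_smul, e3, e2]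
    · change (σ * τ) • b = b
      rw [mul_smul, e4, e1]
  have h5 := Finset.card_mul_le_card_mul (fun (c : Ω) (u : G) => u • c = c)
    (s := (Finset.univ.erase a).erase b) (t := B) (m := 1) (n := 2) (fun c hc => by
      simp only [Finset.mem_erase, Finset.mem_univ, and_true] at hc
      obtain ⟨u, e1, e2, e3, e4⟩ := T.exists_good ht he h (Ne.symm hc.2) (Ne.symm hc.1)
      refine Finset.card_pos.mpr ⟨u, ?_⟩
      simp only [Finset.mem_bipartiteAbove, B, A, Finset.mem_filter, Finset.mem_univ, true_and]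
      exact ⟨⟨⟨e2, by rw [← e2, ← mul_smul, e3, one_smul]⟩, e3, e4⟩, e1⟩)
    (fun u hu => by
      rw [← (Finset.mem_filter.mp hu).2.2, ← Set.ncard_coe_finset]
      exact Set.ncard_le_ncard fun c hc => (Finset.mem_bipartiteBelow _).mp hc |>.2)
  rw [Finset.card_erase_of_mem (by simpa using hab.symm), Finset.card_erase_of_mem (Finset.mem_univ _),
    Finset.card_univ, ← Nat.card_eq_fintype_card, (T.tt a).card] at h5
  have h6 : B.card ≤ A.card := Finset.card_filter_le _ _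
  have h8 : B = A := Finset.eq_of_subset_of_card_le (Finset.filter_subset _ _) (by omega)
  refine ⟨?_, fun σ e1 e2 => (Finset.mem_filter.mp (h8.ge (Finset.mem_filter.mpr
    ⟨Finset.mem_univ σ, e1, e2⟩))).2⟩
  have h9 : 1 ≤ p ^ 4 := Nat.one_le_pow _ _ hp.out.pos
  rw [← h1, ← mul_assoc, show 2 * m = p ^ 2 - 1 by omega, ← h4]
  omega

theorem isolated (hs : ∀ a b : Ω, a ≠ b → ∀ σ : G, σ • a = b → σ • b = a →
      σ * σ = 1 ∧ (fixedBy Ω σ).ncard = 2) {a : Ω} {x y : G} (hx : x ∈ S a) (hc : x * y = y * x)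
    (hy : (orderOf y).Coprime p) : x = 1 ∨ y = 1 := by
  by_contra hn
  rw [not_or] at hn
  have h7 := T.seven
  have := (T.tt a).finite
  obtain ⟨r, hr, hry⟩ := Nat.exists_prime_and_dvd (mt orderOf_eq_one_iff.mp hn.2)
  have hrp : r ≠ p := fun e => hr.one_lt.ne' (Nat.eq_one_of_dvd_coprimes hy hry (e ▸ dvd_rfl))
  set g := y ^ (orderOf y / r)
  have hg : orderOf g = r := orderOf_pow_orderOf_div (orderOf_pos y).ne' hry
  have hg1 : g ≠ 1 := ne_one_of_orderOf_prime (hg ▸ hr)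
  have hxg : x ∈ centralizer ({g} : Set G) :=
    mem_centralizer_singleton_iff.mpr (Commute.pow_right hc _)
  have ha : g • a = a := by
    by_contra e
    exact hn.1 ((T.tt a).free x hx _ e (by
      rw [← mul_smul, mem_centralizer_singleton_iff.mp hxg, mul_smul, (T.tt a).fix x hx]))
  obtain ⟨b, hb, hb'⟩ := T.exists_fix hr hrp (by rw [← hg, pow_orderOf_eq_one]) ha
  have h1 := T.card_fix hb ha hb'
  rw [T.card_cent hb hb' hg1 (fun e => hn.1 (mem_bot.mp (e ▸ mem_inf.mpr ⟨hxg, hx⟩)))] at h1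
  obtain ⟨σ, e1, e2⟩ := two_of_stab (G := centralizer ({g} : Set G)) (Ω := fixedBy Ω g)
    (fun c d => by
      by_contra hh
      push Not at hh
      have : (fixedBy Ω g).ncard ≤ ({c.1, d.1} : Set Ω).ncard := Set.ncard_le_ncard fun z hz => by
        by_cases e : (⟨z, hz⟩ : fixedBy Ω g) = c
        · exact Or.inl (congrArg Subtype.val e)
        · exact Or.inr (congrArg Subtype.val (hh _ e))
      have := this.trans (Set.ncard_insert_le _ _)
      rw [Set.ncard_singleton] at this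
      omega)
    (fun c d e h1 h2 => by
      obtain ⟨z, hz, e'⟩ := T.fix_trans (Subtype.coe_ne_coe.mpr h1) (Subtype.coe_ne_coe.mpr h2)
        c.2 d.2 e.2
      exact ⟨⟨z, hz.1⟩, Subtype.ext ((T.tt _).fix z hz.2), Subtype.ext e'⟩)
    (a := ⟨a, ha⟩) (b := ⟨b, hb'⟩) (c := ⟨b, hb'⟩) (d := ⟨a, ha⟩)
    (fun e => hb (congrArg Subtype.val e).symm) (fun e => hb (congrArg Subtype.val e))
  have e3 : (σ : G) • a = b := congrArg Subtype.val e1
  have e4 : (σ : G) • b = a := congrArg Subtype.val e2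
  have h2 := (hs a b hb.symm σ e3 e4).1
  have h3 := (hs a b hb.symm (σ * g) (by rw [mul_smul, ha, e3]) (by rw [mul_smul, hb', e4])).1
  have h4 : g * g = 1 := by
    rw [mul_assoc, ← mul_assoc g, ← mem_centralizer_singleton_iff.mp σ.2, mul_assoc, ← mul_assoc, h2,
      one_mul] at h3
    exact h3
  obtain ⟨c, hc⟩ : ∃ c : Ω, g • c ≠ c := by
    by_contra hh
    push Not at hh
    exact hg1 (T.faithful a hh)
  have := (hs c (g • c) hc.symm g rfl (by rw [← mul_smul, h4, one_smul])).2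
  omega

end TI

end Cfsg.Agent.H3.Sq
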