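import Mathlib
import Cfsg.Agent.H3.SqTI

/-!
# Doubly transitive groups of degree `p² + 1`: involutions with `p + 1` fixed points
-/

set_option autoImplicit false
set_option linter.unusedSectionVars false

namespace Cfsg.Agent.H3.Sq

open Subgroup MulAction Pointwise

variable {G : Type*} [Group G] {Ω : Type*} [MulAction G Ω]

theorem index_ker_sign {Ω : Type*} [Fintype Ω] [DecidableEq Ω] (f : G →* Equiv.Perm Ω)
    {g : G} (hg : Equiv.Perm.sign (f g) = -1) : (Equiv.Perm.sign.comp f).ker.index = 2 := by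
  rw [index_ker, show (Equiv.Perm.sign.comp f).range = ⊤ from ?_, card_top, Nat.card_eq_fintype_card,
    Fintype.card_units_int]
  rw [eq_top_iff]
  intro u _
  rcases Int.units_eq_one_or u with rfl | rfl
  · exact one_mem _
  · exact ⟨g, hg⟩

theorem exists_inv_comm [Finite G] {L : Subgroup G} (hL : 2 ∣ Nat.card L) {s : G} (hs : s * s = 1)
    (hn : s ∈ normalizer (L : Set G)) : ∃ t ∈ L, t * t = 1 ∧ t ≠ 1 ∧ s * t = t * s := by
  have h1 := frobenius_dvd hL
  have h2 : ¬ 2 ∣ {t : G | t ∈ L ∧ t * t = 1 ∧ t ≠ 1}.ncard := by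
    have e : Nat.card {x : L // x ^ 2 = 1} = {t : G | t ∈ L ∧ t * t = 1}.ncard := by
      rw [← Nat.card_coe_set_eq]
      exact Nat.card_congr ⟨fun x => ⟨x.1, x.1.2, by rw [← sq]; exact congrArg Subtype.val x.2⟩,
        fun x => ⟨⟨x.1, x.2.1⟩, Subtype.ext ((sq x.1).trans x.2.2)⟩, fun _ => rfl, fun _ => rfl⟩
    have e2 : {t : G | t ∈ L ∧ t * t = 1} = insert 1 {t : G | t ∈ L ∧ t * t = 1 ∧ t ≠ 1} := by
      ext t
      by_cases ht : t = 1 <;> simp [ht]
    rw [e, e2, Set.ncard_insert_of_notMem (by simp)] at h1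
    omega
  obtain ⟨t, ⟨h3, h4, h5⟩, h6⟩ := exists_fix_of_isPGroup (Ω := Cj G) Nat.prime_two
    (isPGroup_zpowers_of_pow Nat.prime_two (g := s) (by rw [sq, hs])) {t : G | t ∈ L ∧ t * t = 1 ∧ t ≠ 1}
    (fun g hg (x : G) hx => by
      refine ⟨conj_mem_of_norm (zpowers_le_of_mem hn hg) hx.1, ?_, fun e => hx.2.2 ?_⟩
      · change g * x * g⁻¹ * (g * x * g⁻¹) = 1
        rw [show g * x * g⁻¹ * (g * x * g⁻¹) = g * (x * x) * g⁻¹ by group, hx.2.1]
        group
      · change g * x * g⁻¹ = 1 at e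
        exact conj_eq_one_iff.mp e) h2
  exact ⟨t, h3, h4, h5, mul_inv_eq_iff_eq_mul.mp (h6 s (mem_zpowers s))⟩

namespace TI

variable [Finite G] {p : ℕ} [hp : Fact p.Prime] {S : Ω → Subgroup G} (T : TI p S)
  (hall : ∀ (t : G) (a : Ω), t * t = 1 → t • a = a → centralizer ({t} : Set G) ⊓ S a ≠ ⊥)
include T

theorem fix_of_comm {a b : Ω} (hb : b ≠ a) {t u x : G} (ht1 : t ≠ 1) (ta : t • a = a) (tb : t • b = b)
    (ua : u • a = a) (ub : u • b = b) (hx : x ∈ centralizer ({t} : Set G) ⊓ S a) (hx1 : x ≠ 1)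
    (hxu : x ∈ centralizer ({u} : Set G)) {c : Ω} (hc : t • c = c) : u • c = c := by
  by_cases e : c = a
  · exact e ▸ ua
  obtain ⟨y, hy, rfl⟩ := T.fix_trans hb e ta tb hc
  have h1 := T.card_cent hb tb ht1 (fun e => hx1 (mem_bot.mp (e ▸ hx)))
  rw [← zpowers_eq_of_prime_card (h1 ▸ hp.out) hx hx1] at hy
  exact smul_mem_fixedBy (zpowers_le_of_mem hxu hy) ub

include hall

theorem noKlein {a b : Ω} (hb : b ≠ a) {t u : G} (ht : t * t = 1) (ht1 : t ≠ 1) (hu : u * u = 1)
    (htu : t * u = u * t) (ta : t • a = a) (tb : t • b = b) (ua : u • a = a) (ub : u • b = b) {c : Ω}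
    (hc : t • c = c) : u • c = c := by
  by_contra hn
  have h1 : ∀ x ∈ S a, x ∈ centralizer ({t} : Set G) → x ∈ centralizer ({u} : Set G) → x = 1 :=
    fun x hx h2 h3 => by_contra fun h4 => hn (T.fix_of_comm hb ht1 ta tb ua ub ⟨h2, hx⟩ h4 h3 hc)
  have hu1 : u ≠ 1 := fun e => hn (by rw [e, one_smul])
  have h2 := T.card_cent hb ub hu1 (hall u a hu ua)
  have hv : t * u * (t * u) = 1 := by
    rw [mul_assoc, ← mul_assoc u, ← htu, mul_assoc, hu, mul_one, ht]
  obtain ⟨z, hz, hz1⟩ := exists_ne_one_of_card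
    ((one_lt_card_iff_ne_bot _).mpr (hall (t * u) a hv (by rw [mul_smul, ua, ta])))
  have ht' : t ∈ centralizer ({u} : Set G) := mem_centralizer_singleton_iff.mpr htu
  have ht'' : t ∈ centralizer ({t * u} : Set G) :=
    mem_centralizer_singleton_iff.mpr (by rw [mul_assoc, ← htu])
  have key : ∀ y : G, y ∈ centralizer ({t * u} : Set G) →
      (y ∈ centralizer ({t} : Set G) ↔ y ∈ centralizer ({u} : Set G)) := fun y hy => by
    simp only [mem_centralizer_singleton_iff] at hy ⊢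
    constructor
    · intro e
      rw [← mul_assoc, e, mul_assoc, mul_assoc, mul_right_inj] at hy
      exact hy
    · intro e
      rw [mul_assoc, ← e, ← mul_assoc, ← mul_assoc, mul_left_inj] at hy
      exact hy
  have h3 : invSub (T.comm (a := a)) t = S a := by
    refine eq_of_lt_line hp.out h2 (fun y hy => ⟨hy.2, T.inverts ht ta hy.2 fun e => ?_⟩)
      (fun y hy => hy.1) (T.tt a).cardP (x := z) ⟨hz.2, T.inverts ht ta hz.2 fun e => ?_⟩
      (fun e => hz1 (h1 z hz.2 ((key z hz.1).mpr e.1) e.1))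
    · have hy1 : y ∈ centralizer ({u} : Set G) := hy.1
      exact h1 _ (mul_mem hy.2 (T.conj_mem ta hy.2)) e
        (mul_mem hy1 (mul_mem (mul_mem ht' hy1) (inv_mem ht')))
    · have hz' : z ∈ centralizer ({t * u} : Set G) := hz.1
      exact h1 _ (mul_mem hz.2 (T.conj_mem ta hz.2)) e
        ((key _ (mul_mem hz' (mul_mem (mul_mem ht'' hz') (inv_mem ht'')))).mp e)
  obtain ⟨x, hx, hx1⟩ := exists_ne_one_of_card ((one_lt_card_iff_ne_bot _).mpr (hall t a ht ta))
  have h4 : t * x * t⁻¹ = x⁻¹ := (h3.ge hx.2).2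
  rw [← mem_centralizer_singleton_iff.mp hx.1, mul_inv_cancel_right] at h4
  exact hx1 (T.eq_one_of_sq hx.2 (mul_eq_one_iff_eq_inv.mpr h4))

theorem pow_eq_one {a b : Ω} (hb : b ≠ a) {t d : G} (ht : t * t = 1) (ht1 : t ≠ 1) (ta : t • a = a)
    (tb : t • b = b) (da : d • a = a) (db : d • b = b) (hd : d ∈ centralizer ({t} : Set G)) :
    d ^ (p - 1) = 1 := by
  have h1 := T.card_cent hb tb ht1 (hall t a ht ta)
  have hdt := mem_centralizer_singleton_iff.mp hd
  have h3 : ∀ x ∈ centralizer ({t} : Set G) ⊓ S a, x ∈ invSub (T.comm (a := a)) t → x = 1 :=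
    fun x hx hx' => by
      have h4 : t * x * t⁻¹ = x⁻¹ := hx'.2
      rw [← mem_centralizer_singleton_iff.mp hx.1, mul_inv_cancel_right] at h4
      exact T.eq_one_of_sq hx.2 (mul_eq_one_iff_eq_inv.mpr h4)
  obtain ⟨x, hx, hx1⟩ := exists_ne_one_of_card ((one_lt_card_iff_ne_bot _).mpr (hall t a ht ta))
  have h2 : Nat.card (invSub (T.comm (a := a)) t) = p := by
    refine card_eq_of_ne hp.out (fun y hy => hy.1) (T.tt a).cardP (fun e => ht1 ?_)
      (fun e => hx1 (h3 x hx (e.ge hx.2)))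
    refine T.eq_one_of_cent hb tb fun y hy => mem_centralizer_singleton_iff.mpr ?_
    have h5 : y⁻¹ * (t * y * t⁻¹) ∈ invSub (T.comm (a := a)) t :=
      ⟨mul_mem (inv_mem hy) (T.conj_mem ta hy), by
        calc t * (y⁻¹ * (t * y * t⁻¹)) * t⁻¹ = (t * y * t⁻¹)⁻¹ * ((t * t) * y * (t * t)⁻¹) := by group
          _ = _ := by rw [ht]; group⟩
    rw [e, mem_bot, inv_mul_eq_one, eq_mul_inv_iff_mul_eq] at h5
    exact h5
  have h4 := pow_commute_of_norm hp.out h1 (d := d) (mem_normalizer_fintype fun y hy =>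
    mem_inf.mpr ⟨mul_mem (mul_mem hd (mem_inf.mp hy).1) (inv_mem hd), T.conj_mem da hy.2⟩)
  have h5 := pow_commute_of_norm hp.out h2 (d := d) (mem_normalizer_fintype fun y hy =>
    ⟨T.conj_mem da hy.1, by
      calc t * (d * y * d⁻¹) * t⁻¹ = (t * d) * y * (t * d)⁻¹ := by group
        _ = d * (t * y * t⁻¹) * d⁻¹ := by rw [← hdt]; group
        _ = _ := by rw [hy.2]; group⟩)
  refine (T.tt a).free _ (T.cent a ?_) b hb (pow_mem (S := stabilizer G b) db _)
  have h6 := sup_eq_of_ne hp.out (T.tt a).cardP (mem_lines.mpr ⟨inf_le_right, h1⟩)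
    ((mem_lines (X := invSub (T.comm (a := a)) t)).mpr ⟨fun y hy => hy.1, h2⟩) (fun e => hx1 (h3 x hx (e.le hx)))
  have h7 : zpowers (d ^ (p - 1)) ≤ centralizer (S a : Set G) := by
    rw [le_centralizer_iff, ← h6]
    exact sup_le (le_centralizer_iff.mp (zpowers_le_of_mem h4))
      (le_centralizer_iff.mp (zpowers_le_of_mem h5))
  exact h7 (mem_zpowers _)

theorem false_of_all (e : Ω) (hG : 2 ∣ Nat.card G) : False := by
  classical
  have h7 := T.seven
  have := (T.tt e).finite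
  obtain ⟨s, hs⟩ := exists_prime_orderOf_dvd_card' (G := G) 2 hG
  have hs1 : s ≠ 1 := ne_one_of_orderOf_prime (hs ▸ Nat.prime_two)
  have hs2 : s * s = 1 := by rw [← sq, ← hs, pow_orderOf_eq_one]
  obtain ⟨a, ha⟩ : ∃ a : Ω, s • a ≠ a := by
    by_contra hh
    push Not at hh
    exact hs1 (T.faithful e hh)
  obtain ⟨b, hb⟩ : ∃ b, s • a = b := ⟨_, rfl⟩
  have hb' : s • b = a := by rw [← hb, ← mul_smul, hs2, one_smul]
  rw [hb] at ha
  obtain ⟨t, ⟨ta, tb⟩, ht, ht1, hst⟩ := exists_inv_comm (L := stabilizer G a ⊓ stabilizer G b) (s := s)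
    (by
      obtain ⟨c, d, h1, h2, h3⟩ := T.inv_fix e hs2
      obtain ⟨g, rfl, rfl⟩ := (T.tt e).two h1 ha.symm
      have h4 : g * s * g⁻¹ ∈ stabilizer G (g • d) ⊓ stabilizer G (g • c) :=
        ⟨show (g * s * g⁻¹) • g • d = g • d by rw [mul_smul, mul_smul, inv_smul_smul, h3],
          show (g * s * g⁻¹) • g • c = g • c by rw [mul_smul, mul_smul, inv_smul_smul, h2]⟩
      have := orderOf_dvd_natCard (⟨_, h4⟩ : (stabilizer G (g • d) ⊓ stabilizer G (g • c) : Subgroup G))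
      rwa [← orderOf_coe, show orderOf (g * s * g⁻¹) = orderOf s from
        (MulAut.conj g).orderOf_eq s, hs] at this) hs2
    (mem_normalizer_fintype fun g hg =>
      ⟨show (s * g * s⁻¹) • a = a by rw [mul_smul, mul_smul, inv_smul_eq_iff.mpr hb'.symm, hg.2, hb'],
        show (s * g * s⁻¹) • b = b by rw [mul_smul, mul_smul, inv_smul_eq_iff.mpr hb.symm, hg.1, hb]⟩)
  change t • a = a at ta
  change t • b = b at tb
  have hΦ := T.card_fix ha ta tb
  rw [T.card_cent ha tb ht1 (hall t a ht ta)] at hΦ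
  obtain ⟨k, hk⟩ := odd_of_seven hp.out h7
  have hk2 : Even k := by
    have := T.even_of_inv e ht (k := p * k) (by rw [hΦ, hk]; ring)
    exact (Nat.even_mul.mp this).resolve_left (by rw [hk]; simp)
  rw [← Nat.card_coe_set_eq] at hΦ
  have := Fintype.ofFinite (fixedBy Ω t)
  let f := toPermHom (centralizer ({t} : Set G)) (fixedBy Ω t)
  have hsign : Equiv.Perm.sign (f ⟨s, mem_centralizer_singleton_iff.mpr hst⟩) = -1 := by
    refine sign_of_fix (k := k + 1) ?_ hk2.add_one ?_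
    · rw [← map_pow, show (⟨s, mem_centralizer_singleton_iff.mpr hst⟩ : centralizer ({t} : Set G)) ^ 2 = 1
        from Subtype.ext ((sq s).trans hs2), map_one]
    · have : IsEmpty {x // f ⟨s, mem_centralizer_singleton_iff.mpr hst⟩ x = x} := ⟨fun ⟨c, hc⟩ => by
        have hc' : s • c.1 = c.1 := congrArg Subtype.val hc
        obtain ⟨d, h1, h2⟩ := (T.tt c.1).exists_fix Nat.prime_two (by omega)
          ((isPGroup_zpowers_of_pow Nat.prime_two (g := s) (by rw [sq, hs2])).to_sup_of_normal_left'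
            (isPGroup_zpowers_of_pow Nat.prime_two (g := t) (by rw [sq, ht]))
            ((zpowers_le_of_mem (by
              rintro _ ⟨n, rfl⟩
              exact (Commute.zpow_left hst n).eq)).trans (centralizer_le_normalizer _)))
          (fun g hg => (sup_le (zpowers_le_of_mem (H := stabilizer G c.1) hc')
            (zpowers_le_of_mem c.2)) hg)
        exact ha (hb.symm.trans (T.noKlein hall h1 ht ht1 hs2 hst.symm c.2
          (h2 t (mem_sup_right (mem_zpowers t))) hc' (h2 s (mem_sup_left (mem_zpowers s))) ta))⟩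
      rw [hΦ, Nat.card_of_isEmpty]; omega
  have h3 : ∀ (g : f.range) (c d e : fixedBy Ω t), c ≠ d → d ≠ e → c ≠ e → g • c = c → g • d = d →
      g • e = e → g = 1 := by
    rintro ⟨_, g, rfl⟩ c d e h1 h2 h3 h4 h5 h6
    have e1 : d.1 ≠ c.1 := Subtype.coe_ne_coe.mpr h1.symm
    have e4 : (g : G) • c.1 = c.1 := congrArg Subtype.val h4
    have e5 : (g : G) • d.1 = d.1 := congrArg Subtype.val h5
    have e6 : (g : G) • e.1 = e.1 := congrArg Subtype.val h6
    obtain ⟨x, hx, e7⟩ := T.fix_trans e1 (Subtype.coe_ne_coe.mpr h3.symm) c.2 d.2 e.2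
    refine Subtype.ext (Equiv.ext fun z => Subtype.ext ?_)
    exact T.fix_of_comm e1 ht1 c.2 d.2 e4 e5 hx
      (fun e8 => h2 (Subtype.ext (by rw [← e7, e8, one_smul])))
      (T.comm_of_fix e1 e4 e5 hx.2 (e7.symm ▸ e6)) z.2
  set K := (Equiv.Perm.sign.comp f.range.subtype).ker
  have hK : K.index = 2 := index_ker_sign f.range.subtype (g := ⟨_, _, rfl⟩) hsign
  have h2 : ∀ {a b c d : fixedBy Ω t}, a ≠ b → c ≠ d → ∃ g : K, g • a = c ∧ g • b = d := by
    refine two_of_stab (fun c d => ?_) (fun c d e h1 h2 => ?_)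
    · obtain ⟨x, y, z, h1, h2, h3⟩ := Fintype.two_lt_card_iff.mp
        (show 2 < Fintype.card (fixedBy Ω t) by rw [← Nat.card_eq_fintype_card]; omega)
      by_contra hh
      push Not at hh
      have e : ∀ w, w = c ∨ w = d := fun w => or_iff_not_imp_left.mpr (hh w)
      rcases e x with rfl | rfl <;> rcases e y with rfl | rfl <;> rcases e z with rfl | rfl <;> tauto
    · obtain ⟨z, hz, e'⟩ := T.fix_trans (Subtype.coe_ne_coe.mpr h1) (Subtype.coe_ne_coe.mpr h2)
        c.2 d.2 e.2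
      refine ⟨⟨⟨f ⟨z, hz.1⟩, _, rfl⟩, ?_⟩, Subtype.ext ((T.tt _).fix z hz.2), Subtype.ext e'⟩
      change Equiv.Perm.sign (f ⟨z, hz.1⟩) = 1
      have h4 : (⟨z, hz.1⟩ : centralizer ({t} : Set G)) ^ p ^ 2 = 1 := Subtype.ext (by
        have := pow_card_eq_one' (x := (⟨z, hz.2⟩ : S c.1))
        rw [(T.tt _).cardP] at this
        exact congrArg (Subtype.val : S c.1 → G) this)
      have h5 := congrArg (fun x => Equiv.Perm.sign (f x)) h4
      simp only [map_pow, map_one] at h5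
      rcases Int.units_eq_one_or (Equiv.Perm.sign (f ⟨z, hz.1⟩)) with e | e
      · exact e
      · rw [e, Odd.neg_one_pow (Odd.pow ⟨k, hk⟩)] at h5
        exact absurd h5 (by decide)
  have ZK : Zs K (fixedBy Ω t) :=
    ⟨h2, fun g c d e h1 h2 h4 h5 h6 h7 => Subtype.ext (h3 g.1 c d e h1 h2 h4 h5 h6 h7)⟩
  have Z : Zs f.range (fixedBy Ω t) :=
    ⟨fun h1 h4 => (h2 h1 h4).elim fun g hg => ⟨g.1, hg⟩, h3⟩
  have hab : (⟨a, ta⟩ : fixedBy Ω t) ≠ ⟨b, tb⟩ := fun e => ha (congrArg Subtype.val e).symm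
  rcases zs_prime ZK hp.out (by omega) hΦ with h4 | ⟨V, -, h4, h5⟩
  · have hroot : Nat.card (Z.root ⟨a, ta⟩) = p := by have := Z.card_root hab; omega
    rw [← hK, mul_comm K.index, K.card_mul_index, Z.card_eq hab, hroot] at h4
    have h5 := Nat.dvd_of_mul_dvd_mul_left (by positivity) h4
    obtain ⟨⟨⟨_, d, rfl⟩, hd⟩, h6⟩ := (zs_cyclic Z hp.out hΦ hab).exists_ofOrder_eq_natCard
    have da : (d : G) • a = a := congrArg Subtype.val hd.1
    have db : (d : G) • b = b := congrArg Subtype.val hd.2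
    have h8 := T.pow_eq_one hall ha ht ht1 ta tb da db d.2
    have h9 : f d ^ k = 1 := by
      rw [← map_pow]
      refine Equiv.ext fun z => Subtype.ext ?_
      exact T.noKlein hall ha ht ht1 (u := (d : G) ^ k) (by rw [← pow_add, ← h8]; congr 1; omega)
        (mem_centralizer_singleton_iff.mp (pow_mem d.2 k)).symm ta tb
        (pow_mem (S := stabilizer G a) da k) (pow_mem (S := stabilizer G b) db k) z.2
    rw [← h6, ← orderOf_coe, ← orderOf_coe] at h5
    have := Nat.le_of_dvd (by omega) (h5.trans (orderOf_dvd_of_pow_eq_one h9))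
    omega
  · obtain ⟨i, hi⟩ := h5.exists_card_eq
    obtain ⟨l, rfl⟩ := hk2
    rcases i with _ | _ | i
    · omega
    · omega
    · rw [pow_succ, pow_succ] at hi; omega

omit hall in
theorem main {n : ℕ} (hG : Nat.card G = p ^ 2 * n) (hn : 2 * n ∣ p ^ 4 - 1) (e : Ω) :
    2 * n + 1 = p ^ 4 ∧ ∀ (a : Ω) (x y : G), x ∈ S a → x * y = y * x → (orderOf y).Coprime p →
      x = 1 ∨ y = 1 := by
  by_cases hall : ∀ (t : G) (a : Ω), t * t = 1 → t • a = a → centralizer ({t} : Set G) ⊓ S a ≠ ⊥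
  · refine (T.false_of_all hall e ?_).elim
    obtain ⟨b, hb⟩ := (T.tt e).exists_ne
    obtain ⟨k, hk⟩ := odd_of_seven hp.out T.seven
    rw [hG, ← T.card_stab hG hb]
    exact Dvd.dvd.mul_left (Dvd.dvd.mul_left ⟨2 * (k * k + k) + 1, by rw [hk]; ring⟩ _) _
  · push Not at hall
    obtain ⟨t, a, h1, h2, h3⟩ := hall
    obtain ⟨b, hb⟩ := (T.tt e).exists_ne
    exact ⟨(T.swap_good hG hn h1 h2 h3 hb).1, fun c x y hx hc hy =>
      T.isolated (fun _ _ hab => (T.swap_good hG hn h1 h2 h3 hab).2) hx hc hy⟩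

end TI

theorem SqH.final [Finite G] {p n : ℕ} [hp : Fact p.Prime] (h : SqH p n G)
    (h2 : ∀ H : Subgroup G, H.index ≠ 2) : 2 * n + 1 = p ^ 4 ∧
      ∀ x y : G, x * y = y * x → x ^ p = 1 → (orderOf y).Coprime p → x = 1 ∨ y = 1 := by
  have T : TI p (fun P : Sylow p G => (P : Subgroup G)) :=
    ⟨h.tt_sylow h2, fun P g hg => Sylow.smul_eq_iff_mem_normalizer.mp hg,
      fun P => h.cent P (h.card_sylow P), h2, h.seven⟩
  obtain ⟨h3, h4⟩ := T.main h.card h.dvd default
  refine ⟨h3, fun x y hc hx hy => ?_⟩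
  obtain ⟨P, hP⟩ := (isPGroup_zpowers_of_pow hp.out hx).exists_le_sylow
  exact h4 P x y (hP (mem_zpowers x)) hc hy

end Cfsg.Agent.H3.Sq
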