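import Mathlib
import Cfsg.Agent.H3.SqK
import Cfsg.Agent.H3.DegPSL
import Cfsg.Agent.H3.Brauer

/-!
# Recognition of `PSL(2, p²)` from its order and one character degree
-/

set_option autoImplicit false
set_option linter.unusedSectionVars false

namespace Cfsg.Agent.H3.Sq

open Subgroup MulAction Pointwise

universe u

theorem SqH.final' {p : ℕ} [hp : Fact p.Prime] (n : ℕ) : ∀ (G : Type u) [Group G] [Finite G],
    SqH p n G → 2 * n + 1 = p ^ 4 ∧
      ∀ x y : G, x * y = y * x → x ^ p = 1 → (orderOf y).Coprime p → x = 1 ∨ y = 1 := by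
  induction n using Nat.strong_induction_on with
  | _ n ih =>
  intro G _ _ h
  refine h.final fun H hH => ?_
  have h1 := H.card_mul_index
  rw [hH, h.card] at h1
  have hn0 : 0 < n := Nat.pos_of_ne_zero (by
    rintro rfl
    exact (Nat.card_pos (α := G)).ne' h.card)
  obtain ⟨m, rfl⟩ : 2 ∣ n := ((Nat.Coprime.pow_right 2 ((Nat.coprime_primes Nat.prime_two hp.out).mpr
    (by have := h.seven; omega))).dvd_mul_left).mp (h1 ▸ Dvd.intro_left _ rfl)
  have : H.Normal := normal_of_index_eq_two hH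
  have h2 := (ih m (by omega) H ⟨h.seven, by nlinarith, (Dvd.intro_left 2 rfl).trans h.dvd,
    fun P hP x hx => ?_, fun N hN hN' => ?_⟩).1
  · obtain ⟨c, hc, e⟩ := h.exists_eq
    have : 2 * (2 * m) ≤ 2 * (2 * m) * c := Nat.le_mul_of_pos_right _ hc
    omega
  · have := h.cent (P.map H.subtype) (by rw [card_map_of_injective H.subtype_injective, hP])
      (show (x : G) ∈ centralizer _ by
        rintro _ ⟨y, hy, rfl⟩
        exact congrArg Subtype.val (hx y hy))
    obtain ⟨y, hy, e⟩ := this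
    exact Subtype.ext e ▸ hy
  · have h3 := ((H7.NormalIn.map_subtype hN).subnormalIn.trans
      (H7.NormalIn.of_normal H).subnormalIn).le_pCoreIn (hN'.map _)
    rw [H7.pCoreIn_top, h.core _ inferInstance (H7.pCore_isPGroup p G), le_bot_iff] at h3
    exact (map_eq_bot_iff_of_injective N H.subtype_injective).mp h3

variable {G : Type*} [Group G] [Finite G]

theorem exists_lift {p : ℕ} [hp : Fact p.Prime] (hZ : (Nat.card (center G)).Coprime p)
    {P : Subgroup (G ⧸ center G)} (hP : IsPGroup p P) : ∃ R : Subgroup G, IsPGroup p R ∧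
      R.map (QuotientGroup.mk' (center G)) = P ∧ Nat.card R = Nat.card P ∧ center G ⊓ R = ⊥ ∧
      ∀ x : G, IsPElt p x → QuotientGroup.mk' (center G) x ∈ P → x ∈ R := by
  set f := QuotientGroup.mk' (center G)
  have hf : f.ker = center G := QuotientGroup.ker_mk' _
  obtain ⟨R, hR⟩ := H7.exists_isSylowIn (p := p) (P.comap f)
  have h1 : (P.comap f).map f = P := map_comap_eq_self_of_surjective (QuotientGroup.mk'_surjective _) P
  have h2 : P.comap f ≤ R ⊔ center G := by
    rw [← relIndex_eq_one]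
    obtain ⟨k, hk⟩ := hP.exists_card_eq
    have h3 : (R ⊔ center G).relIndex (P.comap f) ∣ p ^ k := by
      rw [← hk, ← congrArg (fun K : Subgroup _ => Nat.card K) h1, ← relIndex_ker, hf]
      exact relIndex_dvd_of_le_left _ le_sup_right
    exact Nat.Coprime.eq_one_of_dvd (Nat.Coprime.pow_right k ((hp.out.coprime_iff_not_dvd.mpr
      fun hd => hR.2.2 (hd.trans (relIndex_dvd_of_le_left _ le_sup_left))).symm)) h3
  have h3 : R.map f = P := le_antisymm ((map_mono hR.1).trans h1.le) (by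
    rw [← h1]
    refine (map_mono h2).trans ?_
    rw [Subgroup.map_sup, (Subgroup.map_eq_bot_iff (center G)).mpr hf.ge, sup_bot_eq])
  have h4 : center G ⊓ R = ⊥ := eq_bot_iff.mpr fun x hx =>
    (IsPElt.of_mem hR.2.1 hx.2).eq_one (IsPReg.of_mem hZ hx.1)
  refine ⟨R, hR.2.1, h3, ?_, h4, fun x hx hx' => ?_⟩
  · rw [← h3, ← relIndex_ker, hf, ← inf_relIndex_right, h4, relIndex_bot_left]
  · obtain ⟨g, hg, h5⟩ := hR.exists_le_conj hx.isPGroup_zpowers (zpowers_le_of_mem hx')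
    rw [H7.conj_smul_eq_iff_mem_normalizer.mpr
      ((sup_le le_normalizer (center_le_normalizer _)) (h2 hg))] at h5
    exact h5 (mem_zpowers x)

section Char

variable {p n : ℕ} [hp : Fact p.Prime] {χ : G → ℂ} (hχ : IsIrrCharacter G χ)
  (h1 : χ 1 = (p ^ 2 : ℕ)) (hG : Nat.card G = p ^ 2 * n) (hn : ¬ p ∣ n)
include hχ h1 hG hn

theorem char_eq_zero {g : G} (hg : ¬ IsPReg p g) : χ g = 0 :=
  irr_eq_zero_of_defect_zero hp.out hχ h1 (fun k hk =>
    Nat.eq_of_mul_eq_mul_left (pow_pos hp.out.pos 2) (hG.symm.trans hk) ▸ hn)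
    (not_not.mp (mt (isPReg_iff_not_dvd hp.out).mpr hg))

theorem sum_char {R : Subgroup G} [Fintype R] (hR : IsPGroup p R) {v : G} (hv : IsPReg p v)
    (hc : v ∈ centralizer (R : Set G)) : ∑ u : R, χ (u * v) = χ v := by
  rw [Finset.sum_eq_single 1 (fun u _ hu => char_eq_zero hχ h1 hG hn fun h => hu ?_) (by simp)]
  · simp
  · exact Subtype.ext ((pPart_mul (IsPElt.of_mem hR u.2) hv (hc u u.2)).symm.trans h.pPart_eq)

theorem norm_eq_of_cent {R : Subgroup G} (hR : Nat.card R = p ^ 2) {v : G} (hv : IsPReg p v)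
    (hc : v ∈ centralizer (R : Set G)) : ‖χ v‖ = ‖χ 1‖ := by
  have hRp : IsPGroup p R := IsPGroup.of_card hR
  set C := centralizer (R : Set G)
  have := Fintype.ofFinite R
  have := Fintype.ofFinite C
  have := Fintype.ofFinite (R.subgroupOf C)
  have hle : R ≤ C := le_centralizer_of_card hR le_rfl
  have : (R.subgroupOf C).Normal := ⟨fun x hx c => by
    have : c * x = x * c := Subtype.ext (c.2 x hx).symm
    rwa [this, mul_inv_cancel_right]⟩
  have h0 : ((p ^ 2 : ℕ) : ℂ) ≠ 0 := Nat.cast_ne_zero.mpr (pow_ne_zero 2 hp.out.ne_zero)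
  have key : ∀ w : C, IsPReg p (w : G) →
      avgFun (R.subgroupOf C) (fun x => χ x) w = ((p ^ 2 : ℕ) : ℂ)⁻¹ * χ w := fun w hw => by
    rw [avgFun, Nat.card_congr (subgroupOfEquivOfLe hle).toEquiv, hR,
      ← sum_char hχ h1 hG hn hRp hw w.2, ← Equiv.sum_comp (subgroupOfEquivOfLe hle).toEquiv]
    rfl
  have h2 := (avgFun_char (R.subgroupOf C) (isCharacter_res C (irr_isCharacter hχ))).1
  have h3 := key 1 (IsPReg.one p)
  rw [coe_one, h1, inv_mul_cancel₀ h0] at h3
  have h4 : ‖charHom h2 h3 ⟨v, hc⟩‖ = 1 := norm_eq_one_of_pow_orderOf (g := (⟨v, hc⟩ : C))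
    (by rw [← map_pow, pow_orderOf_eq_one, map_one])
  change ‖avgFun (R.subgroupOf C) (fun x => χ x) ⟨v, hc⟩‖ = 1 at h4
  rw [key ⟨v, hc⟩ hv, norm_mul, norm_inv, inv_mul_eq_one₀ (norm_ne_zero_iff.mpr h0)] at h4
  rw [h1, h4]

theorem normal_eq_bot {R : Subgroup G} [R.Normal] (hR : IsPGroup p R) : R = ⊥ := by
  classical
  have := Fintype.ofFinite G
  rcases avgFun_irr R hχ with h | h
  · have h2 := congrFun h 1
    rw [avgFun, sum_char hχ h1 hG hn hR (IsPReg.one p) (one_mem _)] at h2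
    exact absurd h2 (mul_ne_zero (inv_ne_zero (Nat.cast_ne_zero.mpr Nat.card_pos.ne'))
      (irr_one_ne_zero hχ))
  · exact eq_bot_iff.mpr fun x hx => (IsPElt.of_mem hR hx).eq_one (by_contra fun e =>
      irr_one_ne_zero hχ ((h x hx).symm.trans (char_eq_zero hχ h1 hG hn e)))

theorem coprime_center : (Nat.card (center G)).Coprime p := by
  refine ((Nat.Prime.coprime_iff_not_dvd hp.out).mpr fun hd => ?_).symm
  obtain ⟨z, hz, ho⟩ := exists_orderOf_eq_mem hp.out hd
  have := (irr_central_mul hχ (x := z) fun g => (mem_center_iff.mp hz g).symm).2 z⁻¹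
  rw [mul_inv_cancel, char_eq_zero hχ h1 hG hn (g := z) (fun h => (isPReg_iff_not_dvd hp.out).mp h
    (ho ▸ dvd_rfl)), zero_div, zero_mul] at this
  exact irr_one_ne_zero hχ this

theorem sqH_quotient (hf : ∀ g, χ g = χ 1 → g = 1) (h7 : 7 ≤ p) (hd : 2 * n ∣ p ^ 4 - 1) :
    ∃ m, SqH p m (G ⧸ center G) := by
  have hZ := coprime_center hχ h1 hG hn
  have h2 := card_eq_card_quotient_mul_card_subgroup (center G)
  obtain ⟨m, hm⟩ : p ^ 2 ∣ Nat.card (G ⧸ center G) :=
    (Nat.Coprime.pow_left 2 hZ.symm).dvd_of_dvd_mul_right (h2 ▸ hG ▸ Dvd.intro _ rfl)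
  rw [hG, hm, mul_assoc] at h2
  have h3 := Nat.eq_of_mul_eq_mul_left (pow_pos hp.out.pos 2) h2
  refine ⟨m, h7, hm, (Nat.mul_dvd_mul_left 2 (Dvd.intro _ h3.symm)).trans hd, fun P hP => ?_,
    fun N hN hN' => ?_⟩
  · obtain ⟨R, hR, h4, h5, h6, h8⟩ := exists_lift hZ (IsPGroup.of_card hP)
    rw [hP] at h5
    intro d hd
    obtain ⟨d, rfl⟩ := QuotientGroup.mk'_surjective _ d
    have h9 : d ∈ centralizer (R : Set G) := fun x hx => by
      have e1 := hd _ (h4 ▸ mem_map_of_mem _ hx)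
      have e2 : d * x * d⁻¹ ∈ R := h8 _ ((IsPElt.of_mem hR hx).conj d) (by
        rw [map_mul, map_mul, ← e1, map_inv, mul_inv_cancel_right]
        exact h4 ▸ mem_map_of_mem _ hx)
      have e3 : d * x * d⁻¹ * x⁻¹ ∈ center G ⊓ R := mem_inf.mpr ⟨by
        rw [← QuotientGroup.ker_mk' (center G), MonoidHom.mem_ker, map_mul, map_mul, map_mul, ← e1]
        simp, mul_mem e2 (inv_mem hx)⟩
      rw [h6, mem_bot, mul_inv_eq_one, mul_inv_eq_iff_eq_mul] at e3
      exact e3.symm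
    have h10 : pReg p d ∈ center G := mem_center_iff.mpr fun x => by
      have := hf _ (commutator_mem_charKer (irr_isCharacter hχ)
        (norm_eq_of_cent hχ h1 hG hn h5 (isPReg_pReg d) (pReg_mem h9)) x)
      rw [mul_inv_eq_one, mul_inv_eq_iff_eq_mul] at this
      exact this.symm
    have h11 : pPart p d ∈ R := by
      have hS : H7.IsSylowIn p R ⊤ := ⟨le_top, hR, by
        have := R.card_mul_index
        rw [h5, hG] at this
        rwa [relIndex_top_right, Nat.eq_of_mul_eq_mul_left (pow_pos hp.out.pos 2) this]⟩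
      rw [← hS.eq_of_le (hR.to_sup_of_normal_left' (isPElt_pPart d).isPGroup_zpowers
        ((zpowers_le_of_mem (pPart_mem h9)).trans (centralizer_le_normalizer _))) le_sup_left le_top]
      exact mem_sup_right (mem_zpowers _)
    rw [← pPart_mul_pReg p d, map_mul, show QuotientGroup.mk' (center G) (pReg p d) = 1 from
      (QuotientGroup.eq_one_iff _).mpr h10, mul_one]
    exact h4 ▸ mem_map_of_mem _ h11
  · obtain ⟨R, hR, h4, -, -, h8⟩ := exists_lift hZ hN'
    have : R.Normal := ⟨fun x hx g => h8 _ ((IsPElt.of_mem hR hx).conj g) (by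
      rw [map_mul, map_mul, map_inv]
      exact hN.conj_mem _ (h4 ▸ mem_map_of_mem _ hx) _)⟩
    rw [← h4, normal_eq_bot hχ h1 hG hn hR, Subgroup.map_bot]

end Char

theorem psl2_of_degree {F : Type*} [Field F] [Fintype F] {p : ℕ} (hp : p.Prime) (h5 : 5 < p)
    (hF : Fintype.card F = p ^ 2)
    (hcard : Nat.card G = Nat.card (Matrix.ProjectiveSpecialLinearGroup (Fin 2) F))
    {χ : G → ℂ} (hχ : IsIrrCharacter G χ) (h1 : χ 1 = (p ^ 2 : ℕ)) :
    Nonempty (G ≃* Matrix.ProjectiveSpecialLinearGroup (Fin 2) F) := by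
  have : Fact p.Prime := ⟨hp⟩
  have h7 : 7 ≤ p := by
    by_contra hn
    obtain rfl : p = 6 := by omega
    exact absurd hp (by norm_num)
  obtain ⟨k, hk⟩ := odd_of_seven hp h7
  have hq : p ^ 2 = 2 * (2 * (k * k + k)) + 1 := by rw [hk]; ring
  have hq4 : p ^ 4 = p ^ 2 * p ^ 2 := by ring
  generalize hm : 2 * (k * k + k) = m at hq
  have hm1 : Even m := hm ▸ even_two_mul _
  have hm0 : 1 < m := by rw [← hm]; nlinarith
  have hc := card_psl2_mul F
  rw [hF, ← hcard, show Nat.gcd (p ^ 2 - 1) 2 = 2 by rw [hq, Nat.add_sub_cancel]; simp] at hc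
  have hG : Nat.card G = p ^ 2 * (m * (m + 1) * 2) := by
    refine Nat.eq_of_mul_eq_mul_right two_pos (hc.trans ?_)
    rw [show p ^ 2 - 1 = 2 * m by omega, show p ^ 2 + 1 = 2 * (m + 1) by omega]; ring
  have h4 : 2 * (m * (m + 1) * 2) + 1 = p ^ 4 := by rw [hq4, hq]; ring
  obtain ⟨ψ, hψ, e⟩ := exists_irr_quotient (charKer (irr_isCharacter hχ)) hχ (fun _ hx => hx)
  have hψ1 : ψ 1 = (p ^ 2 : ℕ) := (e 1).trans h1
  obtain ⟨n, hn⟩ := irr_degree_dvd_card hψ hψ1
  have hn1 : n ∣ m * (m + 1) * 2 := by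
    have := card_quotient_dvd_card (charKer (irr_isCharacter hχ))
    rw [hn, hG] at this
    exact Nat.dvd_of_mul_dvd_mul_left (by positivity) this
  have hn2 : 2 * n ∣ p ^ 4 - 1 := by
    rw [← h4, Nat.add_sub_cancel]; exact Nat.mul_dvd_mul_left 2 hn1
  have hn3 : ¬ p ∣ n := fun hd => by
    have := (Nat.dvd_add_right ((hd.trans hn1).mul_left 2)).mp (h4 ▸ dvd_pow_self p (by norm_num))
    exact hp.one_lt.ne' (Nat.dvd_one.mp this)
  obtain ⟨l, H⟩ := sqH_quotient hψ hψ1 hn hn3 (fun g hg => by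
    obtain ⟨g, rfl⟩ := QuotientGroup.mk_surjective g
    exact (QuotientGroup.eq_one_iff g).mpr ((e g).symm.trans (hg.trans (e 1)))) h7 hn2
  obtain ⟨h2, hA⟩ := SqH.final' l _ H
  have h3 := H.card
  rw [show l = m * (m + 1) * 2 by omega] at h3
  obtain ⟨Z, P, Q, w, h1, h2, h3', h4, h5, h6, h7, h8⟩ :=
    exists_zs_of_sq ⟨hp, ⟨2, rfl⟩, hq, by omega, Or.inr ⟨rfl, by omega⟩, by omega⟩ hm1 h3 hA
  have hF' : Nat.card F = p ^ 2 := Nat.card_eq_fintype_card.trans hF
  obtain ⟨φ⟩ := ((Z.identify h1 (by rw [← Subgroup.one_lt_card_iff_ne_bot]; omega) h4 h6 h7 h8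
    (by omega)).2 F (by omega)).1 (by omega)
  exact ⟨(MulEquiv.ofBijective ((QuotientGroup.mk' _).comp (QuotientGroup.mk' _))
    (((QuotientGroup.mk'_surjective _).comp (QuotientGroup.mk'_surjective _)).bijective_of_nat_card_le
      (by rw [h3, hG]))).trans φ⟩

end Cfsg.Agent.H3.Sq
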