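import Cfsg.Agent.H3.WFrame
import Cfsg.Agent.H3.PSL2Cent

/-!
# A maximal subgroup `S₄` of `PSL₂(q)`
-/

set_option autoImplicit false

namespace Cfsg.Agent.H3

open Matrix H6

variable {G F : Type*} [Group G] [Field F]

local notation "SL2" => Matrix.SpecialLinearGroup (Fin 2) F
local notation "M2" => Matrix (Fin 2) (Fin 2) F

theorem mat2_anti (X U : M2) (hU : U.trace = 0) :
    X * U + U * X = X.trace • U + (X * U).trace • (1 : M2) := by
  have : U 1 1 = - U 0 0 := by rw [trace_fin_two] at hU; linear_combination hU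
  ext i j
  fin_cases i <;> fin_cases j <;>
    simp [Matrix.mul_apply, Fin.sum_univ_two, Matrix.trace_fin_two, this] <;> ring

theorem quat_identity {A : Type*} [Ring A] {i j : A} (hi : i * i = -1) (hj : j * j = -1)
    (hji : j * i = -(i * j)) (X : A) :
    X + X = i * (X * j + j * X) * (i * j) - (X * i + i * X) * i -
      (X * (i * j) + i * j * X) * (i * j) := by
  have e1 : ∀ u, i * (i * u) = -u := fun u => by rw [← mul_assoc, hi, neg_one_mul]
  have e3 : ∀ u, j * (i * u) = -(i * (j * u)) := fun u => by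
    rw [← mul_assoc, hji, neg_mul, mul_assoc]
  simp only [mul_add, add_mul, mul_assoc, e1, e3, hi, hj, mul_neg, neg_neg, mul_one]
  abel

variable (π : Matrix.SpecialLinearGroup (Fin 2) F →* G) (hs : Function.Surjective π)
  (hk : ∀ X, π X = 1 ↔ IsScal (X : Matrix (Fin 2) (Fin 2) F))

include hk in
theorem luc_of_pow {X : SL2} (h1 : π X ≠ 1) {n : ℕ} (h : π X ^ n = 1) :
    (luc (X : M2).trace 1 n).1 = 0 := by
  rw [← map_pow, hk, Matrix.SpecialLinearGroup.coe_pow, isScal_pow_iff _ (mt (hk X).2 h1)] at h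
  rwa [X.det_coe] at h

include hs hk in
theorem Fr.subfield_eq_top [Finite F] {y r w b : G} (h : Fr y r w b)
    (hM : ∀ L : Subgroup G, y ∈ L → w ∈ L → L = ⊤ ∨ Nat.card L = 24) (h2 : (2 : F) ≠ 0) :
    (∃ s : F, s ^ 2 = 2) ∧ ∀ K : Subfield F, (∀ s : F, s ^ 2 = 2 → s ∈ K) → K = ⊤ := by
  have t2 : ∀ X : SL2, π X ≠ 1 → π X * π X = 1 → (X : M2).trace = 0 := fun X h1 h => by
    simpa [luc] using luc_of_pow π hk h1 (n := 2) (by rw [sq, h])
  have t3 : ∀ X : SL2, π X ≠ 1 → π X ^ 3 = 1 → (X : M2).trace ^ 2 = 1 := fun X h1 h => by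
    have := luc_of_pow π hk h1 h
    simp only [luc] at this
    linear_combination this
  have t4 : ∀ X : SL2, π X ^ 2 = y ^ 2 → (X : M2).trace ^ 2 = 2 := fun X e => by
    have := luc_of_pow π hk (X := X) (fun e' => h.z_ne (by rw [← e, e', one_pow])) (n := 4)
      (by rw [show 4 = 2 + 2 from rfl, pow_add, e, h.zz])
    simp only [luc] at this
    have h0 : (X : M2).trace ≠ 0 := fun e' => h.z_ne (by
      rw [← e, ← map_pow, hk, Matrix.SpecialLinearGroup.coe_pow]; exact isScal_sq_of_trace e')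
    exact mul_left_cancel₀ h0 (by linear_combination this)
  have sq2 : ∀ X : SL2, (X : M2).trace = 0 → (X : M2) * X = -1 := fun X e => by
    rw [mat2_sq, e, X.det_coe]; simp
  obtain ⟨Y, hY⟩ := hs y
  obtain ⟨R, hR⟩ := hs r
  obtain ⟨W, hW⟩ := hs w
  obtain ⟨Z, hZ⟩ := hs (y ^ 2)
  refine ⟨⟨_, t4 Y (by rw [hY])⟩, fun K hK => ?_⟩
  have zr_ne : y ^ 2 * r ≠ 1 := fun e => h.r_ne_z (by rw [eq_inv_of_mul_eq_one_right e, h.z_inv])
  have tZ := t2 Z (hZ ▸ h.z_ne) (hZ ▸ h.zz)
  have tR := t2 R (hR ▸ h.r_ne) (hR ▸ h.rr)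
  have tK := t2 (Z * R) (by rwa [map_mul, hZ, hR]) (by rw [map_mul, hZ, hR, h.zr_sq])
  have sZ := sq2 Z tZ
  have sR := sq2 R tR
  have sK := sq2 _ tK
  rw [Matrix.SpecialLinearGroup.coe_mul] at tK sK
  have sRZ : (R : M2) * Z = -(Z * R) := by
    have := mat2_anti (Z : M2) R tR
    rw [tZ, tK, zero_smul, zero_smul, add_zero] at this
    exact eq_neg_of_add_eq_zero_right this
  let q : QuaternionAlgebra.Basis M2 (-1 : K) 0 (-1) :=
    ⟨Z, R, Z * R, by simp [sZ], by simp [sR], rfl, by simp [sRZ]⟩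
  let A := q.liftHom.range
  have hA1 : ∀ X ∈ A, X.trace ∈ K := by
    rintro _ ⟨x, rfl⟩
    change (algebraMap K M2 x.re + x.imI • (Z : M2) + x.imJ • (R : M2) +
      x.imK • ((Z : M2) * R)).trace ∈ K
    simp only [trace_add, trace_smul, tZ, tR, tK, smul_zero, add_zero, Algebra.algebraMap_eq_smul_one,
      trace_one]
    exact mul_mem x.re.2 (natCast_mem K _)
  have mZ : (Z : M2) ∈ A := ⟨⟨0, 1, 0, 0⟩, by simp [q, QuaternionAlgebra.Basis.lift]⟩
  have mR : (R : M2) ∈ A := ⟨⟨0, 0, 1, 0⟩, by simp [q, QuaternionAlgebra.Basis.lift]⟩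
  have hsm : ∀ t ∈ K, ∀ X ∈ A, t • X ∈ A := fun t ht X hX => A.smul_mem hX ⟨t, ht⟩
  have hA2 : ∀ X : M2, X.trace ∈ K → (X * Z).trace ∈ K → (X * R).trace ∈ K →
      (X * (Z * R)).trace ∈ K → X ∈ A := fun X h0 h1 h3 h4 => by
    have D : ∀ U ∈ A, U.trace = 0 → (X * U).trace ∈ K → X * U + U * X ∈ A := fun U hU e e' => by
      rw [mat2_anti X U e]
      exact add_mem (hsm _ h0 _ hU) (hsm _ e' _ A.one_mem)
    have mK := mul_mem mZ mR
    have := hsm _ (inv_mem (ofNat_mem K 2)) _ (sub_mem (sub_mem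
      (mul_mem (mul_mem mZ (D _ mR tR h3)) mK) (mul_mem (D _ mZ tZ h1) mZ)) (mul_mem (D _ mK tK h4) mK))
    rwa [← quat_identity sZ sR sRZ, ← two_smul F X, smul_smul, inv_mul_cancel₀ h2, one_smul] at this
  let B : Subgroup SL2 :=
    { carrier := {X | (X : M2) ∈ A}
      one_mem' := A.one_mem
      mul_mem' := fun h1 h2 => A.mul_mem h1 h2
      inv_mem' := fun {X} hX => by
        have : ((X⁻¹ : SL2) : M2) = (X : M2).trace • (1 : M2) - X := by
          rw [Matrix.SpecialLinearGroup.coe_inv, adjugate_fin_two]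
          ext i j
          fin_cases i <;> fin_cases j <;> simp [trace_fin_two]
        change ((X⁻¹ : SL2) : M2) ∈ A
        rw [this]
        exact sub_mem (hsm _ (hA1 _ hX) _ A.one_mem) hX }
  have hone : ∀ t : F, t ^ 2 = 1 → t ∈ K := fun t e => by
    rcases sq_eq_one_iff.1 e with e | e <;> simp [e]
  have mY : Y ∈ B := by
    refine hA2 _ (hK _ (t4 Y (by rw [hY]))) (hK _ (t4 (Y * Z) ?_)) ?_ ?_
    · rw [map_mul, hY, hZ, ← pow_succ', ← pow_mul, show (2 + 1) * 2 = 4 + 2 from rfl, pow_add, h.y4,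
        one_mul]
    · rw [← Matrix.SpecialLinearGroup.coe_mul, t2 (Y * R) ?_ (by rw [map_mul, hY, hR, h.ss])]
      · exact zero_mem K
      · rw [map_mul, hY, hR, ← h.br]; simpa using h.r_ne
    · have e : π (Y * (Z * R)) = y * b * r * (y * b)⁻¹ := by
        rw [map_mul, map_mul, hY, hZ, hR, ← h.yr, _root_.mul_inv_rev, ← mul_assoc _ b⁻¹, mul_assoc y b,
          mul_assoc y (b * r), h.br]
        group
      rw [← Matrix.SpecialLinearGroup.coe_mul, ← Matrix.SpecialLinearGroup.coe_mul, t2 _ ?_ ?_]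
      · exact zero_mem K
      · rw [e]; exact fun e' => h.r_ne (conj_eq_one_iff.1 e')
      · rw [e, conj_mul, h.rr]; simp
  have mW : W ∈ B := by
    have key : ∀ (X : SL2) (v : G), π X = v * w * v⁻¹ → (X : M2).trace ∈ K := fun X v e =>
      hone _ (t3 X (by
        rw [e]
        intro e'
        exact h.not_wz (conj_eq_one_iff.1 e' ▸ Commute.one_left _)) (by rw [e, conj_pow, h.w3]; simp))
    refine hA2 _ (key W 1 (by simp [hW])) (key (W * Z) (y ^ 2 * r) ?_) (key (W * R) (y ^ 2) ?_)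
      (key (W * (Z * R)) r ?_) <;> simp only [map_mul, hW, hZ, hR]
    · calc _ = w * (y ^ 2 * r * y ^ 2 * r⁻¹ * (y ^ 2)⁻¹) := by
            rw [mul_assoc _ r, h.rz.eq]; group
        _ = w * (w⁻¹ * y ^ 2 * w * (w⁻¹ * r * w) * r⁻¹ * (y ^ 2)⁻¹) := by rw [h.wz', h.wr]
        _ = _ := by group
    · calc _ = w * (w⁻¹ * y ^ 2 * w * (y ^ 2)⁻¹) := by
            rw [h.wz', ← h.rz.eq, mul_inv_cancel_right]
        _ = _ := by group
    · calc _ = w * (w⁻¹ * r * w * r⁻¹) := by rw [h.wr, h.r_inv]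
        _ = _ := by group
  rcases hM (B.map π) (hY ▸ Subgroup.mem_map_of_mem π mY) (hW ▸ Subgroup.mem_map_of_mem π mW)
    with e | e
  · rw [eq_top_iff]
    intro t _
    let X : SL2 := ⟨!![t, -1; 1, 0], by simp [det_fin_two]⟩
    obtain ⟨X', hX', e'⟩ : π X ∈ B.map π := e ▸ Subgroup.mem_top _
    have e1 : π (X'⁻¹ * X) = 1 := by rw [map_mul, map_inv, e', inv_mul_cancel]
    obtain ⟨c, hc⟩ := (isScal_iff _).1 ((hk _).1 e1)
    have e2 : c ^ 2 = 1 := by
      have := (X'⁻¹ * X).det_coe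
      rw [← hc] at this
      simpa [scalar_apply, det_diagonal] using this
    have e3 : (X : M2) = c • (X' : M2) := by
      rw [← mul_inv_cancel_left X' X, Matrix.SpecialLinearGroup.coe_mul, ← hc, scalar_apply,
        ← smul_eq_mul_diagonal]
    have := hA1 _ (hsm _ (hone c e2) _ hX')
    rw [← e3] at this
    simpa [X, trace_fin_two] using this
  · exfalso
    have : NeZero (ringChar F) := ⟨CharP.ringChar_ne_zero_of_finite F⟩
    obtain ⟨β, γ, hβ⟩ := CharP.sq_add_sq F (ringChar F) (-1)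
    let N : M2 := (β : F) • (Z : M2) + (γ : F) • (R : M2) + Z * R
    have e1 : ∀ u : M2, Z * (Z * u) = -u := fun u => by rw [← mul_assoc, sZ, neg_one_mul]
    have e3 : ∀ u : M2, R * (Z * u) = -(Z * (R * u)) := fun u => by
      rw [← mul_assoc, sRZ, neg_mul, mul_assoc]
    have hN : N * N = 0 := by
      simp only [N, mul_add, add_mul, smul_mul_assoc, mul_smul_comm, mul_assoc, e1, e3, sZ, sR, sRZ,
        mul_neg, neg_neg, mul_one]
      have hβ' : -((β : F) ^ 2 + (γ : F) ^ 2) = 1 := by rw [hβ]; simp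
      linear_combination (norm := module) hβ' • (1 : M2)
    have tN : N.trace = 0 := by simp [N, trace_add, trace_smul, tZ, tR, tK]
    have dN : N.det = 0 := by simpa using congrArg det hN
    have hN' : ¬ IsScal N := fun e => by
      obtain ⟨c, hc⟩ := (isScal_iff _).1 e
      have e4 : c = 0 := by simpa [← hc, scalar_apply, det_diagonal] using dN
      have e5 : N * (Z * R) + Z * R * N = -1 + -1 := by
        simp only [N, mul_add, add_mul, smul_mul_assoc, mul_smul_comm, mul_assoc, e1, e3, sZ, sR, sRZ,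
          mul_neg, neg_neg, mul_one]
        module
      rw [← hc, e4, map_zero, zero_mul, mul_zero] at e5
      have := congrFun (congrFun e5 0) 0
      simp at this
      exact h2 (by linear_combination this)
    have mN : N ∈ A := add_mem (add_mem (hsm _ (natCast_mem K β) _ mZ) (hsm _ (natCast_mem K γ) _ mR))
      (mul_mem mZ mR)
    let u : K → SL2 := fun t => ⟨(1 : F) • (1 : M2) + (t : F) • N, by rw [det_coeff, tN, dN]; simp⟩
    have mu : ∀ t, u t ∈ B := fun t => add_mem (hsm _ (one_mem K) _ A.one_mem) (hsm _ t.2 _ mN)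
    have hu : ∀ t t', u (t + t') = u t * u t' := fun t t' => Subtype.ext (by
      rw [Matrix.SpecialLinearGroup.coe_mul]
      simp [u, mul_add, add_mul, hN, add_smul, add_assoc])
    let φ : Multiplicative K →* B.map π := MonoidHom.mk'
      (fun t => ⟨π (u t.toAdd), Subgroup.mem_map_of_mem π (mu _)⟩)
      (fun t t' => Subtype.ext (by simp [hu]))
    have hφ : Function.Injective φ := (injective_iff_map_eq_one φ).2 fun t ht => by
      have := (isScal_coeff hN' _ _).1 ((hk _).1 (congrArg Subtype.val ht))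
      exact toAdd_eq_zero.1 (Subtype.ext this)
    have hd := Subgroup.card_dvd_of_injective φ hφ
    rw [e, Nat.card_congr Multiplicative.toAdd] at hd
    have := Fintype.ofFinite K
    have ho : Nat.card K % 2 = 1 := by
      rw [Nat.card_eq_fintype_card]
      exact FiniteField.odd_card_of_char_ne_two (fun e => h2 (by
        have := (ringChar.spec K 2).2 (e ▸ dvd_rfl)
        exact congrArg Subtype.val this))
    have h3 : Fintype.card K = 3 := by
      have := Nat.le_of_dvd (by norm_num) hd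
      have h1 := Finite.one_lt_card (α := K)
      rw [← Nat.card_eq_fintype_card]
      interval_cases Nat.card K <;> simp_all
    have e4 := t4 Y (by rw [hY])
    have e5 := congrArg Subtype.val (FiniteField.pow_card (⟨_, hK _ e4⟩ : K))
    rw [h3] at e5
    simp only [SubmonoidClass.mk_pow] at e5
    exact h2 (by linear_combination (-1 - (Y : M2).trace ^ 2 + 1) * e4 + (Y : M2).trace * e5 - e4)

theorem card_le_of_pow [Finite F] {m : ℕ} (hm : 1 < m) (h : ∀ x : F, x ^ m = x) :
    Nat.card F ≤ m := by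
  have := Fintype.ofFinite F
  have h1 := (FiniteField.forall_pow_eq_one_iff F (m - 1)).1 (fun x => Units.ext (by
    apply mul_right_cancel₀ x.ne_zero
    rw [Units.val_pow_eq_pow_val, ← pow_succ, Nat.sub_add_cancel hm.le, h, Units.val_one, one_mul]))
  have := Nat.le_of_dvd (by omega) h1
  rw [Nat.card_eq_fintype_card]
  omega

theorem Fr.card_prime [Finite F] {y r w b : G} (h : Fr y r w b)
    (hM : ∀ L : Subgroup G, y ∈ L → w ∈ L → L = ⊤ ∨ Nat.card L = 24)
    (e : G ≃* ProjectiveSpecialLinearGroup (Fin 2) F)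
    (h16 : Nat.card F % 16 = 1 ∨ Nat.card F % 16 = 15) : (Nat.card F).Prime := by
  have := Fintype.ofFinite F
  obtain ⟨p, _, n, hp, hq⟩ := FiniteField.card' F
  rw [← Nat.card_eq_fintype_card] at hq
  have : Fact p.Prime := ⟨hp⟩
  have hp2 : p ≠ 2 := by
    rintro rfl
    have := hq ▸ dvd_pow_self 2 n.ne_zero
    omega
  obtain ⟨-, h1⟩ := h.subfield_eq_top (e.symm.toMonoidHom.comp (QuotientGroup.mk' _))
    (e.symm.surjective.comp (QuotientGroup.mk'_surjective _))
    (fun X => by rw [← psl_mk_eq_one]; simp) hM (fun e => hp2 ((Nat.prime_dvd_prime_iff_eq hp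
      Nat.prime_two).1 ((CharP.cast_eq_zero_iff F p 2).1 (by simpa using e))))
  have key : ∀ k, k ≠ 0 → (∀ s : F, s ^ 2 = 2 → s ^ p ^ k = s) → (n : ℕ) ≤ k := fun k hk hs => by
    have e1 := h1 (RingHom.eqLocusField (iterateFrobenius F p k) (RingHom.id F)) hs
    have := card_le_of_pow (Nat.one_lt_pow hk hp.one_lt) (fun x =>
      (e1 ▸ Subfield.mem_top x : x ∈ RingHom.eqLocusField (iterateFrobenius F p k) (RingHom.id F)))
    rw [hq] at this
    exact (Nat.pow_le_pow_iff_right hp.one_lt).1 this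
  have ho := hp.odd_of_ne_two hp2
  have h2 := key 2 two_ne_zero (fun s hs => by
    have e1 : (s ^ p) ^ 2 = s ^ 2 := by
      rw [← pow_mul, mul_comm, pow_mul, hs]
      exact map_ofNat (frobenius F p) 2
    rw [sq, pow_mul]
    rcases sq_eq_sq_iff_eq_or_eq_neg.1 e1 with e | e
    · rw [e, e]
    · rw [e, ho.neg_pow, e, neg_neg])
  have h3 : (n : ℕ) ≤ 1 := by
    by_contra h3
    refine h3 (key 1 one_ne_zero (fun s hs => ?_))
    rw [hq, show (n : ℕ) = 2 by omega] at h16
    obtain ⟨x, hx⟩ := (ZMod.exists_sq_eq_two_iff hp2).2 (by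
      have : p % 16 < 16 := Nat.mod_lt _ (by norm_num)
      rw [Nat.pow_mod] at h16
      rw [← Nat.mod_mod_of_dvd p (show 8 ∣ 16 by norm_num)]
      interval_cases p % 16 <;> simp_all)
    have e1 := congrArg (ZMod.castHom dvd_rfl F) hx
    rw [map_ofNat, map_mul, ← sq, ← hs] at e1
    have e2 : ZMod.castHom dvd_rfl F x ^ p = ZMod.castHom dvd_rfl F x := by
      rw [← map_pow, ZMod.pow_card]
    rw [pow_one]
    rcases sq_eq_sq_iff_eq_or_eq_neg.1 e1 with e | e
    · rw [e, e2]
    · rw [e, ho.neg_pow, e2]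
  have := n.pos
  rwa [hq, show (n : ℕ) = 1 by omega, pow_one]

end Cfsg.Agent.H3
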